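import Mathlib
import Cfsg.Prelude.Def_Transfer

set_option autoImplicit false

/-!
# Piece statements for S4404

`S` finite solvable, `M ⊴ S` elementary abelian 2-group, `Q = ⟨x⟩` a cyclic 3-subgroup with
`x ^ 3 ∈ C(M)` and `W = ⁅Q, M⁆` of order 4, `E ≤ S` elementary abelian of order `p ^ 3`, `p` odd.
Claim: some elementary abelian `F` of order `r ^ 3`, `r` odd, has `F ∩ C(W)` non-cyclic.

"Reflections": `IsRefl M y W` says that `y` acts on `M` (by conjugation) with cube acting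
trivially, `[M, y] ≤ W ≤ M`, `#W = 4` and `y` has no fixed point `≠ 1` on `W`
(then `W = [M, y] = {y m y⁻¹ m⁻¹}` and `M = C_M(y) × W`).

Plan.  `x ∈ Q` a reflection with `W = ⁅Q, M⁆` (GEN).  `T` a Sylow 3-subgroup containing `Q`.
* Case 1: `T` has a normal elementary abelian subgroup `A` of order 27.  Two reflections
  `x, y` of a 3-group with different `W`'s centralize each other's `W` (PW3); hence `A`
  normalizes `W` (NORMA: `c = a x a⁻¹ x⁻¹ ∈ A` commutes with `a`), so `A ∩ C(W)` has index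
  `≤ 3` in `A` (CASE1).  `F = A`, `r = 3`.
* Case 2: no such `A`.  By S0100 every elementary abelian 3-subgroup of `S` has order `≤ 9`
  (RANK), so `p ≠ 3`.  Take a Hall `{3, p}`-subgroup `T₁ ≥ Q` and a conjugate `E'` of `E` in
  `T₁` (HALL).  By S0640 (automorphism groups of 3-groups of rank `≤ 2` are `{2, 3}`-groups)
  and Frobenius' normal complement theorem S0071, `T₁` has a normal Sylow `p`-subgroup `Y`
  (FROB); `E' ≤ Y` and `x` normalizes `Y`.  Then `Y` centralizes `W` if `p ≠ 7` (PW5) and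
  `Y ∩ C(W)` has index `≤ 7` in `Y` if `p = 7` (PW7); so `E' ∩ C(W)` has order `≥ p ^ 2`
  (FIN2).  `F = E'`, `r = p`.
-/

namespace Cfsg.Agent.Lib.Helper39.TLStmt

open Cfsg

universe u

/-- `y` acts on `M` as a reflection with commutator group `W` -/
structure IsRefl {S : Type u} [Group S] (M : Subgroup S) (y : S) (W : Subgroup S) : Prop where
  cube : y ^ 3 ∈ Subgroup.centralizer (M : Set S)
  le : W ≤ M
  card : Nat.card W = 4
  comm : ∀ m ∈ M, y * m * y⁻¹ * m⁻¹ ∈ W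
  fix : ∀ w ∈ W, y * w * y⁻¹ = w → w = 1

/-- [GEN] a generator `x` of `Q` is a reflection with `W = ⁅Q, M⁆`.  (`cube`, `card`: given.
`le`: `Subgroup.commutator_le_right`-type lemma, `M` normal.  `comm`: `x * m * x⁻¹ * m⁻¹ = ⁅x, m⁆`,
`Subgroup.commutator_mem_commutator`.  `fix`: with `τ m = x * m * x⁻¹` (`τ ^ 3 = id` on `M`),
`N = {w ∈ M | w * τ w * τ (τ w) = 1}` is a subgroup of the abelian group `M` containing every
`⁅q, m⁆ = τ^i m * m⁻¹` (`q = x ^ i ∈ Q`), so `⁅Q, M⁆ ≤ N` (`Subgroup.commutator_le`); if `τ w = w`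
then `w ^ 3 = 1` and `w ^ 2 = 1`, so `w = 1`.) -/
def Gen : Prop :=
  ∀ (S : Type u) [Group S] [Finite S] (M : Subgroup S) [M.Normal], IsElementaryAbelian 2 M →
    ∀ Q : Subgroup S, IsCyclic ↥Q → (∀ x ∈ Q, x ^ 3 ∈ Subgroup.centralizer (M : Set S)) →
      Nat.card ↥⁅Q, M⁆ = 4 → ∃ x ∈ Q, IsRefl M x ⁅Q, M⁆

/-- [CONJ] conjugates of reflections are reflections. -/
def Conj : Prop :=
  ∀ (S : Type u) [Group S] (M : Subgroup S) [M.Normal] (y : S) (W : Subgroup S) (g : S),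
    IsRefl M y W → IsRefl M (g * y * g⁻¹) (W.map (MulAut.conj g).toMonoidHom)

/-- [REFLEQ] two reflections with the same action on `M` have the same `W`.  (`w ↦ y' w y'⁻¹ w⁻¹`
is an injective homomorphism `W' → W'` (`fix`, `W'` abelian), hence onto; so every `w' ∈ W'` is
`y' v y'⁻¹ v⁻¹ = y v y⁻¹ v⁻¹ ∈ W`; equal cardinalities.) -/
def ReflEq : Prop :=
  ∀ (S : Type u) [Group S] [Finite S] (M : Subgroup S), IsElementaryAbelian 2 M →
    ∀ (y y' : S) (W W' : Subgroup S), IsRefl M y W → IsRefl M y' W' →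
      (∀ m ∈ M, y * m * y⁻¹ = y' * m * y'⁻¹) → W = W'

/-- [COP] coprime action: a fixed point of `L` (of odd order) in `[M, L]` is trivial.  (The norm
map `N m = ∏_{g ∈ L} g m g⁻¹` is a homomorphism of the abelian group `M`, kills every
`g m g⁻¹ m⁻¹`, and `N u = u ^ #L = u` for a fixed point `u`, as `u ^ 2 = 1` and `#L` is odd.) -/
def Cop : Prop :=
  ∀ (S : Type u) [Group S] [Finite S] (M : Subgroup S) [M.Normal], IsElementaryAbelian 2 M →
    ∀ L : Subgroup S, Odd (Nat.card ↥L) → ∀ u ∈ M, (∀ g ∈ L, g * u * g⁻¹ = u) →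
      u ∈ Subgroup.closure {w : S | ∃ g ∈ L, ∃ m ∈ M, w = g * m * g⁻¹ * m⁻¹} → u = 1

/-- [PW3] two reflections `x, y` in a 3-group with `W₁ ≠ W₂`: `x` centralizes `W₂`.
Proof.  `L = ⟨x, y⟩` (a 3-group), `U = W₁ W₂ ≤ M`; `x` and `y` act trivially on `M / W₁`,
`M / W₂`, so `U` is `L`-invariant and contains `[M, L]`; by `Cop`, `L` has no fixed point `≠ 1`
in `U`.  `#U ∈ {8, 16}`.  The `L`-orbits on `U \ 1` have sizes `3` or `9` (3-group, no fixed
points), so `#U = 8` is impossible (`7 = 3a + 9b` has no solution) and `#U = 16`, `W₁ ∩ W₂ = 1`,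
and some orbit `{u₁, u₂, u₃}` has size 3; `u₁ u₂ u₃` is fixed, so it is `1` and
`W₀ = {1, u₁, u₂, u₃}` is an `L`-invariant subgroup of order 4.  If `x` acts non-trivially on
`W₀` then `W₀ = [W₀, x] ≤ W₁`, so `W₀ = W₁`; likewise for `y` and `W₂`; and one of `x, y` acts
non-trivially on `W₀`.  Say `W₀ = W₁` (the other case is symmetric): `W₁` is `y`-invariant and
`y` centralizes it (else `W₁ = [W₁, y] ≤ W₂`).  Then `x y x⁻¹ y⁻¹` acts trivially on `W₁` and on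
`U / W₁` (where `x` is trivial), and on `M / U`; an element of 3-power order acting trivially on
the factors of `1 ≤ W₁ ≤ U ≤ M` acts trivially on `M` (for `m`: `g m g⁻¹ = m c`, `c` fixed by `g`
at each step, so `g^(3^k) m g^(-3^k) = m c^(3^k) = m c`, whence `c = 1`).  So `x` and `y` commute
on `M`, `x` normalizes `W₂ = [M, y]`, and `x` centralizes `W₂` (else `W₂ = [W₂, x] ≤ W₁`). -/
def PW3 : Prop :=
  ∀ (S : Type u) [Group S] [Finite S] (M : Subgroup S) [M.Normal], IsElementaryAbelian 2 M →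
    ∀ R : Subgroup S, IsPGroup 3 ↥R → ∀ (x y : S) (W₁ W₂ : Subgroup S), x ∈ R → y ∈ R →
      IsRefl M x W₁ → IsRefl M y W₂ → W₁ ≠ W₂ → ∀ w ∈ W₂, x * w * x⁻¹ = w

/-- [NORMA] (from `PW3`, `Conj`) an abelian subgroup `A` normalized by the 3-group `T ∋ x`
normalizes `W`.  Proof.  `a ∈ A`, `y = a x a⁻¹`, `W_y = a W a⁻¹`; suppose `W_y ≠ W`.  Then
`y' = a y a⁻¹` has `W_{y'} ≠ W_y`.  `PW3`: `x` and `y'` centralize `W_y`.
`c = y x⁻¹ = a (x a⁻¹ x⁻¹) ∈ A` commutes with `a`, so `y x⁻¹ = a c a⁻¹ = y' y⁻¹`.  For `v ∈ W_y`: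
`(y x⁻¹) v (y x⁻¹)⁻¹ = y v y⁻¹` and `(y' y⁻¹) v (y' y⁻¹)⁻¹ = y⁻¹ v y`.  So `y ^ 2` centralizes
`W_y`, and so does `y ^ 3`; hence `y` centralizes `W_y`, contradicting `fix` (`#W_y = 4`). -/
def NormA : Prop :=
  ∀ (S : Type u) [Group S] [Finite S] (M : Subgroup S) [M.Normal], IsElementaryAbelian 2 M →
    ∀ T A : Subgroup S, IsPGroup 3 ↥T → A ≤ T → (∀ t ∈ T, ∀ a ∈ A, t * a * t⁻¹ ∈ A) →
      (∀ a ∈ A, ∀ b ∈ A, a * b = b * a) → ∀ (x : S) (W : Subgroup S), x ∈ T → IsRefl M x W →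
        ∀ a ∈ A, W.map (MulAut.conj a).toMonoidHom = W

/-- [CASE1] (from `NormA`) `A ∩ C(W)` is not cyclic.  Proof.  `A` normalizes `W`.  Fix
`w₀ ∈ W`, `w₀ ≠ 1`: its `A`-orbit lies in `W \ 1` (3 elements), so the stabilizer `A₀` of `w₀`
has index `≤ 3`, order `≥ 9`; `a ∈ A₀` (of order 1 or 3) fixes `1, w₀` and permutes the other
two elements of `W`, hence fixes them: `A₀ ≤ C(W)`.  A cyclic group of exponent 3 has order
`≤ 3`. -/
def Case1 : Prop :=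
  ∀ (S : Type u) [Group S] [Finite S] (M : Subgroup S) [M.Normal], IsElementaryAbelian 2 M →
    ∀ T A : Subgroup S, IsPGroup 3 ↥T → A ≤ T → (∀ t ∈ T, ∀ a ∈ A, t * a * t⁻¹ ∈ A) →
      IsElementaryAbelian 3 A → Nat.card ↥A = 27 → ∀ (x : S) (W : Subgroup S), x ∈ T →
        IsRefl M x W → ¬ IsCyclic ↥(A ⊓ Subgroup.centralizer (W : Set S))

/-- [RANK] if a Sylow 3-subgroup `T` has no normal elementary abelian subgroup of order 27, then
elementary abelian 3-subgroups of `S` have order `≤ 9`.  (`Cfsg.Agent.S0100.result` for the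
group `↥T`, `p = 3`; an elementary abelian 3-subgroup `B` is a 3-group, so a conjugate lies in
`T` (`IsPGroup.exists_le_sylow`, `Sylow` conjugacy); transport along `T.subtype`.) -/
def Rank : Prop :=
  ∀ (S : Type u) [Group S] [Finite S] (T : Sylow 3 S),
    (∀ A : Subgroup S, A ≤ (T : Subgroup S) → (∀ t ∈ (T : Subgroup S), ∀ a ∈ A, t * a * t⁻¹ ∈ A) →
      IsElementaryAbelian 3 A → Nat.card ↥A ≠ 27) →
    ∀ B : Subgroup S, IsElementaryAbelian 3 B → Nat.card ↥B ≤ 9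

/-- [HALL] a `{3, p}`-subgroup `T` containing `Q` and a conjugate of `E` (Hall subgroups of
solvable groups: existence, and every `π`-subgroup lies in a conjugate). -/
def Hall : Prop :=
  ∀ (S : Type u) [Group S] [Finite S] [Group.IsSolvable S] (p : ℕ), p.Prime →
    ∀ Q E : Subgroup S, IsPGroup 3 ↥Q → IsPGroup p ↥E →
      ∃ T : Subgroup S, (∀ q : ℕ, q.Prime → q ∣ Nat.card ↥T → q = 3 ∨ q = p) ∧ Q ≤ T ∧
        ∃ g : S, E.map (MulAut.conj g).toMonoidHom ≤ T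

/-- [FROB] a `{3, p}`-group `T` (`p ≥ 5`) whose elementary abelian 3-subgroups have order `≤ 9`
has a normal Sylow `p`-subgroup `Y`.  Proof.  `P` a Sylow 3-subgroup of `↥T`.  For `R ≤ P` and
`g ∈ N_T(R)` of order prime to 3 (so of `p`-power order): conjugation by `g` is an automorphism
of `R` of `p`-power order; `R` has `Cfsg.PRankLE 3 2`, so by `Cfsg.Agent.S0640.result`
(`p := 3`, `q := p`) `p ∤ #(MulAut R)` (else `p ∣ 8`); so `g` centralizes `R`.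
`Cfsg.Agent.S0071.result` gives a normal complement `Y` of `P` in `↥T`; `#Y` is a power of `p`;
a `p`-subgroup `P'` of `T` lies in `Y` (`P' Y` is a `p`-group, `Y` a Sylow `p`-subgroup). -/
def Frob : Prop :=
  ∀ (S : Type u) [Group S] [Finite S] (p : ℕ), p.Prime → p ≠ 2 → p ≠ 3 →
    (∀ B : Subgroup S, IsElementaryAbelian 3 B → Nat.card ↥B ≤ 9) →
    ∀ T : Subgroup S, (∀ q : ℕ, q.Prime → q ∣ Nat.card ↥T → q = 3 ∨ q = p) →
      ∃ Y : Subgroup S, Y ≤ T ∧ IsPGroup p ↥Y ∧ (∀ t ∈ T, ∀ y ∈ Y, t * y * t⁻¹ ∈ Y) ∧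
        ∀ P : Subgroup S, P ≤ T → IsPGroup p ↥P → P ≤ Y

/-- [PW5] `p ≥ 5`, `p ≠ 7`: a `p`-group `Y` normalized by the reflection `x` centralizes `W`.
Proof.  `y ∈ Y`, `x' = y x y⁻¹` (reflection with `W' = y W y⁻¹`, `Conj`), `c = x' x⁻¹ ∈ Y`,
`L = ⟨x, c⟩ ≤ ⟨x⟩ Y` (odd order), `Y_L = L ∩ Y ⊴ L`, `U = W W'` (`#U ≤ 16`, `L`-invariant,
`[M, L] ≤ U`; by `Cop` no fixed point `≠ 1` of `L` in `U`... and `M = C_M(L) U`).
`U₁ = [U, Y_L]`: `Y_L` has no fixed point `≠ 1` on `U₁` (`Cop`), so `#U₁ ≡ 1 mod p`, `#U₁ ∣ 16`: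
`#U₁ = 1`, or `p = 5` and `#U₁ = 16`.  If `#U₁ = 1` then `c` centralizes `U` and acts trivially
on `M / U`, so `c` centralizes `M` (`p` odd), `x'` acts on `M` as `x`, `W' = W` (`ReflEq`): `y`
normalizes `W` and, being a `p`-element with `p ≥ 5`, centralizes `W` (it permutes the 3
elements `≠ 1`).  If `p = 5`, `#U₁ = 16 = #U`: the image `Ȳ` of `Y_L` in the permutations of
`U` is a 5-group without fixed points on `U \ 1` (15 points): all orbits have size 5; the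
stabilizer `Ȳ_u` of a point fixes `u`, so `#[U, Ȳ_u] ≤ 8` and `≡ 1 mod 5`, so `Ȳ_u = 1` and
`#Ȳ = 5`, `Ȳ = ⟨c̄⟩`.  `x̄` normalizes `Ȳ ≅ Z_5` and `x̄ ^ 3 = 1`, so `x̄` centralizes `c̄`
(`Aut(Z_5)` has order 4); then `1 = x̄' ^ 3 = (c̄ x̄) ^ 3 = c̄ ^ 3`, so `c̄ = 1`: contradiction. -/
def PW5 : Prop :=
  ∀ (S : Type u) [Group S] [Finite S] (M : Subgroup S) [M.Normal], IsElementaryAbelian 2 M →
    ∀ p : ℕ, p.Prime → p ≠ 2 → p ≠ 3 → p ≠ 7 → ∀ Y Q : Subgroup S, IsPGroup p ↥Y →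
      IsPGroup 3 ↥Q → ∀ (x : S) (W : Subgroup S), x ∈ Q → IsRefl M x W →
        (∀ y ∈ Y, x * y * x⁻¹ ∈ Y) → Y ≤ Subgroup.centralizer (W : Set S)

/-- [PW7] `p = 7`: `Y ∩ C(W)` has index `≤ 7` in `Y`.  Proof.  Notation of `PW5`; for `y ∈ Y`
with `W' = y W y⁻¹ ≠ W`: `#[U, Y_L] ≡ 1 mod 7` divides 16 and is not 1 (else `W' = W` as in
`PW5`), so it is 8; if `#U = 16` then `C_U(Y_L)` has order 2 and is `L`-invariant, so `L` fixes
its generator, contradicting `Cop`; so `#U = #(W W') = 8`.  For two such `y, y'`: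
`G₃ = ⟨x, c, c'⟩`, `U₃ = W W' W''` has order `≤ 16` and the same argument (`Y₃ = G₃ ∩ Y`) gives
`#U₃ = 8`, so `W W' = W W''`.  Hence all conjugates `y W y⁻¹` (`y ∈ Y`) are subgroups of order 4
of one elementary abelian group `B` of order 8, which has 7 of them: the stabilizer `N_Y(W)`
has index `≤ 7` (orbit-stabilizer), and `N_Y(W) ≤ C(W)` (7-elements permuting 3 points). -/
def PW7 : Prop :=
  ∀ (S : Type u) [Group S] [Finite S] (M : Subgroup S) [M.Normal], IsElementaryAbelian 2 M →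
    ∀ Y Q : Subgroup S, IsPGroup 7 ↥Y → IsPGroup 3 ↥Q → ∀ (x : S) (W : Subgroup S), x ∈ Q →
      IsRefl M x W → (∀ y ∈ Y, x * y * x⁻¹ ∈ Y) →
        Nat.card ↥Y ≤ 7 * Nat.card ↥(Y ⊓ Subgroup.centralizer (W : Set S))

/-- [FIN2] `E ≤ Y` elementary abelian of order `p ^ 3` (`p ≥ 5`) and `[Y : Y ∩ C] ≤ 7`:
`E ∩ C` is not cyclic.  (`[E : E ∩ C] ≤ [Y : Y ∩ C] ≤ 7`, so `#(E ∩ C) = p ^ j ≥ p ^ 3 / 7 > p`;
a cyclic group of exponent `p` has order `≤ p`.) -/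
def Fin2 : Prop :=
  ∀ (S : Type u) [Group S] [Finite S] (p : ℕ), p.Prime → p ≠ 2 → p ≠ 3 →
    ∀ Y E C : Subgroup S, IsPGroup p ↥Y → E ≤ Y → IsElementaryAbelian p E → Nat.card ↥E = p ^ 3 →
      Nat.card ↥Y ≤ 7 * Nat.card ↥(Y ⊓ C) → ¬ IsCyclic ↥(E ⊓ C)

/-- [CASE2] (from `Hall`, `Frob`, `PW5`, `PW7`, `Fin2`).  `T`, `g` from `Hall`
(`E' = g E g⁻¹ ≤ T`, `Q ≤ T`); `Y` from `Frob`; `E' ≤ Y`; `x ∈ Q ≤ T` normalizes `Y`;
`PW7` (`p = 7`) or `PW5` (`p ≠ 7`, then `Y ⊓ C = Y`); `Fin2`.  `F = E'`. -/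
def Case2 : Prop :=
  ∀ (S : Type u) [Group S] [Finite S] [Group.IsSolvable S] (M : Subgroup S) [M.Normal],
    IsElementaryAbelian 2 M → ∀ p : ℕ, p.Prime → p ≠ 2 → p ≠ 3 → ∀ E Q : Subgroup S,
      IsElementaryAbelian p E → Nat.card ↥E = p ^ 3 → IsPGroup 3 ↥Q →
      (∀ B : Subgroup S, IsElementaryAbelian 3 B → Nat.card ↥B ≤ 9) →
      ∀ (x : S) (W : Subgroup S), x ∈ Q → IsRefl M x W →
        ∃ F : Subgroup S, IsElementaryAbelian p F ∧ Nat.card ↥F = p ^ 3 ∧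
          ¬ IsCyclic ↥(F ⊓ Subgroup.centralizer (W : Set S))

/-- the statement S4404 -/
def Goal : Prop :=
  ∀ (S : Type u) [Group S] [Finite S] [Group.IsSolvable S] (M : Subgroup S) [M.Normal],
    IsElementaryAbelian 2 M → ∀ p : ℕ, p.Prime → p ≠ 2 → ∀ E : Subgroup S,
      IsElementaryAbelian p E → Nat.card ↥E = p ^ 3 → ∀ Q : Subgroup S, IsCyclic ↥Q →
      IsPGroup 3 ↥Q → (∀ x ∈ Q, x ^ 3 ∈ Subgroup.centralizer (M : Set S)) →
      Nat.card ↥⁅Q, M⁆ = 4 →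
        ∃ (r : ℕ) (F : Subgroup S), r.Prime ∧ r ≠ 2 ∧ IsElementaryAbelian r F ∧
          Nat.card ↥F = r ^ 3 ∧
          ¬ IsCyclic ↥(F ⊓ Subgroup.centralizer ((⁅Q, M⁆ : Subgroup S) : Set S))

end Cfsg.Agent.Lib.Helper39.TLStmt
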