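import Mathlib
import Cfsg.Agent.Lib.Helper25.ACStmt

/-!
# S3912 / TWOTYPESUB (helper39)
-/

set_option autoImplicit false

namespace Cfsg.Agent.Lib.Helper39.ACTWOTYPESUB

open Cfsg.Agent.Lib.Helper25.ACStmt

universe u

theorem main (h : TwoType.{u}) : TwoTypeSub.{u} := by
  intro G _ _ Z₀ A₁ hZ hle hinv hcomm h4
  have hN : Nat.card ↥(Z₀.subgroupOf A₁) = 2 := by
    rw [Nat.card_congr (Subgroup.subgroupOfEquivOfLe hle).toEquiv, hZ]
  have hinv' : ∀ x : ↥A₁, orderOf x = 2 → x ∈ Z₀.subgroupOf A₁ := by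
    intro x hx
    rw [Subgroup.mem_subgroupOf]
    apply hinv
    rw [Subgroup.orderOf_coe, hx]
  have hcomm' : ∀ a b : ↥A₁, a * b * a⁻¹ * b⁻¹ ∈ Z₀.subgroupOf A₁ := by
    intro a b
    rw [Subgroup.mem_subgroupOf]
    exact hcomm a a.2 b b.2
  rcases h ↥A₁ (Z₀.subgroupOf A₁) hN hinv' hcomm' h4 with hab | ⟨P, H, hP8, ⟨a, ha, b, hb, hab⟩,
    hHodd, hHab, hHP, hprod, hcard⟩
  · left
    intro a ha b hb
    exact congrArg Subtype.val (hab ⟨a, ha⟩ ⟨b, hb⟩)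
  · right
    have hinj : Function.Injective A₁.subtype := A₁.subtype_injective
    refine ⟨P.map A₁.subtype, H.map A₁.subtype, Subgroup.map_subtype_le P,
      Subgroup.map_subtype_le H, ?_, ?_, ?_, ?_, ?_, ?_, ?_⟩
    · rw [Subgroup.card_map_of_injective hinj, hP8]
    · refine ⟨(a : G), ⟨a, ha, rfl⟩, (b : G), ⟨b, hb, rfl⟩, ?_⟩
      intro hcon
      exact hab (Subtype.ext hcon)
    · rw [Subgroup.card_map_of_injective hinj]
      exact hHodd
    · rintro _ ⟨h₀, hh₀, rfl⟩ _ ⟨k₀, hk₀, rfl⟩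
      exact congrArg Subtype.val (hHab h₀ hh₀ k₀ hk₀)
    · rintro _ ⟨h₀, hh₀, rfl⟩ _ ⟨x₀, hx₀, rfl⟩
      exact congrArg Subtype.val (hHP h₀ hh₀ x₀ hx₀)
    · apply le_antisymm
      · exact sup_le (Subgroup.map_subtype_le P) (Subgroup.map_subtype_le H)
      · intro x hx
        obtain ⟨p, hp, h₀, hh₀, e⟩ := hprod ⟨x, hx⟩
        have e' : x = (p : G) * (h₀ : G) := congrArg Subtype.val e
        rw [e']
        exact Subgroup.mul_mem_sup ⟨p, hp, rfl⟩ ⟨h₀, hh₀, rfl⟩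
    · rw [Subgroup.card_map_of_injective hinj]
      exact hcard

end Cfsg.Agent.Lib.Helper39.ACTWOTYPESUB
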