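-- Induced functions and coset fixed points computed over an explicit transversal.
import Mathlib
import Cfsg.Prelude.Def_Characters
import Cfsg.Prelude.Def_ParabolicCharacters
import Cfsg.Agent.Lib.CT.FrobRec

set_option autoImplicit false

namespace Cfsg.Agent.Lib.Helper39.Transversal

open Cfsg Cfsg.Agent.Lib.CT.FrobRec

universe u

variable {G : Type u} [Group G]

/-- The extension by zero of a class function on `H` is invariant under conjugation by `H`. -/
theorem extendByZero_conj_mem (H : Subgroup G) (θ : H → ℂ) (hθ : IsClassFunction H θ) (h : H)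
    (y : G) : extendByZero H θ ((h : G)⁻¹ * y * h) = extendByZero H θ y := by
  by_cases hy : y ∈ H
  · have hy' : (h : G)⁻¹ * y * h ∈ H := H.mul_mem (H.mul_mem (H.inv_mem h.2) hy) h.2
    rw [extendByZero_apply_of_mem H θ hy', extendByZero_apply_of_mem H θ hy]
    have := hθ ⟨y, hy⟩ h⁻¹
    rw [← this]
    congr 1
    apply Subtype.ext
    simp
  · have hy' : (h : G)⁻¹ * y * h ∉ H := by
      intro hh
      apply hy
      have := H.mul_mem (H.mul_mem h.2 hh) (H.inv_mem h.2)
      simpa [mul_assoc] using this
    rw [extendByZero_apply_of_not_mem H θ hy', extendByZero_apply_of_not_mem H θ hy]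

/-- The induced function as a sum over a transversal. -/
theorem indFun_eq_sum_transversal [Fintype G] (H : Subgroup G) {ι : Type*} [Fintype ι] (r : ι → G)
    (hr : Function.Bijective (fun p : ι × H => r p.1 * (p.2 : G)))
    (θ : H → ℂ) (hθ : IsClassFunction H θ) (g : G) :
    indFun H θ g = ∑ i, extendByZero H θ ((r i)⁻¹ * g * r i) := by
  classical
  haveI : Fintype H := Fintype.ofFinite H
  rw [indFun_apply]
  have h1 : ∑ x : G, extendByZero H θ (x⁻¹ * g * x) =
      ∑ p : ι × H, extendByZero H θ ((r p.1 * (p.2 : G))⁻¹ * g * (r p.1 * (p.2 : G))) :=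
    (Fintype.sum_bijective _ hr _ _ (fun _ => rfl)).symm
  rw [h1, Fintype.sum_prod_type]
  have h2 : ∀ i : ι, ∑ h : H, extendByZero H θ ((r i * (h : G))⁻¹ * g * (r i * (h : G))) =
      (Nat.card H : ℂ) * extendByZero H θ ((r i)⁻¹ * g * r i) := by
    intro i
    have : ∀ h : H, extendByZero H θ ((r i * (h : G))⁻¹ * g * (r i * (h : G))) =
        extendByZero H θ ((r i)⁻¹ * g * r i) := by
      intro h
      rw [← extendByZero_conj_mem H θ hθ h ((r i)⁻¹ * g * r i)]
      congr 1
      simp [mul_assoc]
    simp only [this, Finset.sum_const, Finset.card_univ, nsmul_eq_mul, Nat.card_eq_fintype_card]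
  simp only [h2]
  rw [← Finset.mul_sum, ← mul_assoc]
  have h3 : (Nat.card H : ℂ) ≠ 0 := by
    exact_mod_cast (Nat.card_pos (α := H)).ne'
  rw [inv_mul_cancel₀ h3, one_mul]

/-- The transversal parametrizes the cosets. -/
theorem mk_bijective (H : Subgroup G) {ι : Type*} (r : ι → G)
    (hr : Function.Bijective (fun p : ι × H => r p.1 * (p.2 : G))) :
    Function.Bijective (fun i : ι => (r i : G ⧸ H)) := by
  constructor
  · intro i j hij
    simp only at hij
    rw [QuotientGroup.eq] at hij
    have h1 : (fun p : ι × H => r p.1 * (p.2 : G)) (i, ⟨(r i)⁻¹ * r j, hij⟩) =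
        (fun p : ι × H => r p.1 * (p.2 : G)) (j, 1) := by
      simp
    exact congrArg Prod.fst (hr.1 h1)
  · intro q
    obtain ⟨x, rfl⟩ := QuotientGroup.mk_surjective q
    obtain ⟨⟨i, h⟩, hx⟩ := hr.2 x
    refine ⟨i, ?_⟩
    simp only at hx ⊢
    rw [QuotientGroup.eq, ← hx]
    simp

/-- The permutation character on cosets as a count over a transversal. -/
theorem fixedPointCharacter_eq_card (H : Subgroup G) {ι : Type*} (r : ι → G)
    (hr : Function.Bijective (fun p : ι × H => r p.1 * (p.2 : G))) (g : G) :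
    fixedPointCharacter H g = (Nat.card {i : ι // (r i)⁻¹ * g * r i ∈ H} : ℂ) := by
  unfold fixedPointCharacter
  congr 1
  have hb := mk_bijective H r hr
  symm
  apply Nat.card_congr
  refine Equiv.subtypeEquiv (Equiv.ofBijective _ hb) ?_
  intro i
  simp only [Equiv.ofBijective_apply, MulAction.mem_fixedBy]
  rw [show g • (r i : G ⧸ H) = ((g * r i : G) : G ⧸ H) from rfl, eq_comm, QuotientGroup.eq,
    mul_assoc]

end Cfsg.Agent.Lib.Helper39.Transversal
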