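-- Induction from the upper triangular subgroup of a group of 2 x 2 matrices: explicit formulas.
import Mathlib
import Cfsg.Prelude.Def_Characters
import Cfsg.Prelude.Def_ParabolicCharacters
import Cfsg.Agent.Lib.CT.FrobRec
import Cfsg.Agent.Lib.Helper39.Transversal

set_option autoImplicit false

namespace Cfsg.Agent.Lib.Helper39.Borel2

open Cfsg Matrix Cfsg.Agent.Lib.CT.FrobRec Cfsg.Agent.Lib.Helper39.Transversal

universe u

variable {F : Type*} [Field F] {Γ : Type u} [Group Γ]

section basic

variable (m : Γ →* Matrix (Fin 2) (Fin 2) F)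

theorem m_inv_mul (x : Γ) : m x⁻¹ * m x = 1 := by
  rw [← map_mul, inv_mul_cancel, map_one]

theorem m_mul_inv (x : Γ) : m x * m x⁻¹ = 1 := by
  rw [← map_mul, mul_inv_cancel, map_one]

theorem det_m_ne_zero (x : Γ) : (m x).det ≠ 0 := by
  intro h
  have := congrArg Matrix.det (m_mul_inv m x)
  rw [Matrix.det_mul, h, zero_mul, Matrix.det_one] at this
  exact zero_ne_one this

theorem m_inv_eq (x : Γ) (A : Matrix (Fin 2) (Fin 2) F) (h : m x * A = 1) : m x⁻¹ = A := by
  calc m x⁻¹ = m x⁻¹ * (m x * A) := by rw [h, mul_one]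
    _ = A := by rw [← mul_assoc, m_inv_mul, one_mul]

end basic

section transversal

variable (m : Γ →* Matrix (Fin 2) (Fin 2) F) (H : Subgroup Γ)
  (hH : ∀ x, x ∈ H ↔ m x 1 0 = 0) (L : F → Γ) (hL : ∀ s, m (L s) = !![1, 0; s, 1])
  (W : Γ) (hW : m W = !![0, -1; 1, 0])

/-- The transversal: `none ↦ W`, `some s ↦ L s`. -/
def rep (L : F → Γ) (W : Γ) : Option F → Γ
  | none => W
  | some s => L s

include hL in
theorem m_L_inv (s : F) : m (L s)⁻¹ = !![1, 0; -s, 1] := by
  apply m_inv_eq
  rw [hL]
  simp [Matrix.one_fin_two]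

include hW in
theorem m_W_inv : m W⁻¹ = !![0, 1; -1, 0] := by
  apply m_inv_eq
  rw [hW]
  simp [Matrix.one_fin_two]

include hH in
theorem diag_ne_zero (h : H) : m (h : Γ) 0 0 ≠ 0 := by
  intro h0
  have h1 := (hH h).mp h.2
  have := det_m_ne_zero m (h : Γ)
  rw [Matrix.det_fin_two, h0, h1] at this
  simp at this

include hL in
theorem m_conj_L (g : Γ) (s : F) : m ((L s)⁻¹ * g * L s) =
    !![m g 0 0 + m g 0 1 * s, m g 0 1;
      m g 1 0 + (m g 1 1 - m g 0 0) * s - m g 0 1 * s ^ 2, m g 1 1 - m g 0 1 * s] := by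
  rw [map_mul, map_mul, m_L_inv m L hL, hL]
  conv_lhs => rw [Matrix.eta_fin_two (m g)]
  simp only [Matrix.mul_fin_two]
  ext i j
  fin_cases i <;> fin_cases j <;> simp <;> ring

include hW in
theorem m_conj_W (g : Γ) : m (W⁻¹ * g * W) = !![m g 1 1, -m g 1 0; -m g 0 1, m g 0 0] := by
  rw [map_mul, map_mul, m_W_inv m W hW, hW]
  conv_lhs => rw [Matrix.eta_fin_two (m g)]
  simp only [Matrix.mul_fin_two]
  ext i j
  fin_cases i <;> fin_cases j <;> simp

include hH hL hW in
theorem rep_bijective :
    Function.Bijective (fun p : Option F × H => rep L W p.1 * (p.2 : Γ)) := by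
  constructor
  · rintro ⟨i, h⟩ ⟨j, h'⟩ hij
    simp only at hij
    have e := congrArg m hij
    rw [map_mul, map_mul] at e
    have h10 := (hH h).mp h.2
    have h10' := (hH h').mp h'.2
    have hne := diag_ne_zero m H hH h
    have hne' := diag_ne_zero m H hH h'
    have e00 := congrFun (congrFun e 0) 0
    have e10 := congrFun (congrFun e 1) 0
    have hi : i = j := by
      rcases i with _ | s <;> rcases j with _ | s'
      · rfl
      · exfalso
        simp only [rep, hW, hL, Matrix.mul_apply, Fin.sum_univ_two] at e00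
        simp [h10, h10'] at e00
        exact hne' e00.symm
      · exfalso
        simp only [rep, hW, hL, Matrix.mul_apply, Fin.sum_univ_two] at e00
        simp [h10, h10'] at e00
        exact hne e00
      · simp only [rep, hL, Matrix.mul_apply, Fin.sum_univ_two] at e00 e10
        simp [h10, h10'] at e00 e10
        rw [e00] at e10
        rw [mul_right_cancel₀ hne' e10]
    subst hi
    have := mul_left_cancel hij
    rw [Subtype.ext this]
  · intro x
    by_cases h0 : m x 0 0 = 0
    · have hmem : W⁻¹ * x ∈ H := by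
        rw [hH, map_mul, m_W_inv m W hW]
        simp [Matrix.mul_apply, Fin.sum_univ_two, h0]
      exact ⟨(none, ⟨W⁻¹ * x, hmem⟩), by simp [rep]⟩
    · have hmem : (L (m x 1 0 / m x 0 0))⁻¹ * x ∈ H := by
        rw [hH, map_mul, m_L_inv m L hL]
        simp [Matrix.mul_apply, Fin.sum_univ_two]
        field_simp
        ring
      exact ⟨(some (m x 1 0 / m x 0 0), ⟨(L (m x 1 0 / m x 0 0))⁻¹ * x, hmem⟩), by simp [rep]⟩

include hH in
/-- Diagonal entries of an upper triangular element are invariant under conjugation by upper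
triangular elements. -/
theorem diag_conj (h k : H) :
    m ((k * h * k⁻¹ : H) : Γ) 0 0 = m (h : Γ) 0 0 ∧ m ((k * h * k⁻¹ : H) : Γ) 1 1 = m (h : Γ) 1 1 := by
  have hy := (hH _).mp (k * h * k⁻¹).2
  have hk := (hH _).mp k.2
  have hh := (hH _).mp h.2
  have e : m ((k * h * k⁻¹ : H) : Γ) * m (k : Γ) = m (k : Γ) * m (h : Γ) := by
    rw [← map_mul, ← map_mul]
    congr 1
    simp
  have e00 := congrFun (congrFun e 0) 0
  have e11 := congrFun (congrFun e 1) 1
  simp only [Matrix.mul_apply, Fin.sum_univ_two, hy, hk, hh, mul_zero, zero_mul, add_zero,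
    zero_add] at e00 e11
  have hk0 := diag_ne_zero m H hH k
  have hk1 : m (k : Γ) 1 1 ≠ 0 := by
    intro h0
    have := det_m_ne_zero m (k : Γ)
    rw [Matrix.det_fin_two, h0, hk] at this
    simp at this
  constructor
  · have : m ((k * h * k⁻¹ : H) : Γ) 0 0 * m (k : Γ) 0 0 = m (h : Γ) 0 0 * m (k : Γ) 0 0 := by
      rw [e00, mul_comm]
    exact mul_right_cancel₀ hk0 this
  · have : m ((k * h * k⁻¹ : H) : Γ) 1 1 * m (k : Γ) 1 1 = m (h : Γ) 1 1 * m (k : Γ) 1 1 := by
      rw [e11, mul_comm]
    exact mul_right_cancel₀ hk1 this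

include hH in
theorem isClassFunction_diag (φ : F → F → ℂ) :
    IsClassFunction H (fun h : H => φ (m (h : Γ) 0 0) (m (h : Γ) 1 1)) := by
  intro h k
  simp only
  rw [(diag_conj m H hH h k).1, (diag_conj m H hH h k).2]

include hH in
theorem extendByZero_diag [DecidableEq F] (φ : F → F → ℂ) (y : Γ) :
    extendByZero H (fun h : H => φ (m (h : Γ) 0 0) (m (h : Γ) 1 1)) y =
      if m y 1 0 = 0 then φ (m y 0 0) (m y 1 1) else 0 := by
  by_cases hy : m y 1 0 = 0
  · rw [if_pos hy, extendByZero_apply_of_mem H _ ((hH y).mpr hy)]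
  · rw [if_neg hy, extendByZero_apply_of_not_mem H _ (fun h => hy ((hH y).mp h))]

include hH hL hW in
/-- The master formula for functions induced from the upper triangular subgroup. -/
theorem indFun_diag [Fintype Γ] [Fintype F] [DecidableEq F]
    (φ : F → F → ℂ) (g : Γ) :
    indFun H (fun h : H => φ (m (h : Γ) 0 0) (m (h : Γ) 1 1)) g =
      (∑ s : F, if m g 1 0 + (m g 1 1 - m g 0 0) * s - m g 0 1 * s ^ 2 = 0
        then φ (m g 0 0 + m g 0 1 * s) (m g 1 1 - m g 0 1 * s) else 0) +
      (if m g 0 1 = 0 then φ (m g 1 1) (m g 0 0) else 0) := by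
  rw [indFun_eq_sum_transversal H (rep L W) (rep_bijective m H hH L hL W hW) _
    (isClassFunction_diag m H hH φ) g, Fintype.sum_option, add_comm]
  congr 1
  · apply Finset.sum_congr rfl
    intro s _
    rw [extendByZero_diag m H hH]
    simp only [rep, m_conj_L m L hL]
    simp
  · rw [extendByZero_diag m H hH]
    simp only [rep, m_conj_W m W hW]
    simp

include hH hL hW in
/-- The permutation character on the cosets of the upper triangular subgroup. -/
theorem fixedPointCharacter_eq [Fintype F] [DecidableEq F] (g : Γ) :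
    fixedPointCharacter H g =
      ((Finset.univ.filter fun s : F =>
        m g 1 0 + (m g 1 1 - m g 0 0) * s - m g 0 1 * s ^ 2 = 0).card : ℂ) +
      (if m g 0 1 = 0 then 1 else 0) := by
  classical
  rw [fixedPointCharacter_eq_card H (rep L W) (rep_bijective m H hH L hL W hW) g]
  rw [Nat.card_eq_fintype_card, Fintype.card_subtype, Finset.card_filter, Fintype.sum_option,
    Nat.cast_add, add_comm, Finset.card_filter, Nat.cast_sum, Nat.cast_sum]
  congr 1
  · apply Finset.sum_congr rfl
    intro s _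
    have hiff : (rep L W (some s))⁻¹ * g * rep L W (some s) ∈ H ↔
        m g 1 0 + (m g 1 1 - m g 0 0) * s - m g 0 1 * s ^ 2 = 0 := by
      simp only [rep, hH, m_conj_L m L hL]
      simp
    by_cases hs : m g 1 0 + (m g 1 1 - m g 0 0) * s - m g 0 1 * s ^ 2 = 0
    · rw [if_pos hs, if_pos (hiff.mpr hs)]
    · rw [if_neg hs, if_neg (fun h => hs (hiff.mp h))]
  · have hiff : (rep L W none)⁻¹ * g * rep L W none ∈ H ↔ m g 0 1 = 0 := by
      simp only [rep, hH, m_conj_W m W hW]
      simp
    by_cases hs : m g 0 1 = 0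
    · rw [if_pos hs, if_pos (hiff.mpr hs)]
      simp
    · rw [if_neg hs, if_neg (fun h => hs (hiff.mp h))]
      simp

end transversal

end Cfsg.Agent.Lib.Helper39.Borel2
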