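import Mathlib
import Cfsg.Agent.Lib.Helper68.FixStmt

/-!
# S4414 / TRANSFER (second seat, helper39)

Base change of an `F₂`-representation to `AlgebraicClosure (ZMod 2)`.
-/

namespace Cfsg.Agent.Lib.Helper39.FixTRANSFER

open Cfsg.Agent.Lib.Helper68.FixStmt TensorProduct

universe u v

section

variable {S : Type u} [Group S] {E : Type v} [AddCommGroup E] [Module (ZMod 2) E]
variable (k : Type) [Field k] [Algebra (ZMod 2) k]

/-- the base-changed representation -/
noncomputable def bc (ρ : Representation (ZMod 2) S E) : Representation k S (k ⊗[ZMod 2] E) where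
  toFun s := (ρ s).baseChange k
  map_one' := by
    ext e
    simp
  map_mul' a b := by
    ext e
    simp

theorem bc_apply (ρ : Representation (ZMod 2) S E) (s : S) (z : k ⊗[ZMod 2] E) :
    bc k ρ s z = (ρ s).baseChange k z := rfl

theorem bc_tmul (ρ : Representation (ZMod 2) S E) (s : S) (c : k) (e : E) :
    bc k ρ s (c ⊗ₜ[ZMod 2] e) = c ⊗ₜ[ZMod 2] (ρ s e) := by
  rw [bc_apply, LinearMap.baseChange_tmul]

variable {k}

/-- coordinates commute with base change -/
theorem coord_baseChange {J : Type*} [DecidableEq J] (c : Module.Basis J (ZMod 2) k) (f : E →ₗ[ZMod 2] E)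
    (z : k ⊗[ZMod 2] E) (i : J) :
    TensorProduct.equivFinsuppOfBasisLeft c (f.baseChange k z) i
      = f (TensorProduct.equivFinsuppOfBasisLeft c z i) := by
  induction z using TensorProduct.induction_on with
  | zero => simp
  | tmul a e =>
    rw [LinearMap.baseChange_tmul, TensorProduct.equivFinsuppOfBasisLeft_apply_tmul_apply,
      TensorProduct.equivFinsuppOfBasisLeft_apply_tmul_apply, map_smul]
  | add x y hx hy =>
    rw [map_add, map_add, Finsupp.add_apply, hx, hy, map_add, Finsupp.add_apply, map_add]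

/-- the image of `k ⊗ W` in `k ⊗ E` -/
noncomputable def img (W : Submodule (ZMod 2) E) : Submodule k (k ⊗[ZMod 2] E) :=
  LinearMap.range (W.subtype.baseChange k)

theorem tmul_mem_img (W : Submodule (ZMod 2) E) (c : k) {e : E} (he : e ∈ W) :
    c ⊗ₜ[ZMod 2] e ∈ img (k := k) W := by
  refine ⟨c ⊗ₜ[ZMod 2] (⟨e, he⟩ : W), ?_⟩
  rw [LinearMap.baseChange_tmul]
  rfl

theorem img_induction (W : Submodule (ZMod 2) E) (P : k ⊗[ZMod 2] E → Prop)
    (h0 : P 0) (ht : ∀ (c : k) (e : E), e ∈ W → P (c ⊗ₜ[ZMod 2] e))
    (ha : ∀ x y, P x → P y → P (x + y)) {z : k ⊗[ZMod 2] E} (hz : z ∈ img (k := k) W) : P z := by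
  obtain ⟨y, rfl⟩ := hz
  induction y using TensorProduct.induction_on with
  | zero => simpa using h0
  | tmul a e =>
    rw [LinearMap.baseChange_tmul]
    exact ht a e e.2
  | add x y hx hy =>
    rw [map_add]
    exact ha _ _ hx hy

theorem fix_eq_img (ρ : Representation (ZMod 2) S E) (T : Subgroup S) :
    fixT (bc k ρ) T = img (k := k) (fixT ρ T) := by
  classical
  apply le_antisymm
  · intro z hz
    rw [mem_fixT] at hz
    let c := Module.Free.chooseBasis (ZMod 2) k
    have hcoord : ∀ i, TensorProduct.equivFinsuppOfBasisLeft c z i ∈ fixT ρ T := by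
      intro i
      rw [mem_fixT]
      intro t ht
      rw [← coord_baseChange c (ρ t) z i, ← bc_apply, hz t ht]
    have hz' : z = (TensorProduct.equivFinsuppOfBasisLeft c).symm
        (TensorProduct.equivFinsuppOfBasisLeft c z) := by simp
    rw [hz', TensorProduct.equivFinsuppOfBasisLeft_symm_apply]
    apply Submodule.sum_mem
    intro i _
    exact tmul_mem_img _ _ (hcoord i)
  · intro z hz
    rw [mem_fixT]
    intro t ht
    refine img_induction (k := k) (fixT ρ T) (fun z => bc k ρ t z = z) (by simp) ?_ ?_ hz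
    · intro c e he
      rw [bc_tmul, (mem_fixT ρ T e).1 he t ht]
    · intro x y hx hy
      rw [map_add, hx, hy]

theorem tmul_one_injective (e e' : E) (h : (1 : k) ⊗ₜ[ZMod 2] e = (1 : k) ⊗ₜ[ZMod 2] e') :
    e = e' := by
  classical
  let c := Module.Free.chooseBasis (ZMod 2) k
  have h1 : c.repr (1 : k) ≠ 0 := by
    intro h0
    have h00 : (1 : k) = 0 := by
      have h01 := congrArg c.repr.symm h0
      rw [LinearEquiv.symm_apply_apply, map_zero] at h01
      exact h01
    exact one_ne_zero h00
  obtain ⟨i, hi⟩ : ∃ i, c.repr (1 : k) i ≠ 0 := by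
    by_contra hcon
    exact h1 (Finsupp.ext fun i => by
      by_contra hne
      exact hcon ⟨i, hne⟩)
  have h2 := congrArg (fun z => TensorProduct.equivFinsuppOfBasisLeft c z i) h
  simp only [TensorProduct.equivFinsuppOfBasisLeft_apply_tmul_apply] at h2
  exact (smul_right_injective E hi) h2

end

theorem main : TRANSFER.{u, v} := by
  intro S _ _ E _ _ _ ρ
  have : Module.Finite (ZMod 2) E := Module.Finite.of_finite
  refine ⟨AlgebraicClosure (ZMod 2), inferInstance, inferInstance, inferInstance,
    (AlgebraicClosure (ZMod 2)) ⊗[ZMod 2] E, inferInstance, inferInstance, inferInstance,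
    bc (AlgebraicClosure (ZMod 2)) ρ, ?_, ?_, ?_⟩
  · intro s hs
    ext e
    apply tmul_one_injective (k := AlgebraicClosure (ZMod 2))
    rw [← bc_tmul, hs]
    rfl
  · intro T
    rw [fix_eq_img]
    have hinj : Function.Injective ((fixT ρ T).subtype.baseChange (AlgebraicClosure (ZMod 2))) := by
      have := Module.Flat.lTensor_preserves_injective_linearMap (M := AlgebraicClosure (ZMod 2))
        (fixT ρ T).subtype (Submodule.injective_subtype _)
      intro a b hab
      exact this hab
    unfold img
    rw [LinearMap.finrank_range_of_inj hinj, Module.finrank_baseChange]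
  · intro T x hx m hm
    rw [fix_eq_img] at hm ⊢
    refine img_induction (k := AlgebraicClosure (ZMod 2)) (fixT ρ T)
      (fun z => bc (AlgebraicClosure (ZMod 2)) ρ x z ∈ img (k := AlgebraicClosure (ZMod 2)) (fixT ρ T))
      (by simp) ?_ ?_ hm
    · intro c e he
      rw [bc_tmul]
      exact tmul_mem_img _ _ (hx e he)
    · intro a b ha hb
      rw [map_add]
      exact Submodule.add_mem _ ha hb

end Cfsg.Agent.Lib.Helper39.FixTRANSFER
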