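-- A nontrivial element of a free group is nontrivial in some finite symmetric group.
import Mathlib

set_option autoImplicit false

namespace Cfsg.Agent.Lib.Helper39.FreeGroupPerm

/-- A functional and injective relation on a finite type extends to a permutation. -/
theorem exists_perm_of_partial {α : Type*} [Finite α] (R : α → α → Prop)
    (hf : ∀ x y y', R x y → R x y' → y = y') (hi : ∀ x x' y, R x y → R x' y → x = x') :
    ∃ σ : Equiv.Perm α, ∀ x y, R x y → σ x = y := by
  classical
  let p : α → Prop := fun x => ∃ y, R x y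
  let q : α → Prop := fun y => ∃ x, R x y
  let f : {x // p x} → {y // q y} := fun x => ⟨Classical.choose x.2, ⟨x.1, Classical.choose_spec x.2⟩⟩
  have hfb : Function.Bijective f := by
    constructor
    · rintro ⟨x, hx⟩ ⟨x', hx'⟩ h
      have h1 : Classical.choose hx = Classical.choose hx' := congrArg Subtype.val h
      have h2 := Classical.choose_spec hx
      have h3 := Classical.choose_spec hx'
      rw [h1] at h2
      exact Subtype.ext (hi _ _ _ h2 h3)
    · rintro ⟨y, x, hxy⟩
      refine ⟨⟨x, ⟨y, hxy⟩⟩, ?_⟩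
      apply Subtype.ext
      exact hf _ _ _ (Classical.choose_spec (⟨y, hxy⟩ : p x)) hxy
  refine ⟨(Equiv.ofBijective f hfb).extendSubtype, ?_⟩
  intro x y hxy
  rw [Equiv.extendSubtype_apply_of_mem _ x (⟨y, hxy⟩ : p x)]
  exact hf _ _ _ (Classical.choose_spec (⟨y, hxy⟩ : p x)) hxy

/-- The partial map attached to a generator by a word. -/
def rel (L : List (ℕ × Bool)) (a : ℕ) (x y : Fin (L.length + 1)) : Prop :=
  ∃ (i : ℕ) (hi : i < L.length), L[i].1 = a ∧
    ((L[i].2 = true ∧ x.val = i + 1 ∧ y.val = i) ∨ (L[i].2 = false ∧ x.val = i ∧ y.val = i + 1))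

theorem reduced_getElem {L : List (ℕ × Bool)} (hL : FreeGroup.IsReduced L) (i : ℕ)
    (hi : i + 1 < L.length) (h : L[i].1 = L[i + 1].1) : L[i].2 = L[i + 1].2 :=
  (List.isChain_iff_getElem.mp hL) i hi h

theorem rel_functional {L : List (ℕ × Bool)} (hL : FreeGroup.IsReduced L) (a : ℕ)
    (x y y' : Fin (L.length + 1)) (h : rel L a x y) (h' : rel L a x y') : y = y' := by
  obtain ⟨i, hi, hia, h⟩ := h
  obtain ⟨j, hj, hja, h'⟩ := h'
  apply Fin.ext
  rcases h with ⟨hb, hx, hy⟩ | ⟨hb, hx, hy⟩ <;> rcases h' with ⟨hb', hx', hy'⟩ | ⟨hb', hx', hy'⟩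
  · omega
  · exfalso
    have hij : j = i + 1 := by omega
    subst hij
    have := reduced_getElem hL i hj (by rw [hia, hja])
    rw [hb, hb'] at this
    exact Bool.noConfusion this
  · exfalso
    have hij : i = j + 1 := by omega
    subst hij
    have := reduced_getElem hL j hi (by rw [hia, hja])
    rw [hb, hb'] at this
    exact Bool.noConfusion this
  · omega

theorem rel_injective {L : List (ℕ × Bool)} (hL : FreeGroup.IsReduced L) (a : ℕ)
    (x x' y : Fin (L.length + 1)) (h : rel L a x y) (h' : rel L a x' y) : x = x' := by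
  obtain ⟨i, hi, hia, h⟩ := h
  obtain ⟨j, hj, hja, h'⟩ := h'
  apply Fin.ext
  rcases h with ⟨hb, hx, hy⟩ | ⟨hb, hx, hy⟩ <;> rcases h' with ⟨hb', hx', hy'⟩ | ⟨hb', hx', hy'⟩
  · omega
  · exfalso
    have hij : i = j + 1 := by omega
    subst hij
    have := reduced_getElem hL j hi (by rw [hia, hja])
    rw [hb, hb'] at this
    exact Bool.noConfusion this
  · exfalso
    have hij : j = i + 1 := by omega
    subst hij
    have := reduced_getElem hL i hj (by rw [hia, hja])
    rw [hb, hb'] at this
    exact Bool.noConfusion this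
  · omega

/-- For a reduced word `L` there are permutations of `Fin (L.length + 1)` whose word product
sends the last point to the first. -/
theorem exists_perm_word {L : List (ℕ × Bool)} (hL : FreeGroup.IsReduced L) :
    ∃ f : ℕ → Equiv.Perm (Fin (L.length + 1)),
      (L.map fun x => bif x.2 then f x.1 else (f x.1)⁻¹).prod (Fin.last L.length) = 0 := by
  have hex : ∀ a : ℕ, ∃ σ : Equiv.Perm (Fin (L.length + 1)), ∀ x y, rel L a x y → σ x = y :=
    fun a => exists_perm_of_partial (rel L a) (rel_functional hL a) (rel_injective hL a)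
  choose f hf using hex
  refine ⟨f, ?_⟩
  have key : ∀ k : ℕ, ∀ j : ℕ, (hj : j ≤ L.length) → j + k = L.length →
      ((L.drop j).map fun x => bif x.2 then f x.1 else (f x.1)⁻¹).prod (Fin.last L.length) =
        ⟨j, by omega⟩ := by
    intro k
    induction k with
    | zero =>
      intro j hj hjk
      have : j = L.length := by omega
      subst this
      simp [Fin.last]
    | succ k ih =>
      intro j hj hjk
      have hj' : j < L.length := by omega
      rw [List.drop_eq_getElem_cons hj', List.map_cons, List.prod_cons, Equiv.Perm.mul_apply,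
        ih (j + 1) (by omega) (by omega)]
      rcases hb : L[j].2 with _ | _
      · simp only [cond_false]
        rw [Equiv.Perm.inv_eq_iff_eq]
        exact (hf _ _ _ ⟨j, hj', rfl, Or.inr ⟨hb, rfl, rfl⟩⟩).symm
      · simp only [cond_true]
        exact hf _ _ _ ⟨j, hj', rfl, Or.inl ⟨hb, rfl, rfl⟩⟩
  have := key L.length 0 (by omega) (by omega)
  rw [List.drop_zero] at this
  rw [this]
  rfl

/-- A nontrivial element of the free group on `ℕ` is nontrivial under some map to a finite
symmetric group. -/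
theorem exists_perm_lift_ne_one (w : FreeGroup ℕ) (hw : w ≠ 1) :
    ∃ (k : ℕ) (f : ℕ → Equiv.Perm (Fin k)), FreeGroup.lift f w ≠ 1 := by
  obtain ⟨L, hLred, hLw⟩ : ∃ L : List (ℕ × Bool), FreeGroup.IsReduced L ∧ FreeGroup.mk L = w :=
    ⟨w.toWord, FreeGroup.isReduced_toWord, FreeGroup.mk_toWord⟩
  subst hLw
  have hL : L ≠ [] := by
    rintro rfl
    exact hw rfl
  obtain ⟨f, hf⟩ := exists_perm_word hLred
  refine ⟨L.length + 1, f, ?_⟩
  intro h
  rw [FreeGroup.lift_mk] at h
  rw [h] at hf
  have hlen : 0 < L.length := List.length_pos_iff.mpr hL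
  have h0 : ((0 : Fin (L.length + 1)) : ℕ) = 0 := rfl
  have h1 : ((Fin.last L.length : Fin (L.length + 1)) : ℕ) = L.length := rfl
  have := congrArg Fin.val hf
  rw [Equiv.Perm.one_apply] at this
  omega

/-- An injective homomorphism from `Perm (Fin k)` into the alternating group of degree `n`,
for `2 * k ≤ n`. -/
theorem exists_hom_alternating (k n : ℕ) (h : 2 * k ≤ n) :
    ∃ φ : Equiv.Perm (Fin k) →* alternatingGroup (Fin n), Function.Injective φ := by
  classical
  obtain ⟨ι⟩ : Nonempty (Fin k ⊕ Fin k ↪ Fin n) :=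
    Function.Embedding.nonempty_of_card_le (by simp; omega)
  let ψ₁ : Equiv.Perm (Fin k) →* Equiv.Perm (Fin k ⊕ Fin k) :=
    (Equiv.Perm.sumCongrHom (Fin k) (Fin k)).comp
      ((MonoidHom.id (Equiv.Perm (Fin k))).prod (MonoidHom.id (Equiv.Perm (Fin k))))
  let ψ₂ : Equiv.Perm (Fin k ⊕ Fin k) →* Equiv.Perm (Fin n) :=
    Equiv.Perm.extendDomainHom ι.toEquivRange
  have h1 : Function.Injective ψ₁ := by
    intro σ τ hστ
    have := Equiv.Perm.sumCongrHom_injective hστ
    exact congrArg Prod.fst this
  have h2 : Function.Injective ψ₂ := Equiv.Perm.extendDomainHom_injective _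
  have hs : ∀ σ : Equiv.Perm (Fin k), (ψ₂.comp ψ₁) σ ∈ alternatingGroup (Fin n) := by
    intro σ
    rw [Equiv.Perm.mem_alternatingGroup]
    change Equiv.Perm.sign ((Equiv.Perm.sumCongr σ σ).extendDomain ι.toEquivRange) = 1
    rw [Equiv.Perm.sign_extendDomain, Equiv.Perm.sign_sumCongr]
    exact Int.units_mul_self _
  refine ⟨(ψ₂.comp ψ₁).codRestrict (alternatingGroup (Fin n)) hs, ?_⟩
  intro σ τ hστ
  have := congrArg Subtype.val hστ
  exact h1 (h2 this)

end Cfsg.Agent.Lib.Helper39.FreeGroupPerm
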