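-- The formulas of Borel2 for GL_2 and SL_2 over a field.
import Mathlib
import Cfsg.Prelude.Def_Characters
import Cfsg.Prelude.Def_ParabolicCharacters
import Cfsg.Agent.Lib.Helper39.Borel2

set_option autoImplicit false

namespace Cfsg.Agent.Lib.Helper39.GL2Inst

open Cfsg Matrix Cfsg.Agent.Lib.Helper39.Borel2

variable {F : Type*} [Field F]

/-! ### GL_2 -/

/-- The matrix coercion of `GL_2` as a monoid hom. -/
def mGL (F : Type*) [Field F] : Matrix.GeneralLinearGroup (Fin 2) F →* Matrix (Fin 2) (Fin 2) F :=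
  Units.coeHom (Matrix (Fin 2) (Fin 2) F)

theorem mGL_apply (g : Matrix.GeneralLinearGroup (Fin 2) F) :
    mGL F g = (g : Matrix (Fin 2) (Fin 2) F) := rfl

theorem mem_B_iff (g : Matrix.GeneralLinearGroup (Fin 2) F) :
    g ∈ upperTriangularGL 2 F ↔ mGL F g 1 0 = 0 := by
  change (g : Matrix (Fin 2) (Fin 2) F).BlockTriangular id ↔ _
  constructor
  · intro h
    exact h (by decide)
  · intro h i j hij
    fin_cases i <;> fin_cases j
    · exact absurd hij (by decide)
    · exact absurd hij (by decide)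
    · exact h
    · exact absurd hij (by decide)

/-- Lower unitriangular elements of `GL_2`. -/
noncomputable def LGL (s : F) : Matrix.GeneralLinearGroup (Fin 2) F :=
  Matrix.GeneralLinearGroup.mkOfDetNeZero !![1, 0; s, 1] (by simp [Matrix.det_fin_two])

/-- The Weyl element of `GL_2`. -/
noncomputable def WGL (F : Type*) [Field F] : Matrix.GeneralLinearGroup (Fin 2) F :=
  Matrix.GeneralLinearGroup.mkOfDetNeZero !![0, -1; 1, 0] (by simp [Matrix.det_fin_two])

theorem mGL_L (s : F) : mGL F (LGL s) = !![1, 0; s, 1] := rfl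

theorem mGL_W : mGL F (WGL F) = !![0, -1; 1, 0] := rfl

/-- The master formula for functions induced from the upper triangular subgroup of `GL_2`. -/
theorem gl_indFun [Fintype F] [DecidableEq F] [Fintype (Matrix.GeneralLinearGroup (Fin 2) F)]
    (φ : F → F → ℂ) (g : Matrix.GeneralLinearGroup (Fin 2) F) :
    indFun (upperTriangularGL 2 F)
        (fun b => φ (((b : Matrix.GeneralLinearGroup (Fin 2) F) : Matrix (Fin 2) (Fin 2) F) 0 0)
          (((b : Matrix.GeneralLinearGroup (Fin 2) F) : Matrix (Fin 2) (Fin 2) F) 1 1)) g =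
      (∑ s : F, if (g : Matrix (Fin 2) (Fin 2) F) 1 0 +
          ((g : Matrix (Fin 2) (Fin 2) F) 1 1 - (g : Matrix (Fin 2) (Fin 2) F) 0 0) * s -
          (g : Matrix (Fin 2) (Fin 2) F) 0 1 * s ^ 2 = 0
        then φ ((g : Matrix (Fin 2) (Fin 2) F) 0 0 + (g : Matrix (Fin 2) (Fin 2) F) 0 1 * s)
          ((g : Matrix (Fin 2) (Fin 2) F) 1 1 - (g : Matrix (Fin 2) (Fin 2) F) 0 1 * s) else 0) +
      (if (g : Matrix (Fin 2) (Fin 2) F) 0 1 = 0
        then φ ((g : Matrix (Fin 2) (Fin 2) F) 1 1) ((g : Matrix (Fin 2) (Fin 2) F) 0 0) else 0) :=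
  indFun_diag (mGL F) (upperTriangularGL 2 F) mem_B_iff LGL mGL_L (WGL F) mGL_W φ g

/-- The permutation character of `GL_2` on the cosets of the upper triangular subgroup. -/
theorem gl_fixedPointCharacter [Fintype F] [DecidableEq F]
    (g : Matrix.GeneralLinearGroup (Fin 2) F) :
    fixedPointCharacter (upperTriangularGL 2 F) g =
      ((Finset.univ.filter fun s : F => (g : Matrix (Fin 2) (Fin 2) F) 1 0 +
          ((g : Matrix (Fin 2) (Fin 2) F) 1 1 - (g : Matrix (Fin 2) (Fin 2) F) 0 0) * s -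
          (g : Matrix (Fin 2) (Fin 2) F) 0 1 * s ^ 2 = 0).card : ℂ) +
      (if (g : Matrix (Fin 2) (Fin 2) F) 0 1 = 0 then 1 else 0) :=
  fixedPointCharacter_eq (mGL F) (upperTriangularGL 2 F) mem_B_iff LGL mGL_L (WGL F) mGL_W g

/-! ### SL_2 -/

/-- The matrix coercion of `SL_2` as a monoid hom. -/
def mSL (F : Type*) [Field F] : Matrix.SpecialLinearGroup (Fin 2) F →* Matrix (Fin 2) (Fin 2) F :=
  (Units.coeHom (Matrix (Fin 2) (Fin 2) F)).comp Matrix.SpecialLinearGroup.toGL

theorem mSL_apply (g : Matrix.SpecialLinearGroup (Fin 2) F) :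
    mSL F g = (g : Matrix (Fin 2) (Fin 2) F) := rfl

/-- The upper triangular subgroup of `SL_2`. -/
abbrev BSL (F : Type*) [Field F] : Subgroup (Matrix.SpecialLinearGroup (Fin 2) F) :=
  (upperTriangularGL 2 F).comap Matrix.SpecialLinearGroup.toGL

theorem mem_BSL_iff (g : Matrix.SpecialLinearGroup (Fin 2) F) :
    g ∈ BSL F ↔ mSL F g 1 0 = 0 := by
  rw [Subgroup.mem_comap, mem_B_iff]
  rfl

/-- Lower unitriangular elements of `SL_2`. -/
def LSL (s : F) : Matrix.SpecialLinearGroup (Fin 2) F :=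
  ⟨!![1, 0; s, 1], by simp [Matrix.det_fin_two]⟩

/-- The Weyl element of `SL_2`. -/
def WSL (F : Type*) [Field F] : Matrix.SpecialLinearGroup (Fin 2) F :=
  ⟨!![0, -1; 1, 0], by simp [Matrix.det_fin_two]⟩

theorem mSL_L (s : F) : mSL F (LSL s) = !![1, 0; s, 1] := rfl

theorem mSL_W : mSL F (WSL F) = !![0, -1; 1, 0] := rfl

/-- The master formula for functions induced from the upper triangular subgroup of `SL_2`. -/
theorem sl_indFun [Fintype F] [DecidableEq F] [Fintype (Matrix.SpecialLinearGroup (Fin 2) F)]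
    (φ : F → F → ℂ) (g : Matrix.SpecialLinearGroup (Fin 2) F) :
    indFun ((upperTriangularGL 2 F).comap Matrix.SpecialLinearGroup.toGL)
        (fun b => φ (((b : Matrix.SpecialLinearGroup (Fin 2) F) : Matrix (Fin 2) (Fin 2) F) 0 0)
          (((b : Matrix.SpecialLinearGroup (Fin 2) F) : Matrix (Fin 2) (Fin 2) F) 1 1)) g =
      (∑ s : F, if (g : Matrix (Fin 2) (Fin 2) F) 1 0 +
          ((g : Matrix (Fin 2) (Fin 2) F) 1 1 - (g : Matrix (Fin 2) (Fin 2) F) 0 0) * s -
          (g : Matrix (Fin 2) (Fin 2) F) 0 1 * s ^ 2 = 0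
        then φ ((g : Matrix (Fin 2) (Fin 2) F) 0 0 + (g : Matrix (Fin 2) (Fin 2) F) 0 1 * s)
          ((g : Matrix (Fin 2) (Fin 2) F) 1 1 - (g : Matrix (Fin 2) (Fin 2) F) 0 1 * s) else 0) +
      (if (g : Matrix (Fin 2) (Fin 2) F) 0 1 = 0
        then φ ((g : Matrix (Fin 2) (Fin 2) F) 1 1) ((g : Matrix (Fin 2) (Fin 2) F) 0 0) else 0) :=
  indFun_diag (mSL F) (BSL F) mem_BSL_iff LSL mSL_L (WSL F) mSL_W φ g

/-- The permutation character of `SL_2` on the cosets of the upper triangular subgroup. -/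
theorem sl_fixedPointCharacter [Fintype F] [DecidableEq F]
    (g : Matrix.SpecialLinearGroup (Fin 2) F) :
    fixedPointCharacter ((upperTriangularGL 2 F).comap Matrix.SpecialLinearGroup.toGL) g =
      ((Finset.univ.filter fun s : F => (g : Matrix (Fin 2) (Fin 2) F) 1 0 +
          ((g : Matrix (Fin 2) (Fin 2) F) 1 1 - (g : Matrix (Fin 2) (Fin 2) F) 0 0) * s -
          (g : Matrix (Fin 2) (Fin 2) F) 0 1 * s ^ 2 = 0).card : ℂ) +
      (if (g : Matrix (Fin 2) (Fin 2) F) 0 1 = 0 then 1 else 0) :=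
  fixedPointCharacter_eq (mSL F) (BSL F) mem_BSL_iff LSL mSL_L (WSL F) mSL_W g

end Cfsg.Agent.Lib.Helper39.GL2Inst
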