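-- Inner products of functions induced from the upper triangular subgroup of a group of 2 x 2 matrices.
import Mathlib
import Cfsg.Prelude.Def_Characters
import Cfsg.Prelude.Def_ParabolicCharacters
import Cfsg.Agent.Lib.CT.FrobRec
import Cfsg.Agent.Lib.Helper39.Borel2

set_option autoImplicit false

namespace Cfsg.Agent.Lib.Helper39.PS

open Cfsg Matrix Cfsg.Agent.Lib.CT.FrobRec Cfsg.Agent.Lib.Helper39.Borel2
open scoped ComplexConjugate

universe u

variable {F : Type*} [Field F] [Fintype F] [DecidableEq F]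

/-- Summing the master formula over the upper right entry of an upper triangular matrix. -/
theorem sum_formula (ψ : F → F → ℂ) (a d : F) :
    ∑ x : F, ((∑ s : F, if (0 : F) + (d - a) * s - x * s ^ 2 = 0
        then ψ (a + x * s) (d - x * s) else 0) + (if x = 0 then ψ d a else 0)) =
      (Fintype.card F : ℂ) * ψ a d + (Fintype.card F : ℂ) * ψ d a := by
  rw [Finset.sum_add_distrib, Finset.sum_comm]
  have h1 : ∀ s : F, ∑ x : F, (if (0 : F) + (d - a) * s - x * s ^ 2 = 0
      then ψ (a + x * s) (d - x * s) else 0) =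
      if s = 0 then (Fintype.card F : ℂ) * ψ a d else ψ d a := by
    intro s
    by_cases hs : s = 0
    · subst hs
      simp
    · rw [if_neg hs, Finset.sum_eq_single ((d - a) / s)]
      · have e1 : (0 : F) + (d - a) * s - (d - a) / s * s ^ 2 = 0 := by
          field_simp
          ring
        have e2 : a + (d - a) / s * s = d := by
          field_simp
          ring
        have e3 : d - (d - a) / s * s = a := by
          field_simp
          ring
        rw [if_pos e1, e2, e3]
      · intro x _ hx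
        rw [if_neg]
        intro h
        apply hx
        have h2 : s * ((d - a) - x * s) = 0 := by linear_combination h
        have h3 : (d - a) - x * s = 0 := by
          rcases mul_eq_zero.mp h2 with h4 | h4
          · exact absurd h4 hs
          · exact h4
        field_simp
        linear_combination -h3
      · intro h
        exact absurd (Finset.mem_univ _) h
  simp_rw [h1]
  rw [Finset.sum_ite_eq' Finset.univ (0 : F) (fun _ => ψ d a), if_pos (Finset.mem_univ _)]
  have h2 : ∑ s : F, (if s = 0 then (Fintype.card F : ℂ) * ψ a d else ψ d a) =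
      (Fintype.card F : ℂ) * ψ a d + ((Fintype.card F : ℂ) - 1) * ψ d a := by
    rw [← Finset.add_sum_erase Finset.univ _ (Finset.mem_univ (0 : F)), if_pos rfl]
    congr 1
    rw [Finset.sum_congr rfl (fun s hs => if_neg (Finset.ne_of_mem_erase hs)), Finset.sum_const,
      Finset.card_erase_of_mem (Finset.mem_univ _), Finset.card_univ, nsmul_eq_mul,
      Nat.cast_sub Fintype.card_pos, Nat.cast_one]
  rw [h2]
  ring

variable {Γ : Type u} [Group Γ] [Fintype Γ]

/-- The inner product of two functions induced from diagonal data on the upper triangular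
subgroup, when that subgroup is parametrized by a "torus" `T` and the upper right entry. -/
theorem classInner_indFun_diag (m : Γ →* Matrix (Fin 2) (Fin 2) F) (H : Subgroup Γ)
    (hH : ∀ x, x ∈ H ↔ m x 1 0 = 0) (L : F → Γ) (hL : ∀ s, m (L s) = !![1, 0; s, 1])
    (W : Γ) (hW : m W = !![0, -1; 1, 0])
    {T : Type*} [Fintype T] (τ₁ τ₂ : T → F) (bm : T × F → H) (hbm : Function.Bijective bm)
    (hm : ∀ t x, m (bm (t, x) : Γ) = !![τ₁ t, x; 0, τ₂ t]) (φ ψ : F → F → ℂ) :
    classInner (indFun H (fun h : H => φ (m (h : Γ) 0 0) (m (h : Γ) 1 1)))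
        (indFun H (fun h : H => ψ (m (h : Γ) 0 0) (m (h : Γ) 1 1))) =
      (Fintype.card T : ℂ)⁻¹ *
        ∑ t, φ (τ₁ t) (τ₂ t) * conj (ψ (τ₁ t) (τ₂ t) + ψ (τ₂ t) (τ₁ t)) := by
  classical
  haveI : Fintype H := Fintype.ofFinite H
  rw [frobenius_reciprocity H _ _ (indFun_isClassFunction H _)]
  unfold classInner
  have hcard : (Nat.card H : ℂ) = (Fintype.card T : ℂ) * (Fintype.card F : ℂ) := by
    rw [← Nat.card_congr (Equiv.ofBijective bm hbm), Nat.card_eq_fintype_card,
      Fintype.card_prod, Nat.cast_mul]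
  have hq : (Fintype.card F : ℂ) ≠ 0 := by
    exact_mod_cast (Fintype.card_pos (α := F)).ne'
  have hsum : ∑ h : H, φ (m (h : Γ) 0 0) (m (h : Γ) 1 1) *
      conj (indFun H (fun h : H => ψ (m (h : Γ) 0 0) (m (h : Γ) 1 1)) (h : Γ)) =
      ∑ p : T × F, φ (m (bm p : Γ) 0 0) (m (bm p : Γ) 1 1) *
        conj (indFun H (fun h : H => ψ (m (h : Γ) 0 0) (m (h : Γ) 1 1)) (bm p : Γ)) :=
    (Fintype.sum_bijective bm hbm _ _ (fun _ => rfl)).symm
  rw [hsum, Fintype.sum_prod_type, hcard]
  have hinner : ∀ t : T, ∑ x : F, φ (m (bm (t, x) : Γ) 0 0) (m (bm (t, x) : Γ) 1 1) *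
        conj (indFun H (fun h : H => ψ (m (h : Γ) 0 0) (m (h : Γ) 1 1)) (bm (t, x) : Γ)) =
      (Fintype.card F : ℂ) * (φ (τ₁ t) (τ₂ t) * conj (ψ (τ₁ t) (τ₂ t) + ψ (τ₂ t) (τ₁ t))) := by
    intro t
    have h1 : ∀ x : F, φ (m (bm (t, x) : Γ) 0 0) (m (bm (t, x) : Γ) 1 1) *
        conj (indFun H (fun h : H => ψ (m (h : Γ) 0 0) (m (h : Γ) 1 1)) (bm (t, x) : Γ)) =
        φ (τ₁ t) (τ₂ t) * conj ((∑ s : F, if (0 : F) + (τ₂ t - τ₁ t) * s - x * s ^ 2 = 0
          then ψ (τ₁ t + x * s) (τ₂ t - x * s) else 0) + (if x = 0 then ψ (τ₂ t) (τ₁ t) else 0)) := by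
      intro x
      rw [indFun_diag m H hH L hL W hW ψ, hm t x]
      simp
    simp_rw [h1]
    rw [← Finset.mul_sum, ← map_sum, sum_formula ψ (τ₁ t) (τ₂ t), ← mul_add, map_mul,
      Complex.conj_natCast]
    ring
  simp_rw [hinner]
  rw [← Finset.mul_sum, mul_inv, mul_assoc, ← mul_assoc (Fintype.card F : ℂ)⁻¹,
    inv_mul_cancel₀ hq, one_mul]

end Cfsg.Agent.Lib.Helper39.PS
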