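-- Inner products of principal series functions of GL_2 and SL_2 over a finite field.
import Mathlib
import Cfsg.Prelude.Def_Characters
import Cfsg.Prelude.Def_ParabolicCharacters
import Cfsg.Agent.Lib.Helper39.PS
import Cfsg.Agent.Lib.Helper39.GL2Inst

set_option autoImplicit false

namespace Cfsg.Agent.Lib.Helper39.PSInst

open Cfsg Matrix Cfsg.Agent.Lib.Helper39.PS Cfsg.Agent.Lib.Helper39.GL2Inst
open scoped ComplexConjugate

variable {F : Type*} [Field F]

/-! ### Parametrization of the Borel subgroup of SL_2 -/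

/-- The element `[[t, x], [0, t⁻¹]]` of `SL_2`. -/
def bmSL0 (p : Fˣ × F) : Matrix.SpecialLinearGroup (Fin 2) F :=
  ⟨(!![(p.1 : F), p.2; 0, ((p.1⁻¹ : Fˣ) : F)] : Matrix (Fin 2) (Fin 2) F), by
    simp [Matrix.det_fin_two]⟩

theorem mSL_bmSL0 (p : Fˣ × F) :
    mSL F (bmSL0 p) = !![(p.1 : F), p.2; 0, ((p.1⁻¹ : Fˣ) : F)] := rfl

/-- The element `[[t, x], [0, t⁻¹]]` of the upper triangular subgroup of `SL_2`. -/
def bmSL (p : Fˣ × F) : BSL F :=
  ⟨bmSL0 p, by
    rw [mem_BSL_iff, mSL_bmSL0]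
    rfl⟩

theorem mSL_bmSL (t : Fˣ) (x : F) :
    mSL F (bmSL (t, x) : Matrix.SpecialLinearGroup (Fin 2) F) = !![(t : F), x; 0, ((t⁻¹ : Fˣ) : F)] :=
  rfl

theorem bmSL_bijective : Function.Bijective (bmSL (F := F)) := by
  constructor
  · rintro ⟨t, x⟩ ⟨t', x'⟩ h
    have h1 := congrArg (fun b : BSL F => mSL F (b : Matrix.SpecialLinearGroup (Fin 2) F)) h
    simp only [mSL_bmSL] at h1
    have h00 := congrFun (congrFun h1 0) 0
    have h01 := congrFun (congrFun h1 0) 1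
    simp at h00 h01
    rw [Units.ext h00, h01]
  · intro b
    have hb := (mem_BSL_iff (b : Matrix.SpecialLinearGroup (Fin 2) F)).mp b.2
    have hdet := (b : Matrix.SpecialLinearGroup (Fin 2) F).2
    rw [Matrix.det_fin_two] at hdet
    have hb' : ((b : Matrix.SpecialLinearGroup (Fin 2) F) : Matrix (Fin 2) (Fin 2) F) 1 0 = 0 := hb
    rw [hb', mul_zero, sub_zero] at hdet
    refine ⟨(Units.mkOfMulEqOne _ _ hdet,
      ((b : Matrix.SpecialLinearGroup (Fin 2) F) : Matrix (Fin 2) (Fin 2) F) 0 1), ?_⟩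
    apply Subtype.ext
    apply Subtype.ext
    ext i j
    fin_cases i <;> fin_cases j
    · rfl
    · rfl
    · exact hb'.symm
    · change ((Units.mkOfMulEqOne _ _ hdet)⁻¹ : Fˣ).1 = _
      rfl

/-- Inner products of functions on `SL_2` induced from diagonal data. -/
theorem sl_classInner [Fintype F] [DecidableEq F] (φ ψ : F → F → ℂ) :
    classInner
        (indFun ((upperTriangularGL 2 F).comap Matrix.SpecialLinearGroup.toGL)
          (fun b => φ (((b : Matrix.SpecialLinearGroup (Fin 2) F) : Matrix (Fin 2) (Fin 2) F) 0 0)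
            (((b : Matrix.SpecialLinearGroup (Fin 2) F) : Matrix (Fin 2) (Fin 2) F) 1 1)))
        (indFun ((upperTriangularGL 2 F).comap Matrix.SpecialLinearGroup.toGL)
          (fun b => ψ (((b : Matrix.SpecialLinearGroup (Fin 2) F) : Matrix (Fin 2) (Fin 2) F) 0 0)
            (((b : Matrix.SpecialLinearGroup (Fin 2) F) : Matrix (Fin 2) (Fin 2) F) 1 1))) =
      (Fintype.card Fˣ : ℂ)⁻¹ * ∑ t : Fˣ, φ (t : F) ((t⁻¹ : Fˣ) : F) *
        conj (ψ (t : F) ((t⁻¹ : Fˣ) : F) + ψ ((t⁻¹ : Fˣ) : F) (t : F)) :=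
  classInner_indFun_diag (mSL F) (BSL F) mem_BSL_iff LSL mSL_L (WSL F) mSL_W
    (fun t : Fˣ => (t : F)) (fun t : Fˣ => ((t⁻¹ : Fˣ) : F)) bmSL bmSL_bijective mSL_bmSL φ ψ

/-! ### Parametrization of the Borel subgroup of GL_2 -/

/-- The element `[[t₁, x], [0, t₂]]` of the upper triangular subgroup of `GL_2`. -/
noncomputable def bmGL (p : (Fˣ × Fˣ) × F) : upperTriangularGL 2 F :=
  ⟨Matrix.GeneralLinearGroup.mkOfDetNeZero !![(p.1.1 : F), p.2; 0, (p.1.2 : F)]
    (by simp [Matrix.det_fin_two]), by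
    rw [mem_B_iff]
    rfl⟩

theorem mGL_bmGL (t : Fˣ × Fˣ) (x : F) :
    mGL F (bmGL (t, x) : Matrix.GeneralLinearGroup (Fin 2) F) = !![(t.1 : F), x; 0, (t.2 : F)] :=
  rfl

theorem bmGL_bijective : Function.Bijective (bmGL (F := F)) := by
  constructor
  · rintro ⟨⟨t₁, t₂⟩, x⟩ ⟨⟨t₁', t₂'⟩, x'⟩ h
    have h1 := congrArg (fun b : upperTriangularGL 2 F =>
      mGL F (b : Matrix.GeneralLinearGroup (Fin 2) F)) h
    simp only [mGL_bmGL] at h1
    have h00 := congrFun (congrFun h1 0) 0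
    have h01 := congrFun (congrFun h1 0) 1
    have h11 := congrFun (congrFun h1 1) 1
    simp at h00 h01 h11
    rw [Units.ext h00, h01, Units.ext h11]
  · intro b
    have hb := (mem_B_iff (b : Matrix.GeneralLinearGroup (Fin 2) F)).mp b.2
    have hb' : ((b : Matrix.GeneralLinearGroup (Fin 2) F) : Matrix (Fin 2) (Fin 2) F) 1 0 = 0 := hb
    have hdet : ((b : Matrix.GeneralLinearGroup (Fin 2) F) : Matrix (Fin 2) (Fin 2) F).det ≠ 0 :=
      Borel2.det_m_ne_zero (mGL F) (b : Matrix.GeneralLinearGroup (Fin 2) F)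
    rw [Matrix.det_fin_two, hb', mul_zero, sub_zero] at hdet
    have h0 : ((b : Matrix.GeneralLinearGroup (Fin 2) F) : Matrix (Fin 2) (Fin 2) F) 0 0 ≠ 0 :=
      left_ne_zero_of_mul hdet
    have h1 : ((b : Matrix.GeneralLinearGroup (Fin 2) F) : Matrix (Fin 2) (Fin 2) F) 1 1 ≠ 0 :=
      right_ne_zero_of_mul hdet
    refine ⟨((Units.mk0 _ h0, Units.mk0 _ h1),
      ((b : Matrix.GeneralLinearGroup (Fin 2) F) : Matrix (Fin 2) (Fin 2) F) 0 1), ?_⟩
    apply Subtype.ext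
    apply Units.ext
    ext i j
    fin_cases i <;> fin_cases j
    · rfl
    · rfl
    · exact hb'.symm
    · rfl

/-- Inner products of functions on `GL_2` induced from diagonal data. -/
theorem gl_classInner [Fintype F] [DecidableEq F] (φ ψ : F → F → ℂ) :
    classInner
        (indFun (upperTriangularGL 2 F)
          (fun b => φ (((b : Matrix.GeneralLinearGroup (Fin 2) F) : Matrix (Fin 2) (Fin 2) F) 0 0)
            (((b : Matrix.GeneralLinearGroup (Fin 2) F) : Matrix (Fin 2) (Fin 2) F) 1 1)))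
        (indFun (upperTriangularGL 2 F)
          (fun b => ψ (((b : Matrix.GeneralLinearGroup (Fin 2) F) : Matrix (Fin 2) (Fin 2) F) 0 0)
            (((b : Matrix.GeneralLinearGroup (Fin 2) F) : Matrix (Fin 2) (Fin 2) F) 1 1))) =
      (Fintype.card (Fˣ × Fˣ) : ℂ)⁻¹ * ∑ t : Fˣ × Fˣ, φ (t.1 : F) (t.2 : F) *
        conj (ψ (t.1 : F) (t.2 : F) + ψ (t.2 : F) (t.1 : F)) :=
  classInner_indFun_diag (mGL F) (upperTriangularGL 2 F) mem_B_iff LGL mGL_L (WGL F) mGL_W
    (fun t : Fˣ × Fˣ => (t.1 : F)) (fun t : Fˣ × Fˣ => (t.2 : F)) bmGL bmGL_bijective mGL_bmGL φ ψ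

/-! ### Orthogonality of multiplicative characters, summed over units -/

theorem sum_units_mulChar [Fintype F] [DecidableEq F] (χ : MulChar F ℂ) :
    ∑ t : Fˣ, χ (t : F) = if χ = 1 then (Fintype.card Fˣ : ℂ) else 0 := by
  have h1 : ∑ t : Fˣ, χ (t : F) = ∑ a : F, χ a := by
    have h2 : ∑ a : F, χ a = ∑ a ∈ Finset.univ.filter (fun a : F => a ≠ 0), χ a := by
      symm
      apply Finset.sum_filter_of_ne
      intro a _ ha h0
      apply ha
      rw [h0]
      exact MulChar.map_zero χ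
    rw [h2, Finset.sum_subtype (Finset.univ.filter (fun a : F => a ≠ 0)) (p := fun a => a ≠ 0)
      (by simp)]
    exact Fintype.sum_equiv unitsEquivNeZero _ _ (fun _ => rfl)
  rw [h1]
  by_cases hχ : χ = 1
  · rw [if_pos hχ, hχ, MulChar.sum_one_eq_card_units]
  · rw [if_neg hχ, MulChar.sum_eq_zero_of_ne_one hχ]

theorem sum_units_mul_conj [Fintype F] [DecidableEq F] (α β : MulChar F ℂ) :
    ∑ t : Fˣ, α (t : F) * conj (β (t : F)) = if α = β then (Fintype.card Fˣ : ℂ) else 0 := by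
  have h1 : ∀ t : Fˣ, α (t : F) * conj (β (t : F)) = (α * β⁻¹) (t : F) := by
    intro t
    rw [MulChar.mul_apply, ← MulChar.star_apply']
    rfl
  simp_rw [h1]
  rw [sum_units_mulChar]
  have : α * β⁻¹ = 1 ↔ α = β := mul_inv_eq_one
  simp only [this]

theorem conj_mulChar_inv (β : MulChar F ℂ) [Finite F] (t : Fˣ) :
    conj (β ((t⁻¹ : Fˣ) : F)) = β (t : F) := by
  have h := MulChar.star_apply' β ((t⁻¹ : Fˣ) : F)
  rw [MulChar.inv_apply'] at h
  have h2 : (((t⁻¹ : Fˣ) : F))⁻¹ = (t : F) := by simp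
  rw [h2] at h
  exact h

end Cfsg.Agent.Lib.Helper39.PSInst
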