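-- The unipotent subgroup of a group of 2 x 2 matrices: conjugation, transporters, Jacquet sums.
import Mathlib
import Cfsg.Prelude.Def_Characters
import Cfsg.Prelude.Def_ParabolicCharacters
import Cfsg.Agent.Lib.CT.FrobRec
import Cfsg.Agent.Lib.Helper39.Borel2

set_option autoImplicit false
set_option linter.unusedSectionVars false
set_option linter.unusedVariables false
set_option linter.style.haveILetI false

namespace Cfsg.Agent.Lib.Helper39.UBorel

open Cfsg Matrix Cfsg.Agent.Lib.CT.FrobRec Cfsg.Agent.Lib.Helper39.Borel2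
open scoped ComplexConjugate

universe u

variable {F : Type*} [Field F] {Γ : Type u} [Group Γ]

section basic

variable (m : Γ →* Matrix (Fin 2) (Fin 2) F) (hinj : Function.Injective m)
  (H : Subgroup Γ) (hH : ∀ x, x ∈ H ↔ m x 1 0 = 0)
  (L : F → Γ) (hL : ∀ s, m (L s) = !![1, 0; s, 1])
  (W : Γ) (hW : m W = !![0, -1; 1, 0]) (υ : F → Γ) (hυ : ∀ x, m (υ x) = !![1, x; 0, 1])

include hinj hυ in
theorem upsilon_add (x y : F) : υ (x + y) = υ x * υ y := by
  apply hinj
  rw [map_mul, hυ, hυ, hυ]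
  ext i j
  fin_cases i <;> fin_cases j <;> simp [Matrix.mul_apply, Fin.sum_univ_two, add_comm]

include hinj hυ in
theorem upsilon_zero : υ 0 = 1 := by
  apply hinj
  rw [map_one, hυ]
  ext i j
  fin_cases i <;> fin_cases j <;> simp

include hinj hυ in
theorem upsilon_inv (x : F) : (υ x)⁻¹ = υ (-x) := by
  rw [inv_eq_iff_mul_eq_one, ← upsilon_add m hinj υ hυ, add_neg_cancel, upsilon_zero m hinj υ hυ]

include hinj hυ hL hW in
theorem conj_W_upsilon (x : F) : W * υ x * W⁻¹ = L (-x) := by
  apply hinj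
  rw [map_mul, map_mul, m_W_inv m W hW, hW, hυ, hL]
  ext i j
  fin_cases i <;> fin_cases j <;> simp [Matrix.mul_apply, Fin.sum_univ_two]

include hinj hυ hL hW in
/-- A normal subgroup containing the upper unitriangular elements contains every element of
determinant one. -/
theorem mem_normal_of_det_one (N : Subgroup Γ) [hN : N.Normal] (hυN : ∀ x, υ x ∈ N) (g : Γ)
    (hg : (m g).det = 1) : g ∈ N := by
  have hLN : ∀ s, L s ∈ N := by
    intro s
    have := hN.conj_mem _ (hυN (-s)) W
    rwa [conj_W_upsilon m hinj L hL W hW υ hυ, neg_neg] at this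
  have key : ∀ g : Γ, (m g).det = 1 → m g 1 0 ≠ 0 → g ∈ N := by
    intro g hg hc
    have e : g = υ ((m g 0 0 - 1) / m g 1 0) * L (m g 1 0) * υ ((m g 1 1 - 1) / m g 1 0) := by
      apply hinj
      rw [map_mul, map_mul, hυ, hυ, hL]
      rw [Matrix.det_fin_two] at hg
      have hb : m g 0 1 = (m g 0 0 * m g 1 1 - 1) / m g 1 0 := by
        field_simp
        linear_combination -hg
      ext i j
      fin_cases i <;> fin_cases j
      · simp [Matrix.mul_apply, Fin.sum_univ_two]
        field_simp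
        ring
      · simp [Matrix.mul_apply, Fin.sum_univ_two]
        rw [hb]
        field_simp
        ring
      · simp [Matrix.mul_apply, Fin.sum_univ_two]
      · simp [Matrix.mul_apply, Fin.sum_univ_two]
        field_simp
        ring
    rw [e]
    exact N.mul_mem (N.mul_mem (hυN _) (hLN _)) (hυN _)
  by_cases hc : m g 1 0 = 0
  · have hdet : (m (L 1 * g)).det = 1 := by
      rw [map_mul, Matrix.det_mul, hg, hL]
      simp [Matrix.det_fin_two]
    have hc' : m (L 1 * g) 1 0 ≠ 0 := by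
      rw [map_mul, hL]
      simp only [Matrix.mul_apply, Fin.sum_univ_two]
      simp [hc]
      intro h0
      rw [Matrix.det_fin_two, h0, hc] at hg
      simp at hg
    have h1 := key _ hdet hc'
    have h2 := N.mul_mem (N.inv_mem (hLN 1)) h1
    rwa [inv_mul_cancel_left] at h2
  · exact key g hg hc

include hinj hυ in
/-- Transporters between unipotent elements. -/
theorem conj_upsilon_iff (c : Γ) (x y : F) (hx : x ≠ 0) :
    c * υ x * c⁻¹ = υ y ↔ (m c 1 0 = 0 ∧ m c 0 0 * x = y * m c 1 1) := by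
  rw [mul_inv_eq_iff_eq_mul]
  constructor
  · intro h
    have e := congrArg m h
    rw [map_mul, map_mul, hυ, hυ] at e
    have e00 := congrFun (congrFun e 0) 0
    have e01 := congrFun (congrFun e 0) 1
    have e11 := congrFun (congrFun e 1) 1
    simp [Matrix.mul_apply, Fin.sum_univ_two] at e00 e01 e11
    have hc : m c 1 0 = 0 := by
      rcases e11 with h1 | h1
      · exact h1
      · exact absurd h1 hx
    refine ⟨hc, ?_⟩
    linear_combination e01
  · rintro ⟨hc, hxy⟩
    apply hinj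
    rw [map_mul, map_mul, hυ, hυ]
    ext i j
    fin_cases i <;> fin_cases j
    · simp [Matrix.mul_apply, Fin.sum_univ_two, hc]
    · simp [Matrix.mul_apply, Fin.sum_univ_two]
      linear_combination hxy
    · simp [Matrix.mul_apply, Fin.sum_univ_two, hc]
    · simp [Matrix.mul_apply, Fin.sum_univ_two, hc]

end basic

section param

variable [Fintype F] [Fintype Γ]
  (m : Γ →* Matrix (Fin 2) (Fin 2) F) (hinj : Function.Injective m)
  (H : Subgroup Γ) (hH : ∀ x, x ∈ H ↔ m x 1 0 = 0)
  (υ : F → Γ) (hυ : ∀ x, m (υ x) = !![1, x; 0, 1])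
  {T : Type*} [Fintype T] (τ₁ τ₂ : T → F) (bm : T × F → H) (hbm : Function.Bijective bm)
  (hm : ∀ t x, m (bm (t, x) : Γ) = !![τ₁ t, x; 0, τ₂ t])

include hbm in
/-- Sums over the group supported on the Borel subgroup, in coordinates. -/
theorem sum_borel {M : Type*} [AddCommMonoid M] (f : Γ → M) (hf : ∀ c, c ∉ H → f c = 0) :
    ∑ c : Γ, f c = ∑ t : T, ∑ x : F, f (bm (t, x) : Γ) := by
  classical
  haveI : Fintype H := Fintype.ofFinite H
  have h1 : ∑ c : Γ, f c = ∑ c ∈ Finset.univ.filter (fun c : Γ => c ∈ H), f c := by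
    symm
    apply Finset.sum_filter_of_ne
    intro c _ hc
    by_contra hcH
    exact hc (hf c hcH)
  rw [h1, Finset.sum_subtype (Finset.univ.filter (fun c : Γ => c ∈ H)) (p := fun c => c ∈ H)
    (by simp), ← Fintype.sum_prod_type']
  exact (Fintype.sum_bijective bm hbm _ _ (fun _ => rfl)).symm

include hinj hH hυ hbm hm in
theorem card_conj_upsilon [DecidableEq Γ] [DecidableEq F] (x y : F) (hx : x ≠ 0) :
    (Finset.univ.filter fun c : Γ => c * υ x * c⁻¹ = υ y).card =
      Fintype.card F * (Finset.univ.filter fun t : T => τ₁ t * x = y * τ₂ t).card := by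
  rw [Finset.card_filter, sum_borel H bm hbm]
  · have h1 : ∀ (t : T) (z : F), (if (bm (t, z) : Γ) * υ x * (bm (t, z) : Γ)⁻¹ = υ y then 1 else 0) =
        if τ₁ t * x = y * τ₂ t then 1 else 0 := by
      intro t z
      have hiff : (bm (t, z) : Γ) * υ x * (bm (t, z) : Γ)⁻¹ = υ y ↔ τ₁ t * x = y * τ₂ t := by
        rw [conj_upsilon_iff m hinj υ hυ _ x y hx, hm]
        simp
      by_cases h : τ₁ t * x = y * τ₂ t
      · rw [if_pos h, if_pos (hiff.mpr h)]
      · rw [if_neg h, if_neg (fun h' => h (hiff.mp h'))]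
    simp_rw [h1]
    rw [Finset.card_filter]
    simp only [Finset.sum_const, Finset.card_univ, smul_eq_mul]
    rw [Finset.mul_sum]
  · intro c hc
    rw [if_neg]
    intro h
    exact hc ((hH c).mpr ((conj_upsilon_iff m hinj υ hυ c x y hx).mp h).1)

include hinj hυ in
theorem card_conj_upsilon_zero [DecidableEq Γ] [DecidableEq F] (y : F) :
    (Finset.univ.filter fun c : Γ => c * υ 0 * c⁻¹ = υ y).card =
      if y = 0 then Fintype.card Γ else 0 := by
  have h0 := upsilon_zero m hinj υ hυ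
  by_cases hy : y = 0
  · subst hy
    rw [if_pos rfl, h0]
    simp
  · rw [if_neg hy, Finset.card_eq_zero, Finset.filter_eq_empty_iff]
    intro c _ h
    rw [h0, mul_one, mul_inv_cancel] at h
    apply hy
    have e := congrArg m h
    rw [map_one, hυ] at e
    have e01 := congrFun (congrFun e 0) 1
    simp at e01
    exact e01.symm

include hH hbm hm in
/-- The Jacquet sum formula: averaging a class function over a coset of the unipotent subgroup
is a combination of its inner products with the principal series. -/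
theorem jacquet [DecidableEq T] {Λ : Type*} [Fintype Λ] (φ : Λ → F → F → ℂ)
    (horth : ∀ t t' : T, ∑ l : Λ, φ l (τ₁ t) (τ₂ t) * conj (φ l (τ₁ t') (τ₂ t')) =
      if t = t' then (Fintype.card T : ℂ) else 0)
    (χ : Γ → ℂ) (hχ : IsClassFunction Γ χ) (t : T) :
    ∑ l : Λ, φ l (τ₁ t) (τ₂ t) *
        classInner χ (indFun H (fun h : H => φ l (m (h : Γ) 0 0) (m (h : Γ) 1 1))) =
      (Fintype.card F : ℂ)⁻¹ * ∑ x : F, χ (bm (t, x) : Γ) := by
  classical
  haveI : Fintype H := Fintype.ofFinite H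
  have hcard : (Nat.card H : ℂ) = (Fintype.card T : ℂ) * (Fintype.card F : ℂ) := by
    rw [← Nat.card_congr (Equiv.ofBijective bm hbm), Nat.card_eq_fintype_card,
      Fintype.card_prod, Nat.cast_mul]
  have hq : (Fintype.card F : ℂ) ≠ 0 := by
    exact_mod_cast (Fintype.card_pos (α := F)).ne'
  have hT : (Fintype.card T : ℂ) ≠ 0 := by
    haveI : Nonempty T := ⟨t⟩
    exact_mod_cast (Fintype.card_pos (α := T)).ne'
  have h1 : ∀ l : Λ, classInner χ (indFun H (fun h : H => φ l (m (h : Γ) 0 0) (m (h : Γ) 1 1))) =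
      (Nat.card H : ℂ)⁻¹ * ∑ t' : T, ∑ x : F, χ (bm (t', x) : Γ) *
        conj (φ l (τ₁ t') (τ₂ t')) := by
    intro l
    rw [frobenius_reciprocity' H _ χ hχ]
    unfold classInner
    congr 1
    rw [← Fintype.sum_prod_type']
    symm
    apply Fintype.sum_bijective bm hbm
    rintro ⟨t', x⟩
    show χ (bm (t', x) : Γ) * conj (φ l (τ₁ t') (τ₂ t')) =
      χ (bm (t', x) : Γ) * conj (φ l (m (bm (t', x) : Γ) 0 0) (m (bm (t', x) : Γ) 1 1))
    rw [hm]
    simp
  simp_rw [h1]
  have h2 : ∀ l : Λ, φ l (τ₁ t) (τ₂ t) * ((Nat.card H : ℂ)⁻¹ * ∑ t' : T, ∑ x : F,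
      χ (bm (t', x) : Γ) * conj (φ l (τ₁ t') (τ₂ t'))) =
      (Nat.card H : ℂ)⁻¹ * ∑ t' : T, ∑ x : F, χ (bm (t', x) : Γ) *
        (φ l (τ₁ t) (τ₂ t) * conj (φ l (τ₁ t') (τ₂ t'))) := by
    intro l
    rw [mul_left_comm, Finset.mul_sum]
    congr 1
    apply Finset.sum_congr rfl
    intro t' _
    rw [Finset.mul_sum]
    apply Finset.sum_congr rfl
    intro x _
    ring
  simp_rw [h2]
  rw [← Finset.mul_sum, Finset.sum_comm]
  have h3 : ∀ t' : T, ∑ l : Λ, ∑ x : F, χ (bm (t', x) : Γ) *
      (φ l (τ₁ t) (τ₂ t) * conj (φ l (τ₁ t') (τ₂ t'))) =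
      if t = t' then (Fintype.card T : ℂ) * ∑ x : F, χ (bm (t', x) : Γ) else 0 := by
    intro t'
    rw [Finset.sum_comm]
    simp_rw [← Finset.mul_sum, horth t t']
    by_cases htt : t = t'
    · rw [if_pos htt, if_pos htt, ← Finset.sum_mul, mul_comm]
    · rw [if_neg htt, if_neg htt]
      simp
  simp_rw [h3]
  rw [Finset.sum_ite_eq Finset.univ t, if_pos (Finset.mem_univ _), hcard]
  field_simp

include hinj hυ hm in
/-- An element of the Borel subgroup with two different diagonal entries is conjugate to its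
diagonal part. -/
theorem conj_diag (t : T) (x : F) (ht : τ₁ t ≠ τ₂ t) :
    υ (x / (τ₂ t - τ₁ t)) * (bm (t, 0) : Γ) * (υ (x / (τ₂ t - τ₁ t)))⁻¹ = (bm (t, x) : Γ) := by
  have hne : τ₂ t - τ₁ t ≠ 0 := fun h => ht (sub_eq_zero.mp h).symm
  rw [mul_inv_eq_iff_eq_mul]
  apply hinj
  rw [map_mul, map_mul, hυ, hm, hm]
  ext i j
  fin_cases i <;> fin_cases j
  · simp [Matrix.mul_apply, Fin.sum_univ_two]
  · simp [Matrix.mul_apply, Fin.sum_univ_two]
    field_simp
    ring
  · simp [Matrix.mul_apply, Fin.sum_univ_two]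
  · simp [Matrix.mul_apply, Fin.sum_univ_two]

include hinj hυ hm in
theorem classFunction_diag (χ : Γ → ℂ) (hχ : IsClassFunction Γ χ) (t : T) (x : F)
    (ht : τ₁ t ≠ τ₂ t) : χ (bm (t, x) : Γ) = χ (bm (t, 0) : Γ) := by
  rw [← conj_diag m hinj H υ hυ τ₁ τ₂ bm hm t x ht]
  exact hχ _ _

end param

end Cfsg.Agent.Lib.Helper39.UBorel
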