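-- Multiplicities of additive characters in the restriction of a class function along `υ : F → Γ`.
import Mathlib
import Cfsg.Prelude.Def_Characters
import Cfsg.Agent.Lib.CT.Orth
import Cfsg.Agent.Lib.CT.Ops
import Cfsg.Agent.Lib.CT.LinChar
import Cfsg.Agent.Lib.CT.Clifford

set_option autoImplicit false
set_option linter.unusedSectionVars false
set_option linter.unusedVariables false

namespace Cfsg.Agent.Lib.Helper39.UMult

open Cfsg Cfsg.Agent.Lib.CT
open scoped ComplexConjugate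

universe u

variable {F : Type*} [Field F] [Fintype F] {Γ : Type u} [Group Γ]

/-- The multiplicity of the additive character `x ↦ ψ₀ (t * x)` in `χ ∘ υ`. -/
noncomputable def mu (υ : F → Γ) (ψ₀ : AddChar F ℂ) (χ : Γ → ℂ) (t : F) : ℂ :=
  (Fintype.card F : ℂ)⁻¹ * ∑ x : F, χ (υ x) * conj (ψ₀ (t * x))

theorem mu_def (υ : F → Γ) (ψ₀ : AddChar F ℂ) (χ : Γ → ℂ) (t : F) :
    mu υ ψ₀ χ t = (Fintype.card F : ℂ)⁻¹ * ∑ x : F, χ (υ x) * conj (ψ₀ (t * x)) := rfl

theorem mu_add (υ : F → Γ) (ψ₀ : AddChar F ℂ) (χ₁ χ₂ : Γ → ℂ) (t : F) :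
    mu υ ψ₀ (χ₁ + χ₂) t = mu υ ψ₀ χ₁ t + mu υ ψ₀ χ₂ t := by
  simp only [mu_def, Pi.add_apply, add_mul, Finset.sum_add_distrib, mul_add]

theorem mu_zero_eq (υ : F → Γ) (ψ₀ : AddChar F ℂ) (χ : Γ → ℂ) :
    mu υ ψ₀ χ 0 = (Fintype.card F : ℂ)⁻¹ * ∑ x : F, χ (υ x) := by
  simp [mu_def]

theorem card_ne_zero : (Fintype.card F : ℂ) ≠ 0 := by
  exact_mod_cast (Fintype.card_pos (α := F)).ne'

theorem upsilon_zero (υ : F → Γ) (hυ : ∀ x y, υ (x + y) = υ x * υ y) : υ 0 = 1 := by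
  have := hυ 0 0
  rw [add_zero] at this
  exact (mul_eq_left.mp this.symm)

/-- `υ` as a monoid hom from `Multiplicative F`. -/
def upsilonHom (υ : F → Γ) (hυ : ∀ x y, υ (x + y) = υ x * υ y) : Multiplicative F →* Γ where
  toFun x := υ (Multiplicative.toAdd x)
  map_one' := upsilon_zero υ hυ
  map_mul' x y := hυ _ _

/-- The multiplicities of a character are natural numbers. -/
theorem mu_nat (υ : F → Γ) (hυ : ∀ x y, υ (x + y) = υ x * υ y) (ψ₀ : AddChar F ℂ) {χ : Γ → ℂ}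
    (hχ : IsCharacter Γ χ) (t : F) : ∃ n : ℕ, mu υ ψ₀ χ t = n := by
  have h1 : IsCharacter (Multiplicative F) (fun x => χ (upsilonHom υ hυ x)) :=
    Ops.isCharacter_comp_hom (upsilonHom υ hυ) hχ
  have h2 : IsCharacter (Multiplicative F)
      (fun x => (((AddChar.mulShift ψ₀ t).toMonoidHom.toHomUnits x : ℂˣ) : ℂ)) :=
    LinChar.isCharacter_of_hom _
  obtain ⟨n, hn⟩ := Clifford.classInner_char_nat h1 h2
  refine ⟨n, ?_⟩
  rw [← hn, mu_def]
  unfold classInner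
  congr 1
  · rw [Nat.card_eq_fintype_card, Fintype.card_multiplicative]
  · apply Fintype.sum_equiv Multiplicative.ofAdd
    intro x
    rfl

/-- Fourier inversion. -/
theorem mu_inversion [DecidableEq F] (υ : F → Γ) (ψ₀ : AddChar F ℂ) (hψ₀ : ψ₀.IsPrimitive)
    (χ : Γ → ℂ) (x : F) : χ (υ x) = ∑ t : F, mu υ ψ₀ χ t * ψ₀ (t * x) := by
  have hq := card_ne_zero (F := F)
  have h1 : ∀ t : F, mu υ ψ₀ χ t * ψ₀ (t * x) =
      (Fintype.card F : ℂ)⁻¹ * ∑ y : F, χ (υ y) * ψ₀ (t * (x - y)) := by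
    intro t
    rw [mu_def, mul_assoc, Finset.sum_mul]
    congr 1
    apply Finset.sum_congr rfl
    intro y _
    rw [← AddChar.map_neg_eq_conj, mul_assoc, ← AddChar.map_add_eq_mul]
    congr 2
    ring
  simp_rw [h1]
  rw [← Finset.mul_sum, Finset.sum_comm]
  have h2 : ∀ y : F, ∑ t : F, χ (υ y) * ψ₀ (t * (x - y)) =
      if y = x then χ (υ y) * (Fintype.card F : ℂ) else 0 := by
    intro y
    rw [← Finset.mul_sum, AddChar.sum_mulShift (x - y) hψ₀]
    by_cases hy : y = x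
    · subst hy
      simp
    · rw [if_neg hy, if_neg (fun h => hy (sub_eq_zero.mp h).symm)]
      simp
  simp_rw [h2]
  rw [Finset.sum_ite_eq' Finset.univ x, if_pos (Finset.mem_univ _)]
  field_simp

/-- Conjugation that scales `υ` permutes the multiplicities. -/
theorem mu_scale (υ : F → Γ) (ψ₀ : AddChar F ℂ) {χ : Γ → ℂ} (hχ : IsClassFunction Γ χ)
    (d : Γ) (s : F) (hs : s ≠ 0) (hd : ∀ x, d * υ x * d⁻¹ = υ (s * x)) (t : F) :
    mu υ ψ₀ χ (t * s) = mu υ ψ₀ χ t := by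
  rw [mu_def, mu_def]
  congr 1
  symm
  apply Fintype.sum_equiv (Equiv.mulLeft₀ s hs).symm
  intro y
  simp only [Equiv.mulLeft₀_symm_apply]
  have h1 : χ (υ y) = χ (υ (s⁻¹ * y)) := by
    have := hχ (υ (s⁻¹ * y)) d
    rw [hd, ← mul_assoc, mul_inv_cancel₀ hs, one_mul] at this
    exact this
  rw [h1]
  congr 3
  field_simp

/-- Orthogonality for the multiplicities, from the second orthogonality relation. -/
theorem mu_orth [Fintype Γ] [DecidableEq Γ] [Fintype (IrrCharacter Γ)] (υ : F → Γ)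
    (ψ₀ : AddChar F ℂ) (t t' : F) :
    ∑ χ : IrrCharacter Γ, mu υ ψ₀ (χ : Γ → ℂ) t * conj (mu υ ψ₀ (χ : Γ → ℂ) t') =
      ((Fintype.card F : ℂ)⁻¹) ^ 2 * ∑ x : F, ∑ y : F, conj (ψ₀ (t * x)) * ψ₀ (t' * y) *
        ((Finset.univ.filter fun c : Γ => c * υ x * c⁻¹ = υ y).card : ℂ) := by
  have h1 : ∀ χ : IrrCharacter Γ, mu υ ψ₀ (χ : Γ → ℂ) t * conj (mu υ ψ₀ (χ : Γ → ℂ) t') =
      ((Fintype.card F : ℂ)⁻¹) ^ 2 * ∑ x : F, ∑ y : F, conj (ψ₀ (t * x)) * ψ₀ (t' * y) *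
        ((χ : Γ → ℂ) (υ x) * conj ((χ : Γ → ℂ) (υ y))) := by
    intro χ
    rw [mu_def, mu_def, map_mul, map_inv₀, Complex.conj_natCast, map_sum]
    have : ∀ (A B : ℂ) (c : ℂ), c * A * (c * B) = c ^ 2 * (A * B) := by
      intro A B c
      ring
    rw [this, Finset.sum_mul_sum]
    congr 1
    apply Finset.sum_congr rfl
    intro x _
    apply Finset.sum_congr rfl
    intro y _
    rw [map_mul (starRingEnd ℂ), Complex.conj_conj]
    ring
  simp_rw [h1]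
  rw [← Finset.mul_sum, Finset.sum_comm]
  congr 1
  apply Finset.sum_congr rfl
  intro x _
  rw [Finset.sum_comm]
  apply Finset.sum_congr rfl
  intro y _
  rw [← Finset.mul_sum, Orth.second_orthogonality_card]

end Cfsg.Agent.Lib.Helper39.UMult
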