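-- Orthogonality of the unipotent multiplicities in a group of 2 x 2 matrices with a Borel subgroup.
import Mathlib
import Cfsg.Prelude.Def_Characters
import Cfsg.Prelude.Def_ParabolicCharacters
import Cfsg.Agent.Lib.Helper39.UMult
import Cfsg.Agent.Lib.Helper39.UBorel

set_option autoImplicit false
set_option linter.unusedSectionVars false
set_option linter.unusedVariables false
set_option linter.style.haveILetI false

namespace Cfsg.Agent.Lib.Helper39.UOrth

open Cfsg Matrix Cfsg.Agent.Lib.CT Cfsg.Agent.Lib.Helper39.Borel2 Cfsg.Agent.Lib.Helper39.UMult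
  Cfsg.Agent.Lib.Helper39.UBorel
open scoped ComplexConjugate

universe u

variable {F : Type*} [Field F] [Fintype F] {Γ : Type u} [Group Γ] [Fintype Γ]

theorem sum_erase_mulShift [DecidableEq F] (ψ₀ : AddChar F ℂ) (hψ₀ : ψ₀.IsPrimitive) (κ : F) :
    ∑ x ∈ Finset.univ.erase (0 : F), ψ₀ (κ * x) =
      (if κ = 0 then (Fintype.card F : ℂ) else 0) - 1 := by
  have h1 := Finset.add_sum_erase Finset.univ (fun x : F => ψ₀ (κ * x)) (Finset.mem_univ (0 : F))
  have h2 : ∑ x : F, ψ₀ (κ * x) = if κ = 0 then (Fintype.card F : ℂ) else 0 := by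
    have := AddChar.sum_mulShift κ hψ₀
    simp_rw [mul_comm _ κ] at this
    rw [this]
    split_ifs <;> simp
  rw [h2] at h1
  simp only [mul_zero, AddChar.map_zero_eq_one] at h1
  rw [← h1]
  ring

variable (m : Γ →* Matrix (Fin 2) (Fin 2) F) (hinj : Function.Injective m)
  (H : Subgroup Γ) (hH : ∀ x, x ∈ H ↔ m x 1 0 = 0)
  (L : F → Γ) (hL : ∀ s, m (L s) = !![1, 0; s, 1])
  (W : Γ) (hW : m W = !![0, -1; 1, 0])
  (υ : F → Γ) (hυ : ∀ x, m (υ x) = !![1, x; 0, 1])
  {T : Type*} [Fintype T] (τ₁ τ₂ : T → F) (bm : T × F → H) (hbm : Function.Bijective bm)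
  (hm : ∀ t x, m (bm (t, x) : Γ) = !![τ₁ t, x; 0, τ₂ t])

include hH hL hW hbm in
theorem card_group : Fintype.card Γ = (Fintype.card F + 1) * (Fintype.card T * Fintype.card F) := by
  classical
  haveI : Fintype H := Fintype.ofFinite H
  rw [← Fintype.card_congr (Equiv.ofBijective _ (rep_bijective m H hH L hL W hW)),
    Fintype.card_prod, Fintype.card_option,
    ← Fintype.card_congr (Equiv.ofBijective bm hbm), Fintype.card_prod]

include hm in
theorem tau2_ne_zero (s : T) : τ₂ s ≠ 0 := by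
  intro h0
  have := det_m_ne_zero m (bm (s, 0) : Γ)
  rw [hm, Matrix.det_fin_two] at this
  simp [h0] at this

include hinj hH hL hW hυ hbm hm in
/-- Orthogonality of the unipotent multiplicities. -/
theorem mu_orth_borel [DecidableEq F] [Fintype (IrrCharacter Γ)] (ψ₀ : AddChar F ℂ)
    (hψ₀ : ψ₀.IsPrimitive) (t t' : F) :
    ∑ χ : IrrCharacter Γ, mu υ ψ₀ (χ : Γ → ℂ) t * conj (mu υ ψ₀ (χ : Γ → ℂ) t') =
      (Fintype.card T : ℂ) + ((Finset.univ.filter fun s : T => t' * τ₁ s = t * τ₂ s).card : ℂ) := by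
  classical
  rw [mu_orth]
  have hq : (Fintype.card F : ℂ) ≠ 0 := card_ne_zero
  -- the term x = 0
  have h0 : ∑ y : F, conj (ψ₀ (t * 0)) * ψ₀ (t' * y) *
      ((Finset.univ.filter fun c : Γ => c * υ 0 * c⁻¹ = υ y).card : ℂ) = (Fintype.card Γ : ℂ) := by
    simp_rw [card_conj_upsilon_zero m hinj υ hυ]
    rw [Finset.sum_eq_single (0 : F)]
    · simp
    · intro y _ hy
      rw [if_neg hy]
      simp
    · intro h
      exact absurd (Finset.mem_univ _) h
  -- the terms x ≠ 0
  have h1 : ∀ x ∈ Finset.univ.erase (0 : F), ∑ y : F, conj (ψ₀ (t * x)) * ψ₀ (t' * y) *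
      ((Finset.univ.filter fun c : Γ => c * υ x * c⁻¹ = υ y).card : ℂ) =
      (Fintype.card F : ℂ) * ∑ s : T, ψ₀ ((t' * τ₁ s / τ₂ s - t) * x) := by
    intro x hx
    have hx0 : x ≠ 0 := Finset.ne_of_mem_erase hx
    simp_rw [card_conj_upsilon m hinj H hH υ hυ τ₁ τ₂ bm hbm hm x _ hx0, Finset.card_filter]
    push_cast
    simp_rw [Finset.mul_sum]
    rw [Finset.sum_comm]
    apply Finset.sum_congr rfl
    intro s _
    have hs := tau2_ne_zero m H τ₁ τ₂ bm hm s
    rw [Finset.sum_eq_single (τ₁ s * x / τ₂ s)]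
    · have e : -(t * x) + t' * (τ₁ s * x / τ₂ s) = (t' * τ₁ s / τ₂ s - t) * x := by
        field_simp
        ring
      rw [if_pos (by field_simp), ← AddChar.map_neg_eq_conj, mul_one, ← AddChar.map_add_eq_mul, e,
        mul_comm]
    · intro y _ hy
      rw [if_neg]
      · simp
      · intro h
        apply hy
        field_simp
        exact h.symm
    · intro h
      exact absurd (Finset.mem_univ _) h
  rw [← Finset.add_sum_erase Finset.univ _ (Finset.mem_univ (0 : F)), h0, Finset.sum_congr rfl h1,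
    ← Finset.mul_sum, Finset.sum_comm]
  simp_rw [sum_erase_mulShift ψ₀ hψ₀]
  rw [Finset.sum_sub_distrib, card_group m H hH L hL W hW bm hbm, Finset.card_filter]
  have h2 : ∀ s : T, (if t' * τ₁ s / τ₂ s - t = 0 then (Fintype.card F : ℂ) else 0) =
      (Fintype.card F : ℂ) * (if t' * τ₁ s = t * τ₂ s then 1 else 0) := by
    intro s
    have hs := tau2_ne_zero m H τ₁ τ₂ bm hm s
    have hiff : t' * τ₁ s / τ₂ s - t = 0 ↔ t' * τ₁ s = t * τ₂ s := by
      rw [sub_eq_zero, div_eq_iff hs]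
    by_cases h : t' * τ₁ s = t * τ₂ s
    · rw [if_pos h, if_pos (hiff.mpr h), mul_one]
    · rw [if_neg h, if_neg (fun h' => h (hiff.mp h')), mul_zero]
  simp_rw [h2]
  rw [← Finset.mul_sum]
  push_cast
  simp only [Finset.sum_const, Finset.card_univ, nsmul_eq_mul, mul_one]
  field_simp
  ring

end Cfsg.Agent.Lib.Helper39.UOrth
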