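-- Characters of GL_2 over a finite field at the unipotent elements.
import Mathlib
import Cfsg.Prelude.Def_Characters
import Cfsg.Prelude.Def_ParabolicCharacters
import Cfsg.Agent.Lib.Helper39.UOrth
import Cfsg.Agent.Lib.Helper39.PSInst
import Cfsg.Agent.Lib.CT.Kernel
import Cfsg.Agent.S0187
import Cfsg.Agent.S2330

set_option autoImplicit false
set_option linter.unusedSectionVars false
set_option linter.unusedVariables false
set_option linter.style.haveILetI false

namespace Cfsg.Agent.Lib.Helper39.GL2T1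

open Cfsg Matrix Cfsg.Agent.Lib.CT Cfsg.Agent.Lib.Helper39.Borel2 Cfsg.Agent.Lib.Helper39.UMult
  Cfsg.Agent.Lib.Helper39.UBorel Cfsg.Agent.Lib.Helper39.UOrth Cfsg.Agent.Lib.Helper39.GL2Inst
  Cfsg.Agent.Lib.Helper39.PSInst Cfsg.Agent.Lib.CT.Wedderburn
open scoped ComplexConjugate

variable {F : Type*} [Field F]

/-- Upper unitriangular elements of `GL_2`. -/
noncomputable def uGL (x : F) : Matrix.GeneralLinearGroup (Fin 2) F :=
  Matrix.GeneralLinearGroup.mkOfDetNeZero !![1, x; 0, 1] (by simp [Matrix.det_fin_two])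

theorem mGL_u (x : F) : mGL F (uGL x) = !![1, x; 0, 1] := rfl

theorem mGL_injective : Function.Injective (mGL F) := fun _ _ h => Units.ext h

/-- The diagonal element `diag(s, 1)` of `GL_2`. -/
noncomputable def dGL (s : Fˣ) : Matrix.GeneralLinearGroup (Fin 2) F :=
  Matrix.GeneralLinearGroup.mkOfDetNeZero !![(s : F), 0; 0, 1] (by simp [Matrix.det_fin_two])

theorem mGL_d (s : Fˣ) : mGL F (dGL s) = !![(s : F), 0; 0, 1] := rfl

theorem dGL_conj (s : Fˣ) (x : F) : dGL s * uGL x * (dGL s)⁻¹ = uGL (s * x) := by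
  rw [mul_inv_eq_iff_eq_mul]
  apply mGL_injective
  rw [map_mul, map_mul, mGL_u, mGL_u, mGL_d]
  ext i j
  fin_cases i <;> fin_cases j <;> simp [Matrix.mul_apply, Fin.sum_univ_two]

theorem uGL_add (x y : F) : uGL (x + y) = uGL x * uGL y :=
  upsilon_add (mGL F) mGL_injective uGL mGL_u x y

theorem uGL_zero : uGL (0 : F) = 1 := upsilon_zero (mGL F) mGL_injective uGL mGL_u

theorem exists_primitive [Finite F] : ∃ ψ₀ : AddChar F ℂ, ψ₀.IsPrimitive := by
  obtain ⟨ψ, hψ⟩ := (AddChar.exists_apply_ne_zero (a := (1 : F))).mpr one_ne_zero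
  refine ⟨ψ, AddChar.IsPrimitive.of_ne_one (fun h => hψ ?_)⟩
  rw [h]
  simp

section fin

variable [Fintype F] [DecidableEq F]

theorem gl_mu_const (ψ₀ : AddChar F ℂ) (χ : Matrix.GeneralLinearGroup (Fin 2) F → ℂ)
    (hχ : IsClassFunction _ χ) (t : F) (ht : t ≠ 0) : mu uGL ψ₀ χ t = mu uGL ψ₀ χ 1 := by
  have := mu_scale uGL ψ₀ hχ (dGL (Units.mk0 t ht)) t ht (fun x => dGL_conj _ x) 1
  rwa [one_mul] at this

/-- The values of a class function of `GL_2` at the unipotent elements. -/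
theorem gl_values (ψ₀ : AddChar F ℂ) (hψ₀ : ψ₀.IsPrimitive)
    (χ : Matrix.GeneralLinearGroup (Fin 2) F → ℂ) (hχ : IsClassFunction _ χ) (x : F) :
    χ (uGL x) = mu uGL ψ₀ χ 0 +
      mu uGL ψ₀ χ 1 * ((if x = 0 then (Fintype.card F : ℂ) else 0) - 1) := by
  rw [mu_inversion uGL ψ₀ hψ₀ χ x, ← Finset.add_sum_erase Finset.univ _ (Finset.mem_univ (0 : F))]
  congr 1
  · simp
  · have h1 : ∀ t ∈ Finset.univ.erase (0 : F), mu uGL ψ₀ χ t * ψ₀ (t * x) =
        mu uGL ψ₀ χ 1 * ψ₀ (x * t) := by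
      intro t ht
      rw [gl_mu_const ψ₀ χ hχ t (Finset.ne_of_mem_erase ht), mul_comm t x]
    rw [Finset.sum_congr rfl h1, ← Finset.mul_sum, sum_erase_mulShift ψ₀ hψ₀ x]

theorem card_diag_filter (t : F) (ht : t ≠ 0) :
    (Finset.univ.filter fun s : Fˣ × Fˣ => t * (s.1 : F) = t * (s.2 : F)).card =
      Fintype.card Fˣ := by
  rw [← Finset.card_univ (α := Fˣ)]
  symm
  apply Finset.card_bij (fun a _ => (a, a))
  · intro a _
    simp
  · intro a _ b _ h
    exact (Prod.mk.inj h).1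
  · rintro ⟨s₁, s₂⟩ hs
    rw [Finset.mem_filter] at hs
    have h1 : (s₁ : F) = s₂ := mul_left_cancel₀ ht hs.2
    have h2 : s₁ = s₂ := Units.ext h1
    exact ⟨s₁, Finset.mem_univ _, by rw [h2]⟩

/-- The sum of the squares of the nontrivial unipotent multiplicities of `GL_2`. -/
theorem gl_sum_sq [Fintype (IrrCharacter (Matrix.GeneralLinearGroup (Fin 2) F))]
    (ψ₀ : AddChar F ℂ) (hψ₀ : ψ₀.IsPrimitive) :
    ∑ χ : IrrCharacter (Matrix.GeneralLinearGroup (Fin 2) F),
        mu uGL ψ₀ (χ : Matrix.GeneralLinearGroup (Fin 2) F → ℂ) 1 *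
          conj (mu uGL ψ₀ (χ : Matrix.GeneralLinearGroup (Fin 2) F → ℂ) 1) =
      (Fintype.card (Fˣ × Fˣ) : ℂ) + (Fintype.card Fˣ : ℂ) := by
  rw [mu_orth_borel (mGL F) mGL_injective (upperTriangularGL 2 F) mem_B_iff LGL mGL_L (WGL F) mGL_W
    uGL mGL_u (fun t : Fˣ × Fˣ => (t.1 : F)) (fun t : Fˣ × Fˣ => (t.2 : F)) bmGL bmGL_bijective
    mGL_bmGL ψ₀ hψ₀ 1 1, card_diag_filter 1 one_ne_zero]

/-- The kernel of the determinant is contained in every normal subgroup containing the unipotent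
elements. -/
theorem det_ker_le (N : Subgroup (Matrix.GeneralLinearGroup (Fin 2) F)) [N.Normal]
    (hN : ∀ x : F, uGL x ∈ N) :
    (Matrix.GeneralLinearGroup.det : Matrix.GeneralLinearGroup (Fin 2) F →* Fˣ).ker ≤ N := by
  intro g hg
  apply mem_normal_of_det_one (mGL F) mGL_injective LGL mGL_L (WGL F) mGL_W uGL mGL_u N hN g
  rw [MonoidHom.mem_ker] at hg
  rw [show (mGL F g).det = ((Matrix.GeneralLinearGroup.det g : Fˣ) : F) from rfl, hg]
  rfl

theorem quotient_det_comm (a b : Matrix.GeneralLinearGroup (Fin 2) F ⧸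
    (Matrix.GeneralLinearGroup.det : Matrix.GeneralLinearGroup (Fin 2) F →* Fˣ).ker) :
    a * b = b * a := by
  obtain ⟨g, rfl⟩ := QuotientGroup.mk_surjective a
  obtain ⟨h, rfl⟩ := QuotientGroup.mk_surjective b
  rw [← QuotientGroup.mk_mul, ← QuotientGroup.mk_mul, QuotientGroup.eq, MonoidHom.mem_ker]
  simp only [map_mul, map_inv]
  rw [mul_comm (Matrix.GeneralLinearGroup.det g), inv_mul_cancel]

theorem card_quotient_det_le :
    Nat.card (Matrix.GeneralLinearGroup (Fin 2) F ⧸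
      (Matrix.GeneralLinearGroup.det : Matrix.GeneralLinearGroup (Fin 2) F →* Fˣ).ker) ≤
      Fintype.card F - 1 := by
  have h1 : Nat.card (Matrix.GeneralLinearGroup (Fin 2) F ⧸
      (Matrix.GeneralLinearGroup.det : Matrix.GeneralLinearGroup (Fin 2) F →* Fˣ).ker) =
      Nat.card (Matrix.GeneralLinearGroup.det :
        Matrix.GeneralLinearGroup (Fin 2) F →* Fˣ).range := Subgroup.index_ker _
  rw [h1]
  calc Nat.card (Matrix.GeneralLinearGroup.det :
        Matrix.GeneralLinearGroup (Fin 2) F →* Fˣ).range ≤ Nat.card Fˣ :=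
        Nat.card_le_card_of_injective Subtype.val Subtype.val_injective
    _ = Fintype.card F - 1 := by rw [Nat.card_units, Nat.card_eq_fintype_card]

/-- A character of `GL_2` which is constant on the unipotent elements is trivial on the kernel of the
determinant. -/
theorem ker_of_const (χ : Matrix.GeneralLinearGroup (Fin 2) F → ℂ)
    (hχ : IsCharacter (Matrix.GeneralLinearGroup (Fin 2) F) χ) (h : ∀ x : F, χ (uGL x) = χ 1) :
    ∀ n ∈ (Matrix.GeneralLinearGroup.det : Matrix.GeneralLinearGroup (Fin 2) F →* Fˣ).ker,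
      χ n = χ 1 := by
  obtain ⟨N, hN, hmem⟩ := Kernel.exists_normal_ker hχ
  intro n hn
  rw [← hmem]
  exact det_ker_le N (fun x => (hmem _).mpr (h x)) hn

/-- An irreducible character of `GL_2` which is constant on the unipotent elements is linear. -/
theorem linear_of_const (χ : Matrix.GeneralLinearGroup (Fin 2) F → ℂ)
    (hχ : IsIrrCharacter (Matrix.GeneralLinearGroup (Fin 2) F) χ) (h : ∀ x : F, χ (uGL x) = χ 1) :
    χ 1 = 1 := by
  obtain ⟨χbar, hirr, hval⟩ := Kernel.exists_quotient_irr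
    (Matrix.GeneralLinearGroup.det : Matrix.GeneralLinearGroup (Fin 2) F →* Fˣ).ker hχ
    (ker_of_const χ (isCharacter_of_irr hχ) h)
  have h1 := (Cfsg.Agent.S0187.result (G := Matrix.GeneralLinearGroup (Fin 2) F ⧸
      (Matrix.GeneralLinearGroup.det : Matrix.GeneralLinearGroup (Fin 2) F →* Fˣ).ker)).mp
    quotient_det_comm ⟨χbar, hirr⟩
  rw [← hval 1]
  exact h1

/-- The number of irreducible characters of `GL_2` that are constant on the unipotent elements is at
most `q - 1`. -/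
theorem card_const_le [Fintype (IrrCharacter (Matrix.GeneralLinearGroup (Fin 2) F))]
    (Z : Finset (IrrCharacter (Matrix.GeneralLinearGroup (Fin 2) F)))
    (hZ : ∀ χ ∈ Z, ∀ x : F, (χ : Matrix.GeneralLinearGroup (Fin 2) F → ℂ) (uGL x) =
      (χ : Matrix.GeneralLinearGroup (Fin 2) F → ℂ) 1) :
    Z.card ≤ Fintype.card F - 1 := by
  classical
  have h1 : Z.card ≤ Nat.card {χ : IrrCharacter (Matrix.GeneralLinearGroup (Fin 2) F) //
      ∀ n ∈ (Matrix.GeneralLinearGroup.det : Matrix.GeneralLinearGroup (Fin 2) F →* Fˣ).ker,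
        (χ : Matrix.GeneralLinearGroup (Fin 2) F → ℂ) n =
          (χ : Matrix.GeneralLinearGroup (Fin 2) F → ℂ) 1} := by
    rw [Nat.card_eq_fintype_card, Fintype.card_subtype]
    apply Finset.card_le_card
    intro χ hχ
    rw [Finset.mem_filter]
    exact ⟨Finset.mem_univ _, ker_of_const _ (isCharacter_of_irr χ.2) (hZ χ hχ)⟩
  refine h1.trans ?_
  rw [← Nat.card_congr (Kernel.irrQuotientEquiv
    (Matrix.GeneralLinearGroup.det : Matrix.GeneralLinearGroup (Fin 2) F →* Fˣ).ker),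
    Orth.card_irrCharacter]
  exact (Nat.card_le_card_of_surjective ConjClasses.mk ConjClasses.mk_surjective).trans
    card_quotient_det_le

/-- **Multiplicity one** for `GL_2`: the nontrivial unipotent multiplicity of an irreducible
character is `0` or `1`, and it is `0` only for linear characters. -/
theorem gl_b_le_one (ψ₀ : AddChar F ℂ) (hψ₀ : ψ₀.IsPrimitive)
    (χ : Matrix.GeneralLinearGroup (Fin 2) F → ℂ)
    (hχ : IsIrrCharacter (Matrix.GeneralLinearGroup (Fin 2) F) χ) :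
    ∃ b : ℕ, b ≤ 1 ∧ mu uGL ψ₀ χ 1 = b ∧ (b = 0 → χ 1 = 1) := by
  classical
  haveI := finite_irrCharacter (Matrix.GeneralLinearGroup (Fin 2) F)
  haveI := Fintype.ofFinite (IrrCharacter (Matrix.GeneralLinearGroup (Fin 2) F))
  have hq2 : 2 ≤ Fintype.card F := Fintype.one_lt_card
  have hb : ∀ χ : IrrCharacter (Matrix.GeneralLinearGroup (Fin 2) F), ∃ n : ℕ,
      mu uGL ψ₀ (χ : Matrix.GeneralLinearGroup (Fin 2) F → ℂ) 1 = n :=
    fun χ => mu_nat uGL uGL_add ψ₀ (isCharacter_of_irr χ.2) 1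
  choose b hb using hb
  -- constant on unipotent elements when `b = 0`
  have hconst : ∀ χ : IrrCharacter (Matrix.GeneralLinearGroup (Fin 2) F), b χ = 0 →
      ∀ x : F, (χ : Matrix.GeneralLinearGroup (Fin 2) F → ℂ) (uGL x) =
        (χ : Matrix.GeneralLinearGroup (Fin 2) F → ℂ) 1 := by
    intro χ h0 x
    have hcl := char_isClassFunction (isCharacter_of_irr χ.2)
    rw [← uGL_zero (F := F), gl_values ψ₀ hψ₀ _ hcl x, gl_values ψ₀ hψ₀ _ hcl 0, hb χ, h0]
    simp
  -- the sum of squares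
  have hsum : ∑ χ : IrrCharacter (Matrix.GeneralLinearGroup (Fin 2) F), b χ ^ 2 =
      (Fintype.card F - 1) * (Fintype.card F - 1) + (Fintype.card F - 1) := by
    have h1 := gl_sum_sq ψ₀ hψ₀
    simp_rw [hb, Complex.conj_natCast] at h1
    rw [Fintype.card_prod, Fintype.card_units] at h1
    have h2 : ((∑ χ : IrrCharacter (Matrix.GeneralLinearGroup (Fin 2) F), b χ ^ 2 : ℕ) : ℂ) =
        (((Fintype.card F - 1) * (Fintype.card F - 1) + (Fintype.card F - 1) : ℕ) : ℂ) := by
      push_cast at h1 ⊢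
      rw [← h1]
      apply Finset.sum_congr rfl
      intro χ _
      ring
    exact_mod_cast h2
  -- the number of irreducible characters
  have hcard : Fintype.card (IrrCharacter (Matrix.GeneralLinearGroup (Fin 2) F)) =
      Fintype.card F ^ 2 - 1 := by
    rw [← Nat.card_eq_fintype_card, Orth.card_irrCharacter, Cfsg.Agent.S2330.result]
  -- the characters with `b = 0`
  have hZ : (Finset.univ.filter fun χ : IrrCharacter (Matrix.GeneralLinearGroup (Fin 2) F) =>
      b χ = 0).card ≤ Fintype.card F - 1 := by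
    apply card_const_le
    intro χ hχ x
    rw [Finset.mem_filter] at hχ
    exact hconst χ hχ.2 x
  have hle : ∀ χ ∈ (Finset.univ : Finset (IrrCharacter (Matrix.GeneralLinearGroup (Fin 2) F))),
      (if b χ = 0 then 0 else 1) ≤ b χ ^ 2 := by
    intro χ _
    by_cases h0 : b χ = 0
    · rw [if_pos h0]
      exact Nat.zero_le _
    · rw [if_neg h0]
      exact Nat.one_le_pow _ _ (Nat.pos_of_ne_zero h0)
  have hg : ∑ χ : IrrCharacter (Matrix.GeneralLinearGroup (Fin 2) F), (if b χ = 0 then 0 else 1) =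
      Fintype.card (IrrCharacter (Matrix.GeneralLinearGroup (Fin 2) F)) -
        (Finset.univ.filter fun χ : IrrCharacter (Matrix.GeneralLinearGroup (Fin 2) F) =>
          b χ = 0).card := by
    have h1 := Finset.card_filter_add_card_filter_not
      (s := (Finset.univ : Finset (IrrCharacter (Matrix.GeneralLinearGroup (Fin 2) F))))
      (fun χ => b χ = 0)
    rw [Finset.card_univ] at h1
    have h2 : ∑ χ : IrrCharacter (Matrix.GeneralLinearGroup (Fin 2) F),
        (if b χ = 0 then 0 else 1) =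
        (Finset.univ.filter fun χ : IrrCharacter (Matrix.GeneralLinearGroup (Fin 2) F) =>
          ¬ b χ = 0).card := by
      rw [Finset.card_filter]
      apply Finset.sum_congr rfl
      intro χ _
      by_cases h0 : b χ = 0 <;> simp [h0]
    omega
  have hge : ∑ χ : IrrCharacter (Matrix.GeneralLinearGroup (Fin 2) F), b χ ^ 2 ≤
      ∑ χ : IrrCharacter (Matrix.GeneralLinearGroup (Fin 2) F), (if b χ = 0 then 0 else 1) := by
    rw [hsum, hg, hcard]
    have h3 : Fintype.card F ^ 2 - 1 - (Fintype.card F - 1) ≤ Fintype.card F ^ 2 - 1 -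
        (Finset.univ.filter fun χ : IrrCharacter (Matrix.GeneralLinearGroup (Fin 2) F) =>
          b χ = 0).card := Nat.sub_le_sub_left hZ _
    refine le_trans (le_of_eq ?_) h3
    obtain ⟨k, hk⟩ : ∃ k, Fintype.card F = k + 2 := ⟨Fintype.card F - 2, by omega⟩
    rw [hk]
    have e1 : k + 2 - 1 = k + 1 := by omega
    have e2 : (k + 2) ^ 2 - 1 - (k + 1) = (k + 1) * (k + 1) + (k + 1) := by
      have : (k + 2) ^ 2 = (k + 1) * (k + 1) + (k + 1) + (k + 1) + 1 := by ring
      omega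
    rw [e1, e2]
  have heq := (Finset.sum_eq_sum_iff_of_le hle).mp (le_antisymm
    (Finset.sum_le_sum hle) hge)
  have hχb := heq ⟨χ, hχ⟩ (Finset.mem_univ _)
  refine ⟨b ⟨χ, hχ⟩, ?_, hb ⟨χ, hχ⟩, ?_⟩
  · by_cases h0 : b ⟨χ, hχ⟩ = 0
    · omega
    · rw [if_neg h0] at hχb
      have : b ⟨χ, hχ⟩ ^ 2 = 1 := hχb.symm
      have h1 : b ⟨χ, hχ⟩ = 1 := by
        rcases Nat.pow_eq_one.mp this with h | h
        · exact h
        · omega
      omega
  · intro h0
    exact linear_of_const χ hχ (hconst ⟨χ, hχ⟩ h0)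

/-- The values of an irreducible character of `GL_2` at the identity and at the unipotent
elements. -/
theorem gl_T1 (χ : Matrix.GeneralLinearGroup (Fin 2) F → ℂ)
    (hχ : IsIrrCharacter (Matrix.GeneralLinearGroup (Fin 2) F) χ) :
    ∃ a b : ℕ, b ≤ 1 ∧ (b = 0 → χ 1 = 1) ∧
      (Fintype.card F : ℂ)⁻¹ * ∑ x : F, χ (uGL x) = a ∧
      χ 1 = (a : ℂ) + ((Fintype.card F : ℂ) - 1) * b ∧
      ∀ x : F, x ≠ 0 → χ (uGL x) = (a : ℂ) - b := by
  obtain ⟨ψ₀, hψ₀⟩ := exists_primitive (F := F)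
  obtain ⟨b, hb1, hb, hb0⟩ := gl_b_le_one ψ₀ hψ₀ χ hχ
  obtain ⟨a, ha⟩ := mu_nat uGL uGL_add ψ₀ (isCharacter_of_irr hχ) 0
  have hcl := char_isClassFunction (isCharacter_of_irr hχ)
  refine ⟨a, b, hb1, hb0, ?_, ?_, ?_⟩
  · rw [← ha, mu_zero_eq]
  · rw [← uGL_zero (F := F), gl_values ψ₀ hψ₀ χ hcl 0, ha, hb, if_pos rfl]
    ring
  · intro x hx
    rw [gl_values ψ₀ hψ₀ χ hcl x, ha, hb, if_neg hx]
    ring

end fin

end Cfsg.Agent.Lib.Helper39.GL2T1
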