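-- Characters of the additive group of Hermitian matrices over a finite field with involution.
import Mathlib
import Cfsg.Agent.Lib.Helper39.LSHerm

set_option autoImplicit false

namespace Cfsg.Agent.Lib.Helper39.LSChar

open Matrix
open Cfsg.Agent.Lib.Helper40.HermAdj Cfsg.Agent.Lib.Helper39.LSHerm

variable {F : Type*} [Field F] {m : ℕ} (φ : F →+* F)

theorem adj_neg' (M : Matrix (Fin m) (Fin m) F) : adj φ (-M) = -adj φ M := by
  ext i j
  simp [adj_apply]

theorem adj_sub' (M N : Matrix (Fin m) (Fin m) F) : adj φ (M - N) = adj φ M - adj φ N := by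
  ext i j
  simp [adj_apply]

theorem adj_smul' (c : F) (M : Matrix (Fin m) (Fin m) F) : adj φ (c • M) = φ c • adj φ M := by
  ext i j
  simp [adj_apply]

/-- the additive group of Hermitian matrices -/
def Hm (m : ℕ) : AddSubgroup (Matrix (Fin m) (Fin m) F) where
  carrier := {H | adj φ H = H}
  add_mem' := by
    intro a b ha hb
    show adj φ (a + b) = a + b
    rw [adj_add, ha, hb]
  zero_mem' := adj_zero φ
  neg_mem' := by
    intro a ha
    show adj φ (-a) = -a
    rw [adj_neg', ha]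

theorem mem_Hm (H : Matrix (Fin m) (Fin m) F) : H ∈ Hm φ m ↔ adj φ H = H := Iff.rfl

/-- the character of the group of Hermitian matrices attached to a matrix -/
def eT (ψ : AddChar F ℂ) (T : Matrix (Fin m) (Fin m) F) (H : Hm φ m) : ℂ :=
  ψ (Matrix.trace (T * H.1))

theorem eT_add (ψ : AddChar F ℂ) (T : Matrix (Fin m) (Fin m) F) (H H' : Hm φ m) :
    eT φ ψ T (H + H') = eT φ ψ T H * eT φ ψ T H' := by
  unfold eT
  rw [AddSubgroup.coe_add, Matrix.mul_add, Matrix.trace_add, AddChar.map_add_eq_mul]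

theorem eT_zero (ψ : AddChar F ℂ) (T : Matrix (Fin m) (Fin m) F) : eT φ ψ T 0 = 1 := by
  unfold eT
  rw [AddSubgroup.coe_zero, Matrix.mul_zero, Matrix.trace_zero, AddChar.map_zero_eq_one]

theorem eT_matrix_zero (ψ : AddChar F ℂ) (H : Hm φ m) : eT φ ψ 0 H = 1 := by
  unfold eT
  rw [Matrix.zero_mul, Matrix.trace_zero, AddChar.map_zero_eq_one]

theorem herm_vecMulVec (hφ2 : ∀ x, φ (φ x) = x) (v : Fin m → F) :
    adj φ (vecMulVec v (φ ∘ v)) = vecMulVec v (φ ∘ v) := by
  ext i j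
  rw [adj_apply, vecMulVec_apply, vecMulVec_apply, map_mul, Function.comp_apply,
    Function.comp_apply, hφ2, mul_comm]

theorem trace_mul_vecMulVec (T : Matrix (Fin m) (Fin m) F) (v : Fin m → F) :
    Matrix.trace (T * vecMulVec v (φ ∘ v)) = Qf φ T v := by
  rw [Matrix.mul_vecMulVec, Matrix.trace_vecMulVec, dotProduct_comm]
  rfl

theorem addChar_ne_zero (ψ : AddChar F ℂ) (x : F) : ψ x ≠ 0 := by
  intro h
  have := ψ.map_add_eq_mul x (-x)
  rw [add_neg_cancel, ψ.map_zero_eq_one, h, zero_mul] at this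
  exact one_ne_zero this

/-- distinct Hermitian matrices give distinct characters -/
theorem eT_injective [Finite F] (hφ2 : ∀ x, φ (φ x) = x) (l : F) (hl : φ l ≠ l)
    (ψ : AddChar F ℂ) (hψ : ψ 1 ≠ 1) (T T' : Matrix (Fin m) (Fin m) F) (hT : adj φ T = T)
    (hT' : adj φ T' = T') (h : eT φ ψ T = eT φ ψ T') : T = T' := by
  by_contra hne
  have hD : adj φ (T - T') = T - T' := by rw [adj_sub', hT, hT']
  obtain ⟨v, hv⟩ := exists_Qf_eq_one φ hφ2 l hl (T - T') hD (sub_ne_zero.mpr hne)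
  have h1 := congrFun h ⟨vecMulVec v (φ ∘ v), herm_vecMulVec φ hφ2 v⟩
  unfold eT at h1
  simp only at h1
  apply hψ
  have e : trace (T * vecMulVec v (φ ∘ v)) = 1 + trace (T' * vecMulVec v (φ ∘ v)) := by
    have : trace ((T - T') * vecMulVec v (φ ∘ v)) = 1 := by rw [trace_mul_vecMulVec, hv]
    rw [Matrix.sub_mul, Matrix.trace_sub] at this
    linear_combination this
  rw [e, AddChar.map_add_eq_mul] at h1
  have h0 := addChar_ne_zero ψ (trace (T' * vecMulVec v (φ ∘ v)))
  exact mul_right_cancel₀ h0 (by rw [h1, one_mul])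

/-- every character of the group of Hermitian matrices comes from a Hermitian matrix -/
theorem eT_surj [Finite F] (hφ2 : ∀ x, φ (φ x) = x) (l : F) (hl : φ l ≠ l)
    (ψ : AddChar F ℂ) (hψ : ψ 1 ≠ 1) (χ : Hm φ m → ℂ)
    (hχ : ∀ H H', χ (H + H') = χ H * χ H') (hχ0 : χ 0 = 1) :
    ∃ T, adj φ T = T ∧ χ = eT φ ψ T := by
  classical
  let Φ : Hm φ m → AddChar (Hm φ m) ℂ := fun T =>
    { toFun := eT φ ψ T.1
      map_zero_eq_one' := eT_zero φ ψ T.1
      map_add_eq_mul' := eT_add φ ψ T.1 }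
  have hinj : Function.Injective Φ := by
    intro T T' h
    apply Subtype.ext
    apply eT_injective φ hφ2 l hl ψ hψ T.1 T'.1 T.2 T'.2
    funext H
    exact DFunLike.congr_fun h H
  have hcard : Nat.card (AddChar (Hm φ m) ℂ) ≤ Nat.card (Hm φ m) := by
    have : Fintype (Hm φ m) := Fintype.ofFinite _
    rw [Nat.card_eq_fintype_card, Nat.card_eq_fintype_card, AddChar.card_eq]
  have hbij := hinj.bijective_of_nat_card_le hcard
  obtain ⟨T, hT⟩ := hbij.2 { toFun := χ, map_zero_eq_one' := hχ0, map_add_eq_mul' := hχ }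
  refine ⟨T.1, T.2, ?_⟩
  funext H
  exact (DFunLike.congr_fun hT H).symm

theorem conj_mem (hφ2 : ∀ x, φ (φ x) = x) (A : Matrix (Fin m) (Fin m) F) (H : Hm φ m) :
    A * H.1 * adj φ A ∈ Hm φ m := by
  show adj φ (A * H.1 * adj φ A) = _
  have h := H.2
  rw [mem_Hm] at h
  rw [adj_mul, adj_mul, adj_adj φ hφ2, h, mul_assoc]

theorem eT_conj (ψ : AddChar F ℂ) (T A : Matrix (Fin m) (Fin m) F) (H : Hm φ m)
    (h : A * H.1 * adj φ A ∈ Hm φ m) :
    eT φ ψ T ⟨A * H.1 * adj φ A, h⟩ = eT φ ψ (adj φ A * T * A) H := by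
  unfold eT
  congr 1
  show trace (T * (A * H.1 * adj φ A)) = trace (adj φ A * T * A * H.1)
  rw [← Matrix.mul_assoc, Matrix.trace_mul_comm]
  simp only [Matrix.mul_assoc]

end Cfsg.Agent.Lib.Helper39.LSChar
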