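-- Abstract representation-theoretic lemmas for Landazuri–Seitz type bounds:
-- simultaneous eigenspaces of a finite abelian family, their conjugates, and a
-- Heisenberg-type bound for a family of operators commuting up to scalars.
import Mathlib
import Cfsg.Agent.Lib.Helper65.RepBound

set_option autoImplicit false

namespace Cfsg.Agent.Lib.Helper39.LSRep

open Module
open Cfsg.Agent.Lib.Helper65.RepBound

/-- an operator of finite order is semisimple -/
theorem maxGen_eq_of_pow {V : Type*} [AddCommGroup V] [Module ℂ V] [FiniteDimensional ℂ V]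
    (T : Module.End ℂ V) (N : ℕ) (hN : N ≠ 0) (hT : T ^ N = 1) (μ : ℂ) :
    T.maxGenEigenspace μ = T.eigenspace μ := by
  have hss : T.IsSemisimple := by
    apply Module.End.isSemisimple_of_squarefree_aeval_eq_zero
      (p := Polynomial.X ^ N - Polynomial.C (1 : ℂ))
    · exact (Polynomial.separable_X_pow_sub_C (1 : ℂ) (by exact_mod_cast hN) one_ne_zero).squarefree
    · simp [hT]
  exact hss.isFinitelySemisimple.maxGenEigenspace_eq_eigenspace μ

/-- a finite abelian family of operators, one of them not the identity, has a common eigenvector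
with a non-trivial multiplicative eigenvalue function -/
theorem exists_ceig' {G V ι : Type*} [Group G] [AddCommGroup V] [Module ℂ V]
    [FiniteDimensional ℂ V] [AddCommGroup ι] [Finite ι]
    (ρ : G →* Module.End ℂ V) (z : ι → G) (hz : ∀ b b', z (b + b') = z b * z b')
    (b₀ : ι) (hb₀ : ρ (z b₀) ≠ 1) :
    ∃ χ : ι → ℂ, (∀ b b', χ (b + b') = χ b * χ b') ∧ χ 0 = 1 ∧ χ b₀ ≠ 1 ∧ ceig ρ z χ ≠ ⊥ := by
  have hz0 : z 0 = 1 := by
    have := hz 0 0
    rw [add_zero] at this
    exact (mul_eq_left.mp this.symm)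
  have hzpow : ∀ b (k : ℕ), z (k • b) = z b ^ k := by
    intro b k
    induction k with
    | zero => rw [zero_smul, pow_zero, hz0]
    | succ k ih => rw [succ_nsmul, hz, ih, pow_succ]
  have hN : Nat.card ι ≠ 0 := Nat.card_pos.ne'
  have hpow : ∀ b, ρ (z b) ^ Nat.card ι = 1 := by
    intro b
    rw [← map_pow, ← hzpow, card_nsmul_eq_zero', hz0, map_one]
  have hcomm : Pairwise fun b b' => Commute (ρ (z b)) (ρ (z b')) := by
    intro b b' _
    show ρ (z b) * ρ (z b') = ρ (z b') * ρ (z b)
    rw [← map_mul, ← map_mul, ← hz, ← hz, add_comm]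
  have htop := Module.End.iSup_iInf_maxGenEigenspace_eq_top_of_iSup_maxGenEigenspace_eq_top_of_commute
    (fun b => ρ (z b)) hcomm (fun b => Module.End.iSup_maxGenEigenspace_eq_top _)
  have htop' : ⨆ χ : ι → ℂ, ceig ρ z χ = ⊤ := by
    rw [← htop]
    congr 1
    funext χ
    unfold ceig
    congr 1
    funext b
    rw [maxGen_eq_of_pow _ _ hN (hpow b)]
  by_contra hcon
  push Not at hcon
  apply hb₀
  have hle : (⊤ : Submodule ℂ V) ≤ Module.End.eigenspace (ρ (z b₀)) 1 := by
    rw [← htop']
    apply iSup_le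
    intro χ
    by_cases hχ : ceig ρ z χ = ⊥
    · rw [hχ]
      exact bot_le
    · obtain ⟨v, hv, hv0⟩ := (Submodule.ne_bot_iff _).mp hχ
      have hv' := (mem_ceig ρ z χ v).mp hv
      have hmul : ∀ b b', χ (b + b') = χ b * χ b' := by
        intro b b'
        have h1 := hv' (b + b')
        rw [hz, map_mul, Module.End.mul_apply, hv' b', map_smul, hv' b, smul_smul] at h1
        have h3 : (χ b' * χ b - χ (b + b')) • v = 0 := by
          rw [sub_smul, h1, sub_self]
        rcases smul_eq_zero.mp h3 with h | h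
        · linear_combination -h
        · exact absurd h hv0
      have h0 : χ 0 = 1 := by
        have h1 := hv' 0
        rw [hz0, map_one, Module.End.one_apply] at h1
        have h3 : (1 - χ 0) • v = 0 := by
          rw [sub_smul, one_smul, ← h1, sub_self]
        rcases smul_eq_zero.mp h3 with h | h
        · linear_combination -h
        · exact absurd h hv0
      have hχ1 : χ b₀ = 1 := by
        by_contra hne
        exact hχ (hcon χ hmul h0 hne)
      intro w hw
      rw [Module.End.mem_eigenspace_iff, one_smul]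
      have := (mem_ceig ρ z χ w).mp hw b₀
      rw [this, hχ1, one_smul]
  apply LinearMap.ext
  intro v
  have := hle (Submodule.mem_top : v ∈ ⊤)
  rw [Module.End.mem_eigenspace_iff, one_smul] at this
  rw [this, Module.End.one_apply]

/-- the simultaneous eigenspaces of a commuting family are independent -/
theorem indep_ceig {G V ι : Type*} [Group G] [AddCommGroup V] [Module ℂ V]
    [FiniteDimensional ℂ V]
    (ρ : G →* Module.End ℂ V) (z : ι → G) (hcomm : ∀ b b', z b * z b' = z b' * z b) :
    iSupIndep (fun χ : ι → ℂ => ceig ρ z χ) := by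
  have hcomm' : ∀ b b', Commute (ρ (z b)) (ρ (z b')) := by
    intro b b'
    show ρ (z b) * ρ (z b') = ρ (z b') * ρ (z b)
    rw [← map_mul, ← map_mul, hcomm]
  have hindep := Module.End.independent_iInf_maxGenEigenspace_of_forall_mapsTo
    (fun b => ρ (z b))
    (fun i j φ => Module.End.mapsTo_maxGenEigenspace_of_comm (hcomm' j i) φ)
  apply hindep.mono
  intro χ'
  exact iInf_mono (fun b => Module.End.eigenspace_le_maxGenEigenspace)

/-- conjugation moves simultaneous eigenspaces -/
theorem finrank_ceig_conj_le {G V ι : Type*} [Group G] [AddCommGroup V] [Module ℂ V]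
    [FiniteDimensional ℂ V] (ρ : G →* Module.End ℂ V) (z : ι → G) (g : G) (f : ι → ι)
    (hg : ∀ b, g * z b * g⁻¹ = z (f b)) (χ : ι → ℂ) :
    finrank ℂ (ceig ρ z χ) ≤ finrank ℂ (ceig ρ z (fun b => χ (f b))) := by
  have hinj : Function.Injective (ρ g⁻¹) := by
    intro v w hvw
    have := congrArg (ρ g) hvw
    rw [← Module.End.mul_apply, ← Module.End.mul_apply, ← map_mul, mul_inv_cancel, map_one] at this
    exact this
  have hle : (ceig ρ z χ).map (ρ g⁻¹) ≤ ceig ρ z (fun b => χ (f b)) := by
    rintro _ ⟨v, hv, rfl⟩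
    rw [mem_ceig]
    intro b
    have hv' := (mem_ceig ρ z χ v).mp hv (f b)
    have e : z b * g⁻¹ = g⁻¹ * z (f b) := by
      rw [← hg b]
      group
    rw [← Module.End.mul_apply, ← map_mul, e, map_mul, Module.End.mul_apply, hv', map_smul]
  calc finrank ℂ (ceig ρ z χ) = finrank ℂ ((ceig ρ z χ).map (ρ g⁻¹)) :=
        (LinearEquiv.finrank_eq (Submodule.equivMapOfInjective _ hinj _))
    _ ≤ finrank ℂ (ceig ρ z (fun b => χ (f b))) := Submodule.finrank_mono hle

/-- the dimensions of simultaneous eigenspaces for distinct eigenvalue functions add up to at most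
the dimension -/
theorem sum_finrank_ceig_le {G V ι κ : Type*} [Group G] [AddCommGroup V] [Module ℂ V]
    [FiniteDimensional ℂ V]
    (ρ : G →* Module.End ℂ V) (z : ι → G) (hcomm : ∀ b b', z b * z b' = z b' * z b)
    (s : Finset κ) (χ : κ → ι → ℂ) (hχ : Set.InjOn χ (s : Set κ)) :
    ∑ k ∈ s, finrank ℂ (ceig ρ z (χ k)) ≤ finrank ℂ V := by
  classical
  have hinj : Function.Injective (fun k : s => χ k.1) := by
    intro a b hab
    exact Subtype.ext (hχ a.2 b.2 hab)
  have hind : iSupIndep (fun k : s => ceig ρ z (χ k.1)) := (indep_ceig ρ z hcomm).comp hinj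
  have h := sum_finrank_le _ hind
  rw [← Finset.sum_coe_sort s (fun k => finrank ℂ (ceig ρ z (χ k)))]
  exact h

/-- Heisenberg-type bound for a family: invertible operators commuting up to scalars, with
pairwise distinct scalar functions, number at most `(dim W)²`. -/
theorem card_le_finrank_sq {ι W : Type*} [Fintype ι] [AddCommGroup W] [Module ℂ W]
    [FiniteDimensional ℂ W] [Nontrivial W] (σ : ι → (Module.End ℂ W)ˣ)
    (c : ι → ι → ℂ)
    (hc : ∀ x y, ((σ y : Module.End ℂ W) * (σ x : Module.End ℂ W)) =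
      c x y • ((σ x : Module.End ℂ W) * (σ y : Module.End ℂ W)))
    (hinj : Function.Injective c) :
    Fintype.card ι ≤ (finrank ℂ W) ^ 2 := by
  classical
  let f : ι → Module.End ℂ (Module.End ℂ W) := fun y =>
    (LinearMap.mulLeft ℂ (σ y : Module.End ℂ W)).comp
      (LinearMap.mulRight ℂ (((σ y)⁻¹ : (Module.End ℂ W)ˣ) : Module.End ℂ W))
  have hf : ∀ y T, f y T = (σ y : Module.End ℂ W) *
      (T * (((σ y)⁻¹ : (Module.End ℂ W)ˣ) : Module.End ℂ W)) := fun y T => rfl
  have hmul : ∀ y y' T, f y (f y' T) = ((σ y * σ y' : (Module.End ℂ W)ˣ) : Module.End ℂ W) *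
      (T * (((σ y * σ y')⁻¹ : (Module.End ℂ W)ˣ) : Module.End ℂ W)) := by
    intro y y' T
    rw [hf, hf, mul_inv_rev, Units.val_mul, Units.val_mul]
    simp only [mul_assoc]
  have hcomm : ∀ y y', Commute (f y) (f y') := by
    intro y y'
    have e1 : ((σ y' * σ y : (Module.End ℂ W)ˣ) : Module.End ℂ W) =
        c y y' • ((σ y * σ y' : (Module.End ℂ W)ˣ) : Module.End ℂ W) := by
      rw [Units.val_mul, Units.val_mul]
      exact hc y y'
    have hc0 : c y y' ≠ 0 := by
      intro h0
      rw [h0, zero_smul] at e1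
      exact (σ y' * σ y).ne_zero e1
    have e2 : (((σ y' * σ y)⁻¹ : (Module.End ℂ W)ˣ) : Module.End ℂ W) =
        (c y y')⁻¹ • (((σ y * σ y')⁻¹ : (Module.End ℂ W)ˣ) : Module.End ℂ W) := by
      apply Units.inv_eq_of_mul_eq_one_right
      rw [e1, smul_mul_smul_comm, mul_inv_cancel₀ hc0, one_smul, Units.mul_inv]
    apply LinearMap.ext
    intro T
    show f y (f y' T) = f y' (f y T)
    rw [hmul, hmul, e1, e2]
    simp only [smul_mul_assoc, mul_smul_comm, smul_smul]
    rw [inv_mul_cancel₀ hc0, one_smul]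
  have hindep := Module.End.independent_iInf_maxGenEigenspace_of_forall_mapsTo f
    (fun i j φ => Module.End.mapsTo_maxGenEigenspace_of_comm (hcomm j i) φ)
  set p : (ι → ℂ) → Submodule ℂ (Module.End ℂ W) :=
    fun χ => ⨅ i, (f i).maxGenEigenspace (χ i) with hp
  have hmem : ∀ x, p (c x) ≠ ⊥ := by
    intro x h
    have h1 : (σ x : Module.End ℂ W) ∈ p (c x) := by
      rw [hp]
      simp only [Submodule.mem_iInf]
      intro y
      apply Module.End.eigenspace_le_maxGenEigenspace
      rw [Module.End.mem_eigenspace_iff, hf, ← mul_assoc, hc, smul_mul_assoc, mul_assoc,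
        Units.mul_inv, mul_one]
    rw [h] at h1
    exact (σ x).ne_zero ((Submodule.mem_bot ℂ).mp h1)
  let _ := hindep.fintypeNeBotOfFiniteDimensional
  have hcount := hindep.subtype_ne_bot_le_finrank
  have hfin : finrank ℂ (Module.End ℂ W) = (finrank ℂ W) ^ 2 := by
    rw [Module.finrank_linearMap, pow_two]
  rw [hfin] at hcount
  have h2 : Fintype.card ι ≤ Fintype.card {χ // p χ ≠ ⊥} := by
    apply Fintype.card_le_of_injective (fun x => (⟨c x, hmem x⟩ : {χ // p χ ≠ ⊥}))
    intro a b hab
    exact hinj (congrArg Subtype.val hab)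
  exact h2.trans hcount

end Cfsg.Agent.Lib.Helper39.LSRep
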