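-- The generic Landazuri–Seitz argument: an abelian subgroup parametrised by Hermitian matrices,
-- normalised by a "Levi" family acting by congruence, forces a large degree.
import Mathlib
import Cfsg.Agent.Lib.Helper39.LSRep
import Cfsg.Agent.Lib.Helper39.LSChar

set_option autoImplicit false

namespace Cfsg.Agent.Lib.Helper39.LSCore

open Module Matrix
open Cfsg.Agent.Lib.Helper65.RepBound Cfsg.Agent.Lib.Helper39.LSRep
  Cfsg.Agent.Lib.Helper40.HermAdj Cfsg.Agent.Lib.Helper39.LSHerm Cfsg.Agent.Lib.Helper39.LSChar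

theorem core {F : Type*} [Field F] [Fintype F] [DecidableEq F] {m q : ℕ} (φ : F →+* F)
    (hφ : ∀ x, φ x = x ^ q) (hφ2 : ∀ x, φ (φ x) = x) (hF : Fintype.card F = q ^ 2)
    (l : F) (hl : φ l ≠ l) (ψ : AddChar F ℂ) (hψ : ψ 1 ≠ 1)
    {G V : Type*} [Group G] [AddCommGroup V] [Module ℂ V] [FiniteDimensional ℂ V]
    (ρ : G →* Module.End ℂ V) (zz : Hm φ m → G) (hzz : ∀ H H', zz (H + H') = zz H * zz H')
    (H₀ : Hm φ m) (hH₀ : ρ (zz H₀) ≠ 1)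
    (P : Matrix (Fin m) (Fin m) F → Prop)
    (hPu : ∀ A, P A → IsUnit A.det)
    (htrans : ∀ v w : Fin m → F, v ≠ 0 → w ≠ 0 → ∃ A, P A ∧ A *ᵥ v = w)
    (htv : ∀ v a : Fin m → F, a ⬝ᵥ v = 0 → P (tv v a))
    (hconj : ∀ A, P A → ∃ g : G, ∀ H : Hm φ m,
      g * zz H * g⁻¹ = zz ⟨A * H.1 * adj φ A, conj_mem φ hφ2 A H⟩)
    (d : ℕ) (hd : ∀ T, adj φ T = T → T ≠ 0 → ceig ρ zz (eT φ ψ T) ≠ ⊥ →
      d ≤ finrank ℂ (ceig ρ zz (eT φ ψ T))) :
    (q ^ (2 * m) - 1) * d ≤ (q + 1) * finrank ℂ V := by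
  classical
  have hcomm : ∀ b b', zz b * zz b' = zz b' * zz b := by
    intro b b'
    rw [← hzz, ← hzz, add_comm]
  obtain ⟨χ, hχm, hχ0, hχ1, hχbot⟩ := exists_ceig' ρ zz hzz H₀ hH₀
  obtain ⟨T₀, hT₀, rfl⟩ := eT_surj φ hφ2 l hl ψ hψ χ hχm hχ0
  have hT₀0 : T₀ ≠ 0 := by
    rintro rfl
    exact hχ1 (eT_matrix_zero φ ψ H₀)
  set O : Finset (Matrix (Fin m) (Fin m) F) := Finset.univ.filter
    (fun T => adj φ T = T ∧ T ≠ 0 ∧ ceig ρ zz (eT φ ψ T) ≠ ⊥) with hO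
  have hmemO : ∀ T, T ∈ O ↔ (adj φ T = T ∧ T ≠ 0 ∧ ceig ρ zz (eT φ ψ T) ≠ ⊥) := by
    intro T
    rw [hO, Finset.mem_filter]
    simp
  have hne : O.Nonempty := ⟨T₀, (hmemO T₀).mpr ⟨hT₀, hT₀0, hχbot⟩⟩
  have hcl : ∀ T ∈ O, ∀ A, P A → adj φ A * T * A ∈ O := by
    intro T hT A hA
    obtain ⟨h1, h2, h3⟩ := (hmemO T).mp hT
    rw [hmemO]
    refine ⟨?_, ?_, ?_⟩
    · rw [adj_mul, adj_mul, adj_adj φ hφ2, h1, mul_assoc]
    · intro h0
      apply h2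
      have hu := hPu A hA
      have e1 : A * A⁻¹ = 1 := Matrix.mul_nonsing_inv A hu
      have e2 : adj φ A⁻¹ * adj φ A = 1 := by rw [← adj_mul, e1, adj_one]
      calc T = (adj φ A⁻¹ * adj φ A) * T * (A * A⁻¹) := by rw [e1, e2, one_mul, mul_one]
        _ = adj φ A⁻¹ * (adj φ A * T * A) * A⁻¹ := by simp only [mul_assoc]
        _ = 0 := by rw [h0, mul_zero, zero_mul]
    · obtain ⟨g, hg⟩ := hconj A hA
      have hle := finrank_ceig_conj_le ρ zz g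
        (fun H => ⟨A * H.1 * adj φ A, conj_mem φ hφ2 A H⟩) hg (eT φ ψ T)
      have e : (fun b : Hm φ m => eT φ ψ T ⟨A * b.1 * adj φ A, conj_mem φ hφ2 A b⟩) =
          eT φ ψ (adj φ A * T * A) := by
        funext b
        exact eT_conj φ ψ T A b _
      rw [e] at hle
      intro hbot
      rw [hbot, finrank_bot] at hle
      exact h3 (Submodule.finrank_eq_zero.mp (Nat.le_zero.mp hle))
  have hcount := card_orbit_ge φ hφ hφ2 hF l hl P htrans htv O hne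
    (fun T hT => ⟨((hmemO T).mp hT).1, ((hmemO T).mp hT).2.1⟩) hcl
  have hsum := sum_finrank_ceig_le ρ zz hcomm O (fun T => eT φ ψ T) (by
    intro T hT T' hT' h
    exact eT_injective φ hφ2 l hl ψ hψ T T' ((hmemO T).mp hT).1 ((hmemO T').mp hT').1 h)
  have hge : O.card * d ≤ ∑ T ∈ O, finrank ℂ (ceig ρ zz (eT φ ψ T)) := by
    rw [← smul_eq_mul, ← Finset.sum_const]
    apply Finset.sum_le_sum
    intro T hT
    obtain ⟨h1, h2, h3⟩ := (hmemO T).mp hT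
    exact hd T h1 h2 h3
  calc (q ^ (2 * m) - 1) * d ≤ ((q + 1) * O.card) * d := Nat.mul_le_mul_right _ hcount
    _ = (q + 1) * (O.card * d) := by ring
    _ ≤ (q + 1) * finrank ℂ V := Nat.mul_le_mul_left _ (hge.trans hsum)

end Cfsg.Agent.Lib.Helper39.LSCore
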