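-- Special unitary groups: elements from unitary matrices of determinant one, and non-scalar
-- elements act non-trivially in irreducible representations of degree at least two.
import Mathlib
import Cfsg.Prelude.Def_Classical
import Cfsg.Agent.Lib.Helper5.SUBasic
import Cfsg.Agent.Lib.Helper40.HermAdj
import Cfsg.Agent.S0283
import Cfsg.Agent.S0780
import Cfsg.Agent.S0781

set_option autoImplicit false

namespace Cfsg.Agent.Lib.Helper39.LSSU

open Matrix Module
open Cfsg.Agent.Lib.Helper40.HermAdj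

variable {F : Type*} [Field F]

/-- an element of `SU_n` from a unitary matrix of determinant one -/
def mkSU {n q : ℕ} (φ : F →+* F) (hφ : ∀ x, φ x = x ^ q) (M : Matrix (Fin n) (Fin n) F)
    (hdet : M.det = 1) (hM : adj φ M * M = 1) : Cfsg.SU n F q :=
  ⟨⟨M, hdet⟩, (Cfsg.Agent.Lib.Helper5.SUBasic.mem_SU_iff _).mpr ((preserves_iff φ hφ M).mpr hM)⟩

theorem mkSU_val {n q : ℕ} (φ : F →+* F) (hφ : ∀ x, φ x = x ^ q) (M : Matrix (Fin n) (Fin n) F)
    (hdet : M.det = 1) (hM : adj φ M * M = 1) :
    ((mkSU φ hφ M hdet hM : Cfsg.SU n F q) : Matrix.SpecialLinearGroup (Fin n) F).1 = M := rfl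

theorem SU_ext {n q : ℕ} {g h : Cfsg.SU n F q}
    (e : (g : Matrix.SpecialLinearGroup (Fin n) F).1 = (h : Matrix.SpecialLinearGroup (Fin n) F).1) :
    g = h := Subtype.ext (Subtype.ext e)

theorem SU_mul_val {n q : ℕ} (g h : Cfsg.SU n F q) :
    ((g * h : Cfsg.SU n F q) : Matrix.SpecialLinearGroup (Fin n) F).1 =
      (g : Matrix.SpecialLinearGroup (Fin n) F).1 * (h : Matrix.SpecialLinearGroup (Fin n) F).1 :=
  rfl

/-- a non-scalar element of `SU_n(q)` acts non-trivially in every irreducible complex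
representation of degree at least two -/
theorem rho_ne_one [Fintype F] {q n : ℕ} (hF : Fintype.card F = q ^ 2) (hn : 3 ≤ n)
    (h32 : ¬ (n = 3 ∧ q = 2)) {k : ℕ} (ρ : Representation ℂ (Cfsg.SU n F q) (Fin k → ℂ))
    (hirr : ρ.IsIrreducible) (hk : 2 ≤ k) (g : Cfsg.SU n F q)
    (hg : ∀ c : F, (g : Matrix.SpecialLinearGroup (Fin n) F).1 ≠
      c • (1 : Matrix (Fin n) (Fin n) F)) : ρ g ≠ 1 := by
  classical
  intro h
  have hq2 : 2 ≤ q := by
    have h1 : 1 < Fintype.card F := Fintype.one_lt_card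
    rw [hF] at h1
    by_contra hlt
    have : q = 0 ∨ q = 1 := by omega
    rcases this with rfl | rfl <;> simp at h1
  have hn' : 4 ≤ n ∨ (n = 3 ∧ 3 ≤ q) := by
    by_cases h4 : 4 ≤ n
    · exact Or.inl h4
    · right
      have h3 : n = 3 := by omega
      refine ⟨h3, ?_⟩
      by_contra hlt
      exact h32 ⟨h3, by omega⟩
  have hsimple : IsSimpleGroup (Cfsg.PSU n F q) := Cfsg.Agent.S0283.result hF n hn h32
  set N : Subgroup (Cfsg.SU n F q) := MonoidHom.ker ρ with hN
  have hgN : g ∈ N := h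
  have hNn : N.Normal := MonoidHom.normal_ker ρ
  set π := QuotientGroup.mk' (Subgroup.center (Cfsg.SU n F q)) with hπ
  have hmapn : (N.map π).Normal :=
    Subgroup.Normal.map hNn π (QuotientGroup.mk'_surjective _)
  rcases hmapn.eq_bot_or_eq_top with hbot | htop
  · have h1 : π g ∈ N.map π := Subgroup.mem_map_of_mem π hgN
    rw [hbot, Subgroup.mem_bot] at h1
    have hgc : g ∈ Subgroup.center (Cfsg.SU n F q) := (QuotientGroup.eq_one_iff g).mp h1
    rw [Subgroup.mem_center_iff] at hgc
    obtain ⟨c, hc⟩ := Cfsg.Agent.Lib.Helper5.SUBasic.center_scalar hF hn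
      (g : Matrix.SpecialLinearGroup (Fin n) F) (by
        intro x hx
        exact congrArg Subtype.val (hgc ⟨x, hx⟩))
    apply hg c
    rw [hc]
    ext i j
    simp [Matrix.diagonal_apply, Matrix.one_apply]
  · have hdec : ∀ x : Cfsg.SU n F q, ∃ y ∈ N, ∃ z ∈ Subgroup.center (Cfsg.SU n F q),
        x = y * z := by
      intro x
      have h1 : π x ∈ N.map π := by
        rw [htop]
        trivial
      obtain ⟨y, hy, hyx⟩ := Subgroup.mem_map.mp h1
      refine ⟨y, hy, y⁻¹ * x, ?_, by group⟩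
      have h2 : π (y⁻¹ * x) = 1 := by rw [map_mul, map_inv, hyx, inv_mul_cancel]
      exact (QuotientGroup.eq_one_iff _).mp h2
    have hab : ∀ x x' : Cfsg.SU n F q, ρ (x * x') = ρ (x' * x) := by
      intro x x'
      obtain ⟨y, hy, z, hz, rfl⟩ := hdec x
      obtain ⟨y', hy', z', hz', rfl⟩ := hdec x'
      have e1 : ρ y = 1 := hy
      have e2 : ρ y' = 1 := hy'
      rw [map_mul, map_mul, map_mul, map_mul, map_mul, map_mul, e1, e2, one_mul, one_mul,
        ← map_mul, ← map_mul]
      congr 1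
      exact (Subgroup.mem_center_iff.mp hz z').symm
    have hcomm : ∀ x ∈ commutatorSet (Cfsg.SU n F q), ρ x = 1 := by
      rintro _ ⟨a, b, rfl⟩
      rw [commutatorElement_def]
      have e : a * b * a⁻¹ * b⁻¹ = (a * b) * (b * a)⁻¹ := by group
      rw [e, map_mul, hab a b, ← map_mul, mul_inv_cancel, map_one]
    have hle : Subgroup.closure {A : ↥(Cfsg.SU n F q) | ∃ (v : Fin n → F) (c : F),
        Cfsg.hermForm n F q v v = 0 ∧
        ((A : Matrix.SpecialLinearGroup (Fin n) F) : Matrix (Fin n) (Fin n) F) =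
          Cfsg.unitaryTransvection n q v c} ≤ N := by
      rw [Subgroup.closure_le]
      rintro A ⟨v, c, hv, hA⟩
      exact hcomm A (Cfsg.Agent.S0781.result hF n hn' A v c hv hA)
    rw [Cfsg.Agent.S0780.result hF n hn h32] at hle
    have htriv : ∀ x, ρ x = 1 := fun x => hle (Subgroup.mem_top x)
    let v : Fin k → ℂ := Pi.single ⟨0, by omega⟩ 1
    have hv : v ≠ 0 := by
      intro h0
      have := congrFun h0 ⟨0, by omega⟩
      simp [v] at this
    let W : Subrepresentation ρ := ⟨Submodule.span ℂ {v}, by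
      intro x w hw
      rw [htriv x]
      exact hw⟩
    rcases eq_bot_or_eq_top W with hW | hW
    · have h1 : v ∈ W.toSubmodule := Submodule.subset_span rfl
      rw [hW] at h1
      exact hv ((Submodule.mem_bot ℂ).mp h1)
    · have h1 : W.toSubmodule = ⊤ := by
        rw [hW]
        rfl
      have h2 : finrank ℂ (Submodule.span ℂ {v}) = 1 := finrank_span_singleton hv
      have h3 : Submodule.span ℂ {v} = ⊤ := h1
      rw [h3, finrank_top, Module.finrank_fin_fun] at h2
      omega

end Cfsg.Agent.Lib.Helper39.LSSU
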