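-- Isotropic frames in the standard unitary space and the attached unitary matrices:
-- the abelian unipotent radical `z S = 1 + P S Pᴴ`, Levi elements, and Heisenberg elements.
import Mathlib
import Cfsg.Agent.Lib.Helper40.HermAdj

set_option autoImplicit false

namespace Cfsg.Agent.Lib.Helper39.LSFrame

open Matrix
open Cfsg.Agent.Lib.Helper40.HermAdj

variable {F : Type*} [Field F] (φ : F →+* F)

section cj
variable {α β γ : Type*}

/-- conjugate transpose of a rectangular matrix -/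
def cj (M : Matrix α β F) : Matrix β α F := (M.map φ)ᵀ

theorem cj_apply (M : Matrix α β F) (i : β) (j : α) : cj φ M i j = φ (M j i) := rfl

theorem cj_mul [Fintype β] (M : Matrix α β F) (N : Matrix β γ F) :
    cj φ (M * N) = cj φ N * cj φ M := by
  unfold cj
  rw [Matrix.map_mul, Matrix.transpose_mul]

theorem cj_add (M N : Matrix α β F) : cj φ (M + N) = cj φ M + cj φ N := by
  ext i j
  simp [cj_apply]

theorem cj_sub (M N : Matrix α β F) : cj φ (M - N) = cj φ M - cj φ N := by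
  ext i j
  simp [cj_apply]

theorem cj_neg (M : Matrix α β F) : cj φ (-M) = -cj φ M := by
  ext i j
  simp [cj_apply]

theorem cj_smul (c : F) (M : Matrix α β F) : cj φ (c • M) = φ c • cj φ M := by
  ext i j
  simp [cj_apply]

theorem cj_zero : cj φ (0 : Matrix α β F) = 0 := by
  ext i j
  simp [cj_apply]

theorem cj_one [DecidableEq α] : cj φ (1 : Matrix α α F) = 1 := by
  ext i j
  rw [cj_apply, Matrix.one_apply, Matrix.one_apply]
  by_cases h : i = j
  · rw [if_pos h, if_pos h.symm, map_one]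
  · rw [if_neg h, if_neg (fun h' => h h'.symm), map_zero]

theorem cj_cj (hφ2 : ∀ x, φ (φ x) = x) (M : Matrix α β F) : cj φ (cj φ M) = M := by
  ext i j
  rw [cj_apply, cj_apply, hφ2]

theorem det_cj [Fintype α] [DecidableEq α] (M : Matrix α α F) : (cj φ M).det = φ M.det := by
  unfold cj
  rw [Matrix.det_transpose]
  exact (RingHom.map_det φ M).symm

theorem adj_eq_cj [Fintype α] [DecidableEq α] (M : Matrix α α F) : adj φ M = cj φ M := rfl

end cj

/-- a pair of dual totally isotropic frames -/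
structure Frame (n m : ℕ) where
  P : Matrix (Fin n) (Fin m) F
  Q : Matrix (Fin n) (Fin m) F
  PP : cj φ P * P = 0
  QQ : cj φ Q * Q = 0
  QP : cj φ Q * P = 1
  PQ : cj φ P * Q = 1

namespace Frame

variable {φ} {n m : ℕ} (fr : Frame φ n m)

theorem PP' {β : Type*} (X : Matrix (Fin m) β F) : cj φ fr.P * (fr.P * X) = 0 := by
  rw [← Matrix.mul_assoc, fr.PP, Matrix.zero_mul]

theorem QQ' {β : Type*} (X : Matrix (Fin m) β F) : cj φ fr.Q * (fr.Q * X) = 0 := by
  rw [← Matrix.mul_assoc, fr.QQ, Matrix.zero_mul]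

theorem QP' {β : Type*} (X : Matrix (Fin m) β F) : cj φ fr.Q * (fr.P * X) = X := by
  rw [← Matrix.mul_assoc, fr.QP, Matrix.one_mul]

theorem PQ' {β : Type*} (X : Matrix (Fin m) β F) : cj φ fr.P * (fr.Q * X) = X := by
  rw [← Matrix.mul_assoc, fr.PQ, Matrix.one_mul]

/-- the elements of the abelian unipotent radical -/
def z (S : Matrix (Fin m) (Fin m) F) : Matrix (Fin n) (Fin n) F := 1 + fr.P * S * cj φ fr.P

theorem z_mul (S S' : Matrix (Fin m) (Fin m) F) : fr.z S * fr.z S' = fr.z (S + S') := by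
  unfold z
  simp only [Matrix.mul_add, Matrix.add_mul, Matrix.mul_one, Matrix.one_mul, Matrix.mul_assoc,
    fr.PP', Matrix.mul_zero, add_zero]
  abel

theorem z_zero : fr.z 0 = 1 := by
  unfold z
  rw [Matrix.mul_zero, Matrix.zero_mul, add_zero]

theorem z_cj (hφ2 : ∀ x, φ (φ x) = x) (S : Matrix (Fin m) (Fin m) F) :
    cj φ (fr.z S) = fr.z (cj φ S) := by
  unfold z
  rw [cj_add, cj_one, cj_mul, cj_mul, cj_cj φ hφ2, Matrix.mul_assoc]

theorem z_unitary (hφ2 : ∀ x, φ (φ x) = x) (S : Matrix (Fin m) (Fin m) F) (hS : cj φ S = -S) :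
    adj φ (fr.z S) * fr.z S = 1 := by
  rw [adj_eq_cj, z_cj fr hφ2, hS, z_mul, neg_add_cancel, z_zero]

theorem z_det (S : Matrix (Fin m) (Fin m) F) : (fr.z S).det = 1 := by
  unfold z
  rw [Matrix.det_one_add_mul_comm, fr.PP', add_zero, Matrix.det_one]

theorem z_recover (S : Matrix (Fin m) (Fin m) F) :
    cj φ fr.Q * (fr.z S - 1) * fr.Q = S := by
  unfold z
  rw [add_sub_cancel_left]
  simp only [Matrix.mul_assoc, fr.PQ, fr.QP', Matrix.mul_one]

/-- the Levi elements -/
def lv (A B : Matrix (Fin m) (Fin m) F) : Matrix (Fin n) (Fin n) F :=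
  1 + fr.P * (A - 1) * cj φ fr.Q + fr.Q * (B - 1) * cj φ fr.P

theorem lv_one : fr.lv 1 1 = 1 := by
  unfold lv
  simp

theorem lv_mul (A B A' B' : Matrix (Fin m) (Fin m) F) :
    fr.lv A B * fr.lv A' B' = fr.lv (A * A') (B * B') := by
  unfold lv
  simp only [Matrix.mul_add, Matrix.add_mul, Matrix.mul_sub, Matrix.sub_mul, Matrix.mul_one,
    Matrix.one_mul, Matrix.mul_assoc, fr.PP', fr.QQ', fr.QP', fr.PQ', Matrix.mul_zero, add_zero,
    sub_zero]
  abel

theorem lv_cj (hφ2 : ∀ x, φ (φ x) = x) (A B : Matrix (Fin m) (Fin m) F) :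
    cj φ (fr.lv A B) = fr.lv (cj φ B) (cj φ A) := by
  unfold lv
  simp only [cj_add, cj_sub, cj_one, cj_mul, cj_cj φ hφ2, Matrix.mul_assoc]
  abel

theorem lv_unitary (hφ2 : ∀ x, φ (φ x) = x) (A B : Matrix (Fin m) (Fin m) F)
    (h : cj φ A * B = 1) : adj φ (fr.lv A B) * fr.lv A B = 1 := by
  have h' : cj φ B * A = 1 := by
    have := congrArg (cj φ) h
    rw [cj_mul, cj_cj φ hφ2, cj_one] at this
    exact this
  rw [adj_eq_cj, lv_cj fr hφ2, lv_mul, h, h', lv_one]

theorem lv_det (A B : Matrix (Fin m) (Fin m) F) : (fr.lv A B).det = A.det * B.det := by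
  have e : fr.lv A B = (1 + fr.P * (A - 1) * cj φ fr.Q) * (1 + fr.Q * (B - 1) * cj φ fr.P) := by
    unfold lv
    simp only [Matrix.mul_add, Matrix.add_mul, Matrix.mul_sub, Matrix.sub_mul, Matrix.mul_one,
      Matrix.one_mul, Matrix.mul_assoc, fr.QQ', Matrix.mul_zero, add_zero, sub_zero]
  rw [e, Matrix.det_mul, Matrix.det_one_add_mul_comm (fr.P * (A - 1)) (cj φ fr.Q),
    Matrix.det_one_add_mul_comm (fr.Q * (B - 1)) (cj φ fr.P), fr.QP',
    fr.PQ', add_sub_cancel, add_sub_cancel]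

theorem lv_z (A B S : Matrix (Fin m) (Fin m) F) (h : cj φ A * B = 1) :
    fr.lv A B * fr.z S = fr.z (A * S * cj φ A) * fr.lv A B := by
  have h' : ∀ X : Matrix (Fin m) (Fin n) F, cj φ A * (B * X) = X := by
    intro X
    rw [← Matrix.mul_assoc, h, Matrix.one_mul]
  unfold lv z
  simp only [Matrix.mul_add, Matrix.add_mul, Matrix.mul_sub, Matrix.sub_mul, Matrix.mul_one,
    Matrix.one_mul, Matrix.mul_assoc, fr.PP', fr.QP', fr.PQ', Matrix.mul_zero, add_zero,
    sub_zero, h']
  abel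

end Frame

end Cfsg.Agent.Lib.Helper39.LSFrame
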