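-- Isotropic frames with an extra orthogonal vector of norm one (odd-dimensional unitary spaces):
-- torus elements and the Heisenberg elements of the unipotent radical.
import Mathlib
import Cfsg.Agent.Lib.Helper39.LSFrame

set_option autoImplicit false

namespace Cfsg.Agent.Lib.Helper39.LSHeis

open Matrix
open Cfsg.Agent.Lib.Helper40.HermAdj Cfsg.Agent.Lib.Helper39.LSFrame

variable {F : Type*} [Field F] (φ : F →+* F)

/-- a dual pair of isotropic frames together with an orthogonal vector of norm one -/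
structure Frame1 (n m : ℕ) extends Frame φ n m where
  D : Matrix (Fin n) (Fin 1) F
  DD : cj φ D * D = 1
  DP : cj φ D * P = 0
  DQ : cj φ D * Q = 0
  PD : cj φ P * D = 0
  QD : cj φ Q * D = 0

namespace Frame1

variable {φ} {n m : ℕ} (fr : Frame1 φ n m)

theorem DD' {β : Type*} (X : Matrix (Fin 1) β F) : cj φ fr.D * (fr.D * X) = X := by
  rw [← Matrix.mul_assoc, fr.DD, Matrix.one_mul]

theorem DP' {β : Type*} (X : Matrix (Fin m) β F) : cj φ fr.D * (fr.P * X) = 0 := by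
  rw [← Matrix.mul_assoc, fr.DP, Matrix.zero_mul]

theorem DQ' {β : Type*} (X : Matrix (Fin m) β F) : cj φ fr.D * (fr.Q * X) = 0 := by
  rw [← Matrix.mul_assoc, fr.DQ, Matrix.zero_mul]

theorem PD' {β : Type*} (X : Matrix (Fin 1) β F) : cj φ fr.P * (fr.D * X) = 0 := by
  rw [← Matrix.mul_assoc, fr.PD, Matrix.zero_mul]

theorem QD' {β : Type*} (X : Matrix (Fin 1) β F) : cj φ fr.Q * (fr.D * X) = 0 := by
  rw [← Matrix.mul_assoc, fr.QD, Matrix.zero_mul]

/-- the torus element acting on the extra vector -/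
def td (δ : F) : Matrix (Fin n) (Fin n) F := 1 + (δ - 1) • (fr.D * cj φ fr.D)

theorem td_unitary (hφ2 : ∀ x, φ (φ x) = x) (δ : F) (hδ : δ * φ δ = 1) :
    adj φ (fr.td δ) * fr.td δ = 1 := by
  have hX : (fr.D * cj φ fr.D) * (fr.D * cj φ fr.D) = fr.D * cj φ fr.D := by
    simp only [Matrix.mul_assoc, fr.DD']
  rw [adj_eq_cj]
  unfold td
  rw [cj_add, cj_one, cj_smul, cj_mul, cj_cj φ hφ2, map_sub, map_one]
  rw [Matrix.add_mul, Matrix.mul_add, Matrix.mul_add, Matrix.one_mul, Matrix.mul_one,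
    Matrix.one_mul, Matrix.smul_mul, Matrix.mul_smul, hX, smul_smul]
  have h0 : δ - 1 + (φ δ - 1 + (φ δ - 1) * (δ - 1)) = 0 := by linear_combination hδ
  rw [add_assoc, ← add_smul, ← add_smul, h0, zero_smul, add_zero]

theorem td_det (δ : F) : (fr.td δ).det = δ := by
  unfold td
  have e : (δ - 1) • (fr.D * cj φ fr.D) = ((δ - 1) • fr.D) * cj φ fr.D := by
    rw [Matrix.smul_mul]
  rw [e, Matrix.det_one_add_mul_comm, Matrix.mul_smul, fr.DD]
  have e2 : (1 : Matrix (Fin 1) (Fin 1) F) + (δ - 1) • (1 : Matrix (Fin 1) (Fin 1) F) =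
      δ • (1 : Matrix (Fin 1) (Fin 1) F) := by
    rw [sub_smul, one_smul]
    abel
  rw [e2, Matrix.det_smul, Matrix.det_one, Fintype.card_fin, pow_one, mul_one]

theorem td_z (δ : F) (S : Matrix (Fin m) (Fin m) F) :
    fr.td δ * fr.z S = fr.z S * fr.td δ := by
  unfold td Frame.z
  simp only [Matrix.mul_add, Matrix.add_mul, Matrix.mul_one, Matrix.one_mul, Matrix.smul_mul,
    Matrix.mul_smul, Matrix.mul_assoc, fr.DP', fr.PD', Matrix.mul_zero, smul_zero, add_zero]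
  abel

/-- the Heisenberg elements -/
def xh (W : Matrix (Fin 1) (Fin m) F) (Y : Matrix (Fin m) (Fin m) F) :
    Matrix (Fin n) (Fin n) F :=
  1 + fr.D * W * cj φ fr.P - fr.P * cj φ W * cj φ fr.D + fr.P * Y * cj φ fr.P

theorem xh_mul (W W' : Matrix (Fin 1) (Fin m) F) (Y Y' : Matrix (Fin m) (Fin m) F) :
    fr.xh W Y * fr.xh W' Y' = fr.xh (W + W') (Y + Y' - cj φ W * W') := by
  unfold xh
  simp only [cj_add, Matrix.mul_add, Matrix.add_mul, Matrix.mul_sub, Matrix.sub_mul,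
    Matrix.mul_one, Matrix.one_mul, Matrix.mul_assoc, fr.PP', fr.DD', fr.DP', fr.PD',
    Matrix.mul_zero, add_zero, sub_zero, zero_sub]
  abel

theorem xh_zero (S : Matrix (Fin m) (Fin m) F) : fr.xh 0 S = fr.z S := by
  unfold xh Frame.z
  simp [cj_zero]

theorem xh_cj (hφ2 : ∀ x, φ (φ x) = x) (W : Matrix (Fin 1) (Fin m) F)
    (Y : Matrix (Fin m) (Fin m) F) : cj φ (fr.xh W Y) = fr.xh (-W) (cj φ Y) := by
  unfold xh
  simp only [cj_add, cj_sub, cj_one, cj_mul, cj_cj φ hφ2, cj_neg, Matrix.mul_assoc,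
    Matrix.neg_mul, Matrix.mul_neg]
  abel

theorem xh_unitary (hφ2 : ∀ x, φ (φ x) = x) (W : Matrix (Fin 1) (Fin m) F)
    (Y : Matrix (Fin m) (Fin m) F) (h : Y + cj φ Y = -(cj φ W * W)) :
    adj φ (fr.xh W Y) * fr.xh W Y = 1 := by
  rw [adj_eq_cj, xh_cj fr hφ2, xh_mul, cj_neg, Matrix.neg_mul, sub_neg_eq_add, neg_add_cancel]
  have e : cj φ Y + Y + cj φ W * W = 0 := by
    rw [add_comm (cj φ Y), h, neg_add_cancel]
  rw [e, xh_zero, Frame.z_zero]

theorem xh_det (W : Matrix (Fin 1) (Fin m) F) (Y : Matrix (Fin m) (Fin m) F) :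
    (fr.xh W Y).det = 1 := by
  have e : fr.xh W Y = fr.z Y * ((1 + fr.D * (W * cj φ fr.P)) *
      (1 - fr.P * (cj φ W * cj φ fr.D))) := by
    unfold xh Frame.z
    simp only [Matrix.mul_add, Matrix.add_mul, Matrix.mul_sub, Matrix.sub_mul, Matrix.mul_one,
      Matrix.one_mul, Matrix.mul_assoc, fr.PP', fr.PD', Matrix.mul_zero, add_zero, sub_zero]
    abel
  rw [e, Matrix.det_mul, Matrix.det_mul, Frame.z_det, Matrix.det_one_add_mul_comm,
    Matrix.det_one_sub_mul_comm]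
  simp only [Matrix.mul_assoc, fr.PD, fr.DP, Matrix.mul_zero, add_zero, sub_zero, Matrix.det_one,
    mul_one]

theorem xh_comm (W W' : Matrix (Fin 1) (Fin m) F) (Y Y' : Matrix (Fin m) (Fin m) F) :
    fr.xh W Y * fr.xh W' Y' =
      fr.z (cj φ W' * W - cj φ W * W') * (fr.xh W' Y' * fr.xh W Y) := by
  rw [xh_mul, xh_mul, ← xh_zero, xh_mul, cj_zero, Matrix.zero_mul]
  congr 1 <;> abel

theorem z_xh (S : Matrix (Fin m) (Fin m) F) (W : Matrix (Fin 1) (Fin m) F)
    (Y : Matrix (Fin m) (Fin m) F) : fr.z S * fr.xh W Y = fr.xh W Y * fr.z S := by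
  rw [← xh_zero, xh_mul, xh_mul, cj_zero, Matrix.zero_mul, Matrix.mul_zero]
  congr 1 <;> abel

end Frame1

end Cfsg.Agent.Lib.Helper39.LSHeis
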