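-- Explicit isotropic frames in the standard unitary space `F^n` with form `Σ x_i φ(y_i)`.
import Mathlib
import Cfsg.Agent.Lib.Helper39.LSHeis
import Cfsg.Agent.Lib.Helper40.NormSurj
import Cfsg.Agent.Lib.Helper40.HermDiag

set_option autoImplicit false

namespace Cfsg.Agent.Lib.Helper39.LSStd

open Matrix
open Cfsg.Agent.Lib.Helper40.HermAdj Cfsg.Agent.Lib.Helper39.LSFrame
  Cfsg.Agent.Lib.Helper39.LSHeis

variable {F : Type*} [Field F] (φ : F →+* F)

/-- the `n × m` matrix with entries `a` at `(2i, i)` and `b` at `(2i+1, i)` -/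
def sp (n m : ℕ) (a b : F) : Matrix (Fin n) (Fin m) F :=
  fun k i => if (k : ℕ) = 2 * (i : ℕ) then a else if (k : ℕ) = 2 * (i : ℕ) + 1 then b else 0

/-- the column vector `e_{2m}` -/
def dcol (n m : ℕ) : Matrix (Fin n) (Fin 1) F :=
  fun k _ => if (k : ℕ) = 2 * m then 1 else 0

theorem cj_sp_mul_sp {n m : ℕ} (h : 2 * m ≤ n) (a b c d : F) :
    cj φ (sp n m a b) * sp n m c d = (φ a * c + φ b * d) • (1 : Matrix (Fin m) (Fin m) F) := by
  ext i j
  rw [Matrix.mul_apply, Matrix.smul_apply, Matrix.one_apply, smul_eq_mul]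
  by_cases hij : i = j
  · subst hij
    rw [if_pos rfl, mul_one]
    have hi := i.2
    rw [Finset.sum_eq_add (⟨2 * i, by omega⟩ : Fin n) ⟨2 * i + 1, by omega⟩]
    · simp [cj_apply, sp]
    · intro h'
      simpa using congrArg Fin.val h'
    · intro k _ hk
      have h1 : (k : ℕ) ≠ 2 * i := fun h' => hk.1 (Fin.ext h')
      have h2 : (k : ℕ) ≠ 2 * i + 1 := fun h' => hk.2 (Fin.ext h')
      simp [cj_apply, sp, h1, h2]
    · intro h'
      exact absurd (Finset.mem_univ _) h'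
    · intro h'
      exact absurd (Finset.mem_univ _) h'
  · rw [if_neg hij, mul_zero]
    apply Finset.sum_eq_zero
    intro k _
    rw [cj_apply]
    unfold sp
    have hne : (i : ℕ) ≠ j := fun h' => hij (Fin.ext h')
    by_cases h1 : (k : ℕ) = 2 * i
    · have h3 : (k : ℕ) ≠ 2 * j := by omega
      have h4 : (k : ℕ) ≠ 2 * j + 1 := by omega
      simp [h3, h4]
    · by_cases h2 : (k : ℕ) = 2 * i + 1
      · have h3 : (k : ℕ) ≠ 2 * j := by omega
        have h4 : (k : ℕ) ≠ 2 * j + 1 := by omega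
        simp [h3, h4]
      · simp [h1, h2]

theorem cj_dcol_mul_sp (n m : ℕ) (a b : F) :
    cj φ (dcol (F := F) n m) * sp n m a b = 0 := by
  ext i j
  rw [Matrix.mul_apply, Matrix.zero_apply]
  apply Finset.sum_eq_zero
  intro k _
  rw [cj_apply]
  unfold sp dcol
  have hj := j.2
  by_cases h1 : (k : ℕ) = 2 * m
  · have h3 : (k : ℕ) ≠ 2 * j := by omega
    have h4 : (k : ℕ) ≠ 2 * j + 1 := by omega
    simp [h3, h4]
  · simp [h1]

theorem cj_sp_mul_dcol (n m : ℕ) (a b : F) :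
    cj φ (sp n m a b) * dcol (F := F) n m = 0 := by
  ext i j
  rw [Matrix.mul_apply, Matrix.zero_apply]
  apply Finset.sum_eq_zero
  intro k _
  rw [cj_apply]
  unfold sp dcol
  have hi := i.2
  by_cases h1 : (k : ℕ) = 2 * m
  · have h3 : (k : ℕ) ≠ 2 * i := by omega
    have h4 : (k : ℕ) ≠ 2 * i + 1 := by omega
    simp [h3, h4]
  · simp [h1]

theorem cj_dcol_mul_dcol (n m : ℕ) (h : 2 * m < n) :
    cj φ (dcol (F := F) n m) * dcol (F := F) n m = 1 := by
  ext i j
  rw [Matrix.mul_apply, Matrix.one_apply, if_pos (Subsingleton.elim i j)]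
  rw [Finset.sum_eq_single (⟨2 * m, h⟩ : Fin n)]
  · simp [cj_apply, dcol]
  · intro k _ hk
    have h1 : (k : ℕ) ≠ 2 * m := fun h' => hk (Fin.ext h')
    simp [cj_apply, dcol, h1]
  · intro h'
    exact absurd (Finset.mem_univ _) h'

/-- existence of the auxiliary scalars -/
theorem exists_scalars [Finite F] (hφ2 : ∀ x, φ (φ x) = x) (l : F) (hl : φ l ≠ l) :
    ∃ ε κ : F, ε * φ ε = -1 ∧ κ + φ κ = 1 := by
  have hθ : IsUnit (l - φ l) := by
    rw [isUnit_iff_ne_zero]
    intro h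
    exact hl (sub_eq_zero.mp h).symm
  obtain ⟨ε, hε⟩ := Cfsg.Agent.Lib.Helper40.NormSurj.norm_surj φ hφ2 l hθ (-1)
    (isUnit_one.neg) (by rw [map_neg, map_one])
  obtain ⟨s, hs⟩ := Cfsg.Agent.Lib.Helper40.HermDiag.exists_trace_ne φ l hl
  refine ⟨ε, s / (s + φ s), hε, ?_⟩
  rw [map_div₀, map_add, hφ2, add_comm (φ s) s, ← add_div, div_self hs]

/-- the standard dual pair of isotropic frames -/
def stdFrame {n m : ℕ} (h : 2 * m ≤ n) (ε κ : F) (hφ2 : ∀ x, φ (φ x) = x) (hε : ε * φ ε = -1)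
    (hκ : κ + φ κ = 1) : Frame φ n m where
  P := sp n m 1 ε
  Q := sp n m κ (-(ε * φ κ))
  PP := by
    rw [cj_sp_mul_sp φ h, map_one, one_mul]
    have : 1 + φ ε * ε = 0 := by linear_combination hε
    rw [this, zero_smul]
  QQ := by
    rw [cj_sp_mul_sp φ h, map_neg, map_mul, hφ2]
    have : φ κ * κ + -(φ ε * κ) * -(ε * φ κ) = 0 := by linear_combination (κ * φ κ) * hε
    rw [this, zero_smul]
  QP := by
    rw [cj_sp_mul_sp φ h, map_neg, map_mul, hφ2]
    have : φ κ * 1 + -(φ ε * κ) * ε = 1 := by linear_combination hκ - κ * hε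
    rw [this, one_smul]
  PQ := by
    rw [cj_sp_mul_sp φ h, map_one]
    have : 1 * κ + φ ε * -(ε * φ κ) = 1 := by linear_combination hκ - φ κ * hε
    rw [this, one_smul]

/-- the standard frame with an extra orthogonal vector of norm one -/
def stdFrame1 {n m : ℕ} (h : 2 * m < n) (ε κ : F) (hφ2 : ∀ x, φ (φ x) = x) (hε : ε * φ ε = -1)
    (hκ : κ + φ κ = 1) : Frame1 φ n m where
  toFrame := stdFrame φ h.le ε κ hφ2 hε hκ
  D := dcol n m
  DD := cj_dcol_mul_dcol φ n m h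
  DP := cj_dcol_mul_sp φ n m _ _
  DQ := cj_dcol_mul_sp φ n m _ _
  PD := cj_sp_mul_dcol φ n m _ _
  QD := cj_sp_mul_dcol φ n m _ _

end Cfsg.Agent.Lib.Helper39.LSStd
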