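-- Landazuri–Seitz bound for `SU_n(q)`, `n` even: every irreducible complex representation of
-- degree at least two has degree at least `(q^n - 1)/(q + 1)`.
import Mathlib
import Cfsg.Agent.Lib.Helper39.LSCore
import Cfsg.Agent.Lib.Helper39.LSStd
import Cfsg.Agent.Lib.Helper39.LSSU

set_option autoImplicit false

namespace Cfsg.Agent.Lib.Helper39.LSEven

open Matrix Module
open Cfsg.Agent.Lib.Helper65.RepBound Cfsg.Agent.Lib.Helper39.LSRep
  Cfsg.Agent.Lib.Helper40.HermAdj Cfsg.Agent.Lib.Helper39.LSHerm Cfsg.Agent.Lib.Helper39.LSChar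
  Cfsg.Agent.Lib.Helper39.LSFrame Cfsg.Agent.Lib.Helper39.LSStd Cfsg.Agent.Lib.Helper39.LSSU
  Cfsg.Agent.Lib.Helper39.LSCore

theorem even_bound {F : Type*} [Field F] [Fintype F] [DecidableEq F] (n q : ℕ) (hn : 4 ≤ n)
    (heven : Even n) (hF : Fintype.card F = q ^ 2)
    (k : ℕ) (ρ : Representation ℂ (Cfsg.SU n F q) (Fin k → ℂ)) (hirr : ρ.IsIrreducible)
    (hk : 2 ≤ k) : (q ^ n - 1) / (q + 1) ≤ k := by
  classical
  obtain ⟨φ, hφ, hφ2, l, hl⟩ := exists_phi hF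
  obtain ⟨ε, κ, hε, hκ⟩ := exists_scalars φ hφ2 l hl
  obtain ⟨m, rfl⟩ : ∃ m, n = 2 * m := ⟨n / 2, by obtain ⟨r, rfl⟩ := heven; omega⟩
  have hm : 2 ≤ m := by omega
  set fr := stdFrame φ (le_refl (2 * m)) ε κ hφ2 hε hκ with hfr
  obtain ⟨ψ, hψ⟩ := (AddChar.exists_apply_ne_zero (α := F) (a := 1)).mpr one_ne_zero
  set x₀ : F := l - φ l with hx₀
  have hx₀φ : φ x₀ = -x₀ := by
    rw [hx₀, map_sub, hφ2]
    ring
  have hx₀0 : x₀ ≠ 0 := fun h0 => hl (sub_eq_zero.mp h0).symm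
  have hS : ∀ H : Hm φ m, cj φ (x₀ • H.1) = -(x₀ • H.1) := by
    intro H
    rw [cj_smul, hx₀φ, ← adj_eq_cj, (mem_Hm φ H.1).mp H.2, neg_smul]
  let zz : Hm φ m → Cfsg.SU (2 * m) F q := fun H =>
    mkSU φ hφ (fr.z (x₀ • H.1)) (fr.z_det _) (fr.z_unitary hφ2 _ (hS H))
  have hzz : ∀ H H', zz (H + H') = zz H * zz H' := by
    intro H H'
    apply SU_ext
    show fr.z (x₀ • (H + H').1) = fr.z (x₀ • H.1) * fr.z (x₀ • H'.1)
    rw [Frame.z_mul, AddSubgroup.coe_add, smul_add]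
  let H₀ : Hm φ m := ⟨1, adj_one φ⟩
  have hH₀ : ρ (zz H₀) ≠ 1 := by
    apply rho_ne_one hF (by omega) (by omega) ρ hirr hk
    intro c hc
    have h1 : fr.z (x₀ • (1 : Matrix (Fin m) (Fin m) F)) = c • 1 := hc
    have h2 := fr.z_recover (x₀ • (1 : Matrix (Fin m) (Fin m) F))
    rw [h1] at h2
    have h3 : cj φ fr.Q * (c • (1 : Matrix (Fin (2 * m)) (Fin (2 * m)) F) - 1) * fr.Q = 0 := by
      rw [Matrix.mul_sub, Matrix.sub_mul, Matrix.mul_smul, Matrix.mul_one, Matrix.smul_mul,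
        fr.QQ, smul_zero, sub_zero]
    rw [h3] at h2
    have h4 := congrFun (congrFun h2 ⟨0, by omega⟩) ⟨0, by omega⟩
    simp at h4
    exact hx₀0 h4.symm
  have hconj : ∀ A : Matrix (Fin m) (Fin m) F, A.det = 1 → ∃ g : Cfsg.SU (2 * m) F q,
      ∀ H : Hm φ m, g * zz H * g⁻¹ = zz ⟨A * H.1 * adj φ A, conj_mem φ hφ2 A H⟩ := by
    intro A hA
    have hu : IsUnit A.det := by
      rw [hA]
      exact isUnit_one
    set B := cj φ A⁻¹ with hB
    have hAB : cj φ A * B = 1 := by rw [hB, ← cj_mul, Matrix.nonsing_inv_mul A hu, cj_one]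
    have hdet : (fr.lv A B).det = 1 := by
      have h1 : (A⁻¹).det = 1 := by
        rw [Matrix.det_nonsing_inv, hA]
        simp
      rw [Frame.lv_det, hB, det_cj, hA, one_mul, h1, map_one]
    refine ⟨mkSU φ hφ (fr.lv A B) hdet (fr.lv_unitary hφ2 A B hAB), ?_⟩
    intro H
    rw [mul_inv_eq_iff_eq_mul]
    apply SU_ext
    show fr.lv A B * fr.z (x₀ • H.1) = fr.z (x₀ • (A * H.1 * adj φ A)) * fr.lv A B
    rw [Frame.lv_z fr A B _ hAB, Matrix.mul_smul, Matrix.smul_mul]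
    rfl
  have hcore := core φ hφ hφ2 hF l hl ψ hψ ρ zz hzz H₀ hH₀ (fun A => A.det = 1)
    (fun A hA => by rw [hA]; exact isUnit_one)
    (fun v w hv hw => sl_transitive hm v w hv hw)
    (fun v a ha => by rw [det_tv, ha, add_zero]) hconj 1
    (fun T _ _ hbot => Nat.one_le_iff_ne_zero.mpr
      (fun h0 => hbot (Submodule.finrank_eq_zero.mp h0)))
  rw [mul_one, Module.finrank_fin_fun] at hcore
  exact Nat.div_le_of_le_mul hcore

end Cfsg.Agent.Lib.Helper39.LSEven
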