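-- Landazuri–Seitz bound for `SU_n(q)`, `n` odd: every irreducible complex representation of
-- degree at least two has degree at least `(q^n - q)/(q + 1)`.
import Mathlib
import Cfsg.Agent.Lib.Helper39.LSCore
import Cfsg.Agent.Lib.Helper39.LSStd
import Cfsg.Agent.Lib.Helper39.LSSU

set_option autoImplicit false

namespace Cfsg.Agent.Lib.Helper39.LSOdd

open Matrix Module
open Cfsg.Agent.Lib.Helper65.RepBound Cfsg.Agent.Lib.Helper39.LSRep
  Cfsg.Agent.Lib.Helper40.HermAdj Cfsg.Agent.Lib.Helper39.LSHerm Cfsg.Agent.Lib.Helper39.LSChar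
  Cfsg.Agent.Lib.Helper39.LSFrame Cfsg.Agent.Lib.Helper39.LSHeis Cfsg.Agent.Lib.Helper39.LSStd
  Cfsg.Agent.Lib.Helper39.LSSU Cfsg.Agent.Lib.Helper39.LSCore

theorem odd_bound {F : Type*} [Field F] [Fintype F] [DecidableEq F] (n q : ℕ) (hn : 3 ≤ n)
    (hodd : Odd n) (hF : Fintype.card F = q ^ 2) (hex : (n, q) ≠ (3, 2))
    (k : ℕ) (ρ : Representation ℂ (Cfsg.SU n F q) (Fin k → ℂ)) (hirr : ρ.IsIrreducible)
    (hk : 2 ≤ k) : (q ^ n - q) / (q + 1) ≤ k := by
  classical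
  obtain ⟨φ, hφ, hφ2, l, hl⟩ := exists_phi hF
  obtain ⟨ε, κ, hε, hκ⟩ := exists_scalars φ hφ2 l hl
  obtain ⟨m, rfl⟩ : ∃ m, n = 2 * m + 1 := hodd
  have hm : 1 ≤ m := by omega
  have h32 : ¬ (2 * m + 1 = 3 ∧ q = 2) := by
    rintro ⟨h1, h2⟩
    exact hex (by rw [h1, h2])
  set fr := stdFrame1 φ (Nat.lt_succ_self (2 * m)) ε κ hφ2 hε hκ with hfr
  obtain ⟨ψ, hψ⟩ := (AddChar.exists_apply_ne_zero (α := F) (a := 1)).mpr one_ne_zero
  set x₀ : F := l - φ l with hx₀
  have hx₀φ : φ x₀ = -x₀ := by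
    rw [hx₀, map_sub, hφ2]
    ring
  have hx₀0 : x₀ ≠ 0 := fun h0 => hl (sub_eq_zero.mp h0).symm
  have hS : ∀ H : Hm φ m, cj φ (x₀ • H.1) = -(x₀ • H.1) := by
    intro H
    rw [cj_smul, hx₀φ, ← adj_eq_cj, (mem_Hm φ H.1).mp H.2, neg_smul]
  let zz : Hm φ m → Cfsg.SU (2 * m + 1) F q := fun H =>
    mkSU φ hφ (fr.z (x₀ • H.1)) (fr.z_det _) (fr.z_unitary hφ2 _ (hS H))
  have hzz : ∀ H H', zz (H + H') = zz H * zz H' := by
    intro H H'
    apply SU_ext
    show fr.z (x₀ • (H + H').1) = fr.z (x₀ • H.1) * fr.z (x₀ • H'.1)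
    rw [Frame.z_mul, AddSubgroup.coe_add, smul_add]
  let H₀ : Hm φ m := ⟨1, adj_one φ⟩
  have hH₀ : ρ (zz H₀) ≠ 1 := by
    apply rho_ne_one hF (by omega) h32 ρ hirr hk
    intro c hc
    have h1 : fr.z (x₀ • (1 : Matrix (Fin m) (Fin m) F)) = c • 1 := hc
    have h2 := fr.z_recover (x₀ • (1 : Matrix (Fin m) (Fin m) F))
    rw [h1] at h2
    have h3 : cj φ fr.Q * (c • (1 : Matrix (Fin (2 * m + 1)) (Fin (2 * m + 1)) F) - 1) * fr.Q
        = 0 := by
      rw [Matrix.mul_sub, Matrix.sub_mul, Matrix.mul_smul, Matrix.mul_one, Matrix.smul_mul,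
        fr.QQ, smul_zero, sub_zero]
    rw [h3] at h2
    have h4 := congrFun (congrFun h2 ⟨0, by omega⟩) ⟨0, by omega⟩
    simp at h4
    exact hx₀0 h4.symm
  have hconj : ∀ A : Matrix (Fin m) (Fin m) F, IsUnit A.det → ∃ g : Cfsg.SU (2 * m + 1) F q,
      ∀ H : Hm φ m, g * zz H * g⁻¹ = zz ⟨A * H.1 * adj φ A, conj_mem φ hφ2 A H⟩ := by
    intro A hu
    set B := cj φ A⁻¹ with hB
    have hAB : cj φ A * B = 1 := by rw [hB, ← cj_mul, Matrix.nonsing_inv_mul A hu, cj_one]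
    have hd0 : A.det ≠ 0 := hu.ne_zero
    have hd1 : φ A.det ≠ 0 := (map_ne_zero φ).mpr hd0
    set δ : F := φ A.det / A.det with hδ
    have hδN : δ * φ δ = 1 := by
      rw [hδ, map_div₀, hφ2]
      field_simp
    have hdet : (fr.lv A B * fr.td δ).det = 1 := by
      rw [Matrix.det_mul, Frame.lv_det, Frame1.td_det, hB, det_cj, Matrix.det_nonsing_inv,
        Ring.inverse_eq_inv', map_inv₀, hδ]
      field_simp
    have hunit : adj φ (fr.lv A B * fr.td δ) * (fr.lv A B * fr.td δ) = 1 := by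
      rw [adj_mul]
      calc adj φ (fr.td δ) * adj φ (fr.lv A B) * (fr.lv A B * fr.td δ)
          = adj φ (fr.td δ) * (adj φ (fr.lv A B) * fr.lv A B) * fr.td δ := by
            simp only [mul_assoc]
        _ = 1 := by rw [fr.lv_unitary hφ2 A B hAB, mul_one, fr.td_unitary hφ2 δ hδN]
    refine ⟨mkSU φ hφ _ hdet hunit, ?_⟩
    intro H
    rw [mul_inv_eq_iff_eq_mul]
    apply SU_ext
    show fr.lv A B * fr.td δ * fr.z (x₀ • H.1) =
      fr.z (x₀ • (A * H.1 * adj φ A)) * (fr.lv A B * fr.td δ)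
    rw [Matrix.mul_assoc, Frame1.td_z, ← Matrix.mul_assoc, Frame.lv_z fr.toFrame A B _ hAB,
      Matrix.mul_smul, Matrix.smul_mul, Matrix.mul_assoc]
    rfl
  have hd : ∀ T, adj φ T = T → T ≠ 0 → ceig ρ zz (eT φ ψ T) ≠ ⊥ →
      q ≤ finrank ℂ (ceig ρ zz (eT φ ψ T)) := by
    intro T hT hT0 hbot
    obtain ⟨v, hv⟩ := exists_Qf_eq_one φ hφ2 l hl T hT hT0
    set W₀ : Matrix (Fin 1) (Fin m) F := fun _ j => φ (v j) with hW₀
    set M : Matrix (Fin m) (Fin m) F := vecMulVec v (φ ∘ v) with hM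
    have hMW : cj φ W₀ * W₀ = M := by
      ext i j
      rw [Matrix.mul_apply, Fin.sum_univ_one, cj_apply, hW₀, hM, vecMulVec_apply]
      simp [hφ2]
    have hMherm : adj φ M = M := herm_vecMulVec φ hφ2 v
    have hMcj : cj φ M = M := hMherm
    have htr : Matrix.trace (T * M) = 1 := by rw [hM, trace_mul_vecMulVec, hv]
    have key : ∀ a b : F, cj φ (a • W₀) * (b • W₀) = (φ a * b) • M := by
      intro a b
      rw [cj_smul, Matrix.smul_mul, Matrix.mul_smul, hMW, smul_smul]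
    let Y : F → Matrix (Fin m) (Fin m) F := fun s => (-(κ * s * φ s)) • M
    have hY : ∀ s, Y s + cj φ (Y s) = -(cj φ (s • W₀) * (s • W₀)) := by
      intro s
      show (-(κ * s * φ s)) • M + cj φ ((-(κ * s * φ s)) • M) = _
      rw [cj_smul, hMcj, key, ← add_smul, ← neg_smul]
      congr 1
      rw [map_neg, map_mul, map_mul, hφ2]
      linear_combination (-(s * φ s)) * hκ
    let hs : F → Cfsg.SU (2 * m + 1) F q := fun s =>
      mkSU φ hφ (fr.xh (s • W₀) (Y s)) (fr.xh_det _ _) (fr.xh_unitary hφ2 _ _ (hY s))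
    set U : Subgroup (Cfsg.SU (2 * m + 1) F q) := Subgroup.centralizer (Set.range zz) with hU
    have hsU : ∀ s, hs s ∈ U := by
      intro s
      rw [hU, Subgroup.mem_centralizer_iff]
      rintro _ ⟨H, rfl⟩
      apply SU_ext
      show fr.z (x₀ • H.1) * fr.xh (s • W₀) (Y s) = fr.xh (s • W₀) (Y s) * fr.z (x₀ • H.1)
      exact fr.z_xh _ _ _
    have hzU : ∀ H, zz H ∈ U := by
      intro H
      rw [hU, Subgroup.mem_centralizer_iff]
      rintro _ ⟨H', rfl⟩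
      rw [← hzz, ← hzz, add_comm H' H]
    set Wc := ceig ρ zz (eT φ ψ T) with hWc
    have hinv : ∀ u ∈ U, ∀ w ∈ Wc, ρ u w ∈ Wc := by
      intro u hu w hw
      rw [hWc, mem_ceig] at hw ⊢
      intro H
      have e : zz H * u = u * zz H := (Subgroup.mem_centralizer_iff.mp hu) (zz H) ⟨H, rfl⟩
      rw [← Module.End.mul_apply, ← map_mul, e, map_mul, Module.End.mul_apply, hw H, map_smul]
    have hnt : Nontrivial Wc := Submodule.nontrivial_iff_ne_bot.mpr hbot
    let σ' := restr ρ U Wc hinv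
    let σ : F → (Module.End ℂ Wc)ˣ := fun s => σ'.toHomUnits ⟨hs s, hsU s⟩
    let c : F → F → ℂ := fun x y => ψ (x₀⁻¹ * (φ x * y - φ y * x))
    have hzscal : ∀ H, σ' ⟨zz H, hzU H⟩ = eT φ ψ T H • (1 : Module.End ℂ Wc) := by
      intro H
      apply LinearMap.ext
      intro w
      apply Subtype.ext
      rw [restr_apply]
      exact (mem_ceig ρ zz (eT φ ψ T) w.1).mp w.2 H
    have hc : ∀ x y, ((σ y : Module.End ℂ Wc) * (σ x : Module.End ℂ Wc)) =
        c x y • ((σ x : Module.End ℂ Wc) * (σ y : Module.End ℂ Wc)) := by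
      intro x y
      have hHmem : (x₀⁻¹ * (φ x * y - φ y * x)) • M ∈ Hm φ m := by
        rw [mem_Hm, adj_smul', hMherm]
        congr 1
        rw [map_mul, map_inv₀, hx₀φ, map_sub, map_mul, map_mul, hφ2, hφ2]
        field_simp
        ring
      set H : Hm φ m := ⟨_, hHmem⟩ with hH
      have e1 : (⟨hs y, hsU y⟩ : U) * ⟨hs x, hsU x⟩ =
          ⟨zz H, hzU H⟩ * (⟨hs x, hsU x⟩ * ⟨hs y, hsU y⟩) := by
        apply Subtype.ext
        apply SU_ext
        show fr.xh (y • W₀) (Y y) * fr.xh (x • W₀) (Y x) =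
          fr.z (x₀ • ((x₀⁻¹ * (φ x * y - φ y * x)) • M)) *
            (fr.xh (x • W₀) (Y x) * fr.xh (y • W₀) (Y y))
        rw [fr.xh_comm]
        congr 2
        rw [key, key, ← sub_smul, smul_smul]
        congr 1
        field_simp
      have e2 : eT φ ψ T H = c x y := by
        show ψ (Matrix.trace (T * ((x₀⁻¹ * (φ x * y - φ y * x)) • M))) = _
        rw [Matrix.mul_smul, Matrix.trace_smul, htr, smul_eq_mul, mul_one]
      show (σ' ⟨hs y, hsU y⟩ : Module.End ℂ Wc) * σ' ⟨hs x, hsU x⟩ = _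
      rw [← map_mul, e1, map_mul, map_mul, hzscal, e2, smul_mul_assoc, one_mul]
      rfl
    have hcinj : Function.Injective c := by
      intro x₁ x₂ h
      by_contra hne
      have ha : x₁ - x₂ ≠ 0 := sub_ne_zero.mpr hne
      have h1 := congrFun h (l / φ (x₁ - x₂))
      simp only [c] at h1
      have e : x₀⁻¹ * (φ x₁ * (l / φ (x₁ - x₂)) - φ (l / φ (x₁ - x₂)) * x₁) =
          1 + x₀⁻¹ * (φ x₂ * (l / φ (x₁ - x₂)) - φ (l / φ (x₁ - x₂)) * x₂) := by
        have h3 : φ (x₁ - x₂) ≠ 0 := (map_ne_zero φ).mpr ha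
        have h4 : l - φ l ≠ 0 := hx₀0
        rw [map_div₀, hφ2, hx₀]
        rw [map_sub] at h3 ⊢
        field_simp
        ring
      rw [e, AddChar.map_add_eq_mul] at h1
      exact hψ (mul_right_cancel₀ (addChar_ne_zero ψ _) (by rw [h1, one_mul]))
    have hcard := card_le_finrank_sq σ c hc hcinj
    rw [hF] at hcard
    exact (Nat.pow_le_pow_iff_left (by norm_num)).mp hcard
  have hcore := core φ hφ hφ2 hF l hl ψ hψ ρ zz hzz H₀ hH₀ (fun A => IsUnit A.det)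
    (fun A hA => hA)
    (fun v w hv hw => gl_transitive v w hv hw)
    (fun v a ha => by rw [det_tv, ha, add_zero]; exact isUnit_one) hconj q hd
  rw [Module.finrank_fin_fun] at hcore
  apply Nat.div_le_of_le_mul
  calc q ^ (2 * m + 1) - q = (q ^ (2 * m) - 1) * q := by rw [Nat.sub_mul, one_mul, ← pow_succ]
    _ ≤ (q + 1) * k := hcore

end Cfsg.Agent.Lib.Helper39.LSOdd
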