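-- Quadratic forms in characteristic two on `F^n`: counting hyperbolic pairs, and a lower bound for
-- the size of a set of quadratic forms with non-zero polar form stable under `GL_n`.
import Mathlib
import Cfsg.Agent.Lib.Helper39.LSHerm

set_option autoImplicit false

namespace Cfsg.Agent.Lib.Helper39.LSQuad

open Matrix
open Cfsg.Agent.Lib.Helper39.LSHerm

variable {F : Type*} [Field F] {n : ℕ}

/-- the quadratic form of a matrix -/
def Qd (T : Matrix (Fin n) (Fin n) F) (x : Fin n → F) : F := x ⬝ᵥ (T *ᵥ x)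

/-- the polar form of a function (characteristic two) -/
def Bq (Q : (Fin n → F) → F) (x y : Fin n → F) : F := Q (x + y) + Q x + Q y

/-- quadratic forms in characteristic two, as functions -/
structure IsQF (Q : (Fin n → F) → F) : Prop where
  smul : ∀ (c : F) x, Q (c • x) = c ^ 2 * Q x
  add_right : ∀ x y z, Bq Q x (y + z) = Bq Q x y + Bq Q x z
  smul_right : ∀ (c : F) x y, Bq Q x (c • y) = c * Bq Q x y

theorem Bq_comm (Q : (Fin n → F) → F) (x y : Fin n → F) : Bq Q x y = Bq Q y x := by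
  unfold Bq
  rw [add_comm x y]
  ring

theorem Bq_Qd (h2 : (2 : F) = 0) (T : Matrix (Fin n) (Fin n) F) (x y : Fin n → F) :
    Bq (Qd T) x y = x ⬝ᵥ ((T + Tᵀ) *ᵥ y) := by
  unfold Bq Qd
  rw [Matrix.mulVec_add, add_dotProduct, dotProduct_add, dotProduct_add, Matrix.add_mulVec,
    dotProduct_add, Matrix.mulVec_transpose]
  have e : x ⬝ᵥ (y ᵥ* T) = y ⬝ᵥ (T *ᵥ x) := by
    rw [dotProduct_comm, ← Matrix.dotProduct_mulVec]
  rw [e]
  linear_combination (x ⬝ᵥ T *ᵥ x + y ⬝ᵥ T *ᵥ y) * h2

theorem isQF_Qd (h2 : (2 : F) = 0) (T : Matrix (Fin n) (Fin n) F) : IsQF (Qd T) where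
  smul c x := by
    unfold Qd
    rw [Matrix.mulVec_smul, smul_dotProduct, dotProduct_smul, smul_eq_mul, smul_eq_mul]
    ring
  add_right x y z := by
    rw [Bq_Qd h2, Bq_Qd h2, Bq_Qd h2, Matrix.mulVec_add, dotProduct_add]
  smul_right c x y := by
    rw [Bq_Qd h2, Bq_Qd h2, Matrix.mulVec_smul, dotProduct_smul, smul_eq_mul]

namespace IsQF

variable {Q : (Fin n → F) → F} (hQ : IsQF Q)
include hQ

theorem zero : Q 0 = 0 := by
  have := hQ.smul 0 0
  rw [zero_smul] at this
  rw [this]
  ring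

theorem add (h2 : (2 : F) = 0) (x y : Fin n → F) : Q (x + y) = Q x + Q y + Bq Q x y := by
  unfold Bq
  linear_combination (-(Q x) - Q y) * h2

theorem self (h2 : (2 : F) = 0) (x : Fin n → F) : Bq Q x x = 0 := by
  unfold Bq
  have e : x + x = 0 := by
    have : x + x = (2 : F) • x := by rw [two_smul]
    rw [this, h2, zero_smul]
  rw [e, hQ.zero]
  linear_combination (Q x) * h2

theorem add_left (x y z : Fin n → F) : Bq Q (x + y) z = Bq Q x z + Bq Q y z := by
  rw [Bq_comm, hQ.add_right, Bq_comm Q z x, Bq_comm Q z y]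

theorem smul_left (c : F) (x y : Fin n → F) : Bq Q (c • x) y = c * Bq Q x y := by
  rw [Bq_comm, hQ.smul_right, Bq_comm]

theorem comp (A : Matrix (Fin n) (Fin n) F) : IsQF (fun x => Q (A *ᵥ x)) where
  smul c x := by
    show Q (A *ᵥ (c • x)) = _
    rw [Matrix.mulVec_smul, hQ.smul]
  add_right x y z := by
    show Q (A *ᵥ (x + (y + z))) + Q (A *ᵥ x) + Q (A *ᵥ (y + z)) =
      (Q (A *ᵥ (x + y)) + Q (A *ᵥ x) + Q (A *ᵥ y)) + (Q (A *ᵥ (x + z)) + Q (A *ᵥ x) + Q (A *ᵥ z))
    have := hQ.add_right (A *ᵥ x) (A *ᵥ y) (A *ᵥ z)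
    unfold Bq at this
    rw [Matrix.mulVec_add, Matrix.mulVec_add, Matrix.mulVec_add, Matrix.mulVec_add]
    exact this
  smul_right c x y := by
    show Q (A *ᵥ (x + c • y)) + Q (A *ᵥ x) + Q (A *ᵥ (c • y)) =
      c * (Q (A *ᵥ (x + y)) + Q (A *ᵥ x) + Q (A *ᵥ y))
    have := hQ.smul_right c (A *ᵥ x) (A *ᵥ y)
    unfold Bq at this
    rw [Matrix.mulVec_add, Matrix.mulVec_add, Matrix.mulVec_smul]
    exact this

/-- the linear functional `B(x, ·)` -/
def lin (x : Fin n → F) : (Fin n → F) →ₗ[F] F where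
  toFun := Bq Q x
  map_add' := hQ.add_right x
  map_smul' c y := by
    rw [hQ.smul_right, RingHom.id_apply, smul_eq_mul]

theorem lin_apply (x y : Fin n → F) : hQ.lin x y = Bq Q x y := rfl

end IsQF

theorem Bq_comp (Q : (Fin n → F) → F) (A : Matrix (Fin n) (Fin n) F) (x y : Fin n → F) :
    Bq (fun x => Q (A *ᵥ x)) x y = Bq Q (A *ᵥ x) (A *ᵥ y) := by
  show Q (A *ᵥ (x + y)) + Q (A *ᵥ x) + Q (A *ᵥ y) =
    Q (A *ᵥ x + A *ᵥ y) + Q (A *ᵥ x) + Q (A *ᵥ y)
  rw [Matrix.mulVec_add]

/-- square roots in a finite field of characteristic two -/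
theorem exists_sqrt [Finite F] (h2 : (2 : F) = 0) (a : F) : ∃ s : F, s ^ 2 = a := by
  have hinj : Function.Injective (fun x : F => x ^ 2) := by
    intro x y h
    have h' : x ^ 2 = y ^ 2 := h
    have e : (x - y) ^ 2 = 0 := by linear_combination h' + (y ^ 2 - x * y) * h2
    exact sub_eq_zero.mp (pow_eq_zero_iff (by norm_num) |>.mp e)
  exact Finite.surjective_of_injective hinj a

/-- a linear functional is a dot product -/
theorem lin_eq_dot (f : (Fin n → F) →ₗ[F] F) (x : Fin n → F) :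
    f x = x ⬝ᵥ (fun i => f (fun j => if i = j then 1 else 0)) := by
  rw [LinearMap.pi_apply_eq_sum_univ f x]
  rfl

/-- a form with non-zero polar form has a hyperbolic pair with non-singular first vector -/
theorem exists_hyp_pair (h2 : (2 : F) = 0) {Q : (Fin n → F) → F} (hQ : IsQF Q)
    (hB : ∃ x y, Bq Q x y ≠ 0) : ∃ u v, Bq Q u v = 1 ∧ Q u ≠ 0 := by
  obtain ⟨x, y, hxy⟩ := hB
  have h1 : Bq Q x ((Bq Q x y)⁻¹ • y) = 1 := by
    rw [hQ.smul_right, inv_mul_cancel₀ hxy]
  set v := (Bq Q x y)⁻¹ • y with hv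
  by_cases hx : Q x = 0
  · by_cases hv0 : Q v = 0
    · refine ⟨x + v, v, ?_, ?_⟩
      · rw [hQ.add_left, h1, hQ.self h2, add_zero]
      · rw [hQ.add h2, hx, hv0, h1]
        simp
    · exact ⟨v, x, by rw [Bq_comm]; exact h1, hv0⟩
  · exact ⟨x, v, h1, hx⟩

section count

variable [Fintype F] [DecidableEq F]

/-- the common kernel of two independent functionals -/
theorem card_ker2 (f₁ f₂ : (Fin n → F) →ₗ[F] F) (u' v' : Fin n → F)
    (h11 : f₁ u' = 1) (h21 : f₂ u' = 0) (h12 : f₁ v' = 0) (h22 : f₂ v' = 1) :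
    (Finset.univ.filter (fun w : Fin n → F => f₁ w = 0 ∧ f₂ w = 0)).card * Fintype.card F ^ 2 =
      Fintype.card F ^ n := by
  classical
  let f : (Fin n → F) →ₗ[F] F × F := f₁.prod f₂
  have hf : ∀ w, f w = (f₁ w, f₂ w) := fun w => rfl
  have hsurj : Function.Surjective f := by
    rintro ⟨a, b⟩
    refine ⟨a • u' + b • v', ?_⟩
    rw [hf, map_add, map_add, map_smul, map_smul, map_smul, map_smul, h11, h21, h12, h22]
    simp
  have h1 := LinearMap.finrank_range_add_finrank_ker f
  rw [LinearMap.range_eq_top.mpr hsurj, finrank_top, Module.finrank_prod, Module.finrank_self,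
    Module.finrank_fin_fun] at h1
  have h3 := Module.natCard_eq_pow_finrank (K := F) (V := LinearMap.ker f)
  rw [Nat.card_eq_fintype_card (α := F)] at h3
  have h4 : (Finset.univ.filter (fun w : Fin n → F => f₁ w = 0 ∧ f₂ w = 0)).card =
      Nat.card (LinearMap.ker f) := by
    rw [← Nat.card_eq_finsetCard]
    apply Nat.card_congr
    refine Equiv.subtypeEquivRight ?_
    intro w
    rw [Finset.mem_filter, LinearMap.mem_ker, hf, Prod.mk_eq_zero]
    simp
  rw [h4, h3, ← pow_add]
  congr 1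
  omega

/-- the number of vectors with a given non-zero value -/
theorem card_value_le (h2 : (2 : F) = 0) {Q : (Fin n → F) → F} (hQ : IsQF Q)
    (hB : ∃ x y, Bq Q x y ≠ 0) (a₀ : F) (ha₀ : a₀ ≠ 0) (ω : ℕ)
    (hω : ω * Fintype.card F ^ 2 = Fintype.card F ^ n) :
    (Finset.univ.filter (fun u : Fin n → F => Q u = a₀)).card ≤ (Fintype.card F + 1) * ω := by
  classical
  obtain ⟨u₁, v₁, h1, hu₁⟩ := exists_hyp_pair h2 hQ hB
  set W := Finset.univ.filter (fun w : Fin n → F => hQ.lin u₁ w = 0 ∧ hQ.lin v₁ w = 0) with hW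
  have hWc : W.card * Fintype.card F ^ 2 = Fintype.card F ^ n :=
    card_ker2 (hQ.lin u₁) (hQ.lin v₁) v₁ u₁ h1 (hQ.self h2 v₁) (hQ.self h2 u₁)
      (by rw [IsQF.lin_apply, Bq_comm]; exact h1)
  have hqpos : 0 < Fintype.card F ^ 2 := pow_pos Fintype.card_pos _
  have hWω : W.card = ω := Nat.eq_of_mul_eq_mul_right hqpos (hWc.trans hω.symm)
  -- zeros
  obtain ⟨sq, hsq⟩ : ∃ sq : F → F, ∀ a, sq a ^ 2 = a := ⟨fun a => (exists_sqrt h2 a).choose,
    fun a => (exists_sqrt h2 a).choose_spec⟩
  have hzero : ω ≤ (Finset.univ.filter (fun u : Fin n → F => Q u = 0)).card := by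
    rw [← hWω]
    apply Finset.card_le_card_of_injOn (fun w => w + sq (Q w / Q u₁) • u₁)
    · intro w hw
      have hw' : hQ.lin u₁ w = 0 ∧ hQ.lin v₁ w = 0 := by
        have := hw
        rw [hW, Finset.coe_filter] at this
        exact this.2
      rw [Finset.mem_coe, Finset.mem_filter]
      refine ⟨Finset.mem_univ _, ?_⟩
      have e1 : Bq Q w u₁ = 0 := by rw [Bq_comm]; exact hw'.1
      rw [hQ.add h2, hQ.smul, hsq, hQ.smul_right, e1, mul_zero, add_zero, div_mul_cancel₀ _ hu₁]
      linear_combination (Q w) * h2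
    · intro w hw w' hw' h
      have hwm : hQ.lin v₁ w = 0 := by
        have := hw
        rw [hW, Finset.coe_filter] at this
        exact this.2.2
      have hwm' : hQ.lin v₁ w' = 0 := by
        have := hw'
        rw [hW, Finset.coe_filter] at this
        exact this.2.2
      simp only at h
      have e := congrArg (hQ.lin v₁) h
      rw [map_add, map_add, map_smul, map_smul, hwm, hwm', IsQF.lin_apply, Bq_comm, h1] at e
      simp only [zero_add, smul_eq_mul, mul_one] at e
      rw [e] at h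
      exact add_right_cancel h
  -- scaling
  have hscale : ∀ c : F, c ≠ 0 → (Finset.univ.filter (fun u : Fin n → F => Q u = a₀)).card ≤
      (Finset.univ.filter (fun u : Fin n → F => Q u = c)).card := by
    intro c hc
    have hs0 : sq (c / a₀) ≠ 0 := by
      intro h0
      have := hsq (c / a₀)
      rw [h0] at this
      exact div_ne_zero hc ha₀ (by rw [← this]; ring)
    apply Finset.card_le_card_of_injOn (fun u => sq (c / a₀) • u)
    · intro u hu
      have hu' : Q u = a₀ := by
        have := hu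
        rw [Finset.coe_filter] at this
        exact this.2
      rw [Finset.mem_coe, Finset.mem_filter]
      refine ⟨Finset.mem_univ _, ?_⟩
      rw [hQ.smul, hsq, hu', div_mul_cancel₀ _ ha₀]
    · intro u _ u' _ h
      exact smul_right_injective _ hs0 h
  have hsum := Finset.card_eq_sum_card_fiberwise (f := Q) (s := Finset.univ) (t := Finset.univ)
    (fun x _ => Finset.mem_univ _)
  rw [Finset.card_univ, Fintype.card_fun, Fintype.card_fin,
    ← Finset.add_sum_erase Finset.univ _ (Finset.mem_univ (0 : F))] at hsum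
  have hrest : (Fintype.card F - 1) * (Finset.univ.filter (fun u : Fin n → F => Q u = a₀)).card ≤
      ∑ c ∈ Finset.univ.erase (0 : F), (Finset.univ.filter (fun u : Fin n → F => Q u = c)).card := by
    rw [← Finset.card_univ, ← Finset.card_erase_of_mem (Finset.mem_univ (0 : F)), ← smul_eq_mul,
      ← Finset.sum_const]
    apply Finset.sum_le_sum
    intro c hc
    exact hscale c (Finset.ne_of_mem_erase hc)
  set N := (Finset.univ.filter (fun u : Fin n → F => Q u = a₀)).card with hN
  have hq1 : 1 < Fintype.card F := Fintype.one_lt_card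
  obtain ⟨r, hr⟩ : ∃ r, Fintype.card F = r + 2 := ⟨Fintype.card F - 2, by omega⟩
  have key : (Fintype.card F - 1) * N + ω ≤ ω * Fintype.card F ^ 2 := by
    rw [hω, hsum]
    have := Nat.add_le_add hzero hrest
    linarith
  rw [hr] at key ⊢
  have e1 : r + 2 - 1 = r + 1 := by omega
  rw [e1] at key
  have key2 : (r + 1) * N ≤ (r + 1) * ((r + 2 + 1) * ω) := by nlinarith
  exact Nat.le_of_mul_le_mul_left key2 (by omega)

/-- the number of partners of a vector in hyperbolic pairs with prescribed values -/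
theorem card_partner_le (h2 : (2 : F) = 0) {Q : (Fin n → F) → F} (hQ : IsQF Q)
    (a₀ b₀ : F) (ha₀ : a₀ ≠ 0) (u : Fin n → F) (hu : Q u = a₀) (ω : ℕ)
    (hω : ω * Fintype.card F ^ 2 = Fintype.card F ^ n) :
    (Finset.univ.filter (fun v : Fin n → F => Q v = b₀ ∧ Bq Q u v = 1)).card ≤ 2 * ω := by
  classical
  by_cases hemp : (Finset.univ.filter (fun v : Fin n → F => Q v = b₀ ∧ Bq Q u v = 1)) = ∅
  · rw [hemp]
    simp
  obtain ⟨v₁, hv₁⟩ := Finset.nonempty_iff_ne_empty.mpr hemp
  rw [Finset.mem_filter] at hv₁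
  obtain ⟨hv₁b, hv₁1⟩ := hv₁.2
  set W := Finset.univ.filter (fun w : Fin n → F => hQ.lin u w = 0 ∧ hQ.lin v₁ w = 0) with hW
  have hWc : W.card * Fintype.card F ^ 2 = Fintype.card F ^ n :=
    card_ker2 (hQ.lin u) (hQ.lin v₁) v₁ u hv₁1 (hQ.self h2 v₁) (hQ.self h2 u)
      (by rw [IsQF.lin_apply, Bq_comm]; exact hv₁1)
  have hqpos : 0 < Fintype.card F ^ 2 := pow_pos Fintype.card_pos _
  have hWω : W.card = ω := Nat.eq_of_mul_eq_mul_right hqpos (hWc.trans hω.symm)
  set R : (Fin n → F) → Finset F := fun w =>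
    Finset.univ.filter (fun t : F => a₀ * t ^ 2 + t + Q w = 0) with hR
  have hRc : ∀ w, (R w).card ≤ 2 := by
    intro w
    by_cases hemp' : R w = ∅
    · rw [hemp']
      simp
    obtain ⟨t₀, ht₀⟩ := Finset.nonempty_iff_ne_empty.mpr hemp'
    rw [hR, Finset.mem_filter] at ht₀
    have hsub : R w ⊆ {t₀, t₀ + a₀⁻¹} := by
      intro t ht
      rw [hR, Finset.mem_filter] at ht
      have e : (t - t₀) * (a₀ * (t - t₀) + 1) = 0 := by
        linear_combination ht.2 - ht₀.2 + (a₀ * t₀ ^ 2 - a₀ * t * t₀) * h2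
      rw [Finset.mem_insert, Finset.mem_singleton]
      rcases mul_eq_zero.mp e with h | h
      · left
        exact sub_eq_zero.mp h
      · right
        have h3 : t - t₀ = -a₀⁻¹ := by
          field_simp
          linear_combination h
        have h4 : -a₀⁻¹ = a₀⁻¹ := by linear_combination (-a₀⁻¹) * h2
        rw [h4] at h3
        linear_combination h3
    exact (Finset.card_le_card hsub).trans Finset.card_le_two
  have hcard : (Finset.univ.filter (fun v : Fin n → F => Q v = b₀ ∧ Bq Q u v = 1)).card ≤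
      (W.sigma R).card := by
    apply Finset.card_le_card_of_injOn
      (fun v => (⟨v + v₁ + Bq Q v₁ v • u, Bq Q v₁ v⟩ : Σ _ : Fin n → F, F))
    · intro v hv
      have hv' : Q v = b₀ ∧ Bq Q u v = 1 := by
        have := hv
        rw [Finset.coe_filter] at this
        exact this.2
      rw [Finset.mem_coe, Finset.mem_sigma]
      set t := Bq Q v₁ v with ht
      have hw1 : Bq Q u (v + v₁ + t • u) = 0 := by
        rw [hQ.add_right, hQ.add_right, hQ.smul_right, hv'.2, hv₁1, hQ.self h2, mul_zero,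
          add_zero]
        linear_combination h2
      have hw2 : Bq Q v₁ (v + v₁ + t • u) = 0 := by
        rw [hQ.add_right, hQ.add_right, hQ.smul_right, hQ.self h2, Bq_comm Q v₁ u, hv₁1,
          mul_one, add_zero]
        linear_combination t * h2
      constructor
      · rw [hW, Finset.mem_filter]
        exact ⟨Finset.mem_univ _, hw1, hw2⟩
      · rw [hR, Finset.mem_filter]
        refine ⟨Finset.mem_univ _, ?_⟩
        have e1 : Q (v + v₁ + t • u) = Q v + Q v₁ + t + t ^ 2 * Q u + Bq Q v (t • u) +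
            Bq Q v₁ (t • u) := by
          rw [hQ.add h2, hQ.add h2, hQ.smul, hQ.add_left, Bq_comm Q v v₁, ← ht]
          ring
        rw [e1, hQ.smul_right, hQ.smul_right, Bq_comm Q v u, hv'.2, Bq_comm Q v₁ u, hv₁1, hu,
          hv'.1, hv₁b]
        linear_combination (a₀ * t ^ 2 + 2 * t + b₀) * h2
    · intro v _ v' _ h
      simp only [Sigma.mk.injEq, heq_eq_eq] at h
      obtain ⟨h1, h2'⟩ := h
      rw [h2'] at h1
      exact add_right_cancel (add_right_cancel h1)
  rw [Finset.card_sigma] at hcard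
  calc (Finset.univ.filter (fun v : Fin n → F => Q v = b₀ ∧ Bq Q u v = 1)).card
      ≤ ∑ w ∈ W, (R w).card := hcard
    _ ≤ ∑ _w ∈ W, 2 := Finset.sum_le_sum (fun w _ => hRc w)
    _ = 2 * ω := by rw [Finset.sum_const, smul_eq_mul, hWω, mul_comm]

end count

end Cfsg.Agent.Lib.Helper39.LSQuad
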