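-- Quadratic forms in characteristic two: transitivity of `GL_n` on independent pairs, and the
-- lower bound for the size of a `GL_n`-stable set of quadratic forms with non-zero polar form.
import Mathlib
import Cfsg.Agent.Lib.Helper39.LSQuad

set_option autoImplicit false

namespace Cfsg.Agent.Lib.Helper39.LSQuad2

open Matrix
open Cfsg.Agent.Lib.Helper39.LSHerm Cfsg.Agent.Lib.Helper39.LSQuad

variable {F : Type*} [Field F] {n : ℕ}

/-- dual vectors of a hyperbolic pair -/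
theorem exists_dual (h2 : (2 : F) = 0) {Q : (Fin n → F) → F} (hQ : IsQF Q) (u v : Fin n → F)
    (h : Bq Q u v = 1) :
    ∃ δ₁ δ₂ : Fin n → F, δ₁ ⬝ᵥ u = 1 ∧ δ₁ ⬝ᵥ v = 0 ∧ δ₂ ⬝ᵥ u = 0 ∧ δ₂ ⬝ᵥ v = 1 := by
  refine ⟨fun i => hQ.lin v (fun j => if i = j then 1 else 0),
    fun i => hQ.lin u (fun j => if i = j then 1 else 0), ?_, ?_, ?_, ?_⟩
  · rw [dotProduct_comm, ← lin_eq_dot, IsQF.lin_apply, Bq_comm]
    exact h
  · rw [dotProduct_comm, ← lin_eq_dot, IsQF.lin_apply]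
    exact hQ.self h2 v
  · rw [dotProduct_comm, ← lin_eq_dot, IsQF.lin_apply]
    exact hQ.self h2 u
  · rw [dotProduct_comm, ← lin_eq_dot, IsQF.lin_apply]
    exact h

/-- `GL_n` is transitive on linearly independent pairs -/
theorem pair_transitive (u v u₀ v₀ γ₁ γ₂ : Fin n → F) (hu : u ≠ 0) (hv : ∀ c : F, v ≠ c • u)
    (h11 : γ₁ ⬝ᵥ u₀ = 1) (_h12 : γ₁ ⬝ᵥ v₀ = 0) (h21 : γ₂ ⬝ᵥ u₀ = 0) (h22 : γ₂ ⬝ᵥ v₀ = 1) :
    ∃ A : Matrix (Fin n) (Fin n) F, IsUnit A.det ∧ A *ᵥ u = u₀ ∧ A *ᵥ v = v₀ := by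
  have hu₀ : u₀ ≠ 0 := by
    rintro rfl
    rw [dotProduct_zero] at h11
    exact zero_ne_one h11
  obtain ⟨A₁, hA₁, hA₁u⟩ := gl_transitive u u₀ hu hu₀
  set v' := A₁ *ᵥ v with hv'
  have hv'c : ∀ c : F, v' ≠ c • u₀ := by
    intro c hc
    apply hv c
    have hinj : Function.Injective A₁.mulVec :=
      Matrix.mulVec_injective_iff_isUnit.mpr ((Matrix.isUnit_iff_isUnit_det A₁).mpr hA₁)
    apply hinj
    show A₁ *ᵥ v = A₁ *ᵥ (c • u)
    rw [Matrix.mulVec_smul, hA₁u, ← hv', hc]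
  obtain ⟨f, hf1, hf2, hf3⟩ : ∃ f : Fin n → F, f ⬝ᵥ u₀ = 0 ∧ f ⬝ᵥ v' = 1 ∧ f ⬝ᵥ v₀ ≠ 0 := by
    by_cases hc : γ₂ ⬝ᵥ v' = 0
    · obtain ⟨k, hk⟩ : ∃ k, (v' - (γ₁ ⬝ᵥ v') • u₀) k ≠ 0 := by
        by_contra hcon
        push Not at hcon
        apply hv'c (γ₁ ⬝ᵥ v')
        have : v' - (γ₁ ⬝ᵥ v') • u₀ = 0 := funext hcon
        exact sub_eq_zero.mp this
      set h : Fin n → F := Pi.single k 1 - (u₀ k) • γ₁ with hh
      have e1 : h ⬝ᵥ u₀ = 0 := by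
        rw [hh, sub_dotProduct, single_dotProduct, smul_dotProduct, h11, smul_eq_mul]
        ring
      have e2 : h ⬝ᵥ v' ≠ 0 := by
        rw [hh, sub_dotProduct, single_dotProduct, smul_dotProduct, smul_eq_mul, one_mul]
        intro h0
        apply hk
        rw [Pi.sub_apply, Pi.smul_apply, smul_eq_mul]
        linear_combination h0
      refine ⟨(h ⬝ᵥ v')⁻¹ • (h + (1 - h ⬝ᵥ v₀) • γ₂), ?_, ?_, ?_⟩
      · rw [smul_dotProduct, add_dotProduct, smul_dotProduct, e1, h21]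
        simp
      · rw [smul_dotProduct, add_dotProduct, smul_dotProduct, hc, smul_zero, add_zero,
          smul_eq_mul, inv_mul_cancel₀ e2]
      · rw [smul_dotProduct, add_dotProduct, smul_dotProduct, h22, smul_eq_mul, smul_eq_mul]
        have : h ⬝ᵥ v₀ + (1 - h ⬝ᵥ v₀) * 1 = 1 := by ring
        rw [this, mul_one]
        exact inv_ne_zero e2
    · refine ⟨(γ₂ ⬝ᵥ v')⁻¹ • γ₂, ?_, ?_, ?_⟩
      · rw [smul_dotProduct, h21, smul_zero]
      · rw [smul_dotProduct, smul_eq_mul, inv_mul_cancel₀ hc]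
      · rw [smul_dotProduct, h22, smul_eq_mul, mul_one]
        exact inv_ne_zero hc
  refine ⟨tv (v₀ - v') f * A₁, ?_, ?_, ?_⟩
  · rw [Matrix.det_mul, det_tv, dotProduct_sub, hf2]
    have : (1 : F) + (f ⬝ᵥ v₀ - 1) = f ⬝ᵥ v₀ := by ring
    rw [this]
    exact (isUnit_iff_ne_zero.mpr hf3).mul hA₁
  · rw [← Matrix.mulVec_mulVec, hA₁u, tv_mulVec, hf1, zero_smul, add_zero]
  · rw [← Matrix.mulVec_mulVec, ← hv', tv_mulVec, hf2, one_smul]
    abel

theorem shear_mulVec (u v f g x : Fin n → F) (hfv : f ⬝ᵥ v = 0) :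
    (tv u f * tv v g) *ᵥ x = x + (f ⬝ᵥ x) • u + (g ⬝ᵥ x) • v := by
  rw [← Matrix.mulVec_mulVec, tv_mulVec, tv_mulVec, dotProduct_add, dotProduct_smul, hfv,
    smul_zero, add_zero]
  abel

theorem shear_det (u v f g : Fin n → F) (hfu : f ⬝ᵥ u = 0) (hgv : g ⬝ᵥ v = 0) :
    (tv u f * tv v g).det = 1 := by
  rw [Matrix.det_mul, det_tv, det_tv, hfu, hgv]
  ring

/-- the effect of a shear on the polar form -/
theorem Bq_shear (h2 : (2 : F) = 0) {Q : (Fin n → F) → F} (hQ : IsQF Q) (u v f g x : Fin n → F)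
    (hfu : f ⬝ᵥ u = 0) (hfv : f ⬝ᵥ v = 0) (hgu : g ⬝ᵥ u = 0) (hgv : g ⬝ᵥ v = 0)
    (h : Bq Q u v = 1) :
    Bq (fun x => Q ((tv u f * tv v g) *ᵥ x)) u x = Bq Q u x + g ⬝ᵥ x ∧
    Bq (fun x => Q ((tv u f * tv v g) *ᵥ x)) v x = Bq Q v x + f ⬝ᵥ x := by
  constructor
  · rw [Bq_comp, shear_mulVec u v f g u hfv, shear_mulVec u v f g x hfv, hfu, hgu, zero_smul,
      zero_smul, add_zero, add_zero, hQ.add_right, hQ.add_right, hQ.smul_right, hQ.smul_right,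
      hQ.self h2, h]
    ring
  · rw [Bq_comp, shear_mulVec u v f g v hfv, shear_mulVec u v f g x hfv, hfv, hgv, zero_smul,
      zero_smul, add_zero, add_zero, hQ.add_right, hQ.add_right, hQ.smul_right, hQ.smul_right,
      hQ.self h2, Bq_comm Q v u, h]
    ring

/-- the dot product with a fixed vector as a linear map -/
def dotL (u : Fin n → F) : (Fin n → F) →ₗ[F] F where
  toFun w := w ⬝ᵥ u
  map_add' x y := add_dotProduct x y u
  map_smul' c x := by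
    rw [smul_dotProduct]
    rfl

theorem dotL_apply (u w : Fin n → F) : dotL u w = w ⬝ᵥ u := rfl

theorem eq_of_dot_eq (f g : Fin n → F) (h : ∀ x, f ⬝ᵥ x = g ⬝ᵥ x) : f = g := by
  classical
  funext i
  have := h (Pi.single i 1)
  rw [dotProduct_single, dotProduct_single, mul_one, mul_one] at this
  exact this

section count

variable [Fintype F] [DecidableEq F]

/-- a non-empty set of quadratic forms with non-zero polar form stable under `GL_n` has at least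
`(q^n - 1)(q^n - q)/(2(q + 1))` elements -/
theorem card_orbit_ge (h2 : (2 : F) = 0) (hn : 2 ≤ n)
    (O : Finset ((Fin n → F) → F)) (hne : O.Nonempty)
    (hQ : ∀ Q ∈ O, IsQF Q ∧ ∃ x y, Bq Q x y ≠ 0)
    (hcl : ∀ Q ∈ O, ∀ A : Matrix (Fin n) (Fin n) F, IsUnit A.det →
      (fun x => Q (A *ᵥ x)) ∈ O) :
    (Fintype.card F ^ n - 1) * (Fintype.card F ^ n - Fintype.card F) ≤
      2 * (Fintype.card F + 1) * O.card := by
  classical
  obtain ⟨Q₀, hQ₀⟩ := hne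
  obtain ⟨u₀, v₀, h1, hu₀⟩ := exists_hyp_pair h2 (hQ Q₀ hQ₀).1 (hQ Q₀ hQ₀).2
  set a₀ := Q₀ u₀ with ha₀
  set b₀ := Q₀ v₀ with hb₀
  obtain ⟨γ₁, γ₂, h11, h12, h21, h22⟩ := exists_dual h2 (hQ Q₀ hQ₀).1 u₀ v₀ h1
  have hex : ∀ u v : Fin n → F, u ≠ 0 → (∀ c : F, v ≠ c • u) →
      ∃ Q ∈ O, Q u = a₀ ∧ Q v = b₀ ∧ Bq Q u v = 1 := by
    intro u v hu hv
    obtain ⟨A, hA, hAu, hAv⟩ := pair_transitive u v u₀ v₀ γ₁ γ₂ hu hv h11 h12 h21 h22
    refine ⟨fun x => Q₀ (A *ᵥ x), hcl Q₀ hQ₀ A hA, ?_, ?_, ?_⟩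
    · show Q₀ (A *ᵥ u) = a₀
      rw [hAu]
    · show Q₀ (A *ᵥ v) = b₀
      rw [hAv]
    · rw [Bq_comp, hAu, hAv, h1]
  let Quv : (Fin n → F) → (Fin n → F) → ((Fin n → F) → F) := fun u v =>
    if h : u ≠ 0 ∧ ∀ c : F, v ≠ c • u then (hex u v h.1 h.2).choose else Q₀
  have hQuv : ∀ u v, u ≠ 0 → (∀ c : F, v ≠ c • u) →
      Quv u v ∈ O ∧ Quv u v u = a₀ ∧ Quv u v v = b₀ ∧ Bq (Quv u v) u v = 1 := by
    intro u v hu hv
    have := (hex u v hu hv).choose_spec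
    simp only [Quv, dif_pos (And.intro hu hv)]
    exact this
  set ω := Fintype.card F ^ (n - 2) with hω
  have hωq : ω * Fintype.card F ^ 2 = Fintype.card F ^ n := by
    rw [hω, ← pow_add]
    congr 1
    omega
  have hqpos : 0 < Fintype.card F ^ 2 := pow_pos Fintype.card_pos _
  have hωpos : 0 < ω := pow_pos Fintype.card_pos _
  set V' : Finset (Fin n → F) := Finset.univ.filter (fun u : Fin n → F => u ≠ 0) with hV'
  set P : (Fin n → F) → Finset (Fin n → F) := fun u =>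
    Finset.univ.filter (fun v : Fin n → F => ∀ c : F, v ≠ c • u) with hP
  set K : (Σ _ : Fin n → F, Fin n → F) → Finset ((Fin n → F) × (Fin n → F)) := fun p =>
    (Finset.univ.filter (fun f : Fin n → F => f ⬝ᵥ p.1 = 0 ∧ f ⬝ᵥ p.2 = 0)) ×ˢ
    (Finset.univ.filter (fun f : Fin n → F => f ⬝ᵥ p.1 = 0 ∧ f ⬝ᵥ p.2 = 0)) with hK
  set X : ((Fin n → F) → F) → Finset (Σ _ : Fin n → F, Fin n → F) := fun Q =>
    (Finset.univ.filter (fun u : Fin n → F => Q u = a₀)).sigma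
      (fun u => Finset.univ.filter (fun v : Fin n → F => Q v = b₀ ∧ Bq Q u v = 1)) with hX
  have hmemP : ∀ p ∈ V'.sigma P, p.1 ≠ 0 ∧ ∀ c : F, p.2 ≠ c • p.1 := by
    intro p hp
    rw [Finset.mem_sigma] at hp
    obtain ⟨hp1, hp2⟩ := hp
    rw [hV', Finset.mem_filter] at hp1
    rw [hP, Finset.mem_filter] at hp2
    exact ⟨hp1.2, hp2.2⟩
  have hmemK : ∀ (p : Σ _ : Fin n → F, Fin n → F) (fg : (Fin n → F) × (Fin n → F)), fg ∈ K p →
      (fg.1 ⬝ᵥ p.1 = 0 ∧ fg.1 ⬝ᵥ p.2 = 0) ∧ (fg.2 ⬝ᵥ p.1 = 0 ∧ fg.2 ⬝ᵥ p.2 = 0) := by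
    intro p fg hfg
    rw [hK, Finset.mem_product, Finset.mem_filter, Finset.mem_filter] at hfg
    exact ⟨hfg.1.2, hfg.2.2⟩
  have hle : ((V'.sigma P).sigma K).card ≤ (O.sigma X).card := by
    apply Finset.card_le_card_of_injOn
      (fun p => (⟨fun x => Quv p.1.1 p.1.2 ((tv p.1.1 p.2.1 * tv p.1.2 p.2.2) *ᵥ x), p.1⟩ :
        Σ _ : (Fin n → F) → F, (Σ _ : Fin n → F, Fin n → F)))
    · intro p hp
      rw [Finset.mem_coe, Finset.mem_sigma] at hp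
      obtain ⟨hp1, hp2⟩ := hp
      obtain ⟨hu, hv⟩ := hmemP p.1 hp1
      obtain ⟨⟨hfu, hfv⟩, ⟨hgu, hgv⟩⟩ := hmemK p.1 p.2 hp2
      obtain ⟨hq1, hq2, hq3, hq4⟩ := hQuv p.1.1 p.1.2 hu hv
      have hEu : (tv p.1.1 p.2.1 * tv p.1.2 p.2.2) *ᵥ p.1.1 = p.1.1 := by
        rw [shear_mulVec _ _ _ _ _ hfv, hfu, hgu, zero_smul, zero_smul, add_zero, add_zero]
      have hEv : (tv p.1.1 p.2.1 * tv p.1.2 p.2.2) *ᵥ p.1.2 = p.1.2 := by
        rw [shear_mulVec _ _ _ _ _ hfv, hfv, hgv, zero_smul, zero_smul, add_zero, add_zero]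
      rw [Finset.mem_coe, Finset.mem_sigma]
      constructor
      · exact hcl _ hq1 _ (by rw [shear_det _ _ _ _ hfu hgv]; exact isUnit_one)
      · rw [hX, Finset.mem_sigma, Finset.mem_filter, Finset.mem_filter]
        refine ⟨⟨Finset.mem_univ _, ?_⟩, Finset.mem_univ _, ?_, ?_⟩
        · show Quv p.1.1 p.1.2 ((tv p.1.1 p.2.1 * tv p.1.2 p.2.2) *ᵥ p.1.1) = a₀
          rw [hEu, hq2]
        · show Quv p.1.1 p.1.2 ((tv p.1.1 p.2.1 * tv p.1.2 p.2.2) *ᵥ p.1.2) = b₀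
          rw [hEv, hq3]
        · show Bq (fun x => Quv p.1.1 p.1.2 ((tv p.1.1 p.2.1 * tv p.1.2 p.2.2) *ᵥ x))
            p.1.1 p.1.2 = 1
          rw [Bq_comp, hEu, hEv, hq4]
    · intro p hp p' hp' h
      rw [Finset.mem_coe, Finset.mem_sigma] at hp hp'
      obtain ⟨hp1, hp2⟩ := hp
      obtain ⟨hp1', hp2'⟩ := hp'
      obtain ⟨hu, hv⟩ := hmemP p.1 hp1
      obtain ⟨⟨hfu, hfv⟩, ⟨hgu, hgv⟩⟩ := hmemK p.1 p.2 hp2
      obtain ⟨⟨hfu', hfv'⟩, ⟨hgu', hgv'⟩⟩ := hmemK p'.1 p'.2 hp2'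
      obtain ⟨hq1, hq2, hq3, hq4⟩ := hQuv p.1.1 p.1.2 hu hv
      simp only [Sigma.mk.injEq, heq_eq_eq] at h
      obtain ⟨h1', h2'⟩ := h
      obtain ⟨uv, fg⟩ := p
      obtain ⟨uv', fg'⟩ := p'
      simp only at h1' h2' hfu hfv hgu hgv hfu' hfv' hgu' hgv' hq1 hq2 hq3 hq4
      subst h2'
      have hqf := (hQ _ hq1).1
      have e1 : fg.1 = fg'.1 := by
        apply eq_of_dot_eq
        intro x
        have s1 := (Bq_shear h2 hqf uv.1 uv.2 fg.1 fg.2 x hfu hfv hgu hgv hq4).2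
        have s2 := (Bq_shear h2 hqf uv.1 uv.2 fg'.1 fg'.2 x hfu' hfv' hgu' hgv' hq4).2
        rw [h1', s2] at s1
        exact (add_left_cancel s1).symm
      have e2 : fg.2 = fg'.2 := by
        apply eq_of_dot_eq
        intro x
        have s1 := (Bq_shear h2 hqf uv.1 uv.2 fg.1 fg.2 x hfu hfv hgu hgv hq4).1
        have s2 := (Bq_shear h2 hqf uv.1 uv.2 fg'.1 fg'.2 x hfu' hfv' hgu' hgv' hq4).1
        rw [h1', s2] at s1
        exact (add_left_cancel s1).symm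
      rw [Prod.ext e1 e2]
  rw [Finset.card_sigma, Finset.card_sigma] at hle
  have hV'c : V'.card = Fintype.card F ^ n - 1 := by
    rw [hV', Finset.filter_ne' Finset.univ (0 : Fin n → F),
      Finset.card_erase_of_mem (Finset.mem_univ _), Finset.card_univ, Fintype.card_fun,
      Fintype.card_fin]
  have hPc : ∀ u ∈ V', (P u).card = Fintype.card F ^ n - Fintype.card F := by
    intro u hu
    rw [hV', Finset.mem_filter] at hu
    have e : P u = (Finset.univ.image (fun c : F => c • u))ᶜ := by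
      ext v
      rw [hP, Finset.mem_filter, Finset.mem_compl, Finset.mem_image]
      constructor
      · rintro ⟨-, h⟩ ⟨c, -, hc⟩
        exact h c hc.symm
      · intro h
        exact ⟨Finset.mem_univ _, fun c hc => h ⟨c, Finset.mem_univ _, hc.symm⟩⟩
    rw [e, Finset.card_compl, Finset.card_image_of_injective _ (smul_left_injective F hu.2),
      Finset.card_univ, Fintype.card_fun, Fintype.card_fin]
  have hPP : (V'.sigma P).card =
      (Fintype.card F ^ n - 1) * (Fintype.card F ^ n - Fintype.card F) := by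
    rw [Finset.card_sigma, Finset.sum_congr rfl hPc, Finset.sum_const, smul_eq_mul, hV'c]
  have hKc : ∀ p ∈ V'.sigma P, (K p).card = ω * ω := by
    intro p hp
    obtain ⟨hu, hv⟩ := hmemP p hp
    obtain ⟨hq1, hq2, hq3, hq4⟩ := hQuv p.1 p.2 hu hv
    obtain ⟨δ₁, δ₂, d11, d12, d21, d22⟩ := exists_dual h2 (hQ _ hq1).1 p.1 p.2 hq4
    have hc := card_ker2 (dotL p.1) (dotL p.2) δ₁ δ₂ d11 d12 d21 d22
    have hc' : (Finset.univ.filter (fun f : Fin n → F => f ⬝ᵥ p.1 = 0 ∧ f ⬝ᵥ p.2 = 0)).card =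
        ω := Nat.eq_of_mul_eq_mul_right hqpos (hc.trans hωq.symm)
    rw [hK, Finset.card_product, hc']
  have h1' : ∑ p ∈ V'.sigma P, (K p).card =
      (Fintype.card F ^ n - 1) * (Fintype.card F ^ n - Fintype.card F) * (ω * ω) := by
    rw [Finset.sum_congr rfl hKc, Finset.sum_const, smul_eq_mul, hPP]
  have h2' : ∑ Q ∈ O, (X Q).card ≤ O.card * (((Fintype.card F + 1) * ω) * (2 * ω)) := by
    rw [← smul_eq_mul, ← Finset.sum_const]
    apply Finset.sum_le_sum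
    intro Q hQO
    rw [hX, Finset.card_sigma]
    calc ∑ u ∈ Finset.univ.filter (fun u : Fin n → F => Q u = a₀),
          (Finset.univ.filter (fun v : Fin n → F => Q v = b₀ ∧ Bq Q u v = 1)).card
        ≤ ∑ _u ∈ Finset.univ.filter (fun u : Fin n → F => Q u = a₀), 2 * ω := by
          apply Finset.sum_le_sum
          intro u hu
          rw [Finset.mem_filter] at hu
          exact card_partner_le h2 (hQ Q hQO).1 a₀ b₀ hu₀ u hu.2 ω hωq
      _ = (Finset.univ.filter (fun u : Fin n → F => Q u = a₀)).card * (2 * ω) := by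
          rw [Finset.sum_const, smul_eq_mul]
      _ ≤ ((Fintype.card F + 1) * ω) * (2 * ω) :=
          Nat.mul_le_mul_right _ (card_value_le h2 (hQ Q hQO).1 (hQ Q hQO).2 a₀ hu₀ ω hωq)
  rw [h1'] at hle
  have h3 := hle.trans h2'
  have h4 : (Fintype.card F ^ n - 1) * (Fintype.card F ^ n - Fintype.card F) * (ω * ω) ≤
      (2 * (Fintype.card F + 1) * O.card) * (ω * ω) := by
    calc _ ≤ O.card * (((Fintype.card F + 1) * ω) * (2 * ω)) := h3
      _ = _ := by ring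
  exact Nat.le_of_mul_le_mul_right h4 (Nat.mul_pos hωpos hωpos)

end count

end Cfsg.Agent.Lib.Helper39.LSQuad2
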