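-- Characters of the additive group of symmetric matrices over a finite field of characteristic
-- two: they are parametrised by quadratic forms.
import Mathlib
import Cfsg.Agent.Lib.Helper39.LSQuad
import Cfsg.Agent.Lib.Helper39.LSChar

set_option autoImplicit false

namespace Cfsg.Agent.Lib.Helper39.LSSym

open Matrix
open Cfsg.Agent.Lib.Helper39.LSQuad

variable {F : Type*} [Field F] {n : ℕ}

/-- the additive group of symmetric matrices -/
def SymM (F : Type*) [Field F] (n : ℕ) : AddSubgroup (Matrix (Fin n) (Fin n) F) where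
  carrier := {S | Sᵀ = S}
  add_mem' := by
    intro a b ha hb
    show (a + b)ᵀ = a + b
    have ha' : aᵀ = a := ha
    have hb' : bᵀ = b := hb
    rw [Matrix.transpose_add, ha', hb']
  zero_mem' := Matrix.transpose_zero
  neg_mem' := by
    intro a ha
    show (-a)ᵀ = -a
    have ha' : aᵀ = a := ha
    rw [Matrix.transpose_neg, ha']

theorem mem_SymM (S : Matrix (Fin n) (Fin n) F) : S ∈ SymM F n ↔ Sᵀ = S := Iff.rfl

/-- the character of the group of symmetric matrices attached to a matrix -/
def eS (ψ : AddChar F ℂ) (T : Matrix (Fin n) (Fin n) F) (S : SymM F n) : ℂ :=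
  ψ (Matrix.trace (T * S.1))

theorem eS_add (ψ : AddChar F ℂ) (T : Matrix (Fin n) (Fin n) F) (S S' : SymM F n) :
    eS ψ T (S + S') = eS ψ T S * eS ψ T S' := by
  unfold eS
  rw [AddSubgroup.coe_add, Matrix.mul_add, Matrix.trace_add, AddChar.map_add_eq_mul]

theorem eS_zero (ψ : AddChar F ℂ) (T : Matrix (Fin n) (Fin n) F) : eS ψ T 0 = 1 := by
  unfold eS
  rw [AddSubgroup.coe_zero, Matrix.mul_zero, Matrix.trace_zero, AddChar.map_zero_eq_one]

theorem Qd_single (T : Matrix (Fin n) (Fin n) F) (i : Fin n) : Qd T (Pi.single i 1) = T i i := by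
  unfold Qd
  rw [Matrix.mulVec_single_one, single_dotProduct, one_mul]
  rfl

theorem Bq_Qd_single (h2 : (2 : F) = 0) (T : Matrix (Fin n) (Fin n) F) (i j : Fin n) :
    Bq (Qd T) (Pi.single i 1) (Pi.single j 1) = T i j + T j i := by
  rw [Bq_Qd h2, Matrix.mulVec_single_one, single_dotProduct, one_mul]
  rfl

theorem Qd_sub (T T' : Matrix (Fin n) (Fin n) F) (x : Fin n → F) :
    Qd (T - T') x = Qd T x - Qd T' x := by
  unfold Qd
  rw [Matrix.sub_mulVec, dotProduct_sub]

/-- matrices with the same quadratic form give the same character -/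
theorem eS_eq_of_Qd (h2 : (2 : F) = 0) (ψ : AddChar F ℂ) (T T' : Matrix (Fin n) (Fin n) F)
    (h : Qd T = Qd T') : eS ψ T = eS ψ T' := by
  funext S
  unfold eS
  congr 1
  have hS : S.1ᵀ = S.1 := S.2
  have hD0 : Qd (T - T') = 0 := by
    funext x
    rw [Qd_sub, h, sub_self]
    rfl
  have hdiag : ∀ i, (T - T') i i = 0 := by
    intro i
    have e := Qd_single (T - T') i
    rw [hD0] at e
    exact e.symm
  have hoff : ∀ i j, (T - T') i j + (T - T') j i = 0 := by
    intro i j
    have e := Bq_Qd_single h2 (T - T') i j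
    rw [hD0] at e
    rw [← e]
    simp [Bq]
  have key : Matrix.trace ((T - T') * S.1) = 0 := by
    rw [Matrix.trace]
    simp only [Matrix.diag_apply, Matrix.mul_apply]
    rw [← Finset.sum_product']
    apply Finset.sum_involution (fun p _ => (p.2, p.1))
    · intro p _
      have e1 : S.1 p.1 p.2 = S.1 p.2 p.1 := by
        conv_lhs => rw [← hS]
        rfl
      show (T - T') p.1 p.2 * S.1 p.2 p.1 + (T - T') p.2 p.1 * S.1 p.1 p.2 = 0
      rw [e1]
      linear_combination (S.1 p.2 p.1) * hoff p.1 p.2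
    · intro p _ hne heq
      apply hne
      have e : p.2 = p.1 := congrArg Prod.fst heq
      show (T - T') p.1 p.2 * S.1 p.2 p.1 = 0
      rw [e, hdiag, zero_mul]
    · intro p _
      exact Finset.mem_univ _
    · intro p _
      rfl
  rw [Matrix.sub_mul, Matrix.trace_sub] at key
  exact sub_eq_zero.mp key

theorem sym_vecMulVec (x : Fin n → F) : vecMulVec x x ∈ SymM F n := by
  rw [mem_SymM]
  ext i j
  rw [Matrix.transpose_apply, vecMulVec_apply, vecMulVec_apply, mul_comm]

theorem trace_mul_vecMulVec (T : Matrix (Fin n) (Fin n) F) (x : Fin n → F) :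
    Matrix.trace (T * vecMulVec x x) = Qd T x := by
  rw [Matrix.mul_vecMulVec, Matrix.trace_vecMulVec, dotProduct_comm]
  rfl

/-- matrices with the same character have the same quadratic form -/
theorem Qd_eq_of_eS [Finite F] (h2 : (2 : F) = 0) (ψ : AddChar F ℂ) (hψ : ψ 1 ≠ 1)
    (T T' : Matrix (Fin n) (Fin n) F) (h : eS ψ T = eS ψ T') : Qd T = Qd T' := by
  funext x
  by_contra hne
  have hd : Qd T x - Qd T' x ≠ 0 := sub_ne_zero.mpr hne
  obtain ⟨s, hs⟩ := exists_sqrt h2 (Qd T x - Qd T' x)⁻¹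
  have h1 := congrFun h ⟨vecMulVec (s • x) (s • x), sym_vecMulVec _⟩
  unfold eS at h1
  simp only at h1
  rw [trace_mul_vecMulVec, trace_mul_vecMulVec, (isQF_Qd h2 T).smul, (isQF_Qd h2 T').smul] at h1
  apply hψ
  have e : s ^ 2 * Qd T x = 1 + s ^ 2 * Qd T' x := by
    have : s ^ 2 * (Qd T x - Qd T' x) = 1 := by rw [hs, inv_mul_cancel₀ hd]
    linear_combination this
  rw [e, AddChar.map_add_eq_mul] at h1
  have h0 := Cfsg.Agent.Lib.Helper39.LSChar.addChar_ne_zero ψ (s ^ 2 * Qd T' x)
  exact mul_right_cancel₀ h0 (by rw [h1, one_mul])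

/-- the upper triangular part -/
def up (M : Matrix (Fin n) (Fin n) F) : Matrix (Fin n) (Fin n) F :=
  Matrix.of fun i j => if i ≤ j then M i j else 0

theorem up_apply (M : Matrix (Fin n) (Fin n) F) (i j : Fin n) :
    up M i j = if i ≤ j then M i j else 0 := rfl

theorem up_eq_of_Qd (h2 : (2 : F) = 0) (M M' : Matrix (Fin n) (Fin n) F)
    (h : Qd (up M) = Qd (up M')) : up M = up M' := by
  ext i j
  rcases lt_trichotomy i j with hij | hij | hij
  · have e1 := Bq_Qd_single h2 (up M) i j
    have e2 := Bq_Qd_single h2 (up M') i j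
    rw [h, e2] at e1
    rw [up_apply M j i, up_apply M' j i, if_neg (not_le.mpr hij), if_neg (not_le.mpr hij),
      add_zero, add_zero] at e1
    exact e1.symm
  · subst hij
    have e1 := Qd_single (up M) i
    have e2 := Qd_single (up M') i
    rw [h, e2] at e1
    exact e1.symm
  · rw [up_apply, up_apply, if_neg (not_le.mpr hij), if_neg (not_le.mpr hij)]

/-- every character of the group of symmetric matrices comes from a matrix -/
theorem eS_surj [Finite F] (h2 : (2 : F) = 0) (ψ : AddChar F ℂ) (hψ : ψ 1 ≠ 1)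
    (χ : SymM F n → ℂ) (hχ : ∀ S S', χ (S + S') = χ S * χ S') (hχ0 : χ 0 = 1) :
    ∃ T, χ = eS ψ T := by
  classical
  let Φ : SymM F n → AddChar (SymM F n) ℂ := fun T =>
    { toFun := eS ψ (up T.1)
      map_zero_eq_one' := eS_zero ψ (up T.1)
      map_add_eq_mul' := eS_add ψ (up T.1) }
  have hinj : Function.Injective Φ := by
    intro T T' h
    apply Subtype.ext
    have h1 : eS ψ (up T.1) = eS ψ (up T'.1) := by
      funext H
      exact DFunLike.congr_fun h H
    have h3 := up_eq_of_Qd h2 _ _ (Qd_eq_of_eS h2 ψ hψ _ _ h1)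
    have hT : T.1ᵀ = T.1 := T.2
    have hT' : T'.1ᵀ = T'.1 := T'.2
    ext i j
    by_cases hij : i ≤ j
    · have := congrFun (congrFun h3 i) j
      rw [up_apply, up_apply, if_pos hij, if_pos hij] at this
      exact this
    · have hji : j ≤ i := le_of_lt (not_le.mp hij)
      have := congrFun (congrFun h3 j) i
      rw [up_apply, up_apply, if_pos hji, if_pos hji] at this
      have e1 : T.1 i j = T.1 j i := by
        conv_lhs => rw [← hT]
        rfl
      have e2 : T'.1 i j = T'.1 j i := by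
        conv_lhs => rw [← hT']
        rfl
      rw [e1, e2, this]
  have hcard : Nat.card (AddChar (SymM F n) ℂ) ≤ Nat.card (SymM F n) := by
    have : Fintype (SymM F n) := Fintype.ofFinite _
    rw [Nat.card_eq_fintype_card, Nat.card_eq_fintype_card, AddChar.card_eq]
  have hbij := hinj.bijective_of_nat_card_le hcard
  obtain ⟨T, hT⟩ := hbij.2 { toFun := χ, map_zero_eq_one' := hχ0, map_add_eq_mul' := hχ }
  refine ⟨up T.1, ?_⟩
  funext H
  exact (DFunLike.congr_fun hT H).symm

theorem conj_mem (A : Matrix (Fin n) (Fin n) F) (S : SymM F n) : A * S.1 * Aᵀ ∈ SymM F n := by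
  rw [mem_SymM]
  have hS : S.1ᵀ = S.1 := S.2
  rw [Matrix.transpose_mul, Matrix.transpose_mul, Matrix.transpose_transpose, hS, Matrix.mul_assoc]

theorem eS_conj (ψ : AddChar F ℂ) (T A : Matrix (Fin n) (Fin n) F) (S : SymM F n) :
    eS ψ T ⟨A * S.1 * Aᵀ, conj_mem A S⟩ = eS ψ (Aᵀ * T * A) S := by
  unfold eS
  congr 1
  show trace (T * (A * S.1 * Aᵀ)) = trace (Aᵀ * T * A * S.1)
  rw [← Matrix.mul_assoc, Matrix.trace_mul_comm]
  simp only [Matrix.mul_assoc]

theorem Qd_conj (T A : Matrix (Fin n) (Fin n) F) (x : Fin n → F) :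
    Qd (Aᵀ * T * A) x = Qd T (A *ᵥ x) := by
  unfold Qd
  rw [← Matrix.mulVec_mulVec, ← Matrix.mulVec_mulVec, Matrix.dotProduct_mulVec,
    Matrix.vecMul_transpose]

/-- the symmetric elementary matrix -/
def sE (i j : Fin n) : Matrix (Fin n) (Fin n) F := Matrix.single i j 1 + Matrix.single j i 1

theorem sE_mem (i j : Fin n) : (sE i j : Matrix (Fin n) (Fin n) F) ∈ SymM F n := by
  rw [mem_SymM]
  unfold sE
  rw [Matrix.transpose_add, Matrix.transpose_single, Matrix.transpose_single, add_comm]

theorem trace_mul_sE (T : Matrix (Fin n) (Fin n) F) (i j : Fin n) :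
    Matrix.trace (T * sE i j) = T j i + T i j := by
  unfold sE
  rw [Matrix.mul_add, Matrix.trace_add, Matrix.trace_mul_single, Matrix.trace_mul_single]
  simp

/-- a character non-trivial on a symmetric elementary matrix has non-zero polar form -/
theorem exists_Bq_ne (h2 : (2 : F) = 0) (ψ : AddChar F ℂ) (T : Matrix (Fin n) (Fin n) F)
    (i j : Fin n) (hne : eS ψ T ⟨sE i j, sE_mem i j⟩ ≠ 1) : ∃ x y, Bq (Qd T) x y ≠ 0 := by
  refine ⟨Pi.single i 1, Pi.single j 1, ?_⟩
  rw [Bq_Qd_single h2]
  intro h0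
  apply hne
  unfold eS
  simp only
  rw [trace_mul_sE, add_comm, h0, AddChar.map_zero_eq_one]

end Cfsg.Agent.Lib.Helper39.LSSym
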