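-- Landazuri–Seitz bound for `Sp_{2n}(q)`, `q` even: every irreducible complex representation of
-- degree at least two has degree at least `(q^n - 1)(q^n - q)/(2(q + 1))`.
import Mathlib
import Cfsg.Prelude.Def_Classical
import Cfsg.Agent.Lib.Helper39.LSRep
import Cfsg.Agent.Lib.Helper39.LSQuad2
import Cfsg.Agent.Lib.Helper39.LSSym
import Cfsg.Agent.S0270
import Cfsg.Agent.S0246

set_option autoImplicit false

namespace Cfsg.Agent.Lib.Helper39.LSSp

open Matrix Module
open Cfsg.Agent.Lib.Helper65.RepBound Cfsg.Agent.Lib.Helper39.LSRep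
  Cfsg.Agent.Lib.Helper39.LSQuad Cfsg.Agent.Lib.Helper39.LSQuad2 Cfsg.Agent.Lib.Helper39.LSSym

variable {F : Type*} [Field F] {n : ℕ}

theorem two_eq_zero_of_even [Fintype F] (heven : Even (Fintype.card F)) : (2 : F) = 0 := by
  obtain ⟨p, hp⟩ := CharP.exists F
  have := hp
  obtain ⟨k, hpk, hk⟩ := FiniteField.card F p
  rw [hk] at heven
  have h2 : p = 2 := (Nat.Prime.even_iff hpk).mp (Nat.even_pow.mp heven).1
  subst h2
  have := CharP.cast_eq_zero F 2
  exact_mod_cast this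

/-- the unipotent element attached to a symmetric matrix -/
def zS (S : SymM F n) : Matrix.symplecticGroup (Fin n) F :=
  ⟨fromBlocks 1 S.1 0 1, by
    rw [SymplecticGroup.mem_iff]
    have hS : S.1ᵀ = S.1 := S.2
    rw [Matrix.J, fromBlocks_transpose, fromBlocks_multiply, fromBlocks_multiply, hS]
    simp⟩

theorem zS_val (S : SymM F n) : (zS S).1 = fromBlocks 1 S.1 0 1 := rfl

theorem zS_add (S S' : SymM F n) : zS (S + S') = zS S * zS S' := by
  apply Subtype.ext
  show fromBlocks 1 (S + S').1 0 1 = fromBlocks 1 S.1 0 1 * fromBlocks 1 S'.1 0 1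
  rw [fromBlocks_multiply, AddSubgroup.coe_add]
  simp [add_comm]

/-- the Levi element attached to an invertible matrix -/
noncomputable def lA (A : Matrix (Fin n) (Fin n) F) (hA : IsUnit A.det) : Matrix.symplecticGroup (Fin n) F :=
  ⟨fromBlocks A 0 0 (A⁻¹)ᵀ, by
    rw [SymplecticGroup.mem_iff, Matrix.J, fromBlocks_transpose, fromBlocks_multiply,
      fromBlocks_multiply]
    have e1 : A * A⁻¹ = 1 := Matrix.mul_nonsing_inv A hA
    have e2 : (A⁻¹)ᵀ * Aᵀ = 1 := by rw [← Matrix.transpose_mul, e1, Matrix.transpose_one]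
    simp [e1, e2]⟩

theorem lA_zS (A : Matrix (Fin n) (Fin n) F) (hA : IsUnit A.det) (S : SymM F n) :
    lA A hA * zS S * (lA A hA)⁻¹ = zS ⟨A * S.1 * Aᵀ, conj_mem A S⟩ := by
  rw [mul_inv_eq_iff_eq_mul]
  apply Subtype.ext
  show fromBlocks A 0 0 (A⁻¹)ᵀ * fromBlocks 1 S.1 0 1 =
    fromBlocks 1 (A * S.1 * Aᵀ) 0 1 * fromBlocks A 0 0 (A⁻¹)ᵀ
  rw [fromBlocks_multiply, fromBlocks_multiply]
  have e : Aᵀ * (A⁻¹)ᵀ = 1 := by
    rw [← Matrix.transpose_mul, Matrix.nonsing_inv_mul A hA, Matrix.transpose_one]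
  simp [Matrix.mul_assoc, e]

/-- a non-trivial element of `Sp_{2n}(q)`, `q` even, acts non-trivially in every irreducible
complex representation of degree at least two -/
theorem rho_ne_one [Fintype F] (hn : 2 ≤ n) (heven : Even (Fintype.card F))
    (hex : n = 2 → 3 ≤ Fintype.card F) {k : ℕ}
    (ρ : Representation ℂ (Matrix.symplecticGroup (Fin n) F) (Fin k → ℂ))
    (hirr : ρ.IsIrreducible) (hk : 2 ≤ k) (g : Matrix.symplecticGroup (Fin n) F) (hg : g ≠ 1) :
    ρ g ≠ 1 := by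
  classical
  intro h
  have hsimple : IsSimpleGroup (Cfsg.PSp n F) := Cfsg.Agent.S0270.result n hn hex
  have hcard : Nat.card (Subgroup.center (Matrix.symplecticGroup (Fin n) F)) = 1 := by
    rw [Cfsg.Agent.S0246.result (F := F) rfl n (by omega)]
    obtain ⟨r, hr⟩ := heven
    have hq : 1 < Fintype.card F := Fintype.one_lt_card
    exact Nat.coprime_two_left.mpr ⟨r - 1, by omega⟩
  have hcenter : Subgroup.center (Matrix.symplecticGroup (Fin n) F) = ⊥ :=
    Subgroup.eq_bot_of_card_eq _ hcard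
  set N : Subgroup (Matrix.symplecticGroup (Fin n) F) := MonoidHom.ker ρ with hN
  have hgN : g ∈ N := h
  have hNn : N.Normal := MonoidHom.normal_ker ρ
  set π := QuotientGroup.mk' (Subgroup.center (Matrix.symplecticGroup (Fin n) F)) with hπ
  have hmapn : (N.map π).Normal :=
    Subgroup.Normal.map hNn π (QuotientGroup.mk'_surjective _)
  rcases hmapn.eq_bot_or_eq_top with hbot | htop
  · have h1 : π g ∈ N.map π := Subgroup.mem_map_of_mem π hgN
    rw [hbot, Subgroup.mem_bot] at h1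
    have hgc : g ∈ Subgroup.center (Matrix.symplecticGroup (Fin n) F) :=
      (QuotientGroup.eq_one_iff g).mp h1
    rw [hcenter, Subgroup.mem_bot] at hgc
    exact hg hgc
  · have htriv : ∀ x, ρ x = 1 := by
      intro x
      have h1 : π x ∈ N.map π := by
        rw [htop]
        trivial
      obtain ⟨y, hy, hyx⟩ := Subgroup.mem_map.mp h1
      have h2 : π (y⁻¹ * x) = 1 := by rw [map_mul, map_inv, hyx, inv_mul_cancel]
      have h3 : y⁻¹ * x ∈ Subgroup.center (Matrix.symplecticGroup (Fin n) F) :=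
        (QuotientGroup.eq_one_iff _).mp h2
      rw [hcenter, Subgroup.mem_bot] at h3
      have h4 : x = y := by
        have : x = y * (y⁻¹ * x) := by group
        rw [this, h3, mul_one]
      rw [h4]
      exact hy
    let v : Fin k → ℂ := Pi.single ⟨0, by omega⟩ 1
    have hv : v ≠ 0 := by
      intro h0
      have := congrFun h0 ⟨0, by omega⟩
      simp [v] at this
    let W : Subrepresentation ρ := ⟨Submodule.span ℂ {v}, by
      intro x w hw
      rw [htriv x]
      exact hw⟩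
    rcases eq_bot_or_eq_top W with hW | hW
    · have h1 : v ∈ W.toSubmodule := Submodule.subset_span rfl
      rw [hW] at h1
      exact hv ((Submodule.mem_bot ℂ).mp h1)
    · have h1 : W.toSubmodule = ⊤ := by
        rw [hW]
        rfl
      have h2 : finrank ℂ (Submodule.span ℂ {v}) = 1 := finrank_span_singleton hv
      have h3 : Submodule.span ℂ {v} = ⊤ := h1
      rw [h3, finrank_top, Module.finrank_fin_fun] at h2
      omega

theorem sp_even_bound {F : Type*} [Field F] [Fintype F] [DecidableEq F] (n : ℕ) (hn : 2 ≤ n)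
    (heven : Even (Fintype.card F)) (hex : (n, Fintype.card F) ≠ (2, 2))
    (k : ℕ) (ρ : Representation ℂ (Matrix.symplecticGroup (Fin n) F) (Fin k → ℂ))
    (hirr : ρ.IsIrreducible) (hk : 2 ≤ k) :
    (Fintype.card F ^ n - 1) * (Fintype.card F ^ n - Fintype.card F) /
      (2 * (Fintype.card F + 1)) ≤ k := by
  classical
  have h2 : (2 : F) = 0 := two_eq_zero_of_even heven
  have hex' : n = 2 → 3 ≤ Fintype.card F := by
    intro hn2
    have hq : 1 < Fintype.card F := Fintype.one_lt_card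
    by_contra hlt
    apply hex
    have : Fintype.card F = 2 := by omega
    rw [hn2, this]
  obtain ⟨ψ, hψ⟩ := (AddChar.exists_apply_ne_zero (α := F) (a := 1)).mpr one_ne_zero
  have hzz : ∀ S S' : SymM F n, zS (S + S') = zS S * zS S' := zS_add
  have hcomm : ∀ b b' : SymM F n, zS b * zS b' = zS b' * zS b := by
    intro b b'
    rw [← hzz, ← hzz, add_comm]
  set i0 : Fin n := ⟨0, by omega⟩ with hi0
  set i1 : Fin n := ⟨1, by omega⟩ with hi1
  have hi01 : i0 ≠ i1 := by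
    intro h
    have := congrArg Fin.val h
    simp [hi0, hi1] at this
  set S₀ : SymM F n := ⟨sE i0 i1, sE_mem i0 i1⟩ with hS₀
  have hS₀ne : ρ (zS S₀) ≠ 1 := by
    apply rho_ne_one hn heven hex' ρ hirr hk
    intro h1
    have h3 : (zS S₀).1 = 1 := congrArg Subtype.val h1
    rw [zS_val, ← fromBlocks_one] at h3
    have h4 := (fromBlocks_inj.mp h3).2.1
    have h5 := congrFun (congrFun h4 i0) i1
    have h6 : (sE i0 i1 : Matrix (Fin n) (Fin n) F) i0 i1 = 1 := by
      unfold sE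
      rw [Matrix.add_apply, Matrix.single_apply_same, Matrix.single_apply, if_neg (by
        rintro ⟨h, -⟩
        exact hi01 h.symm), add_zero]
    have h7 : (sE i0 i1 : Matrix (Fin n) (Fin n) F) i0 i1 = 0 := h5
    rw [h6] at h7
    exact one_ne_zero h7
  obtain ⟨χ, hχm, hχ0, hχ1, hχbot⟩ := exists_ceig' ρ zS hzz S₀ hS₀ne
  obtain ⟨T₀, rfl⟩ := eS_surj h2 ψ hψ χ hχm hχ0
  set O : Finset ((Fin n → F) → F) := Finset.univ.filter
    (fun Q => ∃ T, Q = Qd T ∧ (∃ x y, Bq Q x y ≠ 0) ∧ ceig ρ zS (eS ψ T) ≠ ⊥) with hO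
  have hmemO : ∀ Q, Q ∈ O ↔
      ∃ T, Q = Qd T ∧ (∃ x y, Bq Q x y ≠ 0) ∧ ceig ρ zS (eS ψ T) ≠ ⊥ := by
    intro Q
    rw [hO, Finset.mem_filter]
    simp
  have hne : O.Nonempty :=
    ⟨Qd T₀, (hmemO _).mpr ⟨T₀, rfl, exists_Bq_ne h2 ψ T₀ i0 i1 hχ1, hχbot⟩⟩
  have hQ : ∀ Q ∈ O, IsQF Q ∧ ∃ x y, Bq Q x y ≠ 0 := by
    intro Q hQO
    obtain ⟨T, rfl, hB, -⟩ := (hmemO Q).mp hQO
    exact ⟨isQF_Qd h2 T, hB⟩
  have hcl : ∀ Q ∈ O, ∀ A : Matrix (Fin n) (Fin n) F, IsUnit A.det →
      (fun x => Q (A *ᵥ x)) ∈ O := by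
    intro Q hQO A hA
    obtain ⟨T, rfl, ⟨x, y, hxy⟩, hbot⟩ := (hmemO Q).mp hQO
    rw [hmemO]
    refine ⟨Aᵀ * T * A, ?_, ?_, ?_⟩
    · funext x
      rw [Qd_conj]
    · refine ⟨A⁻¹ *ᵥ x, A⁻¹ *ᵥ y, ?_⟩
      rw [Bq_comp, Matrix.mulVec_mulVec, Matrix.mulVec_mulVec, Matrix.mul_nonsing_inv A hA,
        Matrix.one_mulVec, Matrix.one_mulVec]
      exact hxy
    · have hle := finrank_ceig_conj_le ρ zS (lA A hA)
        (fun S => ⟨A * S.1 * Aᵀ, conj_mem A S⟩) (lA_zS A hA) (eS ψ T)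
      have e : (fun b : SymM F n => eS ψ T ⟨A * b.1 * Aᵀ, conj_mem A b⟩) =
          eS ψ (Aᵀ * T * A) := by
        funext b
        exact eS_conj ψ T A b
      rw [e] at hle
      intro hb
      rw [hb, finrank_bot] at hle
      exact hbot (Submodule.finrank_eq_zero.mp (Nat.le_zero.mp hle))
  have hcount := card_orbit_ge h2 hn O hne hQ hcl
  let χ' : ((Fin n → F) → F) → (SymM F n → ℂ) := fun Q =>
    if h : ∃ T, Q = Qd T then eS ψ h.choose else 0
  have hχ' : ∀ T, χ' (Qd T) = eS ψ T := by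
    intro T
    have h : ∃ T', Qd T = Qd T' := ⟨T, rfl⟩
    simp only [χ', dif_pos h]
    exact eS_eq_of_Qd h2 ψ _ _ h.choose_spec.symm
  have hsum := sum_finrank_ceig_le ρ zS hcomm O χ' (by
    intro Q hQO Q' hQO' h
    obtain ⟨T, rfl, -, -⟩ := (hmemO Q).mp hQO
    obtain ⟨T', rfl, -, -⟩ := (hmemO Q').mp hQO'
    rw [hχ', hχ'] at h
    exact Qd_eq_of_eS h2 ψ hψ T T' h)
  have hge : O.card ≤ ∑ Q ∈ O, finrank ℂ (ceig ρ zS (χ' Q)) := by
    rw [Finset.card_eq_sum_ones]
    apply Finset.sum_le_sum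
    intro Q hQO
    obtain ⟨T, rfl, -, hbot⟩ := (hmemO Q).mp hQO
    rw [hχ']
    exact Nat.one_le_iff_ne_zero.mpr (fun h0 => hbot (Submodule.finrank_eq_zero.mp h0))
  rw [Module.finrank_fin_fun] at hsum
  exact Nat.div_le_of_le_mul (hcount.trans (Nat.mul_le_mul_left _ (hge.trans hsum)))

end Cfsg.Agent.Lib.Helper39.LSSp
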