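-- Symmetric matrices over a finite field of odd characteristic: their characters, and a lower
-- bound for the size of a set of non-zero symmetric matrices stable under congruence.
import Mathlib
import Cfsg.Agent.Lib.Helper39.LSSym
import Cfsg.Agent.Lib.Helper39.LSChar

set_option autoImplicit false

namespace Cfsg.Agent.Lib.Helper39.LSSymOdd

open Matrix
open Cfsg.Agent.Lib.Helper39.LSHerm Cfsg.Agent.Lib.Helper39.LSQuad Cfsg.Agent.Lib.Helper39.LSSym

variable {F : Type*} [Field F] {n : ℕ}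

theorem smul_sE_mem (c : F) (i j : Fin n) :
    c • (sE i j : Matrix (Fin n) (Fin n) F) ∈ SymM F n := by
  rw [mem_SymM, Matrix.transpose_smul]
  have := sE_mem (F := F) i j
  rw [mem_SymM] at this
  rw [this]

/-- distinct symmetric matrices give distinct characters (odd characteristic) -/
theorem eS_injective (h2 : (2 : F) ≠ 0) (ψ : AddChar F ℂ) (hψ : ψ 1 ≠ 1)
    (T T' : Matrix (Fin n) (Fin n) F) (hT : Tᵀ = T) (hT' : T'ᵀ = T')
    (h : eS ψ T = eS ψ T') : T = T' := by
  ext i j
  by_contra hne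
  have hd : T i j - T' i j ≠ 0 := sub_ne_zero.mpr hne
  set c : F := (2 * (T i j - T' i j))⁻¹ with hc
  have h1 := congrFun h ⟨c • sE i j, smul_sE_mem c i j⟩
  unfold eS at h1
  simp only at h1
  rw [Matrix.mul_smul, Matrix.mul_smul, Matrix.trace_smul, Matrix.trace_smul, trace_mul_sE,
    trace_mul_sE] at h1
  have e1 : T j i = T i j := by
    conv_lhs => rw [← hT]
    rfl
  have e2 : T' j i = T' i j := by
    conv_lhs => rw [← hT']
    rfl
  rw [e1, e2, smul_eq_mul, smul_eq_mul] at h1
  apply hψ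
  have e : c * (T i j + T i j) = 1 + c * (T' i j + T' i j) := by
    have : c * (2 * (T i j - T' i j)) = 1 := inv_mul_cancel₀ (mul_ne_zero h2 hd)
    linear_combination this
  rw [e, AddChar.map_add_eq_mul] at h1
  have h0 := Cfsg.Agent.Lib.Helper39.LSChar.addChar_ne_zero ψ (c * (T' i j + T' i j))
  exact mul_right_cancel₀ h0 (by rw [h1, one_mul])

/-- every character of the group of symmetric matrices comes from a symmetric matrix -/
theorem eS_surj_sym [Finite F] (h2 : (2 : F) ≠ 0) (ψ : AddChar F ℂ) (hψ : ψ 1 ≠ 1)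
    (χ : SymM F n → ℂ) (hχ : ∀ S S', χ (S + S') = χ S * χ S') (hχ0 : χ 0 = 1) :
    ∃ T, Tᵀ = T ∧ χ = eS ψ T := by
  classical
  let Φ : SymM F n → AddChar (SymM F n) ℂ := fun T =>
    { toFun := eS ψ T.1
      map_zero_eq_one' := eS_zero ψ T.1
      map_add_eq_mul' := eS_add ψ T.1 }
  have hinj : Function.Injective Φ := by
    intro T T' h
    apply Subtype.ext
    apply eS_injective h2 ψ hψ T.1 T'.1 T.2 T'.2
    funext H
    exact DFunLike.congr_fun h H
  have hcard : Nat.card (AddChar (SymM F n) ℂ) ≤ Nat.card (SymM F n) := by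
    have : Fintype (SymM F n) := Fintype.ofFinite _
    rw [Nat.card_eq_fintype_card, Nat.card_eq_fintype_card, AddChar.card_eq]
  have hbij := hinj.bijective_of_nat_card_le hcard
  obtain ⟨T, hT⟩ := hbij.2 { toFun := χ, map_zero_eq_one' := hχ0, map_add_eq_mul' := hχ }
  refine ⟨T.1, T.2, ?_⟩
  funext H
  exact (DFunLike.congr_fun hT H).symm

theorem Qd_add (T : Matrix (Fin n) (Fin n) F) (x y : Fin n → F) :
    Qd T (x + y) = Qd T x + Qd T y + x ⬝ᵥ (T *ᵥ y) + y ⬝ᵥ (T *ᵥ x) := by
  unfold Qd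
  rw [Matrix.mulVec_add, add_dotProduct, dotProduct_add, dotProduct_add]
  ring

theorem Qd_smul (T : Matrix (Fin n) (Fin n) F) (c : F) (x : Fin n → F) :
    Qd T (c • x) = c ^ 2 * Qd T x := by
  unfold Qd
  rw [Matrix.mulVec_smul, smul_dotProduct, dotProduct_smul, smul_eq_mul, smul_eq_mul]
  ring

theorem dot_symm (T : Matrix (Fin n) (Fin n) F) (hT : Tᵀ = T) (x y : Fin n → F) :
    y ⬝ᵥ (T *ᵥ x) = x ⬝ᵥ (T *ᵥ y) := by
  rw [Matrix.dotProduct_mulVec, ← Matrix.mulVec_transpose, hT, dotProduct_comm]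

theorem exists_Qd_ne_zero (h2 : (2 : F) ≠ 0) (T : Matrix (Fin n) (Fin n) F) (hT : Tᵀ = T)
    (hT0 : T ≠ 0) : ∃ v, Qd T v ≠ 0 := by
  classical
  obtain ⟨i, j, hij⟩ : ∃ i j, T i j ≠ 0 := by
    by_contra h
    push Not at h
    exact hT0 (by ext i j; exact h i j)
  by_cases hi : T i i = 0
  · by_cases hj : T j j = 0
    · refine ⟨Pi.single i 1 + Pi.single j 1, ?_⟩
      rw [Qd_add, Qd_single, Qd_single, hi, hj, dot_symm T hT (Pi.single i 1) (Pi.single j 1),
        Matrix.mulVec_single_one, single_dotProduct, one_mul]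
      have : (Matrix.col T j) i = T i j := rfl
      rw [this]
      intro h0
      have : 2 * T i j = 0 := by linear_combination h0
      rcases mul_eq_zero.mp this with h | h
      · exact h2 h
      · exact hij h
    · exact ⟨Pi.single j 1, by rw [Qd_single]; exact hj⟩
  · exact ⟨Pi.single i 1, by rw [Qd_single]; exact hi⟩

theorem transpose_tv (v a : Fin n → F) : (tv v a)ᵀ = tv a v := by
  ext i j
  unfold tv
  rw [Matrix.transpose_apply, Matrix.add_apply, Matrix.add_apply, Matrix.one_apply,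
    Matrix.one_apply, vecMulVec_apply, vecMulVec_apply, mul_comm]
  by_cases h : i = j
  · subst h
    rfl
  · rw [if_neg h, if_neg (fun h' => h h'.symm)]

section count

variable [Fintype F] [DecidableEq F]

/-- the number of solutions of `Q(w) = c` for a non-zero quadratic form in odd characteristic -/
theorem card_Qd_eq_le (h2 : (2 : F) ≠ 0) (T : Matrix (Fin n) (Fin n) F) (hT : Tᵀ = T)
    (hT0 : T ≠ 0) (c : F) :
    (Finset.univ.filter (fun w : Fin n → F => Qd T w = c)).card ≤
      2 * Fintype.card F ^ (n - 1) := by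
  classical
  obtain ⟨v, hv⟩ := exists_Qd_ne_zero h2 T hT hT0
  set u := T *ᵥ v with hu
  have hvu : v ⬝ᵥ u = Qd T v := rfl
  have hu0 : u ≠ 0 := by
    intro h0
    apply hv
    rw [← hvu, h0, dotProduct_zero]
  set K := Finset.univ.filter (fun a : Fin n → F => a ⬝ᵥ u = 0) with hK
  have hKc : K.card = Fintype.card F ^ (n - 1) := card_ker_dot u hu0
  set R : (Fin n → F) → Finset F := fun w' =>
    Finset.univ.filter (fun t : F => t ^ 2 * Qd T v + Qd T w' = c) with hR
  have hRc : ∀ w', (R w').card ≤ 2 := by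
    intro w'
    by_cases hemp : R w' = ∅
    · rw [hemp]
      simp
    obtain ⟨t₀, ht₀⟩ := Finset.nonempty_iff_ne_empty.mpr hemp
    rw [hR, Finset.mem_filter] at ht₀
    have hsub : R w' ⊆ {t₀, -t₀} := by
      intro t ht
      rw [hR, Finset.mem_filter] at ht
      have e : (t - t₀) * (t + t₀) * Qd T v = 0 := by linear_combination ht.2 - ht₀.2
      rw [Finset.mem_insert, Finset.mem_singleton]
      rcases mul_eq_zero.mp e with h | h
      · rcases mul_eq_zero.mp h with h' | h'
        · left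
          exact sub_eq_zero.mp h'
        · right
          linear_combination h'
      · exact absurd h hv
    exact (Finset.card_le_card hsub).trans Finset.card_le_two
  have hcard : (Finset.univ.filter (fun w : Fin n → F => Qd T w = c)).card ≤
      (K.sigma R).card := by
    apply Finset.card_le_card_of_injOn
      (fun w => (⟨w - (w ⬝ᵥ u / Qd T v) • v, w ⬝ᵥ u / Qd T v⟩ : Σ _ : Fin n → F, F))
    · intro w hw
      have hw' : Qd T w = c := by
        have := hw
        rw [Finset.coe_filter] at this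
        exact this.2
      rw [Finset.mem_coe, Finset.mem_sigma]
      set t := w ⬝ᵥ u / Qd T v with ht
      have e2 : (w - t • v) ⬝ᵥ u = 0 := by
        rw [sub_dotProduct, smul_dotProduct, hvu, smul_eq_mul, ht, div_mul_cancel₀ _ hv,
          sub_self]
      constructor
      · rw [hK, Finset.mem_filter]
        exact ⟨Finset.mem_univ _, e2⟩
      · rw [hR, Finset.mem_filter]
        refine ⟨Finset.mem_univ _, ?_⟩
        have e1 : w = (w - t • v) + t • v := by abel
        have e3 : Qd T w = Qd T (w - t • v) + t ^ 2 * Qd T v := by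
          conv_lhs => rw [e1]
          rw [Qd_add, Qd_smul, dot_symm T hT (w - t • v) (t • v), Matrix.mulVec_smul,
            dotProduct_smul, ← hu, e2]
          simp
        rw [← hw', e3]
        ring
    · intro w _ w' _ h
      simp only [Sigma.mk.injEq, heq_eq_eq] at h
      obtain ⟨h1, h2'⟩ := h
      rw [h2'] at h1
      exact sub_left_injective h1
  rw [Finset.card_sigma] at hcard
  calc (Finset.univ.filter (fun w : Fin n → F => Qd T w = c)).card
      ≤ ∑ w' ∈ K, (R w').card := hcard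
    _ ≤ ∑ _w' ∈ K, 2 := Finset.sum_le_sum (fun w' _ => hRc w')
    _ = 2 * Fintype.card F ^ (n - 1) := by rw [Finset.sum_const, smul_eq_mul, hKc, mul_comm]

/-- a non-empty set of non-zero symmetric matrices stable under congruence has at least
`(q^n - 1)/2` elements (odd characteristic) -/
theorem card_orbit_ge (h2 : (2 : F) ≠ 0) (O : Finset (Matrix (Fin n) (Fin n) F))
    (hne : O.Nonempty) (hH : ∀ T ∈ O, Tᵀ = T ∧ T ≠ 0)
    (hcl : ∀ T ∈ O, ∀ A : Matrix (Fin n) (Fin n) F, IsUnit A.det → Aᵀ * T * A ∈ O) :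
    Fintype.card F ^ n - 1 ≤ 2 * O.card := by
  classical
  obtain ⟨T₀, hT₀⟩ := hne
  obtain ⟨v₀, hv₀⟩ := exists_Qd_ne_zero h2 T₀ (hH T₀ hT₀).1 (hH T₀ hT₀).2
  set c₀ := Qd T₀ v₀ with hc₀
  have hv₀0 : v₀ ≠ 0 := by
    rintro rfl
    apply hv₀
    rw [hc₀]
    unfold Qd
    rw [zero_dotProduct]
  have hex : ∀ w : Fin n → F, w ≠ 0 → ∃ T ∈ O, Qd T w = c₀ := by
    intro w hw
    obtain ⟨A, hA, hAw⟩ := gl_transitive w v₀ hw hv₀0
    exact ⟨Aᵀ * T₀ * A, hcl T₀ hT₀ A hA, by rw [Qd_conj, hAw]⟩
  let Tv : (Fin n → F) → Matrix (Fin n) (Fin n) F := fun w =>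
    if hw : w ≠ 0 then (hex w hw).choose else 0
  have hTv : ∀ w, w ≠ 0 → Tv w ∈ O ∧ Qd (Tv w) w = c₀ := by
    intro w hw
    have := (hex w hw).choose_spec
    simp only [Tv, dif_pos hw]
    exact this
  set X : Matrix (Fin n) (Fin n) F → Finset (Fin n → F) := fun T =>
    Finset.univ.filter (fun w : Fin n → F => Qd T w = c₀) with hX
  set V' : Finset (Fin n → F) := Finset.univ.filter (fun w : Fin n → F => w ≠ 0) with hV'
  set K : (Fin n → F) → Finset (Fin n → F) := fun w =>
    Finset.univ.filter (fun a : Fin n → F => a ⬝ᵥ w = 0) with hK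
  have hconj : ∀ (T : Matrix (Fin n) (Fin n) F) (w a : Fin n → F), a ⬝ᵥ w = 0 →
      ((tv w a)ᵀ * T * tv w a) *ᵥ w = T *ᵥ w + Qd T w • a := by
    intro T w a ha
    rw [← Matrix.mulVec_mulVec, ← Matrix.mulVec_mulVec, tv_mulVec, ha, zero_smul, add_zero,
      transpose_tv, tv_mulVec]
    rfl
  have hle : (V'.sigma K).card ≤ (O.sigma X).card := by
    apply Finset.card_le_card_of_injOn
      (fun p => (⟨(tv p.1 p.2)ᵀ * Tv p.1 * tv p.1 p.2, p.1⟩ :
        Σ _ : Matrix (Fin n) (Fin n) F, Fin n → F))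
    · intro p hp
      rw [Finset.mem_coe, Finset.mem_sigma] at hp
      obtain ⟨hp1, hp2⟩ := hp
      rw [hV', Finset.mem_filter] at hp1
      rw [hK, Finset.mem_filter] at hp2
      have hp1' : p.1 ≠ 0 := hp1.2
      have hp2' : p.2 ⬝ᵥ p.1 = 0 := hp2.2
      rw [Finset.mem_coe, Finset.mem_sigma]
      constructor
      · exact hcl _ (hTv p.1 hp1').1 _ (by
          rw [det_tv, hp2', add_zero]
          exact isUnit_one)
      · rw [hX, Finset.mem_filter]
        refine ⟨Finset.mem_univ _, ?_⟩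
        show Qd ((tv p.1 p.2)ᵀ * Tv p.1 * tv p.1 p.2) p.1 = c₀
        rw [Qd_conj, tv_mulVec, hp2', zero_smul, add_zero]
        exact (hTv p.1 hp1').2
    · intro p hp p' hp' h
      rw [Finset.mem_coe, Finset.mem_sigma] at hp hp'
      obtain ⟨hp1, hp2⟩ := hp
      obtain ⟨hp1', hp2'⟩ := hp'
      rw [hV', Finset.mem_filter] at hp1 hp1'
      rw [hK, Finset.mem_filter] at hp2 hp2'
      simp only [Sigma.mk.injEq, heq_eq_eq] at h
      obtain ⟨h1, h2'⟩ := h
      obtain ⟨w, a⟩ := p
      obtain ⟨w', a'⟩ := p'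
      simp only at h1 h2' hp1 hp2 hp1' hp2'
      subst h2'
      have e1 := hconj (Tv w) w a hp2.2
      have e2 := hconj (Tv w) w a' hp2'.2
      rw [h1, e2, (hTv w hp1.2).2] at e1
      have e3 : c₀ • a' = c₀ • a := add_left_cancel e1
      have e4 : a' = a := smul_right_injective _ hv₀ e3
      rw [e4]
  rw [Finset.card_sigma, Finset.card_sigma] at hle
  have hV'c : V'.card = Fintype.card F ^ n - 1 := by
    rw [hV', Finset.filter_ne' Finset.univ (0 : Fin n → F),
      Finset.card_erase_of_mem (Finset.mem_univ _), Finset.card_univ, Fintype.card_fun,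
      Fintype.card_fin]
  have h1 : ∑ w ∈ V', (K w).card = (Fintype.card F ^ n - 1) * Fintype.card F ^ (n - 1) := by
    rw [← hV'c, ← smul_eq_mul, ← Finset.sum_const]
    apply Finset.sum_congr rfl
    intro w hw
    rw [hV', Finset.mem_filter] at hw
    exact card_ker_dot w hw.2
  have h2' : ∑ T ∈ O, (X T).card ≤ O.card * (2 * Fintype.card F ^ (n - 1)) := by
    rw [← smul_eq_mul, ← Finset.sum_const]
    apply Finset.sum_le_sum
    intro T hT
    exact card_Qd_eq_le h2 T (hH T hT).1 (hH T hT).2 c₀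
  rw [h1] at hle
  have h3 := hle.trans h2'
  have hpos : 0 < Fintype.card F ^ (n - 1) := pow_pos Fintype.card_pos _
  have h4 : (Fintype.card F ^ n - 1) * Fintype.card F ^ (n - 1) ≤
      (2 * O.card) * Fintype.card F ^ (n - 1) := by
    calc _ ≤ O.card * (2 * Fintype.card F ^ (n - 1)) := h3
      _ = _ := by ring
  exact Nat.le_of_mul_le_mul_right h4 hpos

end count

end Cfsg.Agent.Lib.Helper39.LSSymOdd
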