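-- Landazuri–Seitz bound for `Sp_{2n}(q)`, `q` odd: every irreducible complex representation of
-- degree at least two has degree at least `(q^n - 1)/2`.
import Mathlib
import Cfsg.Prelude.Def_Classical
import Cfsg.Agent.Lib.Helper39.LSRep
import Cfsg.Agent.Lib.Helper39.LSSymOdd
import Cfsg.Agent.Lib.Helper39.LSSp
import Cfsg.Agent.S0270
import Cfsg.Agent.S0269
import Cfsg.Agent.S0246

set_option autoImplicit false

namespace Cfsg.Agent.Lib.Helper39.LSSpOdd

open Matrix Module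
open Cfsg.Agent.Lib.Helper65.RepBound Cfsg.Agent.Lib.Helper39.LSRep
  Cfsg.Agent.Lib.Helper39.LSQuad Cfsg.Agent.Lib.Helper39.LSSym Cfsg.Agent.Lib.Helper39.LSSymOdd
  Cfsg.Agent.Lib.Helper39.LSSp

variable {F : Type*} [Field F] {n : ℕ}

theorem two_ne_zero_of_odd [Fintype F] (hodd : Odd (Fintype.card F)) : (2 : F) ≠ 0 := by
  intro h2
  obtain ⟨p, hp⟩ := CharP.exists F
  have := hp
  obtain ⟨k, hpk, hk⟩ := FiniteField.card F p
  have h3 : ((2 : ℕ) : F) = 0 := by exact_mod_cast h2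
  have h4 : p ∣ 2 := (CharP.cast_eq_zero_iff F p 2).mp h3
  have h5 : p = 2 := (Nat.prime_dvd_prime_iff_eq hpk Nat.prime_two).mp h4
  rw [hk, h5] at hodd
  have : Even (2 ^ (k : ℕ)) := (Nat.even_pow.mpr ⟨even_two, k.pos.ne'⟩)
  exact (Nat.not_even_iff_odd.mpr hodd) this

/-- a non-central element of `Sp_{2n}(q)`, `q` odd, acts non-trivially in every irreducible
complex representation of degree at least two -/
theorem rho_ne_one_odd [Fintype F] (hn : 2 ≤ n) (hodd : Odd (Fintype.card F)) {k : ℕ}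
    (ρ : Representation ℂ (Matrix.symplecticGroup (Fin n) F) (Fin k → ℂ))
    (hirr : ρ.IsIrreducible) (hk : 2 ≤ k) (g : Matrix.symplecticGroup (Fin n) F)
    (hg : g ∉ Subgroup.center (Matrix.symplecticGroup (Fin n) F)) : ρ g ≠ 1 := by
  classical
  intro h
  have hq3 : 3 ≤ Fintype.card F := by
    have h1 : 1 < Fintype.card F := Fintype.one_lt_card
    obtain ⟨r, hr⟩ := hodd
    omega
  have hsimple : IsSimpleGroup (Cfsg.PSp n F) := Cfsg.Agent.S0270.result n hn (fun _ => hq3)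
  have hperf : commutator (Matrix.symplecticGroup (Fin n) F) = ⊤ := by
    apply Cfsg.Agent.S0269.result n
    by_cases h3 : 3 ≤ n
    · exact Or.inl h3
    · exact Or.inr (Or.inl ⟨by omega, hq3⟩)
  set N : Subgroup (Matrix.symplecticGroup (Fin n) F) := MonoidHom.ker ρ with hN
  have hgN : g ∈ N := h
  have hNn : N.Normal := MonoidHom.normal_ker ρ
  set π := QuotientGroup.mk' (Subgroup.center (Matrix.symplecticGroup (Fin n) F)) with hπ
  have hmapn : (N.map π).Normal :=
    Subgroup.Normal.map hNn π (QuotientGroup.mk'_surjective _)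
  rcases hmapn.eq_bot_or_eq_top with hbot | htop
  · have h1 : π g ∈ N.map π := Subgroup.mem_map_of_mem π hgN
    rw [hbot, Subgroup.mem_bot] at h1
    exact hg ((QuotientGroup.eq_one_iff g).mp h1)
  · have hdec : ∀ x : Matrix.symplecticGroup (Fin n) F, ∃ y ∈ N,
        ∃ z ∈ Subgroup.center (Matrix.symplecticGroup (Fin n) F), x = y * z := by
      intro x
      have h1 : π x ∈ N.map π := by
        rw [htop]
        trivial
      obtain ⟨y, hy, hyx⟩ := Subgroup.mem_map.mp h1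
      refine ⟨y, hy, y⁻¹ * x, ?_, by group⟩
      have h2 : π (y⁻¹ * x) = 1 := by rw [map_mul, map_inv, hyx, inv_mul_cancel]
      exact (QuotientGroup.eq_one_iff _).mp h2
    have hab : ∀ x x' : Matrix.symplecticGroup (Fin n) F, ρ (x * x') = ρ (x' * x) := by
      intro x x'
      obtain ⟨y, hy, z, hz, rfl⟩ := hdec x
      obtain ⟨y', hy', z', hz', rfl⟩ := hdec x'
      have e1 : ρ y = 1 := hy
      have e2 : ρ y' = 1 := hy'
      rw [map_mul, map_mul, map_mul, map_mul, map_mul, map_mul, e1, e2, one_mul, one_mul,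
        ← map_mul, ← map_mul]
      congr 1
      exact (Subgroup.mem_center_iff.mp hz z').symm
    have hcomm : ∀ x ∈ commutatorSet (Matrix.symplecticGroup (Fin n) F), ρ x = 1 := by
      rintro _ ⟨a, b, rfl⟩
      rw [commutatorElement_def]
      have e : a * b * a⁻¹ * b⁻¹ = (a * b) * (b * a)⁻¹ := by group
      rw [e, map_mul, hab a b, ← map_mul, mul_inv_cancel, map_one]
    have hle : commutator (Matrix.symplecticGroup (Fin n) F) ≤ N := by
      rw [commutator_eq_closure, Subgroup.closure_le]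
      intro x hx
      exact hcomm x hx
    rw [hperf] at hle
    have htriv : ∀ x, ρ x = 1 := fun x => hle (Subgroup.mem_top x)
    let v : Fin k → ℂ := Pi.single ⟨0, by omega⟩ 1
    have hv : v ≠ 0 := by
      intro h0
      have := congrFun h0 ⟨0, by omega⟩
      simp [v] at this
    let W : Subrepresentation ρ := ⟨Submodule.span ℂ {v}, by
      intro x w hw
      rw [htriv x]
      exact hw⟩
    rcases eq_bot_or_eq_top W with hW | hW
    · have h1 : v ∈ W.toSubmodule := Submodule.subset_span rfl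
      rw [hW] at h1
      exact hv ((Submodule.mem_bot ℂ).mp h1)
    · have h1 : W.toSubmodule = ⊤ := by
        rw [hW]
        rfl
      have h2 : finrank ℂ (Submodule.span ℂ {v}) = 1 := finrank_span_singleton hv
      have h3 : Submodule.span ℂ {v} = ⊤ := h1
      rw [h3, finrank_top, Module.finrank_fin_fun] at h2
      omega

theorem sp_odd_bound {F : Type*} [Field F] [Fintype F] [DecidableEq F] (n : ℕ) (hn : 2 ≤ n)
    (hodd : Odd (Fintype.card F))
    (k : ℕ) (ρ : Representation ℂ (Matrix.symplecticGroup (Fin n) F) (Fin k → ℂ))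
    (hirr : ρ.IsIrreducible) (hk : 2 ≤ k) :
    (Fintype.card F ^ n - 1) / 2 ≤ k := by
  classical
  have h2 : (2 : F) ≠ 0 := two_ne_zero_of_odd hodd
  obtain ⟨ψ, hψ⟩ := (AddChar.exists_apply_ne_zero (α := F) (a := 1)).mpr one_ne_zero
  have hzz : ∀ S S' : SymM F n, zS (S + S') = zS S * zS S' := zS_add
  have hcomm : ∀ b b' : SymM F n, zS b * zS b' = zS b' * zS b := by
    intro b b'
    rw [← hzz, ← hzz, add_comm]
  set i0 : Fin n := ⟨0, by omega⟩ with hi0
  set i1 : Fin n := ⟨1, by omega⟩ with hi1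
  have hi01 : i0 ≠ i1 := by
    intro h
    have := congrArg Fin.val h
    simp [hi0, hi1] at this
  set S₀ : SymM F n := ⟨sE i0 i1, sE_mem i0 i1⟩ with hS₀
  have h6 : (sE i0 i1 : Matrix (Fin n) (Fin n) F) i0 i1 = 1 := by
    unfold sE
    rw [Matrix.add_apply, Matrix.single_apply_same, Matrix.single_apply, if_neg (by
      rintro ⟨h, -⟩
      exact hi01 h.symm), add_zero]
  have hS₀ne : ρ (zS S₀) ≠ 1 := by
    apply rho_ne_one_odd hn hodd ρ hirr hk
    intro hc
    obtain ⟨a, -, ha⟩ := Cfsg.Agent.S0246.center_scalar n (by omega) (zS S₀) hc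
    rw [zS_val] at ha
    have h5 := congrFun (congrFun ha (Sum.inl i0)) (Sum.inr i1)
    rw [Matrix.fromBlocks_apply₁₂, Matrix.smul_apply, Matrix.one_apply_ne (by simp), smul_zero]
      at h5
    have h7 : (sE i0 i1 : Matrix (Fin n) (Fin n) F) i0 i1 = 0 := h5
    rw [h6] at h7
    exact one_ne_zero h7
  obtain ⟨χ, hχm, hχ0, hχ1, hχbot⟩ := exists_ceig' ρ zS hzz S₀ hS₀ne
  obtain ⟨T₀, hT₀s, rfl⟩ := eS_surj_sym h2 ψ hψ χ hχm hχ0
  have hT₀0 : T₀ ≠ 0 := by
    rintro rfl
    apply hχ1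
    unfold eS
    rw [Matrix.zero_mul, Matrix.trace_zero, AddChar.map_zero_eq_one]
  set O : Finset (Matrix (Fin n) (Fin n) F) := Finset.univ.filter
    (fun T => Tᵀ = T ∧ T ≠ 0 ∧ ceig ρ zS (eS ψ T) ≠ ⊥) with hO
  have hmemO : ∀ T, T ∈ O ↔ (Tᵀ = T ∧ T ≠ 0 ∧ ceig ρ zS (eS ψ T) ≠ ⊥) := by
    intro T
    rw [hO, Finset.mem_filter]
    simp
  have hne : O.Nonempty := ⟨T₀, (hmemO T₀).mpr ⟨hT₀s, hT₀0, hχbot⟩⟩
  have hcl : ∀ T ∈ O, ∀ A : Matrix (Fin n) (Fin n) F, IsUnit A.det → Aᵀ * T * A ∈ O := by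
    intro T hT A hA
    obtain ⟨h1, h3, h4⟩ := (hmemO T).mp hT
    rw [hmemO]
    refine ⟨?_, ?_, ?_⟩
    · rw [Matrix.transpose_mul, Matrix.transpose_mul, Matrix.transpose_transpose, h1,
        Matrix.mul_assoc]
    · intro h0
      apply h3
      have e1 : A * A⁻¹ = 1 := Matrix.mul_nonsing_inv A hA
      have e2 : (A⁻¹)ᵀ * Aᵀ = 1 := by rw [← Matrix.transpose_mul, e1, Matrix.transpose_one]
      calc T = ((A⁻¹)ᵀ * Aᵀ) * T * (A * A⁻¹) := by rw [e1, e2, Matrix.one_mul, Matrix.mul_one]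
        _ = (A⁻¹)ᵀ * (Aᵀ * T * A) * A⁻¹ := by simp only [Matrix.mul_assoc]
        _ = 0 := by rw [h0, Matrix.mul_zero, Matrix.zero_mul]
    · have hle := finrank_ceig_conj_le ρ zS (lA A hA)
        (fun S => ⟨A * S.1 * Aᵀ, conj_mem A S⟩) (lA_zS A hA) (eS ψ T)
      have e : (fun b : SymM F n => eS ψ T ⟨A * b.1 * Aᵀ, conj_mem A b⟩) =
          eS ψ (Aᵀ * T * A) := by
        funext b
        exact eS_conj ψ T A b
      rw [e] at hle
      intro hb
      rw [hb, finrank_bot] at hle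
      exact h4 (Submodule.finrank_eq_zero.mp (Nat.le_zero.mp hle))
  have hcount := card_orbit_ge h2 O hne
    (fun T hT => ⟨((hmemO T).mp hT).1, ((hmemO T).mp hT).2.1⟩) hcl
  have hsum := sum_finrank_ceig_le ρ zS hcomm O (fun T => eS ψ T) (by
    intro T hT T' hT' h
    exact eS_injective h2 ψ hψ T T' ((hmemO T).mp hT).1 ((hmemO T').mp hT').1 h)
  have hge : O.card ≤ ∑ T ∈ O, finrank ℂ (ceig ρ zS (eS ψ T)) := by
    rw [Finset.card_eq_sum_ones]
    apply Finset.sum_le_sum
    intro T hT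
    obtain ⟨-, -, hbot⟩ := (hmemO T).mp hT
    exact Nat.one_le_iff_ne_zero.mpr (fun h0 => hbot (Submodule.finrank_eq_zero.mp h0))
  rw [Module.finrank_fin_fun] at hsum
  exact Nat.div_le_of_le_mul (hcount.trans (Nat.mul_le_mul_left _ (hge.trans hsum)))

end Cfsg.Agent.Lib.Helper39.LSSpOdd
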