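-- A free family in SL_2 of a polynomial ring: ping-pong by degrees, uniformly in the field.
import Mathlib

set_option autoImplicit false
set_option linter.unusedSectionVars false
set_option linter.unusedVariables false

namespace Cfsg.Agent.Lib.Helper39.PSL2Law

open Polynomial Matrix

variable {F : Type*} [Field F]

/-- Adding a multiple by a non-constant polynomial dominates. -/
theorem core (c b d : F[X]) (hd : 0 < d.degree) (h : c.degree < b.degree) :
    b.degree < (c + d * b).degree := by
  have hb : b ≠ 0 := by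
    rintro rfl
    simp at h
  have hd' : d ≠ 0 := by
    rintro rfl
    simp at hd
  have h1 : b.degree < (d * b).degree := by
    rw [degree_mul, degree_eq_natDegree hb, degree_eq_natDegree hd']
    rw [degree_eq_natDegree hd'] at hd
    have h2 : 0 < d.natDegree := by exact_mod_cast hd
    exact_mod_cast (by omega : b.natDegree < d.natDegree + b.natDegree)
  rw [degree_add_eq_right_of_degree_lt (h.trans h1)]
  exact h1

theorem degree_X_pow_pos (i : ℕ) : 0 < (X ^ (i + 1) : F[X]).degree := by
  rw [degree_X_pow]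
  exact_mod_cast Nat.succ_pos i

theorem degree_neg_X_pow_pos (i : ℕ) : 0 < (-X ^ (i + 1) : F[X]).degree := by
  rw [degree_neg]
  exact degree_X_pow_pos i

theorem degree_X_pow_sub_pos (i j : ℕ) (h : i ≠ j) :
    0 < (X ^ (j + 1) - X ^ (i + 1) : F[X]).degree := by
  rcases Nat.lt_or_gt_of_ne h with h1 | h1
  · have h2 : (X ^ (i + 1) : F[X]).degree < (X ^ (j + 1) : F[X]).degree := by
      rw [degree_X_pow, degree_X_pow]
      exact_mod_cast (by omega : i + 1 < j + 1)
    rw [degree_sub_eq_left_of_degree_lt h2]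
    exact degree_X_pow_pos j
  · have h2 : (X ^ (j + 1) : F[X]).degree < (X ^ (i + 1) : F[X]).degree := by
      rw [degree_X_pow, degree_X_pow]
      exact_mod_cast (by omega : j + 1 < i + 1)
    rw [degree_sub_eq_right_of_degree_lt h2]
    exact degree_X_pow_pos i

/-- The matrix attached to a letter. -/
noncomputable def cM (F : Type*) [Field F] (x : ℕ × Bool) : Matrix (Fin 2) (Fin 2) F[X] :=
  bif x.2 then !![-1, -X ^ (x.1 + 1); X ^ (x.1 + 1), X ^ (x.1 + 1) * X ^ (x.1 + 1) - 1]
  else !![X ^ (x.1 + 1) * X ^ (x.1 + 1) - 1, X ^ (x.1 + 1); -X ^ (x.1 + 1), -1]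

/-- The generators in `SL_2(F[X])`. -/
noncomputable def cSL (F : Type*) [Field F] (i : ℕ) : Matrix.SpecialLinearGroup (Fin 2) F[X] :=
  ⟨!![-1, -X ^ (i + 1); X ^ (i + 1), X ^ (i + 1) * X ^ (i + 1) - 1], by
    rw [Matrix.det_fin_two_of]
    ring⟩

theorem coe_letter (x : ℕ × Bool) :
    ((bif x.2 then cSL F x.1 else (cSL F x.1)⁻¹ : Matrix.SpecialLinearGroup (Fin 2) F[X]) :
      Matrix (Fin 2) (Fin 2) F[X]) = cM F x := by
  obtain ⟨i, b⟩ := x
  cases b
  · simp only [cond_false, cM]
    rw [Matrix.SpecialLinearGroup.coe_inv]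
    show Matrix.adjugate !![-1, -X ^ (i + 1); X ^ (i + 1), X ^ (i + 1) * X ^ (i + 1) - 1] = _
    rw [Matrix.adjugate_fin_two_of, neg_neg]
  · rfl

theorem coe_list_prod {R : Type*} [CommRing R] (L : List (Matrix.SpecialLinearGroup (Fin 2) R)) :
    ((L.prod : Matrix.SpecialLinearGroup (Fin 2) R) : Matrix (Fin 2) (Fin 2) R) =
      (L.map fun g : Matrix.SpecialLinearGroup (Fin 2) R => (g : Matrix (Fin 2) (Fin 2) R)).prod := by
  induction L with
  | nil => simp
  | cons g L ih => simp [ih]

/-- The matrix of the value of a word at the generators. -/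
theorem coe_lift (L : List (ℕ × Bool)) :
    ((FreeGroup.lift (cSL F) (FreeGroup.mk L) : Matrix.SpecialLinearGroup (Fin 2) F[X]) :
      Matrix (Fin 2) (Fin 2) F[X]) = (L.map (cM F)).prod := by
  rw [FreeGroup.lift_mk, coe_list_prod, List.map_map]
  congr 1
  apply List.map_congr_left
  intro x _
  exact coe_letter x

/-- The attracting region of a letter. -/
def Inv (x : ℕ × Bool) (v : Fin 2 → F[X]) : Prop :=
  if x.2 = true then (v 1 + X ^ (x.1 + 1) * v 0).degree < (v 0).degree
  else (v 0 + X ^ (x.1 + 1) * v 1).degree < (v 1).degree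

theorem mulVec_true (j : ℕ) (v : Fin 2 → F[X]) :
    (cM F (j, true)).mulVec v = ![-v 0 - X ^ (j + 1) * v 1,
      X ^ (j + 1) * v 0 + (X ^ (j + 1) * X ^ (j + 1) - 1) * v 1] := by
  ext k
  fin_cases k <;> simp [cM, Matrix.mulVec, dotProduct, Fin.sum_univ_two] <;> ring

theorem mulVec_false (j : ℕ) (v : Fin 2 → F[X]) :
    (cM F (j, false)).mulVec v = ![(X ^ (j + 1) * X ^ (j + 1) - 1) * v 0 + X ^ (j + 1) * v 1,
      -(X ^ (j + 1) * v 0) - v 1] := by
  ext k
  fin_cases k <;> simp [cM, Matrix.mulVec, dotProduct, Fin.sum_univ_two] <;> ring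

theorem inv_true_of (j : ℕ) (v : Fin 2 → F[X])
    (h : (v 1).degree < (v 0 + X ^ (j + 1) * v 1).degree) :
    Inv (j, true) ((cM F (j, true)).mulVec v) := by
  rw [mulVec_true]
  unfold Inv
  rw [if_pos rfl]
  simp only [Matrix.cons_val_zero, Matrix.cons_val_one]
  have h1 : X ^ (j + 1) * v 0 + (X ^ (j + 1) * X ^ (j + 1) - 1) * v 1 +
      X ^ (j + 1) * (-v 0 - X ^ (j + 1) * v 1) = -v 1 := by ring
  have h2 : -v 0 - X ^ (j + 1) * v 1 = -(v 0 + X ^ (j + 1) * v 1) := by ring
  rw [h1, h2, degree_neg, degree_neg]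
  exact h

theorem inv_false_of (j : ℕ) (v : Fin 2 → F[X])
    (h : (v 0).degree < (v 1 + X ^ (j + 1) * v 0).degree) :
    Inv (j, false) ((cM F (j, false)).mulVec v) := by
  rw [mulVec_false]
  unfold Inv
  rw [if_neg (by simp)]
  simp only [Matrix.cons_val_zero, Matrix.cons_val_one]
  have h1 : (X ^ (j + 1) * X ^ (j + 1) - 1) * v 0 + X ^ (j + 1) * v 1 +
      X ^ (j + 1) * (-(X ^ (j + 1) * v 0) - v 1) = -v 0 := by ring
  have h2 : -(X ^ (j + 1) * v 0) - v 1 = -(v 1 + X ^ (j + 1) * v 0) := by ring
  rw [h1, h2, degree_neg, degree_neg]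
  exact h

/-- The region of a positive letter consists of vectors whose second entry dominates. -/
theorem lt_of_inv_true (i : ℕ) (v : Fin 2 → F[X]) (h : Inv (i, true) v) :
    (v 0).degree < (v 1).degree := by
  unfold Inv at h
  rw [if_pos rfl] at h
  simp only at h
  have := core _ _ (-X ^ (i + 1)) (degree_neg_X_pow_pos i) h
  have h1 : v 1 + X ^ (i + 1) * v 0 + -X ^ (i + 1) * v 0 = v 1 := by ring
  rwa [h1] at this

theorem lt_of_inv_false (i : ℕ) (v : Fin 2 → F[X]) (h : Inv (i, false) v) :
    (v 1).degree < (v 0).degree := by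
  unfold Inv at h
  rw [if_neg (by simp)] at h
  simp only at h
  have := core _ _ (-X ^ (i + 1)) (degree_neg_X_pow_pos i) h
  have h1 : v 0 + X ^ (i + 1) * v 1 + -X ^ (i + 1) * v 1 = v 0 := by ring
  rwa [h1] at this

/-- The ping-pong step. -/
theorem step (x y : ℕ × Bool) (hxy : x.1 = y.1 → x.2 = y.2) (v : Fin 2 → F[X]) (h : Inv y v) :
    Inv x ((cM F x).mulVec v) := by
  obtain ⟨j, b⟩ := x
  obtain ⟨i, b'⟩ := y
  cases b <;> cases b'
  · -- both negative
    apply inv_false_of
    exact core _ _ _ (degree_X_pow_pos j) (lt_of_inv_false i v h)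
  · -- new negative, old positive
    have hij : i ≠ j := by
      intro hij
      have := hxy hij.symm
      simp at this
    apply inv_false_of
    unfold Inv at h
    rw [if_pos rfl] at h
    simp only at h
    have := core _ _ _ (degree_X_pow_sub_pos i j hij) h
    have h1 : v 1 + X ^ (i + 1) * v 0 + (X ^ (j + 1) - X ^ (i + 1)) * v 0 =
        v 1 + X ^ (j + 1) * v 0 := by ring
    rwa [h1] at this
  · -- new positive, old negative
    have hij : i ≠ j := by
      intro hij
      have := hxy hij.symm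
      simp at this
    apply inv_true_of
    unfold Inv at h
    rw [if_neg (by simp)] at h
    simp only at h
    have := core _ _ _ (degree_X_pow_sub_pos i j hij) h
    have h1 : v 0 + X ^ (i + 1) * v 1 + (X ^ (j + 1) - X ^ (i + 1)) * v 1 =
        v 0 + X ^ (j + 1) * v 1 := by ring
    rwa [h1] at this
  · -- both positive
    apply inv_true_of
    exact core _ _ _ (degree_X_pow_pos j) (lt_of_inv_true i v h)

/-- The base case of the ping-pong. -/
theorem base (x : ℕ × Bool) :
    ∃ v₀ : Fin 2 → F[X], (v₀ = ![0, 1] ∨ v₀ = ![1, 0]) ∧ Inv x ((cM F x).mulVec v₀) := by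
  obtain ⟨j, b⟩ := x
  cases b
  · refine ⟨![1, 0], Or.inr rfl, ?_⟩
    apply inv_false_of
    apply core _ _ _ (degree_X_pow_pos j)
    simp
  · refine ⟨![0, 1], Or.inl rfl, ?_⟩
    apply inv_true_of
    apply core _ _ _ (degree_X_pow_pos j)
    simp

/-- Ping-pong: the value of a nonempty reduced word moves one of the two basis vectors into the
region of its first letter. -/
theorem pingpong (L : List (ℕ × Bool)) (x : ℕ × Bool) (hL : FreeGroup.IsReduced (x :: L)) :
    ∃ v₀ : Fin 2 → F[X], (v₀ = ![0, 1] ∨ v₀ = ![1, 0]) ∧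
      Inv x (((x :: L).map (cM F)).prod.mulVec v₀) := by
  induction L generalizing x with
  | nil =>
    obtain ⟨v₀, hv₀, h⟩ := base (F := F) x
    refine ⟨v₀, hv₀, ?_⟩
    simpa using h
  | cons y L ih =>
    have hchain : List.IsChain (fun a b : ℕ × Bool => a.1 = b.1 → a.2 = b.2) (x :: y :: L) := hL
    rw [List.isChain_cons_cons] at hchain
    obtain ⟨v₀, hv₀, h⟩ := ih y hchain.2
    refine ⟨v₀, hv₀, ?_⟩
    rw [List.map_cons, List.prod_cons, ← Matrix.mulVec_mulVec]
    exact step x y hchain.1 _ h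

/-- Some entry of the value of a nonempty reduced word is a non-constant polynomial. -/
theorem exists_entry_natDegree_pos (L : List (ℕ × Bool)) (x : ℕ × Bool)
    (hL : FreeGroup.IsReduced (x :: L)) :
    ∃ a b : Fin 2, 1 ≤ (((x :: L).map (cM F)).prod a b).natDegree := by
  obtain ⟨v₀, hv₀, h⟩ := pingpong (F := F) L x hL
  obtain ⟨M, hM⟩ : ∃ M : Matrix (Fin 2) (Fin 2) F[X], M = ((x :: L).map (cM F)).prod := ⟨_, rfl⟩
  rw [← hM] at h ⊢
  have hcol : ∀ a : Fin 2, (M.mulVec ![0, 1]) a = M a 1 ∧ (M.mulVec ![1, 0]) a = M a 0 := by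
    intro a
    constructor <;> simp [Matrix.mulVec, dotProduct, Fin.sum_univ_two]
  obtain ⟨j, b⟩ := x
  cases b
  · have h1 := lt_of_inv_false j _ h
    have h2 : 0 < (M.mulVec v₀ 0).degree := by
      refine lt_of_le_of_lt ?_ h1
      apply zero_le_degree_iff.mpr
      rintro h0
      unfold Inv at h
      rw [if_neg (by simp)] at h
      simp only at h
      rw [h0] at h
      simp at h
    have h3 := natDegree_pos_iff_degree_pos.mpr h2
    rcases hv₀ with rfl | rfl
    · rw [(hcol 0).1] at h3
      exact ⟨0, 1, h3⟩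
    · rw [(hcol 0).2] at h3
      exact ⟨0, 0, h3⟩
  · have h1 := lt_of_inv_true j _ h
    have h2 : 0 < (M.mulVec v₀ 1).degree := by
      refine lt_of_le_of_lt ?_ h1
      apply zero_le_degree_iff.mpr
      rintro h0
      unfold Inv at h
      rw [if_pos rfl] at h
      simp only at h
      rw [h0] at h
      simp at h
    have h3 := natDegree_pos_iff_degree_pos.mpr h2
    rcases hv₀ with rfl | rfl
    · rw [(hcol 1).1] at h3
      exact ⟨1, 1, h3⟩
    · rw [(hcol 1).2] at h3
      exact ⟨1, 0, h3⟩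

/-- The degree bound of a word. -/
def bound (L : List (ℕ × Bool)) : ℕ := (L.map fun x => 2 * (x.1 + 1)).sum

theorem natDegree_cM_le (x : ℕ × Bool) (a b : Fin 2) : (cM F x a b).natDegree ≤ 2 * (x.1 + 1) := by
  obtain ⟨j, c⟩ := x
  have h1 : (X ^ (j + 1) : F[X]).natDegree ≤ 2 * (j + 1) := by
    rw [natDegree_X_pow]
    omega
  have h2 : (X ^ (j + 1) * X ^ (j + 1) - 1 : F[X]).natDegree ≤ 2 * (j + 1) := by
    refine (natDegree_sub_le _ _).trans ?_
    rw [natDegree_one, max_le_iff]
    refine ⟨?_, by omega⟩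
    refine natDegree_mul_le.trans ?_
    rw [natDegree_X_pow]
    omega
  have h3 : (-X ^ (j + 1) : F[X]).natDegree ≤ 2 * (j + 1) := by
    rw [natDegree_neg]
    exact h1
  have h4 : (-1 : F[X]).natDegree ≤ 2 * (j + 1) := by
    rw [natDegree_neg, natDegree_one]
    omega
  cases c <;> fin_cases a <;> fin_cases b <;> simp only [cM, cond_false, cond_true] <;>
    first | exact h1 | exact h2 | exact h3 | exact h4

theorem natDegree_prod_le (L : List (ℕ × Bool)) (a b : Fin 2) :
    ((L.map (cM F)).prod a b).natDegree ≤ bound L := by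
  induction L generalizing a b with
  | nil =>
    simp only [List.map_nil, List.prod_nil, Matrix.one_apply]
    split_ifs <;> simp
  | cons x L ih =>
    rw [List.map_cons, List.prod_cons, Matrix.mul_apply, Fin.sum_univ_two]
    have hb : bound (x :: L) = 2 * (x.1 + 1) + bound L := by
      simp [bound]
    rw [hb]
    refine (natDegree_add_le _ _).trans ?_
    rw [max_le_iff]
    constructor
    · exact natDegree_mul_le.trans (Nat.add_le_add (natDegree_cM_le x a 0) (ih 0 b))
    · exact natDegree_mul_le.trans (Nat.add_le_add (natDegree_cM_le x a 1) (ih 1 b))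

/-- For a nontrivial element `w` of the free group and a field with more than `3 * bound` elements,
some specialisation of the generators gives a matrix which is not `± 1`. -/
theorem exists_eval [Fintype F] (w : FreeGroup ℕ) (hw : w ≠ 1)
    (hcard : 3 * bound w.toWord < Fintype.card F) :
    ∃ (t₀ : F) (a b : Fin 2),
      ((FreeGroup.lift (cSL F) w : Matrix.SpecialLinearGroup (Fin 2) F[X]) a b).eval t₀ ≠ 0 ∧
      ((FreeGroup.lift (cSL F) w : Matrix.SpecialLinearGroup (Fin 2) F[X]) a b).eval t₀ ≠ 1 ∧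
      ((FreeGroup.lift (cSL F) w : Matrix.SpecialLinearGroup (Fin 2) F[X]) a b).eval t₀ ≠ -1 := by
  have hred : FreeGroup.IsReduced w.toWord := FreeGroup.isReduced_toWord
  have hmk : FreeGroup.mk w.toWord = w := FreeGroup.mk_toWord
  have hcoe := coe_lift (F := F) w.toWord
  rw [hmk] at hcoe
  rcases hL : w.toWord with _ | ⟨x, L⟩
  · exfalso
    apply hw
    rw [← hmk, hL]
    rfl
  · rw [hL] at hred hcard hcoe
    obtain ⟨a, b, hab⟩ := exists_entry_natDegree_pos (F := F) L x hred
    have hle := natDegree_prod_le (F := F) (x :: L) a b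
    rw [← hcoe] at hab hle
    obtain ⟨P, hP⟩ : ∃ P : F[X], P =
        (FreeGroup.lift (cSL F) w : Matrix.SpecialLinearGroup (Fin 2) F[X]) a b := ⟨_, rfl⟩
    rw [← hP] at hab hle
    have hP0 : P ≠ 0 := by
      rintro rfl
      simp at hab
    have hP1 : P - 1 ≠ 0 := by
      intro h
      have : P = 1 := sub_eq_zero.mp h
      rw [this] at hab
      simp at hab
    have hP2 : P + 1 ≠ 0 := by
      intro h
      have : P = -1 := eq_neg_of_add_eq_zero_left h
      rw [this] at hab
      simp at hab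
    have hQ : P * (P - 1) * (P + 1) ≠ 0 := mul_ne_zero (mul_ne_zero hP0 hP1) hP2
    have hdeg : (P * (P - 1) * (P + 1)).natDegree < Fintype.card F := by
      have h1 : (P - 1).natDegree ≤ P.natDegree := by
        refine (natDegree_sub_le _ _).trans ?_
        simp
      have h2 : (P + 1).natDegree ≤ P.natDegree := by
        refine (natDegree_add_le _ _).trans ?_
        simp
      have h3 : (P * (P - 1) * (P + 1)).natDegree ≤ P.natDegree + P.natDegree + P.natDegree := by
        refine natDegree_mul_le.trans (Nat.add_le_add ?_ h2)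
        exact natDegree_mul_le.trans (Nat.add_le_add le_rfl h1)
      omega
    have hex : ∃ t₀ : F, (P * (P - 1) * (P + 1)).eval t₀ ≠ 0 := by
      by_contra hcon
      push Not at hcon
      exact hQ (eq_zero_of_natDegree_lt_card_of_eval_eq_zero _ Function.injective_id hcon hdeg)
    obtain ⟨t₀, ht₀⟩ := hex
    refine ⟨t₀, a, b, ?_, ?_, ?_⟩
    · rw [← hP]
      intro h
      apply ht₀
      simp [h]
    · rw [← hP]
      intro h
      apply ht₀
      simp [h]
    · rw [← hP]
      intro h
      apply ht₀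
      simp [h]

end Cfsg.Agent.Lib.Helper39.PSL2Law
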