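-- Every function on a subgroup with nonzero value at 1 pairs nontrivially with the restriction of
-- some irreducible character of the big group.
import Mathlib
import Cfsg.Prelude.Def_Characters
import Cfsg.Agent.Lib.CT.Orth

set_option autoImplicit false
set_option linter.unusedSectionVars false
set_option linter.unusedVariables false
set_option linter.style.haveILetI false

namespace Cfsg.Agent.Lib.Helper39.Over

open Cfsg Cfsg.Agent.Lib.CT Cfsg.Agent.Lib.CT.Wedderburn
open scoped ComplexConjugate

universe u v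

/-- For an injective homomorphism `ι : S →* G` of finite groups and a function `χ` on `S` with
`χ 1 ≠ 0`, some irreducible character of `G` restricts to a function having nonzero inner product
with `χ`. -/
theorem exists_irr_over {S : Type v} {G : Type u} [Group S] [Group G] [Fintype S] [Fintype G]
    (ι : S →* G) (hι : Function.Injective ι) (χ : S → ℂ) (hχ1 : χ 1 ≠ 0) :
    ∃ Θ : G → ℂ, IsIrrCharacter G Θ ∧ classInner (fun s => Θ (ι s)) χ ≠ 0 := by
  classical
  haveI := finite_irrCharacter G
  haveI := Fintype.ofFinite (IrrCharacter G)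
  by_contra hcon
  push Not at hcon
  have h0 : ∑ Θ : IrrCharacter G, (Θ : G → ℂ) 1 * classInner (fun s => (Θ : G → ℂ) (ι s)) χ = 0 :=
    Finset.sum_eq_zero (fun Θ _ => by rw [hcon Θ Θ.2, mul_zero])
  have h1 : ∑ Θ : IrrCharacter G, (Θ : G → ℂ) 1 * classInner (fun s => (Θ : G → ℂ) (ι s)) χ =
      (Nat.card S : ℂ)⁻¹ * ∑ s : S, (∑ Θ : IrrCharacter G, (Θ : G → ℂ) 1 * (Θ : G → ℂ) (ι s)) *
        conj (χ s) := by
    unfold classInner
    simp_rw [Finset.sum_mul, Finset.mul_sum]
    rw [Finset.sum_comm]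
    apply Finset.sum_congr rfl
    intro s _
    apply Finset.sum_congr rfl
    intro Θ _
    ring
  have h2 : ∀ s : S, (∑ Θ : IrrCharacter G, (Θ : G → ℂ) 1 * (Θ : G → ℂ) (ι s)) =
      if s = 1 then (Nat.card G : ℂ) else 0 := by
    intro s
    by_cases hs : s = 1
    · subst hs
      rw [if_pos rfl, map_one, ← Orth.sum_apply_one_sq_sum]
      apply Finset.sum_congr rfl
      intro Θ _
      rw [sq]
    · rw [if_neg hs]
      apply Orth.sum_apply_one_mul_of_ne_sum
      intro h
      apply hs
      apply hι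
      rw [h, map_one]
  simp_rw [h2] at h1
  rw [h0] at h1
  simp only [ite_mul, zero_mul, Finset.sum_ite_eq', Finset.mem_univ, if_true] at h1
  have hS : (Nat.card S : ℂ) ≠ 0 := Nat.cast_ne_zero.mpr Nat.card_pos.ne'
  have hG : (Nat.card G : ℂ) ≠ 0 := Nat.cast_ne_zero.mpr Nat.card_pos.ne'
  have h3 : (Nat.card S : ℂ)⁻¹ * ((Nat.card G : ℂ) * conj (χ 1)) ≠ 0 :=
    mul_ne_zero (inv_ne_zero hS) (mul_ne_zero hG ((map_ne_zero _).mpr hχ1))
  exact h3 h1.symm

end Cfsg.Agent.Lib.Helper39.Over
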