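-- Characters of SL_2 over a finite field: unipotent multiplicities and the principal series.
import Mathlib
import Cfsg.Prelude.Def_Characters
import Cfsg.Prelude.Def_ParabolicCharacters
import Cfsg.Agent.Lib.Helper39.GL2T1
import Cfsg.Agent.Lib.Helper39.MulCharOrth
import Cfsg.Agent.Lib.Helper39.Decomp
import Cfsg.Agent.Lib.Helper39.Over
import Cfsg.Agent.Lib.CT.IndChar

set_option autoImplicit false
set_option linter.unusedSectionVars false
set_option linter.unusedVariables false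
set_option linter.style.haveILetI false

namespace Cfsg.Agent.Lib.Helper39.SL2T1

open Cfsg Matrix Cfsg.Agent.Lib.CT Cfsg.Agent.Lib.Helper39.Borel2 Cfsg.Agent.Lib.Helper39.UMult
  Cfsg.Agent.Lib.Helper39.UBorel Cfsg.Agent.Lib.Helper39.UOrth Cfsg.Agent.Lib.Helper39.GL2Inst
  Cfsg.Agent.Lib.Helper39.PSInst Cfsg.Agent.Lib.CT.Wedderburn Cfsg.Agent.Lib.Helper39.GL2T1
  Cfsg.Agent.Lib.Helper39.MulCharOrth Cfsg.Agent.Lib.Helper39.Decomp Cfsg.Agent.Lib.Helper39.Over
open scoped ComplexConjugate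

variable {F : Type*} [Field F]

/-- Upper unitriangular elements of `SL_2`. -/
def uSL (x : F) : Matrix.SpecialLinearGroup (Fin 2) F :=
  ⟨(!![1, x; 0, 1] : Matrix (Fin 2) (Fin 2) F), by simp [Matrix.det_fin_two]⟩

theorem mSL_u (x : F) : mSL F (uSL x) = !![1, x; 0, 1] := rfl

theorem mSL_injective : Function.Injective (mSL F) := fun _ _ h => Subtype.ext h

/-- The diagonal element `diag(s, s⁻¹)` of `SL_2`. -/
def dSL (s : Fˣ) : Matrix.SpecialLinearGroup (Fin 2) F :=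
  ⟨(!![(s : F), 0; 0, ((s⁻¹ : Fˣ) : F)] : Matrix (Fin 2) (Fin 2) F), by simp [Matrix.det_fin_two]⟩

theorem mSL_d (s : Fˣ) : mSL F (dSL s) = !![(s : F), 0; 0, ((s⁻¹ : Fˣ) : F)] := rfl

theorem dSL_conj (s : Fˣ) (x : F) : dSL s * uSL x * (dSL s)⁻¹ = uSL ((s : F) ^ 2 * x) := by
  rw [mul_inv_eq_iff_eq_mul]
  apply mSL_injective
  rw [map_mul, map_mul, mSL_u, mSL_u, mSL_d]
  ext i j
  fin_cases i <;> fin_cases j <;> simp [Matrix.mul_apply, Fin.sum_univ_two]
  field_simp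

theorem uSL_add (x y : F) : uSL (x + y) = uSL x * uSL y :=
  upsilon_add (mSL F) mSL_injective uSL mSL_u x y

theorem uSL_zero : uSL (0 : F) = 1 := upsilon_zero (mSL F) mSL_injective uSL mSL_u

theorem toGL_uSL (x : F) : Matrix.SpecialLinearGroup.toGL (uSL x) = uGL x := Units.ext rfl

theorem toGL_inj : Function.Injective
    (Matrix.SpecialLinearGroup.toGL : Matrix.SpecialLinearGroup (Fin 2) F →* _) := by
  intro a b h
  apply Subtype.ext
  exact congrArg (fun g : Matrix.GeneralLinearGroup (Fin 2) F => (g : Matrix (Fin 2) (Fin 2) F)) h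

section fin

variable [Fintype F] [DecidableEq F]

theorem sl_mu_scale (ψ₀ : AddChar F ℂ) (χ : Matrix.SpecialLinearGroup (Fin 2) F → ℂ)
    (hχ : IsClassFunction _ χ) (t : F) (s : F) (hs : s ≠ 0) :
    mu uSL ψ₀ χ (t * s ^ 2) = mu uSL ψ₀ χ t :=
  mu_scale uSL ψ₀ hχ (dSL (Units.mk0 s hs)) (s ^ 2) (pow_ne_zero 2 hs) (fun x => dSL_conj _ x) t

/-- **Multiplicity one** for `SL_2`. -/
theorem sl_mu_le_one (ψ₀ : AddChar F ℂ) (hψ₀ : ψ₀.IsPrimitive)
    (χ : Matrix.SpecialLinearGroup (Fin 2) F → ℂ)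
    (hχ : IsIrrCharacter (Matrix.SpecialLinearGroup (Fin 2) F) χ) (t : F) (ht : t ≠ 0) :
    ∃ n : ℕ, n ≤ 1 ∧ mu uSL ψ₀ χ t = n := by
  obtain ⟨Θ, hΘ, hne⟩ := exists_irr_over Matrix.SpecialLinearGroup.toGL toGL_inj χ
    (irr_apply_one_ne_zero hχ)
  have hres : IsCharacter (Matrix.SpecialLinearGroup (Fin 2) F)
      (fun s => Θ (Matrix.SpecialLinearGroup.toGL s)) :=
    Ops.isCharacter_comp_hom Matrix.SpecialLinearGroup.toGL (isCharacter_of_irr hΘ)
  obtain ⟨Ψ', hΨ', hsum⟩ := exists_add_of_inner_ne_zero hres hχ hne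
  obtain ⟨b, hb1, hb, -⟩ := gl_b_le_one ψ₀ hψ₀ Θ hΘ
  have h1 : mu uSL ψ₀ (fun s => Θ (Matrix.SpecialLinearGroup.toGL s)) t = b := by
    rw [← hb, ← gl_mu_const ψ₀ Θ (char_isClassFunction (isCharacter_of_irr hΘ)) t ht]
    simp only [mu_def, toGL_uSL]
  obtain ⟨n, hn⟩ := mu_nat uSL uSL_add ψ₀ (isCharacter_of_irr hχ) t
  obtain ⟨n', hn'⟩ := mu_nat uSL uSL_add ψ₀ hΨ' t
  rw [hsum, mu_add, hn, hn'] at h1
  have h2 : n + n' = b := by exact_mod_cast h1
  exact ⟨n, by omega, hn⟩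

/-- An irreducible character of `SL_2` which is constant on the unipotent elements is trivial. -/
theorem sl_trivial_of_const (χ : Matrix.SpecialLinearGroup (Fin 2) F → ℂ)
    (hχ : IsIrrCharacter (Matrix.SpecialLinearGroup (Fin 2) F) χ) (h : ∀ x : F, χ (uSL x) = χ 1) :
    χ = fun _ => 1 := by
  obtain ⟨N, hN, hmem⟩ := Kernel.exists_normal_ker (isCharacter_of_irr hχ)
  have hall : ∀ g : Matrix.SpecialLinearGroup (Fin 2) F, χ g = χ 1 := by
    intro g
    rw [← hmem]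
    exact mem_normal_of_det_one (mSL F) mSL_injective LSL mSL_L (WSL F) mSL_W uSL mSL_u N
      (fun x => (hmem _).mpr (h x)) g g.2
  have h1 : classInner χ (fun _ => (1 : ℂ)) = χ 1 := by
    unfold classInner
    simp only [hall, map_one, mul_one, Finset.sum_const, Finset.card_univ, nsmul_eq_mul,
      Nat.card_eq_fintype_card]
    have : (Fintype.card (Matrix.SpecialLinearGroup (Fin 2) F) : ℂ) ≠ 0 := by
      exact_mod_cast (Fintype.card_pos (α := Matrix.SpecialLinearGroup (Fin 2) F)).ne'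
    field_simp
  have h2 := irr_orthonormal (⟨χ, hχ⟩ : IrrCharacter (Matrix.SpecialLinearGroup (Fin 2) F))
    ⟨fun _ => 1, Ops.isIrrCharacter_one⟩
  simp only at h2
  rw [h1] at h2
  by_cases heq : (⟨χ, hχ⟩ : IrrCharacter (Matrix.SpecialLinearGroup (Fin 2) F)) =
      ⟨fun _ => 1, Ops.isIrrCharacter_one⟩
  · exact congrArg Subtype.val heq
  · rw [if_neg heq] at h2
    exact absurd h2 (irr_apply_one_ne_zero hχ)

end fin

end Cfsg.Agent.Lib.Helper39.SL2T1
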