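-- Principal series of SL_2 over a finite field.
import Mathlib
import Cfsg.Prelude.Def_Characters
import Cfsg.Prelude.Def_ParabolicCharacters
import Cfsg.Agent.Lib.Helper39.SL2T1

set_option autoImplicit false
set_option linter.unusedSectionVars false
set_option linter.unusedVariables false
set_option linter.style.haveILetI false

namespace Cfsg.Agent.Lib.Helper39.SL2PS

open Cfsg Matrix Cfsg.Agent.Lib.CT Cfsg.Agent.Lib.Helper39.Borel2 Cfsg.Agent.Lib.Helper39.UMult
  Cfsg.Agent.Lib.Helper39.UBorel Cfsg.Agent.Lib.Helper39.UOrth Cfsg.Agent.Lib.Helper39.GL2Inst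
  Cfsg.Agent.Lib.Helper39.PSInst Cfsg.Agent.Lib.CT.Wedderburn Cfsg.Agent.Lib.Helper39.GL2T1
  Cfsg.Agent.Lib.Helper39.MulCharOrth Cfsg.Agent.Lib.Helper39.Decomp Cfsg.Agent.Lib.Helper39.SL2T1
  Cfsg.Agent.Lib.CT.FrobRec
open scoped ComplexConjugate

variable {F : Type*} [Field F]

/-- The function `b ↦ α(b₁₁)` on the Borel subgroup of `SL_2`, as a monoid hom to `ℂ`. -/
noncomputable def slDiagHom (α : MulChar F ℂ) : BSL F →* ℂ where
  toFun b := α (((b : Matrix.SpecialLinearGroup (Fin 2) F) : Matrix (Fin 2) (Fin 2) F) 0 0)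
  map_one' := by simp
  map_mul' b b' := by
    have hb' := (mem_BSL_iff (b' : Matrix.SpecialLinearGroup (Fin 2) F)).mp b'.2
    have hb'' : ((b' : Matrix.SpecialLinearGroup (Fin 2) F) : Matrix (Fin 2) (Fin 2) F) 1 0 = 0 :=
      hb'
    rw [← map_mul]
    congr 1
    simp [Matrix.mul_apply, Fin.sum_univ_two, hb'']

theorem isCharacter_sl_diag (α : MulChar F ℂ) :
    IsCharacter (BSL F)
      (fun b => α (((b : Matrix.SpecialLinearGroup (Fin 2) F) : Matrix (Fin 2) (Fin 2) F) 0 0)) :=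
  LinChar.isCharacter_of_hom (slDiagHom α).toHomUnits

/-- The principal series function of `SL_2` attached to a multiplicative character. -/
noncomputable def slPS [Fintype F] [DecidableEq F] (α : MulChar F ℂ) :
    Matrix.SpecialLinearGroup (Fin 2) F → ℂ :=
  indFun ((upperTriangularGL 2 F).comap Matrix.SpecialLinearGroup.toGL)
    (fun b => α (((b : Matrix.SpecialLinearGroup (Fin 2) F) : Matrix (Fin 2) (Fin 2) F) 0 0))

section fin

variable [Fintype F] [DecidableEq F]

theorem isCharacter_slPS (α : MulChar F ℂ) :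
    IsCharacter (Matrix.SpecialLinearGroup (Fin 2) F) (slPS α) :=
  IndChar.isCharacter_indFun _ _ (isCharacter_sl_diag α)

theorem slPS_apply (α : MulChar F ℂ) (g : Matrix.SpecialLinearGroup (Fin 2) F) :
    slPS α g = (∑ s : F, if (g : Matrix (Fin 2) (Fin 2) F) 1 0 +
          ((g : Matrix (Fin 2) (Fin 2) F) 1 1 - (g : Matrix (Fin 2) (Fin 2) F) 0 0) * s -
          (g : Matrix (Fin 2) (Fin 2) F) 0 1 * s ^ 2 = 0
        then α ((g : Matrix (Fin 2) (Fin 2) F) 0 0 + (g : Matrix (Fin 2) (Fin 2) F) 0 1 * s) else 0) +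
      (if (g : Matrix (Fin 2) (Fin 2) F) 0 1 = 0
        then α ((g : Matrix (Fin 2) (Fin 2) F) 1 1) else 0) :=
  sl_indFun (fun x _ => α x) g

theorem slPS_one (α : MulChar F ℂ) : slPS α 1 = (Fintype.card F : ℂ) + 1 := by
  rw [slPS_apply]
  simp

theorem slPS_u (α : MulChar F ℂ) (x : F) (hx : x ≠ 0) : slPS α (uSL x) = 1 := by
  rw [slPS_apply]
  have h00 : ((uSL x : Matrix.SpecialLinearGroup (Fin 2) F) : Matrix (Fin 2) (Fin 2) F) 0 0 = 1 := rfl
  have h01 : ((uSL x : Matrix.SpecialLinearGroup (Fin 2) F) : Matrix (Fin 2) (Fin 2) F) 0 1 = x := rfl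
  have h10 : ((uSL x : Matrix.SpecialLinearGroup (Fin 2) F) : Matrix (Fin 2) (Fin 2) F) 1 0 = 0 := rfl
  have h11 : ((uSL x : Matrix.SpecialLinearGroup (Fin 2) F) : Matrix (Fin 2) (Fin 2) F) 1 1 = 1 := rfl
  rw [h00, h01, h10, h11, if_neg hx, add_zero, Finset.sum_eq_single (0 : F)]
  · simp
  · intro s _ hs
    rw [if_neg]
    simp [hx, hs]
  · intro h
    exact absurd (Finset.mem_univ _) h

/-- The principal series functions vanish at the elements without eigenvectors. -/
theorem slPS_elliptic (α : MulChar F ℂ) (g : Matrix.SpecialLinearGroup (Fin 2) F)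
    (hno : ∀ (c : F) (v : Fin 2 → F), v ≠ 0 → (g : Matrix (Fin 2) (Fin 2) F).mulVec v ≠ c • v) :
    slPS α g = 0 := by
  rw [slPS_apply]
  have hb : (g : Matrix (Fin 2) (Fin 2) F) 0 1 ≠ 0 := by
    intro hb
    apply hno ((g : Matrix (Fin 2) (Fin 2) F) 1 1) ![0, 1]
    · intro h
      have := congrFun h 1
      simp at this
    · ext i
      fin_cases i <;> simp [Matrix.mulVec, dotProduct, Fin.sum_univ_two, hb]
  rw [if_neg hb, add_zero]
  apply Finset.sum_eq_zero
  intro s _
  rw [if_neg]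
  intro hs
  apply hno ((g : Matrix (Fin 2) (Fin 2) F) 0 0 + (g : Matrix (Fin 2) (Fin 2) F) 0 1 * s) ![1, s]
  · intro h
    have := congrFun h 0
    simp at this
  · ext i
    fin_cases i
    · simp [Matrix.mulVec, dotProduct, Fin.sum_univ_two]
    · simp [Matrix.mulVec, dotProduct, Fin.sum_univ_two]
      linear_combination hs

/-- Inner products of the principal series functions of `SL_2`. -/
theorem slPS_inner (α β : MulChar F ℂ) :
    classInner (slPS α) (slPS β) = (if α = β then 1 else 0) + (if α = β⁻¹ then 1 else 0) := by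
  have hnorm := sl_classInner (fun x _ => α x) (fun x _ => β x)
  have hsum : ∑ t : Fˣ, α (t : F) * conj (β (t : F) + β ((t⁻¹ : Fˣ) : F)) =
      (if α = β then (Fintype.card Fˣ : ℂ) else 0) +
        (if α = β⁻¹ then (Fintype.card Fˣ : ℂ) else 0) := by
    rw [← sum_units_mul_conj α β, ← sum_units_mul_conj α β⁻¹, ← Finset.sum_add_distrib]
    apply Finset.sum_congr rfl
    intro t _
    rw [map_add, mul_add, conj_mulChar_inv, ← MulChar.star_apply']
    simp
  have hcard : (Fintype.card Fˣ : ℂ) ≠ 0 := by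
    exact_mod_cast (Fintype.card_pos (α := Fˣ)).ne'
  have key : ∀ (P : Prop) [Decidable P], (Fintype.card Fˣ : ℂ)⁻¹ *
      (if P then (Fintype.card Fˣ : ℂ) else 0) = if P then 1 else 0 := by
    intro P _
    by_cases hP : P
    · rw [if_pos hP, if_pos hP, inv_mul_cancel₀ hcard]
    · rw [if_neg hP, if_neg hP, mul_zero]
  unfold slPS
  rw [hnorm, hsum, mul_add, key, key]

/-- The multiplicity of the trivial character in a principal series function. -/
theorem slPS_inner_one (α : MulChar F ℂ) :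
    classInner (slPS α) (fun _ => (1 : ℂ)) = if α = 1 then 1 else 0 := by
  classical
  haveI : Fintype (BSL F) := Fintype.ofFinite _
  have hcl : IsClassFunction (Matrix.SpecialLinearGroup (Fin 2) F) (fun _ => (1 : ℂ)) :=
    fun _ _ => rfl
  unfold slPS
  rw [frobenius_reciprocity _ _ _ hcl]
  unfold classInner
  have hcard : (Nat.card (BSL F) : ℂ) = (Fintype.card Fˣ : ℂ) * (Fintype.card F : ℂ) := by
    rw [← Nat.card_congr (Equiv.ofBijective bmSL bmSL_bijective), Nat.card_eq_fintype_card,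
      Fintype.card_prod, Nat.cast_mul]
  have hsum : ∑ b : BSL F, α (((b : Matrix.SpecialLinearGroup (Fin 2) F) :
      Matrix (Fin 2) (Fin 2) F) 0 0) * conj (1 : ℂ) =
      ∑ p : Fˣ × F, α (p.1 : F) :=
    (Fintype.sum_bijective bmSL bmSL_bijective _ _ (fun p => by simp [bmSL, bmSL0])).symm
  have hq : (Fintype.card F : ℂ) ≠ 0 := card_ne_zero
  have hT : (Fintype.card Fˣ : ℂ) ≠ 0 := by
    exact_mod_cast (Fintype.card_pos (α := Fˣ)).ne'
  rw [hsum, hcard, Fintype.sum_prod_type]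
  simp only [Finset.sum_const, Finset.card_univ, nsmul_eq_mul]
  rw [← Finset.mul_sum, sum_units_mulChar]
  by_cases h1 : α = 1
  · rw [if_pos h1, if_pos h1]
    field_simp
  · rw [if_neg h1, if_neg h1]
    simp

theorem sl_horth [Fintype (MulChar F ℂ)] (t t' : Fˣ) :
    ∑ α : MulChar F ℂ, α (t : F) * conj (α (t' : F)) =
      if t = t' then (Fintype.card Fˣ : ℂ) else 0 :=
  sum_mulChar_mul_conj t t'

/-- The Jacquet sum formula for `SL_2`. -/
theorem sl_jacquet [Fintype (MulChar F ℂ)] (χ : Matrix.SpecialLinearGroup (Fin 2) F → ℂ)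
    (hχ : IsClassFunction _ χ) (t : Fˣ) :
    ∑ α : MulChar F ℂ, α (t : F) * classInner χ (slPS α) =
      (Fintype.card F : ℂ)⁻¹ *
        ∑ x : F, χ (bmSL (t, x) : Matrix.SpecialLinearGroup (Fin 2) F) :=
  jacquet (mSL F) (BSL F) mem_BSL_iff
    (fun t : Fˣ => (t : F)) (fun t : Fˣ => ((t⁻¹ : Fˣ) : F)) bmSL bmSL_bijective mSL_bmSL
    (fun (α : MulChar F ℂ) (x _ : F) => α x) sl_horth χ hχ t

theorem bmSL_one (x : F) :
    (bmSL ((1 : Fˣ), x) : Matrix.SpecialLinearGroup (Fin 2) F) = uSL x := by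
  apply mSL_injective
  rw [mSL_bmSL, mSL_u]
  simp

/-- The multiplicities of a class function in the principal series add up to the dimension of its
unipotent invariants. -/
theorem sl_jacquet_one [Fintype (MulChar F ℂ)] (χ : Matrix.SpecialLinearGroup (Fin 2) F → ℂ)
    (hχ : IsClassFunction _ χ) :
    ∑ α : MulChar F ℂ, classInner χ (slPS α) =
      (Fintype.card F : ℂ)⁻¹ * ∑ x : F, χ (uSL x) := by
  have h := sl_jacquet χ hχ 1
  simp only [Units.val_one, map_one, one_mul, bmSL_one] at h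
  exact h

/-- The value of a class function at a diagonal element with distinct entries. -/
theorem sl_jacquet_diag [Fintype (MulChar F ℂ)] (χ : Matrix.SpecialLinearGroup (Fin 2) F → ℂ)
    (hχ : IsClassFunction _ χ) (t : Fˣ) (ht : (t : F) ≠ ((t⁻¹ : Fˣ) : F)) :
    ∑ α : MulChar F ℂ, α (t : F) * classInner χ (slPS α) =
      χ (bmSL (t, 0) : Matrix.SpecialLinearGroup (Fin 2) F) := by
  rw [sl_jacquet χ hχ t]
  have h1 : ∀ x : F, χ (bmSL (t, x) : Matrix.SpecialLinearGroup (Fin 2) F) =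
      χ (bmSL (t, 0) : Matrix.SpecialLinearGroup (Fin 2) F) := fun x =>
    classFunction_diag (mSL F) mSL_injective (BSL F) uSL mSL_u
      (fun t : Fˣ => (t : F)) (fun t : Fˣ => ((t⁻¹ : Fˣ) : F)) bmSL mSL_bmSL χ hχ t x ht
  simp_rw [h1]
  simp only [Finset.sum_const, Finset.card_univ, nsmul_eq_mul]
  have hq : (Fintype.card F : ℂ) ≠ 0 := card_ne_zero
  field_simp

/-- A diagonal element of `SL_2` in coordinates. -/
theorem eq_bmSL_of_diag (g : Matrix.SpecialLinearGroup (Fin 2) F)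
    (h01 : (g : Matrix (Fin 2) (Fin 2) F) 0 1 = 0) (h10 : (g : Matrix (Fin 2) (Fin 2) F) 1 0 = 0) :
    ∃ t : Fˣ, (t : F) = (g : Matrix (Fin 2) (Fin 2) F) 0 0 ∧
      ((t⁻¹ : Fˣ) : F) = (g : Matrix (Fin 2) (Fin 2) F) 1 1 ∧
      g = (bmSL (t, 0) : Matrix.SpecialLinearGroup (Fin 2) F) := by
  have hdet := g.2
  rw [Matrix.det_fin_two, h10, mul_zero, sub_zero] at hdet
  refine ⟨Units.mkOfMulEqOne _ _ hdet, rfl, rfl, ?_⟩
  apply mSL_injective
  rw [mSL_bmSL]
  ext i j
  fin_cases i <;> fin_cases j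
  · rfl
  · exact h01
  · exact h10
  · rfl

/-- The unipotent multiplicities of the principal series functions. -/
theorem mu_slPS (ψ₀ : AddChar F ℂ) (hψ₀ : ψ₀.IsPrimitive) (α : MulChar F ℂ) (t : F) :
    mu uSL ψ₀ (slPS α) t = if t = 0 then 2 else 1 := by
  have hq : (Fintype.card F : ℂ) ≠ 0 := card_ne_zero
  rw [mu_def, ← Finset.add_sum_erase Finset.univ _ (Finset.mem_univ (0 : F)), uSL_zero, slPS_one]
  have h1 : ∀ x ∈ Finset.univ.erase (0 : F), slPS α (uSL x) * conj (ψ₀ (t * x)) = ψ₀ ((-t) * x) := by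
    intro x hx
    rw [slPS_u α x (Finset.ne_of_mem_erase hx), one_mul, ← AddChar.map_neg_eq_conj, neg_mul]
  rw [Finset.sum_congr rfl h1, sum_erase_mulShift ψ₀ hψ₀ (-t)]
  simp only [mul_zero, AddChar.map_zero_eq_one, map_one, mul_one, neg_eq_zero]
  by_cases ht : t = 0
  · rw [if_pos ht, if_pos ht]
    field_simp
    ring
  · rw [if_neg ht, if_neg ht]
    field_simp
    ring

end fin

end Cfsg.Agent.Lib.Helper39.SL2PS
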