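-- Irreducible characters of SL_2 over a finite field: unipotent data and the principal series trichotomy.
import Mathlib
import Cfsg.Prelude.Def_Characters
import Cfsg.Prelude.Def_ParabolicCharacters
import Cfsg.Agent.Lib.Helper39.SL2PS

set_option autoImplicit false
set_option linter.unusedSectionVars false
set_option linter.unusedVariables false
set_option linter.style.haveILetI false

namespace Cfsg.Agent.Lib.Helper39.SL2Tri

open Cfsg Matrix Cfsg.Agent.Lib.CT Cfsg.Agent.Lib.Helper39.Borel2 Cfsg.Agent.Lib.Helper39.UMult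
  Cfsg.Agent.Lib.Helper39.UBorel Cfsg.Agent.Lib.Helper39.UOrth Cfsg.Agent.Lib.Helper39.GL2Inst
  Cfsg.Agent.Lib.Helper39.PSInst Cfsg.Agent.Lib.CT.Wedderburn Cfsg.Agent.Lib.Helper39.GL2T1
  Cfsg.Agent.Lib.Helper39.MulCharOrth Cfsg.Agent.Lib.Helper39.Decomp Cfsg.Agent.Lib.Helper39.SL2T1
  Cfsg.Agent.Lib.Helper39.SL2PS Cfsg.Agent.Lib.CT.FrobRec
open scoped ComplexConjugate

variable {F : Type*} [Field F] [Fintype F] [DecidableEq F]

/-- The unipotent data of an irreducible character of `SL_2`. -/
theorem sl_data (ψ₀ : AddChar F ℂ) (hψ₀ : ψ₀.IsPrimitive)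
    (χ : Matrix.SpecialLinearGroup (Fin 2) F → ℂ)
    (hχ : IsIrrCharacter (Matrix.SpecialLinearGroup (Fin 2) F) χ) :
    ∃ m : F → ℕ, (∀ t, mu uSL ψ₀ χ t = m t) ∧ (∀ t, t ≠ 0 → m t ≤ 1) ∧
      (∀ t s : F, s ≠ 0 → m (t * s ^ 2) = m t) ∧ χ 1 = ((∑ t : F, m t : ℕ) : ℂ) ∧
      (∀ x : F, χ (uSL x) = ∑ t : F, (m t : ℂ) * ψ₀ (t * x)) ∧
      (Fintype.card F : ℂ)⁻¹ * ∑ x : F, χ (uSL x) = m 0 := by
  have hm : ∀ t : F, ∃ n : ℕ, mu uSL ψ₀ χ t = n := fun t =>
    mu_nat uSL uSL_add ψ₀ (isCharacter_of_irr hχ) t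
  choose m hm using hm
  have hcl := char_isClassFunction (isCharacter_of_irr hχ)
  have hval : ∀ x : F, χ (uSL x) = ∑ t : F, (m t : ℂ) * ψ₀ (t * x) := by
    intro x
    rw [mu_inversion uSL ψ₀ hψ₀ χ x]
    simp_rw [hm]
  refine ⟨m, hm, ?_, ?_, ?_, hval, ?_⟩
  · intro t ht
    obtain ⟨n, hn1, hn⟩ := sl_mu_le_one ψ₀ hψ₀ χ hχ t ht
    have : m t = n := by
      have := (hm t).symm.trans hn
      exact_mod_cast this
    omega
  · intro t s hs
    have := sl_mu_scale ψ₀ χ hcl t s hs
    rw [hm, hm] at this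
    exact_mod_cast this
  · rw [← uSL_zero (F := F), hval 0]
    push_cast
    simp
  · rw [← hm 0, mu_zero_eq]

/-- The principal series trichotomy for an irreducible character of `SL_2`, according to the
dimension `a` of its unipotent invariants. -/
theorem sl_trichotomy (χ : Matrix.SpecialLinearGroup (Fin 2) F → ℂ)
    (hχ : IsIrrCharacter (Matrix.SpecialLinearGroup (Fin 2) F) χ) :
    ∃ a : ℕ, (Fintype.card F : ℂ)⁻¹ * ∑ x : F, χ (uSL x) = a ∧
      ((a = 0 ∧ ∀ α : MulChar F ℂ, classInner χ (slPS α) = 0) ∨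
       (a = 1 ∧ ∃ (α : MulChar F ℂ) (χ' : Matrix.SpecialLinearGroup (Fin 2) F → ℂ), α ^ 2 = 1 ∧
          IsIrrCharacter (Matrix.SpecialLinearGroup (Fin 2) F) χ' ∧ χ' ≠ χ ∧ slPS α = χ + χ') ∨
       (a = 2 ∧ ∃ α : MulChar F ℂ, α ^ 2 ≠ 1 ∧ χ = slPS α)) := by
  classical
  haveI : Fintype (MulChar F ℂ) := Fintype.ofFinite _
  have hcl := char_isClassFunction (isCharacter_of_irr hχ)
  have hA : ∀ α : MulChar F ℂ, ∃ n : ℕ, classInner χ (slPS α) = n := fun α =>
    Clifford.classInner_char_nat (isCharacter_of_irr hχ) (isCharacter_slPS α)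
  choose A hA using hA
  have hsum : (Fintype.card F : ℂ)⁻¹ * ∑ x : F, χ (uSL x) = ((∑ α : MulChar F ℂ, A α : ℕ) : ℂ) := by
    rw [← sl_jacquet_one χ hcl]
    push_cast
    simp_rw [hA]
  refine ⟨∑ α : MulChar F ℂ, A α, hsum, ?_⟩
  by_cases hall : ∀ α : MulChar F ℂ, A α = 0
  · left
    exact ⟨Finset.sum_eq_zero (fun α _ => hall α), fun α => by rw [hA, hall]; simp⟩
  · push Not at hall
    obtain ⟨α, hα⟩ := hall
    have hAsymm : ∀ β : MulChar F ℂ, classInner (slPS β) χ = A β := by
      intro β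
      rw [Clifford.classInner_conj_symm, hA, Complex.conj_natCast]
    have hinner : classInner (slPS α) χ ≠ 0 := by
      rw [hAsymm]
      exact_mod_cast hα
    by_cases hα2 : α ^ 2 = 1
    · right; left
      have hαinv : α = α⁻¹ := by
        rw [eq_inv_iff_mul_eq_one, ← sq]
        exact hα2
      have hnorm : classInner (slPS α) (slPS α) = 2 := by
        rw [slPS_inner, if_pos rfl, if_pos hαinv]
        norm_num
      obtain ⟨χ', hχ', hne, hdec⟩ := norm_two_decomp (isCharacter_slPS α) hχ hnorm hinner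
      have hAα : A α = 1 := by
        have h1 : classInner χ (slPS α) = 1 := by
          rw [hdec, classInner_add_right, NormOne.inner_self_eq_one_of_irr hχ]
          have h2 := irr_orthonormal (⟨χ, hχ⟩ : IrrCharacter (Matrix.SpecialLinearGroup (Fin 2) F))
            ⟨χ', hχ'⟩
          simp only at h2
          rw [h2, if_neg (fun h => hne (congrArg Subtype.val h).symm)]
          simp
        rw [hA] at h1
        exact_mod_cast h1
      have hAβ : ∀ β : MulChar F ℂ, β ≠ α → A β = 0 := by
        intro β hβ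
        by_contra hne0
        obtain ⟨N, hN, hle⟩ := inner_nat_mul_le (isCharacter_slPS α) (isCharacter_slPS β) hχ
          (A α) (A β) (hAsymm α) (hAsymm β)
        have h3 : ¬ α = β⁻¹ := by
          intro h
          apply hβ
          rw [h, inv_inv] at hαinv
          rw [h]
          exact hαinv.symm
        rw [slPS_inner, if_neg (Ne.symm hβ), if_neg h3, add_zero] at hN
        have hN0 : N = 0 := by exact_mod_cast hN.symm
        rw [hN0, hAα] at hle
        omega
      refine ⟨?_, α, χ', hα2, hχ', hne, hdec⟩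
      rw [Finset.sum_eq_single α (fun β _ hβ => hAβ β hβ)
        (fun h => absurd (Finset.mem_univ _) h)]
      exact hAα
    · right; right
      have hαinv : α ≠ α⁻¹ := by
        intro h
        apply hα2
        rw [sq]
        exact eq_inv_iff_mul_eq_one.mp h
      have hnorm : classInner (slPS α) (slPS α) = 1 := by
        rw [slPS_inner, if_pos rfl, if_neg hαinv]
        norm_num
      have hirr := NormOne.irr_of_inner_self_eq_one (isCharacter_slPS α) hnorm
      have heq : χ = slPS α := by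
        have h2 := irr_orthonormal
          (⟨slPS α, hirr⟩ : IrrCharacter (Matrix.SpecialLinearGroup (Fin 2) F)) ⟨χ, hχ⟩
        simp only at h2
        by_contra hne
        rw [if_neg (fun h => hne (congrArg Subtype.val h).symm)] at h2
        exact hinner h2
      refine ⟨?_, α, hα2, heq⟩
      have hAβ : ∀ β : MulChar F ℂ, A β = (if β = α then 1 else 0) + (if β = α⁻¹ then 1 else 0) := by
        intro β
        have h3 := hA β
        rw [heq, slPS_inner] at h3
        have h4 : ((A β : ℕ) : ℂ) =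
            (((if β = α then 1 else 0) + (if β = α⁻¹ then 1 else 0) : ℕ) : ℂ) := by
          rw [← h3]
          push_cast
          congr 1
          · by_cases h : α = β
            · rw [if_pos h, if_pos h.symm]
            · rw [if_neg h, if_neg (fun h' => h h'.symm)]
          · by_cases h : α = β⁻¹
            · rw [if_pos h, if_pos (by rw [h, inv_inv])]
            · rw [if_neg h, if_neg (fun h' => h (by rw [h', inv_inv]))]
        exact_mod_cast h4
      simp_rw [hAβ]
      rw [Finset.sum_add_distrib, Finset.sum_ite_eq' Finset.univ α,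
        Finset.sum_ite_eq' Finset.univ α⁻¹]
      simp

end Cfsg.Agent.Lib.Helper39.SL2Tri
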