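-- Irreducible characters of SL_2 over a finite field: consequences of the degree.
import Mathlib
import Cfsg.Prelude.Def_Characters
import Cfsg.Prelude.Def_ParabolicCharacters
import Cfsg.Agent.Lib.Helper39.SL2Tri

set_option autoImplicit false
set_option linter.unusedSectionVars false
set_option linter.unusedVariables false
set_option linter.style.haveILetI false

namespace Cfsg.Agent.Lib.Helper39.SL2Deg

open Cfsg Matrix Cfsg.Agent.Lib.CT Cfsg.Agent.Lib.Helper39.Borel2 Cfsg.Agent.Lib.Helper39.UMult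
  Cfsg.Agent.Lib.Helper39.UBorel Cfsg.Agent.Lib.Helper39.UOrth Cfsg.Agent.Lib.Helper39.GL2Inst
  Cfsg.Agent.Lib.Helper39.PSInst Cfsg.Agent.Lib.CT.Wedderburn Cfsg.Agent.Lib.Helper39.GL2T1
  Cfsg.Agent.Lib.Helper39.MulCharOrth Cfsg.Agent.Lib.Helper39.Decomp Cfsg.Agent.Lib.Helper39.SL2T1
  Cfsg.Agent.Lib.Helper39.SL2PS Cfsg.Agent.Lib.Helper39.SL2Tri Cfsg.Agent.Lib.CT.FrobRec
open scoped ComplexConjugate

variable {F : Type*} [Field F] [Fintype F] [DecidableEq F]

/-- In a field with at least four elements some nonzero element has square different from one. -/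
theorem exists_sq_ne_one (hq : 4 ≤ Fintype.card F) : ∃ s : F, s ≠ 0 ∧ s ^ 2 ≠ 1 := by
  by_contra hcon
  push Not at hcon
  have hsub : (Finset.univ : Finset F) ⊆ {0, 1, -1} := by
    intro s _
    by_cases hs : s = 0
    · simp [hs]
    · have h1 := hcon s hs
      have h2 : (s - 1) * (s + 1) = 0 := by linear_combination h1
      rcases mul_eq_zero.mp h2 with h3 | h3
      · have : s = 1 := sub_eq_zero.mp h3
        simp [this]
      · have : s = -1 := eq_neg_of_add_eq_zero_left h3
        simp [this]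
  have hcard := Finset.card_le_card hsub
  rw [Finset.card_univ] at hcard
  have h3 : ({0, 1, -1} : Finset F).card ≤ 3 := Finset.card_le_three
  omega

/-- Splitting off the term at `0`. -/
theorem sum_split (m : F → ℕ) : ∑ t : F, m t = m 0 + ∑ t ∈ Finset.univ.erase (0 : F), m t :=
  (Finset.add_sum_erase Finset.univ m (Finset.mem_univ (0 : F))).symm

theorem sum_erase_le (m : F → ℕ) (hm1 : ∀ t, t ≠ 0 → m t ≤ 1) :
    ∑ t ∈ Finset.univ.erase (0 : F), m t ≤ Fintype.card F - 1 := by
  calc ∑ t ∈ Finset.univ.erase (0 : F), m t ≤ ∑ t ∈ Finset.univ.erase (0 : F), 1 :=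
        Finset.sum_le_sum (fun t ht => hm1 t (Finset.ne_of_mem_erase ht))
    _ = Fintype.card F - 1 := by
        rw [Finset.sum_const, Finset.card_erase_of_mem (Finset.mem_univ _), Finset.card_univ]
        simp

/-- If the nontrivial multiplicities add up to `q - 1`, they are all one. -/
theorem all_one_of_sum (m : F → ℕ) (hm1 : ∀ t, t ≠ 0 → m t ≤ 1)
    (h : ∑ t ∈ Finset.univ.erase (0 : F), m t = Fintype.card F - 1) : ∀ t, t ≠ 0 → m t = 1 := by
  have h1 : ∑ t ∈ Finset.univ.erase (0 : F), m t = ∑ t ∈ Finset.univ.erase (0 : F), 1 := by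
    rw [h, Finset.sum_const, Finset.card_erase_of_mem (Finset.mem_univ _), Finset.card_univ]
    simp
  have h2 := (Finset.sum_eq_sum_iff_of_le
    (fun t ht => hm1 t (Finset.ne_of_mem_erase ht))).mp h1
  intro t ht
  exact h2 t (Finset.mem_erase.mpr ⟨ht, Finset.mem_univ _⟩)

/-- A constituent of a principal series function has nonzero unipotent invariants. -/
theorem a_pos_of_inner_ne_zero (χ : Matrix.SpecialLinearGroup (Fin 2) F → ℂ)
    (hχ : IsIrrCharacter (Matrix.SpecialLinearGroup (Fin 2) F) χ) (α : MulChar F ℂ)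
    (h : classInner χ (slPS α) ≠ 0) (a : ℕ)
    (ha : (Fintype.card F : ℂ)⁻¹ * ∑ x : F, χ (uSL x) = a) : 1 ≤ a := by
  obtain ⟨a', ha', htri⟩ := sl_trichotomy χ hχ
  have : a = a' := by
    have := ha.symm.trans ha'
    exact_mod_cast this
  subst this
  rcases htri with ⟨-, hall⟩ | ⟨h1, -⟩ | ⟨h2, -⟩
  · exact absurd (hall α) h
  · omega
  · omega

/-- The other constituent of a decomposition is orthogonal-complementary: its inner product with
the sum is one. -/
theorem inner_of_decomp {χ χ' Ψ : Matrix.SpecialLinearGroup (Fin 2) F → ℂ}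
    (hχ : IsIrrCharacter (Matrix.SpecialLinearGroup (Fin 2) F) χ)
    (hχ' : IsIrrCharacter (Matrix.SpecialLinearGroup (Fin 2) F) χ') (hne : χ' ≠ χ)
    (hdec : Ψ = χ + χ') : classInner χ' Ψ = 1 ∧ classInner χ Ψ = 1 := by
  have h2 := irr_orthonormal (⟨χ', hχ'⟩ : IrrCharacter (Matrix.SpecialLinearGroup (Fin 2) F))
    ⟨χ, hχ⟩
  have h3 := irr_orthonormal (⟨χ, hχ⟩ : IrrCharacter (Matrix.SpecialLinearGroup (Fin 2) F))
    ⟨χ', hχ'⟩
  simp only at h2 h3
  rw [if_neg (fun h => hne (congrArg Subtype.val h))] at h2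
  rw [if_neg (fun h => hne (congrArg Subtype.val h).symm)] at h3
  constructor
  · rw [hdec, classInner_add_right, NormOne.inner_self_eq_one_of_irr hχ', h2]
    simp
  · rw [hdec, classInner_add_right, NormOne.inner_self_eq_one_of_irr hχ, h3]
    simp

/-- For `q ≥ 4`, an irreducible character of `SL_2` of degree `q - 1` has no unipotent invariants
and all its nontrivial unipotent multiplicities are one. -/
theorem cuspidal_of_degree (hq : 4 ≤ Fintype.card F) (ψ₀ : AddChar F ℂ) (hψ₀ : ψ₀.IsPrimitive)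
    (χ : Matrix.SpecialLinearGroup (Fin 2) F → ℂ)
    (hχ : IsIrrCharacter (Matrix.SpecialLinearGroup (Fin 2) F) χ)
    (hdeg : χ 1 = (Fintype.card F : ℂ) - 1) (m : F → ℕ) (hm : ∀ t, mu uSL ψ₀ χ t = m t) :
    m 0 = 0 ∧ (∀ t, t ≠ 0 → m t = 1) ∧ ∀ α : MulChar F ℂ, classInner χ (slPS α) = 0 := by
  obtain ⟨m₂, hm₂, hm1, hmsq, hdeg', hval, ha⟩ := sl_data ψ₀ hψ₀ χ hχ
  have hmm : m₂ = m := by
    funext t
    have := (hm₂ t).symm.trans (hm t)
    exact_mod_cast this
  subst hmm
  obtain ⟨a, ha', htri⟩ := sl_trichotomy χ hχ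
  have haa : a = m₂ 0 := by
    have := ha'.symm.trans ha
    exact_mod_cast this
  have hsumm : ∑ t : F, m₂ t = Fintype.card F - 1 := by
    have h1 : ((∑ t : F, m₂ t : ℕ) : ℂ) = ((Fintype.card F - 1 : ℕ) : ℂ) := by
      rw [← hdeg', hdeg, Nat.cast_sub (by omega)]
      simp
    exact_mod_cast h1
  have hsplit := sum_split m₂
  have hle := sum_erase_le m₂ hm1
  have ha0 : m₂ 0 = 0 ∧ ∀ α : MulChar F ℂ, classInner χ (slPS α) = 0 := by
    rcases htri with ⟨h0, hall⟩ | ⟨h1, α, χ', hα2, hχ', hne, hdec⟩ | ⟨-, α, -, heq⟩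
    · exact ⟨by omega, hall⟩
    · exfalso
      have hχ'1 : χ' 1 = 2 := by
        have := congrFun hdec 1
        rw [slPS_one, Pi.add_apply, hdeg] at this
        linear_combination -this
      obtain ⟨m', hm', hm1', hmsq', hdeg'', hval', ha''⟩ := sl_data ψ₀ hψ₀ χ' hχ'
      obtain ⟨a', ha3, htri'⟩ := sl_trichotomy χ' hχ'
      have haa' : a' = m' 0 := by
        have := ha3.symm.trans ha''
        exact_mod_cast this
      have hinner := (inner_of_decomp hχ hχ' hne hdec).1
      have ha'1 : 1 ≤ a' := a_pos_of_inner_ne_zero χ' hχ' α (by rw [hinner]; exact one_ne_zero) a' ha3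
      have hsumm' : ∑ t : F, m' t = 2 := by
        have := hdeg''.symm.trans hχ'1
        exact_mod_cast this
      have hsplit' := sum_split m'
      have ha'2 : a' ≠ 2 := by
        intro h2
        rcases htri' with ⟨h0, -⟩ | ⟨h1, -⟩ | ⟨-, β, -, heq⟩
        · omega
        · omega
        · rw [heq, slPS_one] at hχ'1
          have : ((Fintype.card F : ℕ) : ℂ) = ((1 : ℕ) : ℂ) := by
            push_cast
            linear_combination hχ'1
          have h3 : Fintype.card F = 1 := by exact_mod_cast this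
          omega
      have ha'le : a' ≤ 2 := by
        rcases htri' with ⟨h0, -⟩ | ⟨h1, -⟩ | ⟨h2, -⟩ <;> omega
      have hrest : ∑ t ∈ Finset.univ.erase (0 : F), m' t = 1 := by omega
      have hex : ∃ t₀ : F, t₀ ≠ 0 ∧ m' t₀ ≠ 0 := by
        by_contra hcon
        push Not at hcon
        have : ∑ t ∈ Finset.univ.erase (0 : F), m' t = 0 :=
          Finset.sum_eq_zero (fun t ht => hcon t (Finset.ne_of_mem_erase ht))
        omega
      obtain ⟨t₀, ht₀, hmt₀⟩ := hex
      obtain ⟨s, hs0, hs1⟩ := exists_sq_ne_one hq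
      have hne2 : t₀ * s ^ 2 ≠ t₀ := by
        intro h
        apply hs1
        have : t₀ * (s ^ 2 - 1) = 0 := by linear_combination h
        rcases mul_eq_zero.mp this with h4 | h4
        · exact absurd h4 ht₀
        · exact sub_eq_zero.mp h4
      have hmem1 : t₀ ∈ Finset.univ.erase (0 : F) := Finset.mem_erase.mpr ⟨ht₀, Finset.mem_univ _⟩
      have hmem2 : t₀ * s ^ 2 ∈ Finset.univ.erase (0 : F) :=
        Finset.mem_erase.mpr ⟨mul_ne_zero ht₀ (pow_ne_zero 2 hs0), Finset.mem_univ _⟩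
      have h5 : m' t₀ + m' (t₀ * s ^ 2) ≤ ∑ t ∈ Finset.univ.erase (0 : F), m' t :=
        Finset.add_le_sum (f := m') (fun _ _ => Nat.zero_le _) hmem1 hmem2 hne2.symm
      rw [hmsq' t₀ s hs0] at h5
      omega
    · exfalso
      rw [heq, slPS_one] at hdeg
      have : (2 : ℂ) = 0 := by linear_combination hdeg
      exact two_ne_zero this
  refine ⟨ha0.1, ?_, ha0.2⟩
  apply all_one_of_sum m₂ hm1
  omega

end Cfsg.Agent.Lib.Helper39.SL2Deg
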