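-- Laws modulo the centre: transfer along injective homomorphisms; alternating groups and SL_2.
import Mathlib
import Cfsg.Agent.Lib.Helper39.FreeGroupPerm
import Cfsg.Agent.Lib.Helper39.PSL2Law
import Cfsg.Agent.Lib.Helper39.SL2Deg

set_option autoImplicit false
set_option linter.unusedSectionVars false
set_option linter.unusedVariables false

namespace Cfsg.Agent.Lib.Helper39.Law

open Cfsg.Agent.Lib.Helper39.FreeGroupPerm Cfsg.Agent.Lib.Helper39.PSL2Law
  Cfsg.Agent.Lib.Helper39.SL2T1 Cfsg.Agent.Lib.Helper39.SL2Deg Cfsg.Agent.Lib.Helper39.GL2Inst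
  Cfsg.Agent.Lib.Helper39.UBorel
open scoped commutatorElement

/-- `w` is not a law of `H` modulo the centre: some substitution gives a non-central value. -/
def NL (w : FreeGroup ℕ) (H : Type*) [Group H] : Prop :=
  ∃ f : ℕ → H, FreeGroup.lift f w ∉ Subgroup.center H

theorem lift_comp {H G : Type*} [Group H] [Group G] (φ : H →* G) (f : ℕ → H) (w : FreeGroup ℕ) :
    FreeGroup.lift (fun a => φ (f a)) w = φ (FreeGroup.lift f w) := by
  have : FreeGroup.lift (fun a => φ (f a)) = φ.comp (FreeGroup.lift f) := by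
    apply FreeGroup.ext_hom
    intro a
    simp
  rw [this, MonoidHom.comp_apply]

/-- Transfer along an injective homomorphism. -/
theorem NL.map {w : FreeGroup ℕ} {H G : Type*} [Group H] [Group G] (φ : H →* G)
    (hφ : Function.Injective φ) (h : NL w H) : NL w G := by
  obtain ⟨f, hf⟩ := h
  refine ⟨fun a => φ (f a), ?_⟩
  rw [lift_comp]
  intro hc
  apply hf
  rw [Subgroup.mem_center_iff] at hc ⊢
  intro g
  apply hφ
  rw [map_mul, map_mul]
  exact hc (φ g)

theorem NL.quotient {w : FreeGroup ℕ} {H : Type*} [Group H] (h : NL w H) :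
    ∃ f : ℕ → H ⧸ Subgroup.center H, FreeGroup.lift f w ≠ 1 := by
  obtain ⟨f, hf⟩ := h
  refine ⟨fun a => QuotientGroup.mk' (Subgroup.center H) (f a), ?_⟩
  rw [lift_comp]
  intro hc
  exact hf ((QuotientGroup.eq_one_iff _).mp hc)

/-- If `w` is not a law of `H` modulo the centre, it is not a law of any group isomorphic to the
central quotient of `H`. -/
theorem NL.of_equiv {w : FreeGroup ℕ} {H G : Type*} [Group H] [Group G]
    (e : G ≃* H ⧸ Subgroup.center H) (h : NL w H) : ∃ f : ℕ → G, FreeGroup.lift f w ≠ 1 := by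
  obtain ⟨f, hf⟩ := h.quotient
  refine ⟨fun a => e.symm (f a), ?_⟩
  have := lift_comp e.symm.toMonoidHom f w
  intro hc
  apply hf
  have h2 : e.symm (FreeGroup.lift f w) = 1 := by
    rw [← hc]
    exact this.symm
  have h3 := congrArg e h2
  simpa using h3

/-- A homomorphism from a perfect group, with values in the commutator subgroup. -/
def liftComm {H O : Type*} [Group H] [Group O] (ψ : H →* O) (hH : commutator H = ⊤) :
    H →* ↥(commutator O) :=
  ψ.codRestrict (commutator O) (fun h => by
    have h1 : h ∈ commutator H := by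
      rw [hH]
      exact Subgroup.mem_top h
    have h2 : ψ h ∈ Subgroup.map ψ (commutator H) := Subgroup.mem_map_of_mem ψ h1
    rw [commutator_def, Subgroup.map_commutator] at h2
    exact Subgroup.commutator_mono le_top le_top h2)

theorem liftComm_injective {H O : Type*} [Group H] [Group O] (ψ : H →* O)
    (hH : commutator H = ⊤) (hψ : Function.Injective ψ) : Function.Injective (liftComm ψ hH) := by
  intro a b hab
  apply hψ
  exact congrArg Subtype.val hab

/-- A nontrivial word is not a law modulo the centre in large alternating groups. -/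
theorem exists_nl_alternating (w : FreeGroup ℕ) (hw : w ≠ 1) :
    ∃ n₁ : ℕ, ∀ n : ℕ, n₁ ≤ n → NL w (alternatingGroup (Fin n)) := by
  obtain ⟨k, f₀, hf₀⟩ := exists_perm_lift_ne_one w hw
  refine ⟨2 * k + 4, fun n hn => ?_⟩
  obtain ⟨φ, hφ⟩ := exists_hom_alternating k n (by omega)
  refine ⟨fun a => φ (f₀ a), ?_⟩
  rw [lift_comp, alternatingGroup.center_eq_bot (by simp; omega), Subgroup.mem_bot]
  intro h
  apply hf₀
  apply hφ
  rw [h, map_one]

/-- A nontrivial word is not a law modulo the centre in `SL_2` over large finite fields. -/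
theorem nl_sl2 (w : FreeGroup ℕ) (hw : w ≠ 1) {K : Type*} [Field K] [Fintype K]
    (hcard : 3 * bound w.toWord < Fintype.card K) :
    NL w (Matrix.SpecialLinearGroup (Fin 2) K) := by
  obtain ⟨t₀, a, b, h0, h1, h2⟩ := exists_eval (F := K) w hw hcard
  let φ : Matrix.SpecialLinearGroup (Fin 2) (Polynomial K) →* Matrix.SpecialLinearGroup (Fin 2) K :=
    Matrix.SpecialLinearGroup.map (Polynomial.evalRingHom t₀)
  refine ⟨fun i => φ (cSL K i), ?_⟩
  rw [lift_comp]
  intro hmem
  obtain ⟨r, hr, hscal⟩ := Matrix.SpecialLinearGroup.mem_center_iff.mp hmem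
  have hentry : (φ (FreeGroup.lift (cSL K) w) : Matrix (Fin 2) (Fin 2) K) a b =
      ((FreeGroup.lift (cSL K) w : Matrix.SpecialLinearGroup (Fin 2) (Polynomial K)) a b).eval t₀ :=
    rfl
  have hr2 : r = 1 ∨ r = -1 := by
    rw [Fintype.card_fin] at hr
    exact sq_eq_one_iff.mp hr
  have hval := congrFun (congrFun hscal a) b
  rw [hentry] at hval
  by_cases hab : a = b
  · subst hab
    simp only [Matrix.scalar_apply, Matrix.diagonal_apply_eq] at hval
    rcases hr2 with hr2 | hr2
    · exact h1 (by rw [← hval, hr2])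
    · exact h2 (by rw [← hval, hr2])
  · simp only [Matrix.scalar_apply, Matrix.diagonal_apply_ne _ hab] at hval
    exact h0 hval.symm

/-- `SL_2` over a field with at least four elements is perfect. -/
theorem sl2_perfect {K : Type*} [Field K] [Fintype K] (hq : 4 ≤ Fintype.card K) :
    commutator (Matrix.SpecialLinearGroup (Fin 2) K) = ⊤ := by
  classical
  obtain ⟨s, hs0, hs1⟩ := exists_sq_ne_one hq
  have hs2 : s ^ 2 - 1 ≠ 0 := fun h => hs1 (sub_eq_zero.mp h)
  have hN : ∀ x : K, uSL x ∈ commutator (Matrix.SpecialLinearGroup (Fin 2) K) := by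
    intro x
    have h1 : uSL x = ⁅dSL (Units.mk0 s hs0), uSL (x / (s ^ 2 - 1))⁆ := by
      have h2 : (uSL (x / (s ^ 2 - 1)))⁻¹ = uSL (-(x / (s ^ 2 - 1))) := by
        rw [inv_eq_iff_mul_eq_one, ← uSL_add, add_neg_cancel, uSL_zero]
      rw [commutatorElement_def, dSL_conj, h2, ← uSL_add]
      congr 1
      simp only [Units.val_mk0]
      field_simp
      ring
    rw [h1]
    exact Subgroup.commutator_mem_commutator (Subgroup.mem_top _) (Subgroup.mem_top _)
  rw [eq_top_iff]
  intro g _
  exact mem_normal_of_det_one (mSL K) mSL_injective LSL mSL_L (WSL K) mSL_W uSL mSL_u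
    (commutator (Matrix.SpecialLinearGroup (Fin 2) K)) hN g g.2

end Cfsg.Agent.Lib.Helper39.Law
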