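-- Embeddings of alternating groups and of SL_2 into the classical matrix groups.
import Mathlib
import Cfsg.Prelude.Def_Classical

set_option autoImplicit false
set_option linter.unusedSectionVars false
set_option linter.unusedVariables false

namespace Cfsg.Agent.Lib.Helper39.LawEmb

open Matrix

variable {F : Type*} [Field F]

/-! ### Matrix-valued homomorphisms -/

/-- Even permutations as permutation matrices. -/
noncomputable def permMat (n : ℕ) (F : Type*) [Field F] :
    ↥(alternatingGroup (Fin n)) →* Matrix (Fin n) (Fin n) F :=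
  (Matrix.permMatrixHom (n := Fin n) (R := F)).comp (alternatingGroup (Fin n)).subtype

theorem permMat_apply (n : ℕ) (σ : ↥(alternatingGroup (Fin n))) :
    permMat n F σ = ((σ : Equiv.Perm (Fin n))⁻¹).permMatrix F := rfl

theorem permMat_det (n : ℕ) (σ : ↥(alternatingGroup (Fin n))) : (permMat n F σ).det = 1 := by
  rw [permMat_apply, Matrix.det_permutation, Equiv.Perm.sign_inv,
    Equiv.Perm.mem_alternatingGroup.mp σ.2]
  simp

theorem permMat_mulVec (n : ℕ) (σ : ↥(alternatingGroup (Fin n))) (v : Fin n → F) :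
    permMat n F σ *ᵥ v = v ∘ ((σ : Equiv.Perm (Fin n))⁻¹ : Equiv.Perm (Fin n)) := by
  rw [permMat_apply, Matrix.permMatrix_mulVec]

theorem permMat_injective (n : ℕ) : Function.Injective (permMat n F) := by
  classical
  intro σ τ h
  apply Subtype.ext
  rw [← _root_.inv_inj]
  ext i
  have h1 := congrFun (congrArg (fun M : Matrix (Fin n) (Fin n) F =>
    M *ᵥ (fun j => if j = ((σ : Equiv.Perm (Fin n))⁻¹ : Equiv.Perm (Fin n)) i then (1 : F) else 0)) h) i
  simp only [permMat_mulVec, Function.comp_apply, if_true] at h1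
  by_contra hne
  rw [if_neg (fun h2 => hne (congrArg Fin.val h2).symm)] at h1
  exact one_ne_zero h1

/-- The index equivalence used for the block embedding. -/
def blockEquiv (n : ℕ) (hn : 2 ≤ n) : Fin 2 ⊕ Fin (n - 2) ≃ Fin n :=
  finSumFinEquiv.trans (finCongr (by omega))

/-- The block embedding `A ↦ diag(A, 1)` of `SL_2` as a matrix-valued homomorphism. -/
noncomputable def blockMat (n : ℕ) (hn : 2 ≤ n) (F : Type*) [Field F] :
    Matrix.SpecialLinearGroup (Fin 2) F →* Matrix (Fin n) (Fin n) F where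
  toFun A := Matrix.reindex (blockEquiv n hn) (blockEquiv n hn)
    (Matrix.fromBlocks (A : Matrix (Fin 2) (Fin 2) F) 0 0 1)
  map_one' := by
    rw [Matrix.SpecialLinearGroup.coe_one, Matrix.fromBlocks_one]
    simp
  map_mul' A B := by
    rw [Matrix.SpecialLinearGroup.coe_mul, Matrix.reindex_apply, Matrix.reindex_apply,
      Matrix.reindex_apply, Matrix.submatrix_mul_equiv, Matrix.fromBlocks_multiply]
    simp

theorem blockMat_det (n : ℕ) (hn : 2 ≤ n) (A : Matrix.SpecialLinearGroup (Fin 2) F) :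
    (blockMat n hn F A).det = 1 := by
  show (Matrix.reindex (blockEquiv n hn) (blockEquiv n hn)
    (Matrix.fromBlocks (A : Matrix (Fin 2) (Fin 2) F) 0 0 1)).det = 1
  rw [Matrix.det_reindex_self, Matrix.det_fromBlocks_zero₂₁, A.2, Matrix.det_one, mul_one]

theorem blockMat_injective (n : ℕ) (hn : 2 ≤ n) : Function.Injective (blockMat n hn F) := by
  intro A B h
  have h1 : Matrix.fromBlocks (A : Matrix (Fin 2) (Fin 2) F) 0 0 (1 : Matrix (Fin (n - 2)) (Fin (n - 2)) F) =
      Matrix.fromBlocks (B : Matrix (Fin 2) (Fin 2) F) 0 0 1 :=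
    (Matrix.reindex (blockEquiv n hn) (blockEquiv n hn)).injective h
  exact Subtype.ext (Matrix.fromBlocks_inj.mp h1).1

/-- The Levi embedding `A ↦ diag(A, A⁻ᵀ)` as a matrix-valued homomorphism. -/
noncomputable def leviMat (m : ℕ) (F : Type*) [Field F] :
    Matrix.SpecialLinearGroup (Fin m) F →* Matrix (Fin m ⊕ Fin m) (Fin m ⊕ Fin m) F where
  toFun A := Matrix.fromBlocks (A : Matrix (Fin m) (Fin m) F) 0 0
    ((A⁻¹ : Matrix.SpecialLinearGroup (Fin m) F) : Matrix (Fin m) (Fin m) F)ᵀ
  map_one' := by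
    rw [inv_one, Matrix.SpecialLinearGroup.coe_one, Matrix.transpose_one, Matrix.fromBlocks_one]
  map_mul' A B := by
    rw [Matrix.fromBlocks_multiply, _root_.mul_inv_rev, Matrix.SpecialLinearGroup.coe_mul,
      Matrix.SpecialLinearGroup.coe_mul, Matrix.transpose_mul]
    simp

theorem leviMat_apply (m : ℕ) (A : Matrix.SpecialLinearGroup (Fin m) F) :
    leviMat m F A = Matrix.fromBlocks (A : Matrix (Fin m) (Fin m) F) 0 0
      ((A⁻¹ : Matrix.SpecialLinearGroup (Fin m) F) : Matrix (Fin m) (Fin m) F)ᵀ := rfl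

theorem leviMat_injective (m : ℕ) : Function.Injective (leviMat m F) := by
  intro A B h
  rw [leviMat_apply, leviMat_apply] at h
  exact Subtype.ext (Matrix.fromBlocks_inj.mp h).1

theorem dot_levi (m : ℕ) (A : Matrix.SpecialLinearGroup (Fin m) F) (x y : Fin m → F) :
    ((A : Matrix (Fin m) (Fin m) F) *ᵥ x) ⬝ᵥ
      (((A⁻¹ : Matrix.SpecialLinearGroup (Fin m) F) : Matrix (Fin m) (Fin m) F)ᵀ *ᵥ y) = x ⬝ᵥ y := by
  rw [Matrix.mulVec_transpose, dotProduct_comm, Matrix.dotProduct_mulVec, Matrix.vecMul_vecMul,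
    ← Matrix.SpecialLinearGroup.coe_mul, inv_mul_cancel, Matrix.SpecialLinearGroup.coe_one,
    Matrix.vecMul_one, dotProduct_comm]

theorem leviMat_mulVec (m : ℕ) (A : Matrix.SpecialLinearGroup (Fin m) F) (v : Fin m ⊕ Fin m → F) :
    leviMat m F A *ᵥ v = Sum.elim ((A : Matrix (Fin m) (Fin m) F) *ᵥ (v ∘ Sum.inl))
      (((A⁻¹ : Matrix.SpecialLinearGroup (Fin m) F) : Matrix (Fin m) (Fin m) F)ᵀ *ᵥ (v ∘ Sum.inr)) := by
  rw [leviMat_apply, Matrix.fromBlocks_mulVec]
  simp

/-- The Levi embedding preserves the hyperbolic pairing. -/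
theorem leviMat_pairing (m : ℕ) (A : Matrix.SpecialLinearGroup (Fin m) F) (v : Fin m ⊕ Fin m → F) :
    ∑ i : Fin m, (leviMat m F A *ᵥ v) (Sum.inl i) * (leviMat m F A *ᵥ v) (Sum.inr i) =
      ∑ i : Fin m, v (Sum.inl i) * v (Sum.inr i) := by
  rw [leviMat_mulVec]
  simp only [Sum.elim_inl, Sum.elim_inr]
  exact dot_levi m A (v ∘ Sum.inl) (v ∘ Sum.inr)

/-- The Levi embedding is symplectic. -/
theorem leviMat_symplectic (m : ℕ) (A : Matrix.SpecialLinearGroup (Fin m) F) :
    leviMat m F A * Matrix.J (Fin m) F * (leviMat m F A)ᵀ = Matrix.J (Fin m) F := by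
  rw [leviMat_apply, Matrix.J, Matrix.fromBlocks_transpose, Matrix.fromBlocks_multiply,
    Matrix.fromBlocks_multiply]
  have h1 : (A : Matrix (Fin m) (Fin m) F) *
      ((A⁻¹ : Matrix.SpecialLinearGroup (Fin m) F) : Matrix (Fin m) (Fin m) F) = 1 := by
    rw [← Matrix.SpecialLinearGroup.coe_mul, mul_inv_cancel, Matrix.SpecialLinearGroup.coe_one]
  have h2 : ((A⁻¹ : Matrix.SpecialLinearGroup (Fin m) F) : Matrix (Fin m) (Fin m) F)ᵀ *
      (A : Matrix (Fin m) (Fin m) F)ᵀ = 1 := by
    rw [← Matrix.transpose_mul, h1, Matrix.transpose_one]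
  simp only [Matrix.zero_mul, Matrix.mul_zero, add_zero, zero_add, Matrix.mul_one, Matrix.one_mul,
    Matrix.mul_neg, Matrix.neg_mul, Matrix.transpose_transpose, Matrix.transpose_zero, h1, h2,
    neg_zero]


/-! ### Wrappers -/

/-- A matrix-valued homomorphism of determinant one, as a homomorphism to `SL`. -/
def toSL {H : Type*} [Group H] {n : ℕ} (L : H →* Matrix (Fin n) (Fin n) F)
    (hdet : ∀ h, (L h).det = 1) : H →* Matrix.SpecialLinearGroup (Fin n) F where
  toFun h := ⟨L h, hdet h⟩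
  map_one' := Subtype.ext (map_one L)
  map_mul' a b := Subtype.ext (map_mul L a b)

theorem toSL_coe {H : Type*} [Group H] {n : ℕ} (L : H →* Matrix (Fin n) (Fin n) F)
    (hdet : ∀ h, (L h).det = 1) (h : H) :
    ((toSL L hdet h : Matrix.SpecialLinearGroup (Fin n) F) : Matrix (Fin n) (Fin n) F) = L h := rfl

theorem toSL_injective {H : Type*} [Group H] {n : ℕ} (L : H →* Matrix (Fin n) (Fin n) F)
    (hdet : ∀ h, (L h).det = 1) (hL : Function.Injective L) : Function.Injective (toSL L hdet) := by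
  intro a b hab
  exact hL (congrArg Subtype.val hab)

/-- A matrix-valued homomorphism preserving `Q`, as a homomorphism to the isometry group. -/
def toIso {H : Type*} [Group H] {ι : Type} [Fintype ι] [DecidableEq ι] (Q : (ι → F) → F)
    (L : H →* Matrix ι ι F) (hQ : ∀ h u, Q (L h *ᵥ u) = Q u) : H →* ↥(Cfsg.isometryGroup F Q) :=
  (L.toHomUnits).codRestrict (Cfsg.isometryGroup F Q) (fun h u v => by
    show Q (((L.toHomUnits h : (Matrix ι ι F)ˣ) : Matrix ι ι F) *ᵥ u) = Q u
    rw [MonoidHom.coe_toHomUnits]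
    exact hQ h u)

theorem toIso_injective {H : Type*} [Group H] {ι : Type} [Fintype ι] [DecidableEq ι]
    (Q : (ι → F) → F) (L : H →* Matrix ι ι F) (hQ : ∀ h u, Q (L h *ᵥ u) = Q u)
    (hL : Function.Injective L) : Function.Injective (toIso Q L hQ) := by
  intro a b hab
  apply hL
  have h1 : (L.toHomUnits a : (Matrix ι ι F)ˣ) = L.toHomUnits b := congrArg Subtype.val hab
  have h2 := congrArg Units.val h1
  rwa [MonoidHom.coe_toHomUnits, MonoidHom.coe_toHomUnits] at h2

/-- `M ↦ diag(1, M)`. -/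
def blockRight (ι κ : Type) [Fintype ι] [DecidableEq ι] [Fintype κ] [DecidableEq κ]
    (F : Type*) [Field F] : Matrix κ κ F →* Matrix (ι ⊕ κ) (ι ⊕ κ) F where
  toFun M := Matrix.fromBlocks 1 0 0 M
  map_one' := Matrix.fromBlocks_one
  map_mul' A B := by
    rw [Matrix.fromBlocks_multiply]
    simp

/-- `M ↦ diag(M, 1)`. -/
def blockLeft (ι κ : Type) [Fintype ι] [DecidableEq ι] [Fintype κ] [DecidableEq κ]
    (F : Type*) [Field F] : Matrix ι ι F →* Matrix (ι ⊕ κ) (ι ⊕ κ) F where
  toFun M := Matrix.fromBlocks M 0 0 1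
  map_one' := Matrix.fromBlocks_one
  map_mul' A B := by
    rw [Matrix.fromBlocks_multiply]
    simp

theorem blockRight_injective (ι κ : Type) [Fintype ι] [DecidableEq ι] [Fintype κ] [DecidableEq κ] :
    Function.Injective (blockRight ι κ F) := by
  intro A B h
  exact (Matrix.fromBlocks_inj.mp h).2.2.2

theorem blockLeft_injective (ι κ : Type) [Fintype ι] [DecidableEq ι] [Fintype κ] [DecidableEq κ] :
    Function.Injective (blockLeft ι κ F) := by
  intro A B h
  exact (Matrix.fromBlocks_inj.mp h).1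

theorem blockRight_mulVec (ι κ : Type) [Fintype ι] [DecidableEq ι] [Fintype κ] [DecidableEq κ]
    (M : Matrix κ κ F) (v : ι ⊕ κ → F) :
    blockRight ι κ F M *ᵥ v = Sum.elim (v ∘ Sum.inl) (M *ᵥ (v ∘ Sum.inr)) := by
  show Matrix.fromBlocks 1 0 0 M *ᵥ v = _
  rw [Matrix.fromBlocks_mulVec]
  simp

theorem blockLeft_mulVec (ι κ : Type) [Fintype ι] [DecidableEq ι] [Fintype κ] [DecidableEq κ]
    (M : Matrix ι ι F) (v : ι ⊕ κ → F) :
    blockLeft ι κ F M *ᵥ v = Sum.elim (M *ᵥ (v ∘ Sum.inl)) (v ∘ Sum.inr) := by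
  show Matrix.fromBlocks M 0 0 1 *ᵥ v = _
  rw [Matrix.fromBlocks_mulVec]
  simp

/-! ### The embeddings -/

/-- Even permutations in `SL_n`. -/
noncomputable def permSL (n : ℕ) (F : Type*) [Field F] :
    ↥(alternatingGroup (Fin n)) →* Matrix.SpecialLinearGroup (Fin n) F :=
  toSL (permMat n F) (permMat_det n)

theorem permSL_injective (n : ℕ) : Function.Injective (permSL n F) :=
  toSL_injective _ _ (permMat_injective n)

/-- `SL_2` in `SL_n`. -/
noncomputable def blockSL (n : ℕ) (hn : 2 ≤ n) (F : Type*) [Field F] :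
    Matrix.SpecialLinearGroup (Fin 2) F →* Matrix.SpecialLinearGroup (Fin n) F :=
  toSL (blockMat n hn F) (blockMat_det n hn)

theorem blockSL_injective (n : ℕ) (hn : 2 ≤ n) : Function.Injective (blockSL n hn F) :=
  toSL_injective _ _ (blockMat_injective n hn)

/-- `SL_m` in `Sp_{2m}`. -/
noncomputable def leviSp (m : ℕ) (F : Type*) [Field F] :
    Matrix.SpecialLinearGroup (Fin m) F →* ↥(Matrix.symplecticGroup (Fin m) F) :=
  (leviMat m F).codRestrict (Matrix.symplecticGroup (Fin m) F)
    (fun A => SymplecticGroup.mem_iff.mpr (leviMat_symplectic m A))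

theorem leviSp_injective (m : ℕ) : Function.Injective (leviSp m F) := by
  intro A B h
  exact leviMat_injective m (congrArg Subtype.val h)

/-- `SL_m` in the isometry group of the hyperbolic quadratic form. -/
noncomputable def leviPlus (m : ℕ) (F : Type*) [Field F] :
    Matrix.SpecialLinearGroup (Fin m) F →* ↥(Cfsg.isometryGroup F (Cfsg.quadFormPlus m F)) :=
  toIso (Cfsg.quadFormPlus m F) (leviMat m F) (fun A u => by
    unfold Cfsg.quadFormPlus
    exact leviMat_pairing m A u)

theorem leviPlus_injective (m : ℕ) : Function.Injective (leviPlus m F) :=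
  toIso_injective _ _ _ (leviMat_injective m)

/-- `SL_m` in the isometry group of the odd-dimensional quadratic form. -/
noncomputable def leviOdd (m : ℕ) (F : Type*) [Field F] :
    Matrix.SpecialLinearGroup (Fin m) F →* ↥(Cfsg.isometryGroup F (Cfsg.quadFormOdd m F)) :=
  toIso (Cfsg.quadFormOdd m F) ((blockRight Unit (Fin m ⊕ Fin m) F).comp (leviMat m F))
    (fun A u => by
      unfold Cfsg.quadFormOdd
      rw [MonoidHom.comp_apply, blockRight_mulVec]
      simp only [Sum.elim_inl, Sum.elim_inr, Function.comp_apply]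
      rw [leviMat_pairing m A (u ∘ Sum.inr)]
      rfl)

theorem leviOdd_injective (m : ℕ) : Function.Injective (leviOdd m F) :=
  toIso_injective _ _ _ ((blockRight_injective _ _).comp (leviMat_injective m))

/-- `SL_m` in the isometry group of the minus-type quadratic form. -/
noncomputable def leviMinus (m : ℕ) (F : Type*) [Field F] (a b : F) :
    Matrix.SpecialLinearGroup (Fin m) F →* ↥(Cfsg.isometryGroup F (Cfsg.quadFormMinus m F a b)) :=
  toIso (Cfsg.quadFormMinus m F a b) ((blockLeft (Fin m ⊕ Fin m) (Fin 2) F).comp (leviMat m F))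
    (fun A u => by
      unfold Cfsg.quadFormMinus
      rw [MonoidHom.comp_apply, blockLeft_mulVec]
      simp only [Sum.elim_inl, Sum.elim_inr, Function.comp_apply]
      rw [leviMat_pairing m A (u ∘ Sum.inl)]
      rfl)

theorem leviMinus_injective (m : ℕ) (a b : F) : Function.Injective (leviMinus m F a b) :=
  toIso_injective _ _ _ ((blockLeft_injective _ _).comp (leviMat_injective m))

end Cfsg.Agent.Lib.Helper39.LawEmb
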