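-- Embeddings of alternating groups and of SL_2(q) into the special unitary groups SU_n(q).
import Mathlib
import Cfsg.Prelude.Def_Classical
import Cfsg.Agent.Lib.Helper5.HermCount
import Cfsg.Agent.Lib.Helper5.SUBasic
import Cfsg.Agent.Lib.Helper39.LawEmb

set_option autoImplicit false
set_option linter.unusedSectionVars false
set_option linter.unusedVariables false
set_option linter.style.haveILetI false

namespace Cfsg.Agent.Lib.Helper39.LawSU

open Matrix Cfsg.Agent.Lib.Helper39.LawEmb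

variable {F : Type*} [Field F]

/-- A homomorphism to `SL_n` preserving the Hermitian form, as a homomorphism to `SU_n`. -/
def toSU {H : Type*} [Group H] {n q : ℕ} (L : H →* Matrix.SpecialLinearGroup (Fin n) F)
    (h : ∀ g u v, Cfsg.hermForm n F q ((L g : Matrix (Fin n) (Fin n) F) *ᵥ u)
      ((L g : Matrix (Fin n) (Fin n) F) *ᵥ v) = Cfsg.hermForm n F q u v) :
    H →* ↥(Cfsg.SU n F q) :=
  L.codRestrict (Cfsg.SU n F q) h

theorem toSU_injective {H : Type*} [Group H] {n q : ℕ}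
    (L : H →* Matrix.SpecialLinearGroup (Fin n) F)
    (h : ∀ g u v, Cfsg.hermForm n F q ((L g : Matrix (Fin n) (Fin n) F) *ᵥ u)
      ((L g : Matrix (Fin n) (Fin n) F) *ᵥ v) = Cfsg.hermForm n F q u v)
    (hL : Function.Injective L) : Function.Injective (toSU L h) := by
  intro a b hab
  exact hL (congrArg Subtype.val hab)

/-- Even permutations in `SU_n`. -/
noncomputable def permSU (n q : ℕ) (F : Type*) [Field F] :
    ↥(alternatingGroup (Fin n)) →* ↥(Cfsg.SU n F q) :=
  toSU (permSL n F) (fun σ u v => by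
    show Cfsg.hermForm n F q (permMat n F σ *ᵥ u) (permMat n F σ *ᵥ v) = _
    rw [permMat_mulVec, permMat_mulVec]
    unfold Cfsg.hermForm
    exact Equiv.sum_comp ((σ : Equiv.Perm (Fin n))⁻¹ : Equiv.Perm (Fin n)) (fun i => u i * v i ^ q))

theorem permSU_injective (n q : ℕ) : Function.Injective (permSU n q F) :=
  toSU_injective _ _ (permSL_injective n)

/-- The block embedding of `SL_2` preserves the Hermitian form if the `2 × 2` block does. -/
theorem block_herm (n q : ℕ) (hn : 2 ≤ n) (A : Matrix.SpecialLinearGroup (Fin 2) F)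
    (hA : ∀ x y, Cfsg.hermForm 2 F q ((A : Matrix (Fin 2) (Fin 2) F) *ᵥ x)
      ((A : Matrix (Fin 2) (Fin 2) F) *ᵥ y) = Cfsg.hermForm 2 F q x y) (u v : Fin n → F) :
    Cfsg.hermForm n F q (blockMat n hn F A *ᵥ u) (blockMat n hn F A *ᵥ v) =
      Cfsg.hermForm n F q u v := by
  have hsplit : ∀ u v : Fin n → F, Cfsg.hermForm n F q u v =
      Cfsg.hermForm 2 F q (u ∘ blockEquiv n hn ∘ Sum.inl) (v ∘ blockEquiv n hn ∘ Sum.inl) +
        ∑ j : Fin (n - 2), u (blockEquiv n hn (Sum.inr j)) * v (blockEquiv n hn (Sum.inr j)) ^ q := by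
    intro u v
    unfold Cfsg.hermForm
    rw [← Equiv.sum_comp (blockEquiv n hn) (fun i => u i * v i ^ q), Fintype.sum_sum_type]
    rfl
  have hmul : ∀ u : Fin n → F, (blockMat n hn F A *ᵥ u) ∘ blockEquiv n hn =
      Sum.elim ((A : Matrix (Fin 2) (Fin 2) F) *ᵥ (u ∘ blockEquiv n hn ∘ Sum.inl))
        (u ∘ blockEquiv n hn ∘ Sum.inr) := by
    intro u
    show ((Matrix.reindex (blockEquiv n hn) (blockEquiv n hn)
      (Matrix.fromBlocks (A : Matrix (Fin 2) (Fin 2) F) 0 0 1)) *ᵥ u) ∘ blockEquiv n hn = _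
    rw [Matrix.reindex_apply, Matrix.submatrix_mulVec_equiv, Matrix.fromBlocks_mulVec]
    funext j
    rcases j with j | j <;> simp [Function.comp_def]
  have h1 : ∀ u : Fin n → F, (blockMat n hn F A *ᵥ u) ∘ blockEquiv n hn ∘ Sum.inl =
      (A : Matrix (Fin 2) (Fin 2) F) *ᵥ (u ∘ blockEquiv n hn ∘ Sum.inl) := by
    intro u
    rw [← Function.comp_assoc, hmul]
    rfl
  have h2 : ∀ (u : Fin n → F) (j : Fin (n - 2)),
      (blockMat n hn F A *ᵥ u) (blockEquiv n hn (Sum.inr j)) = u (blockEquiv n hn (Sum.inr j)) := by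
    intro u j
    have := congrFun (hmul u) (Sum.inr j)
    simpa using this
  rw [hsplit, hsplit u v, h1, h1, hA]
  congr 1
  apply Finset.sum_congr rfl
  intro j _
  rw [h2, h2]

section field

variable [Fintype F] {q : ℕ}

/-- The data for the conjugating matrix: a basis of `F²` in which the standard Hermitian form
becomes a multiple of the alternating pairing twisted by the conjugation. -/
theorem exists_data (hF : Fintype.card F = q ^ 2) :
    ∃ (φ : F →+* F) (P : Matrix (Fin 2) (Fin 2) F) (θ : F), (∀ x, φ x = x ^ q) ∧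
      IsUnit P.det ∧
      ∀ x y : Fin 2 → F, Cfsg.hermForm 2 F q (P *ᵥ x) (P *ᵥ y) =
        θ * (x 0 * φ (y 1) - x 1 * φ (y 0)) := by
  obtain ⟨φ, hφ⟩ := Cfsg.Agent.Lib.Helper5.HermCount.exists_ringHom hF
  have hinv : ∀ x, φ (φ x) = x := by
    intro x
    rw [hφ, hφ, ← pow_mul, ← sq, ← hF, FiniteField.pow_card]
  -- η of norm -1
  have hneg : (-1 : F) ^ q = -1 := by
    rw [← hφ, map_neg, map_one]
  have hcard := Cfsg.Agent.Lib.Helper5.HermCount.card_norm_eq hF (-1 : F)
    (neg_ne_zero.mpr one_ne_zero) hneg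
  have hne : Nonempty {x : F // x * x ^ q = -1} :=
    (Nat.card_pos_iff.mp (by rw [hcard]; omega)).1
  obtain ⟨⟨η, hη⟩⟩ := hne
  rw [← hφ] at hη
  obtain ⟨u, hu1, hu2, hu0⟩ := Cfsg.Agent.Lib.Helper5.SUBasic.exists_root hF
  have hu : u * φ u = 1 := by
    rw [hφ, ← pow_succ']
    exact hu1
  have hη0 : η ≠ 0 := by
    rintro rfl
    rw [zero_mul] at hη
    exact one_ne_zero (neg_eq_zero.mp hη.symm)
  have hune : u ≠ 1 := by
    rintro rfl
    exact hu2 (one_pow 2)
  have hc0 : 1 - φ u ≠ 0 := by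
    intro h
    have h1 : φ u = 1 := (sub_eq_zero.mp h).symm
    have h2 := hinv u
    rw [h1, map_one] at h2
    exact hune h2.symm
  have hξ : u - φ u ≠ 0 := by
    intro h
    have h1 : u = φ u := sub_eq_zero.mp h
    apply hu2
    rw [sq]
    nth_rewrite 2 [h1]
    exact hu
  have hphl : φ ((1 - φ u) * (u - φ u)) = (1 - u) * (φ u - u) := by
    rw [map_mul, map_sub, map_sub, map_one, hinv]
  refine ⟨φ, !![1, (1 - φ u) * (u - φ u); η, (1 - φ u) * (u - φ u) * η * u],
    φ ((1 - φ u) * (u - φ u)) * (1 - φ u), hφ, ?_, ?_⟩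
  · rw [Matrix.det_fin_two_of, isUnit_iff_ne_zero]
    have h1 : 1 * ((1 - φ u) * (u - φ u) * η * u) - (1 - φ u) * (u - φ u) * η =
        (1 - φ u) * (u - φ u) * η * (u - 1) := by ring
    rw [h1]
    exact mul_ne_zero (mul_ne_zero (mul_ne_zero hc0 hξ) hη0) (sub_ne_zero.mpr hune)
  · intro x y
    unfold Cfsg.hermForm
    rw [Fin.sum_univ_two]
    simp only [Matrix.mulVec, dotProduct, Fin.sum_univ_two, Matrix.of_apply, Matrix.cons_val_zero,
      Matrix.cons_val_one, Matrix.cons_val', Matrix.cons_val_fin_one]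
    rw [← hφ, ← hφ]
    simp only [map_add, map_mul, map_one, hphl]
    linear_combination (x 0 * φ (y 0) + x 0 * φ (y 1) * ((1 - u) * (φ u - u)) * φ u +
      x 1 * φ (y 0) * ((1 - φ u) * (u - φ u)) * u +
      x 1 * φ (y 1) * ((1 - φ u) * (u - φ u)) * ((1 - u) * (φ u - u))) * hη +
      (x 1 * φ (y 1) * ((1 - φ u) * (u - φ u)) * ((1 - u) * (φ u - u)) * η * φ η) * hu

/-- A field with `q` elements mapping into `F`. -/
theorem exists_subfield (hF : Fintype.card F = q ^ 2) :
    ∃ (K : Type) (_ : Field K) (_ : Fintype K), Fintype.card K = q ∧ Nonempty (K →+* F) := by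
  classical
  obtain ⟨p, hp⟩ := CharP.exists F
  haveI : Fact p.Prime := ⟨CharP.char_is_prime F p⟩
  obtain ⟨n, -, hn⟩ := FiniteField.card F p
  have hdvd : q ∣ p ^ (n : ℕ) := by
    rw [← hn, hF]
    exact dvd_pow_self q (by norm_num)
  obtain ⟨k, -, hk⟩ := (Nat.dvd_prime_pow (Fact.out : p.Prime)).mp hdvd
  have hq2 := Cfsg.Agent.Lib.Helper5.HermCount.two_le hF
  have hk0 : k ≠ 0 := by
    rintro rfl
    rw [pow_zero] at hk
    omega
  haveI : Fintype (GaloisField p k) := Fintype.ofFinite _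
  have hcard : Fintype.card (GaloisField p k) = q := by
    rw [Fintype.card_eq_nat_card, GaloisField.card p k hk0, hk]
  refine ⟨GaloisField p k, inferInstance, inferInstance, hcard, ?_⟩
  let L := FiniteField.Extension (GaloisField p k) p 2
  haveI : Fintype L := Fintype.ofFinite L
  have hcardL : Fintype.card L = Fintype.card (GaloisField p k) ^ 2 := by
    rw [Fintype.card_eq_nat_card, FiniteField.natCard_extension, Nat.card_eq_fintype_card]
  let ψ : L ≃+* F := FiniteField.ringEquivOfCardEq (by rw [hcardL, hcard, hF])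
  exact ⟨ψ.toRingHom.comp (algebraMap (GaloisField p k) L)⟩

/-- `SL_2(q)` embeds into `SU_n(q)` for `n ≥ 2`. -/
theorem exists_sl2_su (hF : Fintype.card F = q ^ 2) (n : ℕ) (hn : 2 ≤ n) :
    ∃ (K : Type) (_ : Field K) (_ : Fintype K), Fintype.card K = q ∧
      ∃ Ψ : Matrix.SpecialLinearGroup (Fin 2) K →* ↥(Cfsg.SU n F q), Function.Injective Ψ := by
  obtain ⟨K, hKf, hKfin, hKcard, ⟨ι⟩⟩ := exists_subfield hF
  obtain ⟨φ, P, θ, hφ, hP, hherm⟩ := exists_data hF
  refine ⟨K, hKf, hKfin, hKcard, ?_⟩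
  have hPP : P * P⁻¹ = 1 := Matrix.mul_nonsing_inv P hP
  have hPP' : P⁻¹ * P = 1 := Matrix.nonsing_inv_mul P hP
  let L₂ : Matrix.SpecialLinearGroup (Fin 2) K →* Matrix (Fin 2) (Fin 2) F :=
    { toFun := fun g => P * ι.mapMatrix (g : Matrix (Fin 2) (Fin 2) K) * P⁻¹
      map_one' := by
        rw [Matrix.SpecialLinearGroup.coe_one, map_one, Matrix.mul_one, hPP]
      map_mul' := fun a b => by
        rw [Matrix.SpecialLinearGroup.coe_mul, map_mul]
        calc P * (ι.mapMatrix (a : Matrix (Fin 2) (Fin 2) K) *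
              ι.mapMatrix (b : Matrix (Fin 2) (Fin 2) K)) * P⁻¹
            = P * ι.mapMatrix (a : Matrix (Fin 2) (Fin 2) K) * 1 *
              ι.mapMatrix (b : Matrix (Fin 2) (Fin 2) K) * P⁻¹ := by
              simp only [Matrix.mul_assoc, Matrix.one_mul]
          _ = P * ι.mapMatrix (a : Matrix (Fin 2) (Fin 2) K) * P⁻¹ *
              (P * ι.mapMatrix (b : Matrix (Fin 2) (Fin 2) K) * P⁻¹) := by
              rw [← hPP']
              simp only [Matrix.mul_assoc] }
  have hL₂ : ∀ g, L₂ g = P * ι.mapMatrix (g : Matrix (Fin 2) (Fin 2) K) * P⁻¹ := fun g => rfl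
  have hdet : ∀ g, (L₂ g).det = 1 := by
    intro g
    rw [hL₂, Matrix.det_conj ((Matrix.isUnit_iff_isUnit_det P).mpr hP), ← RingHom.map_det, g.2,
      map_one]
  have hinj : Function.Injective L₂ := by
    intro a b hab
    rw [hL₂, hL₂] at hab
    have h2 : ∀ A : Matrix (Fin 2) (Fin 2) F, P⁻¹ * (P * A * P⁻¹) * P = A := by
      intro A
      rw [Matrix.mul_assoc P A, ← Matrix.mul_assoc P⁻¹ P, hPP', Matrix.one_mul, Matrix.mul_assoc,
        hPP', Matrix.mul_one]
    have h3 : ι.mapMatrix (a : Matrix (Fin 2) (Fin 2) K) =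
        ι.mapMatrix (b : Matrix (Fin 2) (Fin 2) K) := by
      rw [← h2 (ι.mapMatrix (a : Matrix (Fin 2) (Fin 2) K)), hab, h2]
    apply Subtype.ext
    exact Matrix.map_injective ι.injective h3
  have hpres : ∀ g x y, Cfsg.hermForm 2 F q (L₂ g *ᵥ x) (L₂ g *ᵥ y) = Cfsg.hermForm 2 F q x y := by
    intro g x y
    have hfix : ∀ i j, φ (ι.mapMatrix (g : Matrix (Fin 2) (Fin 2) K) i j) =
        ι.mapMatrix (g : Matrix (Fin 2) (Fin 2) K) i j := by
      intro i j
      show φ (ι ((g : Matrix (Fin 2) (Fin 2) K) i j)) = ι ((g : Matrix (Fin 2) (Fin 2) K) i j)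
      rw [hφ, ← map_pow, ← hKcard, FiniteField.pow_card]
    have hdetA : ι.mapMatrix (g : Matrix (Fin 2) (Fin 2) K) 0 0 *
        ι.mapMatrix (g : Matrix (Fin 2) (Fin 2) K) 1 1 -
        ι.mapMatrix (g : Matrix (Fin 2) (Fin 2) K) 0 1 *
        ι.mapMatrix (g : Matrix (Fin 2) (Fin 2) K) 1 0 = 1 := by
      rw [← Matrix.det_fin_two, ← RingHom.map_det, g.2, map_one]
    have hx : ∀ x : Fin 2 → F, L₂ g *ᵥ x =
        P *ᵥ (ι.mapMatrix (g : Matrix (Fin 2) (Fin 2) K) *ᵥ (P⁻¹ *ᵥ x)) := by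
      intro x
      rw [hL₂, Matrix.mulVec_mulVec, Matrix.mulVec_mulVec, Matrix.mul_assoc]
    have hback : ∀ x : Fin 2 → F, P *ᵥ (P⁻¹ *ᵥ x) = x := by
      intro x
      rw [Matrix.mulVec_mulVec, hPP, Matrix.one_mulVec]
    obtain ⟨A, hA⟩ : ∃ A : Matrix (Fin 2) (Fin 2) F,
        A = ι.mapMatrix (g : Matrix (Fin 2) (Fin 2) K) := ⟨_, rfl⟩
    rw [← hA] at hfix hdetA
    rw [hx, hx, hherm, ← hA]
    conv_rhs => rw [← hback x, ← hback y, hherm]
    congr 1
    generalize P⁻¹ *ᵥ x = a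
    generalize P⁻¹ *ᵥ y = b
    simp only [Matrix.mulVec, dotProduct, Fin.sum_univ_two, map_add, map_mul, hfix]
    linear_combination (a 0 * φ (b 1) - a 1 * φ (b 0)) * hdetA
  refine ⟨toSU ((blockSL n hn F).comp (toSL L₂ hdet))
    (fun g u v => block_herm n q hn (toSL L₂ hdet g) (hpres g) u v),
    toSU_injective _ _ ((blockSL_injective n hn).comp (toSL_injective _ _ hinj))⟩

end field

end Cfsg.Agent.Lib.Helper39.LawSU
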