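-- Laws in the classical families: large rank or large field forces a non-law; order bounds.
import Mathlib
import Cfsg.Prelude.Def_Classical
import Cfsg.Agent.Lib.Helper39.Law
import Cfsg.Agent.Lib.Helper39.LawEmb
import Cfsg.Agent.Lib.Helper39.LawSU

set_option autoImplicit false
set_option linter.unusedSectionVars false
set_option linter.unusedVariables false
set_option linter.style.haveILetI false

namespace Cfsg.Agent.Lib.Helper39.LawFam

open Matrix Cfsg.Agent.Lib.Helper39.Law Cfsg.Agent.Lib.Helper39.LawEmb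
  Cfsg.Agent.Lib.Helper39.LawSU Cfsg.Agent.Lib.Helper39.PSL2Law

variable {F : Type*} [Field F] [Fintype F]

/-- The field-size threshold of a word. -/
def qBound (w : FreeGroup ℕ) : ℕ := 3 * bound w.toWord + 4

theorem nl_SL (w : FreeGroup ℕ) (hw : w ≠ 1) (n₁ : ℕ)
    (hn₁ : ∀ n : ℕ, n₁ ≤ n → NL w (alternatingGroup (Fin n))) (n : ℕ) (hn : 2 ≤ n)
    (h : n₁ ≤ n ∨ qBound w ≤ Fintype.card F) : NL w (Matrix.SpecialLinearGroup (Fin n) F) := by
  rcases h with h | h
  · exact (hn₁ n h).map (permSL n F) (permSL_injective n)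
  · have h1 : NL w (Matrix.SpecialLinearGroup (Fin 2) F) := nl_sl2 w hw (by unfold qBound at h; omega)
    exact h1.map (blockSL n hn F) (blockSL_injective n hn)

theorem nl_Sp (w : FreeGroup ℕ) (hw : w ≠ 1) (n₁ : ℕ)
    (hn₁ : ∀ n : ℕ, n₁ ≤ n → NL w (alternatingGroup (Fin n))) (m : ℕ) (hm : 2 ≤ m)
    (h : n₁ ≤ m ∨ qBound w ≤ Fintype.card F) : NL w ↥(Matrix.symplecticGroup (Fin m) F) :=
  (nl_SL w hw n₁ hn₁ m hm h).map (leviSp m F) (leviSp_injective m)

theorem nl_SU (w : FreeGroup ℕ) (hw : w ≠ 1) (n₁ : ℕ)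
    (hn₁ : ∀ n : ℕ, n₁ ≤ n → NL w (alternatingGroup (Fin n))) (n q : ℕ) (hn : 2 ≤ n)
    (hF : Fintype.card F = q ^ 2) (h : n₁ ≤ n ∨ qBound w ≤ q) : NL w ↥(Cfsg.SU n F q) := by
  rcases h with h | h
  · exact (hn₁ n h).map (permSU n q F) (permSU_injective n q)
  · obtain ⟨K, hKf, hKfin, hKcard, Ψ, hΨ⟩ := exists_sl2_su hF n hn
    have h1 : NL w (Matrix.SpecialLinearGroup (Fin 2) K) :=
      nl_sl2 w hw (by unfold qBound at h; omega)
    exact h1.map Ψ hΨ

/-- Non-laws in the commutator subgroup of an isometry group containing `SL_r`. -/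
theorem nl_Omega (w : FreeGroup ℕ) (hw : w ≠ 1) (n₁ : ℕ)
    (hn₁ : ∀ n : ℕ, n₁ ≤ n → NL w (alternatingGroup (Fin n))) (r : ℕ) (hr : 2 ≤ r)
    {ι : Type} [Fintype ι] [DecidableEq ι] (Q : (ι → F) → F)
    (L : Matrix.SpecialLinearGroup (Fin r) F →* ↥(Cfsg.isometryGroup F Q))
    (hL : Function.Injective L)
    (h : max n₁ 5 ≤ r ∨ qBound w ≤ Fintype.card F) : NL w ↥(Cfsg.Omega F Q) := by
  rcases h with h | h
  · have hperf : commutator ↥(alternatingGroup (Fin r)) = ⊤ :=
      commutator_alternatingGroup_eq_top (by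
        rw [Nat.card_eq_fintype_card, Fintype.card_fin]
        exact le_trans (le_max_right _ _) h)
    have h1 := hn₁ r (le_trans (le_max_left _ _) h)
    exact h1.map (liftComm (L.comp (permSL r F)) hperf)
      (liftComm_injective _ hperf (hL.comp (permSL_injective r)))
  · have hperf : commutator (Matrix.SpecialLinearGroup (Fin 2) F) = ⊤ :=
      sl2_perfect (by unfold qBound at h; omega)
    have h1 : NL w (Matrix.SpecialLinearGroup (Fin 2) F) := nl_sl2 w hw (by unfold qBound at h; omega)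
    exact h1.map (liftComm (L.comp (blockSL r hr F)) hperf)
      (liftComm_injective _ hperf (hL.comp (blockSL_injective r hr)))

/-! ### Order bounds -/

theorem card_matrix (ι : Type) [Fintype ι] [DecidableEq ι] :
    Nat.card (Matrix ι ι F) = Fintype.card F ^ (Fintype.card ι * Fintype.card ι) := by
  show Nat.card (ι → ι → F) = _
  rw [Nat.card_eq_fintype_card, Fintype.card_fun, Fintype.card_fun, ← pow_mul]

theorem card_matrix_le (ι : Type) [Fintype ι] [DecidableEq ι] (D Q : ℕ)
    (hι : Fintype.card ι ≤ D) (hF : Fintype.card F ≤ Q) :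
    Nat.card (Matrix ι ι F) ≤ Q ^ (D ^ 2) := by
  rw [card_matrix]
  have hpos : 0 < Fintype.card F := Fintype.card_pos
  calc Fintype.card F ^ (Fintype.card ι * Fintype.card ι)
      ≤ Fintype.card F ^ (D ^ 2) := by
        apply Nat.pow_le_pow_right hpos
        rw [sq]
        exact Nat.mul_le_mul hι hι
    _ ≤ Q ^ (D ^ 2) := Nat.pow_le_pow_left hF _

/-- A group isomorphic to the central quotient of a group injecting into matrices is bounded. -/
theorem card_le_of_equiv {G : Type*} [Group G] {H : Type*} [Group H]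
    (e : G ≃* H ⧸ Subgroup.center H) (ι : Type) [Fintype ι] [DecidableEq ι]
    (j : H → Matrix ι ι F) (hj : Function.Injective j) (D Q : ℕ)
    (hι : Fintype.card ι ≤ D) (hF : Fintype.card F ≤ Q) : Nat.card G ≤ Q ^ (D ^ 2) := by
  haveI : Finite H := Finite.of_injective j hj
  calc Nat.card G = Nat.card (H ⧸ Subgroup.center H) := Nat.card_congr e.toEquiv
    _ ≤ Nat.card H := Nat.card_le_card_of_surjective _ (QuotientGroup.mk_surjective)
    _ ≤ Nat.card (Matrix ι ι F) := Nat.card_le_card_of_injective j hj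
    _ ≤ Q ^ (D ^ 2) := card_matrix_le ι D Q hι hF

end Cfsg.Agent.Lib.Helper39.LawFam
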