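-- A sum of k nonzero characters of norm k consists of distinct irreducible characters.
import Mathlib
import Cfsg.Prelude.Def_Characters
import Cfsg.Agent.Lib.CT.NormOne
import Cfsg.Agent.Lib.Helper39.Decomp

set_option autoImplicit false
set_option linter.unusedSectionVars false
set_option linter.unusedVariables false
set_option linter.style.haveILetI false

namespace Cfsg.Agent.Lib.Helper39.NormCard

open Cfsg Cfsg.Agent.Lib.CT Cfsg.Agent.Lib.CT.Wedderburn Cfsg.Agent.Lib.Helper39.Decomp
open scoped ComplexConjugate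

universe u

variable {G : Type u} [Group G] [Fintype G]

theorem classInner_sum_right {ι : Type*} (s : Finset ι) (f : G → ℂ) (ψ : ι → G → ℂ) :
    classInner f (∑ i ∈ s, ψ i) = ∑ i ∈ s, classInner f (ψ i) := by
  classical
  induction s using Finset.induction_on with
  | empty =>
    simp [classInner]
  | insert a s ha ih =>
    rw [Finset.sum_insert ha, Finset.sum_insert ha, classInner_add_right, ih]

/-- The norm of a nonzero character is a positive natural number. -/
theorem exists_norm_pos {Ψ : G → ℂ} (hΨ : IsCharacter G Ψ) (h : Ψ ≠ 0) :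
    ∃ N : ℕ, classInner Ψ Ψ = N ∧ 1 ≤ N := by
  obtain ⟨η, hη, hne⟩ := exists_constituent hΨ h
  obtain ⟨n, hn⟩ := Clifford.classInner_char_nat hΨ (isCharacter_of_irr hη)
  obtain ⟨N, hN, hle⟩ := inner_nat_mul_le hΨ hΨ hη n n hn hn
  refine ⟨N, hN, ?_⟩
  have hn0 : n ≠ 0 := by
    rintro rfl
    apply hne
    rw [hn]
    simp
  have : 1 ≤ n := Nat.one_le_iff_ne_zero.mpr hn0
  nlinarith

/-- A sum of `k` nonzero characters whose norm is `k` consists of pairwise distinct irreducible
characters. -/
theorem irr_of_norm_eq_card {J : Type*} [Fintype J] (ψ : J → G → ℂ)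
    (hchar : ∀ j, IsCharacter G (ψ j)) (hne : ∀ j, ψ j ≠ 0)
    (hnorm : classInner (∑ j, ψ j) (∑ j, ψ j) = (Fintype.card J : ℂ)) :
    (∀ j, IsIrrCharacter G (ψ j)) ∧ Function.Injective ψ := by
  classical
  have hN : ∀ j k, ∃ N : ℕ, classInner (ψ j) (ψ k) = N := fun j k =>
    Clifford.classInner_char_nat (hchar j) (hchar k)
  choose N hN using hN
  have hdiag : ∀ j, 1 ≤ N j j := by
    intro j
    obtain ⟨N', hN', h1⟩ := exists_norm_pos (hchar j) (hne j)
    have : N j j = N' := by
      have := (hN j j).symm.trans hN'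
      exact_mod_cast this
    omega
  have hsum : ∑ j, ∑ k, N j k = Fintype.card J := by
    have : ((∑ j, ∑ k, N j k : ℕ) : ℂ) = (Fintype.card J : ℂ) := by
      rw [← hnorm, Orth.classInner_sum_left]
      push_cast
      apply Finset.sum_congr rfl
      intro j _
      rw [classInner_sum_right]
      apply Finset.sum_congr rfl
      intro k _
      exact (hN j k).symm
    exact_mod_cast this
  have hrow : ∀ j, 1 ≤ ∑ k, N j k := fun j =>
    (hdiag j).trans (Finset.single_le_sum (f := fun k => N j k) (fun _ _ => Nat.zero_le _)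
      (Finset.mem_univ j))
  have hrow1 : ∀ j, ∑ k, N j k = 1 := by
    have h1 : ∑ j : J, (1 : ℕ) = ∑ j, ∑ k, N j k := by
      rw [hsum]
      simp
    have h2 := (Finset.sum_eq_sum_iff_of_le (s := Finset.univ) (f := fun _ : J => (1 : ℕ))
      (g := fun j => ∑ k, N j k) (fun j _ => hrow j)).mp h1
    intro j
    exact (h2 j (Finset.mem_univ j)).symm
  have hdiag1 : ∀ j, N j j = 1 := by
    intro j
    have h1 : N j j ≤ ∑ k, N j k :=
      Finset.single_le_sum (f := fun k => N j k) (fun _ _ => Nat.zero_le _) (Finset.mem_univ j)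
    have h2 := hrow1 j
    have h3 := hdiag j
    omega
  have hoff : ∀ j k, j ≠ k → N j k = 0 := by
    intro j k hjk
    have h1 : N j j + N j k ≤ ∑ l, N j l := by
      have h2 : ∑ l ∈ ({j, k} : Finset J), N j l ≤ ∑ l, N j l :=
        Finset.sum_le_sum_of_subset (Finset.subset_univ _)
      rwa [Finset.sum_pair hjk] at h2
    have h2 := hrow1 j
    have h3 := hdiag1 j
    omega
  refine ⟨?_, ?_⟩
  · intro j
    apply NormOne.irr_of_inner_self_eq_one (hchar j)
    rw [hN j j, hdiag1 j]
    simp
  · intro j k hjk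
    by_contra hne'
    have h1 := hN j k
    rw [← hjk, hN j j, hdiag1 j, hoff j k hne'] at h1
    simp at h1

end Cfsg.Agent.Lib.Helper39.NormCard
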