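import Mathlib
import Cfsg.Agent.Lib.Helper91.Hall
import Cfsg.Agent.Lib.Helper31.CoprimeGen
import Cfsg.Agent.Lib.Helper31.InvSylow
import Cfsg.Agent.Lib.Helper31.SigBasic

/-!
Generic internal (subgroup-relative) lemmas used for S3814: relative Hall subgroups, joins of a
normal Sylow subgroup with a Hall complement, elementary abelian normal subgroups, rank-two pairs
and coprime generation.
-/

set_option autoImplicit false

namespace Cfsg.Agent.Lib.Helper39.PGA

universe u

open scoped commutatorElement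

variable {G : Type u} [Group G]

/-- `K` normalizes `X`, elementwise. -/
def Nrm (K X : Subgroup G) : Prop := ∀ k ∈ K, ∀ x ∈ X, k * x * k⁻¹ ∈ X

theorem nrm_le_normalizer {K X : Subgroup G} (h : Nrm K X) :
    K ≤ Subgroup.normalizer (X : Set G) :=
  Cfsg.Agent.Lib.Helper31.SigBasic.le_normalizer_of_conj_mem K X h

theorem orderOf_conj' (g a : G) : orderOf (g * a * g⁻¹) = orderOf a := by
  have h := orderOf_injective (MulAut.conj g).toMonoidHom (MulAut.conj g).injective a
  simpa [MulAut.conj_apply] using h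

theorem commute_of_mem_zpowers {x y h : G} (hxy : x * y = y * x) (hh : h ∈ Subgroup.zpowers x) :
    h * y = y * h := by
  obtain ⟨k, rfl⟩ := Subgroup.mem_zpowers_iff.mp hh
  exact (Commute.zpow_left (show Commute x y from hxy) k).eq

theorem zpowers_le_normalizer_of_commute {x y : G} (hxy : x * y = y * x) :
    Subgroup.zpowers y ≤ Subgroup.normalizer ((Subgroup.zpowers x : Subgroup G) : Set G) := by
  rw [Subgroup.zpowers_le]
  rw [Subgroup.mem_normalizer_iff]
  intro h
  have key : ∀ h ∈ Subgroup.zpowers x, y * h * y⁻¹ = h := by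
    intro h hh
    have := commute_of_mem_zpowers hxy hh
    calc y * h * y⁻¹ = h * y * y⁻¹ := by rw [this]
      _ = h := by group
  constructor
  · intro hh
    rw [key h hh]; exact hh
  · intro hh
    have h2 := key _ hh
    have h3 : y * h * y⁻¹ = h := by
      have : y * (y * h * y⁻¹) * y⁻¹ = y * h * y⁻¹ := h2
      have h4 : y⁻¹ * (y * (y * h * y⁻¹) * y⁻¹) * y = y⁻¹ * (y * h * y⁻¹) * y := by rw [this]
      calc y * h * y⁻¹ = y⁻¹ * (y * (y * h * y⁻¹) * y⁻¹) * y := by group
        _ = y⁻¹ * (y * h * y⁻¹) * y := h4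
        _ = h := by group
    rw [← h3]; exact hh

/-- Relative Hall subgroups. -/
structure IsHallIn (π : ℕ → Prop) (L H : Subgroup G) : Prop where
  le : L ≤ H
  pi : ∀ t : ℕ, t.Prime → t ∣ Nat.card L → π t
  fac : ∀ t : ℕ, t.Prime → π t → (Nat.card L).factorization t = (Nat.card H).factorization t
  conj : ∀ X : Subgroup G, X ≤ H → (∀ t : ℕ, t.Prime → t ∣ Nat.card X → π t) →
    ∃ h ∈ H, ∀ x ∈ X, h * x * h⁻¹ ∈ L

theorem exists_isHallIn [Finite G] (hsol : Group.IsSolvable G) (H : Subgroup G) (π : ℕ → Prop) :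
    ∃ L : Subgroup G, IsHallIn π L H := by
  classical
  haveI := hsol
  set c := Nat.card H with hc
  have hc0 : c ≠ 0 := Nat.card_pos.ne'
  set m := ∏ t ∈ c.primeFactors.filter (fun t => π t), t ^ c.factorization t with hm
  set n := ∏ t ∈ c.primeFactors.filter (fun t => ¬ π t), t ^ c.factorization t with hn
  have hmn : c = m * n := by
    rw [hm, hn, Finset.prod_filter_mul_prod_filter_not]
    have h1 := Nat.prod_factorization_pow_eq_self hc0
    rw [Finsupp.prod, Nat.support_factorization] at h1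
    exact h1.symm
  have hmdvd : ∀ t : ℕ, t.Prime → t ∣ m → π t := by
    intro t ht hd
    rw [hm, (Nat.Prime.prime ht).dvd_finsetProd_iff] at hd
    obtain ⟨t', ht', hd'⟩ := hd
    have h1 := ht.dvd_of_dvd_pow hd'
    have ht'p : t'.Prime := Nat.prime_of_mem_primeFactors (Finset.mem_filter.mp ht').1
    have h2 : t = t' := (Nat.prime_dvd_prime_iff_eq ht ht'p).mp h1
    rw [h2]; exact (Finset.mem_filter.mp ht').2
  have hndvd : ∀ t : ℕ, t.Prime → t ∣ n → ¬ π t := by
    intro t ht hd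
    rw [hn, (Nat.Prime.prime ht).dvd_finsetProd_iff] at hd
    obtain ⟨t', ht', hd'⟩ := hd
    have h1 := ht.dvd_of_dvd_pow hd'
    have ht'p : t'.Prime := Nat.prime_of_mem_primeFactors (Finset.mem_filter.mp ht').1
    have h2 : t = t' := (Nat.prime_dvd_prime_iff_eq ht ht'p).mp h1
    rw [h2]; exact (Finset.mem_filter.mp ht').2
  have hcop : m.Coprime n := by
    by_contra h
    obtain ⟨t, ht, h1, h2⟩ := Nat.Prime.not_coprime_iff_dvd.mp h
    exact hndvd t ht h2 (hmdvd t ht h1)
  have hm0 : m ≠ 0 := fun h => hc0 (by rw [hmn, h, zero_mul])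
  have hn0 : n ≠ 0 := fun h => hc0 (by rw [hmn, h, mul_zero])
  obtain ⟨L', hL'⟩ := Cfsg.Agent.Lib.Helper91.Hall.hall_exists (G := ↥H) m n hmn hcop
  have hLcard : Nat.card (L'.map H.subtype) = m := by
    rw [← hL']
    exact (Nat.card_congr (Subgroup.equivMapOfInjective L' H.subtype
      H.subtype_injective).toEquiv).symm
  refine ⟨L'.map H.subtype, ⟨Subgroup.map_subtype_le L', ?_, ?_, ?_⟩⟩
  · intro t ht hd
    rw [hLcard] at hd
    exact hmdvd t ht hd
  · intro t ht hπ
    rw [hLcard, ← hc, hmn, Nat.factorization_mul hm0 hn0]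
    have : n.factorization t = 0 :=
      Nat.factorization_eq_zero_of_not_dvd (fun hd => hndvd t ht hd hπ)
    simp [this]
  · intro X hXH hX
    have hXc : Nat.card (X.subgroupOf H) = Nat.card X :=
      Nat.card_congr (Subgroup.subgroupOfEquivOfLe hXH).toEquiv
    have hXcop : (Nat.card (X.subgroupOf H)).Coprime n := by
      rw [hXc]
      by_contra h
      obtain ⟨t, ht, h1, h2⟩ := Nat.Prime.not_coprime_iff_dvd.mp h
      exact hndvd t ht h2 (hX t ht h1)
    obtain ⟨H1, hH1, hXH1⟩ :=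
      Cfsg.Agent.Lib.Helper91.Hall.hall_contain (G := ↥H) m n hmn hcop (X.subgroupOf H) hXcop
    obtain ⟨g, hg⟩ := Cfsg.Agent.Lib.Helper91.Hall.hall_conj (G := ↥H) m n hmn hcop H1 L' hH1 hL'
    refine ⟨(g : G), g.2, ?_⟩
    intro x hx
    have h1 : (⟨x, hXH hx⟩ : ↥H) ∈ H1 := hXH1 (Subgroup.mem_subgroupOf.mpr hx)
    have h2 : g * (⟨x, hXH hx⟩ : ↥H) * g⁻¹ ∈ L' := by
      rw [← hg, Cfsg.Agent.Lib.Helper91.Hall.mem_conj_smul]
      have : g⁻¹ * (g * (⟨x, hXH hx⟩ : ↥H) * g⁻¹) * g = ⟨x, hXH hx⟩ := by group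
      rw [this]; exact h1
    exact ⟨_, h2, rfl⟩

theorem IsHallIn.conj_pair [Finite G] {π : ℕ → Prop} {L H : Subgroup G} (hL : IsHallIn π L H)
    {x y : G} (hx : x ∈ H) (hy : y ∈ H) (hxy : x * y = y * x)
    (hπ : ∀ t : ℕ, t.Prime → t ∣ orderOf x * orderOf y → π t) :
    ∃ h ∈ H, h * x * h⁻¹ ∈ L ∧ h * y * h⁻¹ ∈ L := by
  have hd := Cfsg.Agent.Lib.Helper31.SigBasic.card_sup_dvd (Subgroup.zpowers x) (Subgroup.zpowers y)
    (zpowers_le_normalizer_of_commute hxy)
  rw [Nat.card_zpowers, Nat.card_zpowers] at hd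
  obtain ⟨h, hh, hc⟩ := hL.conj (Subgroup.zpowers x ⊔ Subgroup.zpowers y)
    (sup_le (Subgroup.zpowers_le.mpr hx) (Subgroup.zpowers_le.mpr hy))
    (fun t ht htd => hπ t ht (htd.trans hd))
  exact ⟨h, hh, hc x (Subgroup.mem_sup_left (Subgroup.mem_zpowers x)),
    hc y (Subgroup.mem_sup_right (Subgroup.mem_zpowers y))⟩

theorem IsHallIn.conj_elt [Finite G] {π : ℕ → Prop} {L H : Subgroup G} (hL : IsHallIn π L H)
    {x : G} (hx : x ∈ H) (hπ : ∀ t : ℕ, t.Prime → t ∣ orderOf x → π t) :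
    ∃ h ∈ H, h * x * h⁻¹ ∈ L := by
  obtain ⟨h, hh, h1, -⟩ := hL.conj_pair hx H.one_mem (by simp) (by simpa using hπ)
  exact ⟨h, hh, h1⟩

/-- A subgroup of Sylow order together with a subgroup of Hall complement type generate. -/
theorem sup_eq_of_sylow_hall [Finite G] {t : ℕ} (ht : t.Prime) {B L K : Subgroup G} (hBK : B ≤ K)
    (hLK : L ≤ K) (hB : Nat.card B = t ^ (Nat.card K).factorization t)
    (hL : ∀ t' : ℕ, t'.Prime → t' ≠ t →
      (Nat.card L).factorization t' = (Nat.card K).factorization t') : B ⊔ L = K := by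
  have hle : B ⊔ L ≤ K := sup_le hBK hLK
  have h0 : Nat.card K ≠ 0 := Nat.card_pos.ne'
  have h1 : Nat.card ↥(B ⊔ L) ≠ 0 := Nat.card_pos.ne'
  have hdvd : Nat.card K ∣ Nat.card ↥(B ⊔ L) := by
    rw [← Nat.factorization_prime_le_iff_dvd h0 h1]
    intro p hp
    by_cases hpt : p = t
    · subst hpt
      have h2 : Nat.card B ∣ Nat.card ↥(B ⊔ L) := Subgroup.card_dvd_of_le le_sup_left
      have h3 := (Nat.factorization_le_iff_dvd Nat.card_pos.ne' h1).mpr h2 p
      rw [hB, hp.factorization_pow] at h3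
      simpa using h3
    · have h2 : Nat.card L ∣ Nat.card ↥(B ⊔ L) := Subgroup.card_dvd_of_le le_sup_right
      have h3 := (Nat.factorization_le_iff_dvd Nat.card_pos.ne' h1).mpr h2 p
      rw [hL p hp hpt] at h3
      exact h3
  exact Subgroup.eq_of_le_of_card_ge hle (Nat.le_of_dvd Nat.card_pos hdvd)

/-- A normal subgroup of Sylow order contains every `t`-subgroup. -/
theorem le_of_sylow_normal [Finite G] {t : ℕ} [Fact t.Prime] {K B : Subgroup G} (hBK : B ≤ K)
    (hcard : Nat.card B = t ^ (Nat.card K).factorization t) (hn : Nrm K B) {X : Subgroup G}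
    (hXK : X ≤ K) (hX : IsPGroup t X) : X ≤ B := by
  have hB : IsPGroup t B := IsPGroup.of_card hcard
  have hT : IsPGroup t (B ⊔ X : Subgroup G) :=
    IsPGroup.to_sup_of_normal_left' hB hX (hXK.trans (nrm_le_normalizer hn))
  have h1 := Cfsg.Agent.Lib.Helper31.InvSylow.card_le_of_isPGroup (B ⊔ X) K hT (sup_le hBK hXK)
  rw [← hcard] at h1
  have h2 : B = B ⊔ X := Subgroup.eq_of_le_of_card_ge le_sup_left h1
  rw [h2]; exact le_sup_right

theorem mem_of_sylow_normal [Finite G] {t : ℕ} [Fact t.Prime] {K B : Subgroup G} (hBK : B ≤ K)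
    (hcard : Nat.card B = t ^ (Nat.card K).factorization t) (hn : Nrm K B) {x : G}
    (hxK : x ∈ K) (hx : orderOf x = t) : x ∈ B := by
  have hX : IsPGroup t (Subgroup.zpowers x) :=
    IsPGroup.of_card (n := 1) (by rw [Nat.card_zpowers, hx, pow_one])
  exact le_of_sylow_normal hBK hcard hn (Subgroup.zpowers_le.mpr hxK) hX (Subgroup.mem_zpowers x)

/-- Relative derived series. -/
def dser (K : Subgroup G) : ℕ → Subgroup G
  | 0 => K
  | (i + 1) => ⁅dser K i, dser K i⁆

theorem dser_le_derivedSeries (K : Subgroup G) (i : ℕ) : dser K i ≤ derivedSeries G i := by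
  induction i with
  | zero => exact le_top
  | succ i ih => exact Subgroup.commutator_mono ih ih

theorem dser_nrm (K : Subgroup G) (i : ℕ) : Nrm K (dser K i) := by
  induction i with
  | zero => intro k hk x hx; exact K.mul_mem (K.mul_mem hk hx) (K.inv_mem hk)
  | succ i ih =>
    intro k hk x hx
    show k * x * k⁻¹ ∈ ⁅dser K i, dser K i⁆
    have hx : x ∈ ⁅dser K i, dser K i⁆ := hx
    have hle : ⁅dser K i, dser K i⁆ ≤
        (⁅dser K i, dser K i⁆ : Subgroup G).comap (MulAut.conj k).toMonoidHom := by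
      rw [Subgroup.commutator_le]
      intro a ha b hb
      rw [Subgroup.mem_comap]
      have : (MulAut.conj k).toMonoidHom ⁅a, b⁆ = ⁅k * a * k⁻¹, k * b * k⁻¹⁆ := by
        simp only [MulEquiv.toMonoidHom_eq_coe, MonoidHom.coe_coe, MulAut.conj_apply,
          commutatorElement_def]
        group
      rw [this]
      exact Subgroup.commutator_mem_commutator (ih k hk a ha) (ih k hk b hb)
    have := hle hx
    rw [Subgroup.mem_comap] at this
    simpa [MulAut.conj_apply] using this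

/-- A nontrivial subgroup `H ≤ K` normalized by `K` contains a nontrivial elementary abelian
`t`-subgroup normalized by `K` (finite solvable ambient group). -/
theorem exists_elem_abelian [Finite G] (hsol : Group.IsSolvable G) (K H : Subgroup G) (hHK : H ≤ K)
    (hH : H ≠ ⊥) (hn : Nrm K H) :
    ∃ (t : ℕ) (B : Subgroup G), t.Prime ∧ B ≤ H ∧ B ≠ ⊥ ∧ (∀ a ∈ B, ∀ b ∈ B, a * b = b * a) ∧
      (∀ b ∈ B, b ^ t = 1) ∧ Nrm K B := by
  classical
  have hex : ∃ n : ℕ, H ⊓ dser K n = ⊥ := by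
    obtain ⟨n, hn'⟩ := hsol.solvable
    refine ⟨n, ?_⟩
    rw [eq_bot_iff]
    exact fun x hx => by
      have := dser_le_derivedSeries K n hx.2
      rw [hn'] at this
      exact this
  have hn0 : Nat.find hex ≠ 0 := by
    intro h0
    have h1 := Nat.find_spec hex
    rw [h0] at h1
    apply hH
    rw [eq_bot_iff]
    intro x hx
    have : x ∈ H ⊓ dser K 0 := ⟨hx, hHK hx⟩
    rw [h1] at this
    exact this
  obtain ⟨i, hi⟩ := Nat.exists_eq_succ_of_ne_zero hn0
  have hAne : H ⊓ dser K i ≠ ⊥ := by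
    have := Nat.find_min hex (m := i) (by omega)
    exact this
  have hAbot : H ⊓ dser K (i + 1) = ⊥ := by
    have := Nat.find_spec hex
    rw [hi] at this
    exact this
  set A := H ⊓ dser K i with hA
  have hAab : ∀ a ∈ A, ∀ b ∈ A, a * b = b * a := by
    intro a ha b hb
    have h1 : ⁅a, b⁆ ∈ dser K (i + 1) := Subgroup.commutator_mem_commutator ha.2 hb.2
    have h2 : ⁅a, b⁆ ∈ H := by
      rw [commutatorElement_def]
      exact H.mul_mem (H.mul_mem (H.mul_mem ha.1 hb.1) (H.inv_mem ha.1)) (H.inv_mem hb.1)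
    have h3 : ⁅a, b⁆ ∈ H ⊓ dser K (i + 1) := ⟨h2, h1⟩
    rw [hAbot] at h3
    exact commutatorElement_eq_one_iff_mul_comm.mp ((Subgroup.mem_bot).mp h3)
  have hAn : Nrm K A := fun k hk x hx => ⟨hn k hk x hx.1, dser_nrm K i k hk x hx.2⟩
  have hAcard : Nat.card A ≠ 1 := fun h => hAne (Subgroup.card_eq_one.mp h)
  obtain ⟨t, ht, htd⟩ := Nat.exists_prime_and_dvd hAcard
  haveI : Fact t.Prime := ⟨ht⟩
  let B : Subgroup G :=
    { carrier := {a | a ∈ A ∧ a ^ t = 1}
      one_mem' := ⟨A.one_mem, one_pow t⟩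
      mul_mem' := by
        rintro a b ⟨ha, ha'⟩ ⟨hb, hb'⟩
        refine ⟨A.mul_mem ha hb, ?_⟩
        rw [(show Commute a b from hAab a ha b hb).mul_pow, ha', hb', one_mul]
      inv_mem' := by
        rintro a ⟨ha, ha'⟩
        exact ⟨A.inv_mem ha, by rw [inv_pow, ha', inv_one]⟩ }
  refine ⟨t, B, ht, fun b hb => hb.1.1, ?_, fun a ha b hb => hAab a ha.1 b hb.1,
    fun b hb => hb.2, ?_⟩
  · obtain ⟨x, hx⟩ := exists_prime_orderOf_dvd_card' (G := ↥A) t htd
    intro hbot
    have hxB : (x : G) ∈ B := by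
      refine ⟨x.2, ?_⟩
      have : x ^ t = 1 := by rw [← hx]; exact pow_orderOf_eq_one x
      have h2 := congrArg Subtype.val this
      simpa using h2
    rw [hbot, Subgroup.mem_bot] at hxB
    have hx1 : x = 1 := Subtype.ext hxB
    rw [hx1, orderOf_one] at hx
    exact ht.one_lt.ne hx
  · intro k hk b hb
    refine ⟨hAn k hk b hb.1, ?_⟩
    rw [conj_pow, hb.2]; group

end Cfsg.Agent.Lib.Helper39.PGA
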