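-- Transitivity of SL_n on nonzero vectors and on independent pairs, n at least 3.
import Mathlib

set_option autoImplicit false
set_option linter.unusedSectionVars false
set_option linter.unusedVariables false

namespace Cfsg.Agent.Lib.Helper39.SLTrans

open scoped LinearAlgebra.Projectivization Matrix

variable {F : Type*} [Field F] {m : ℕ}

/-- The first standard basis vector. -/
def e0 (F : Type*) [Field F] (m : ℕ) : Fin (m + 3) → F := Pi.single 0 1

/-- The second standard basis vector. -/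
def e1 (F : Type*) [Field F] (m : ℕ) : Fin (m + 3) → F := Pi.single 1 1

theorem e0_ne_zero : e0 F m ≠ 0 := by
  intro h
  have := congrFun h 0
  simp [e0] at this

theorem e1_ne_zero : e1 F m ≠ 0 := by
  intro h
  have := congrFun h 1
  simp [e1] at this

/-- The entries of a diagonal matrix with three prescribed entries. -/
def dvec (x y z : F) : Fin (m + 3) → F :=
  Fin.cons x (Fin.cons y (Fin.cons z (fun _ : Fin m => (1 : F))))

theorem prod_dvec (x y z : F) : ∏ i, dvec (m := m) x y z i = x * y * z := by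
  rw [Fin.prod_univ_succ, Fin.prod_univ_succ, Fin.prod_univ_succ]
  simp only [dvec, Fin.cons_zero, Fin.cons_succ, Finset.prod_const_one, mul_one, mul_assoc]

/-- A diagonal matrix of determinant one with three prescribed entries. -/
def dg (x y z : F) (h : x * y * z = 1) : Matrix.SpecialLinearGroup (Fin (m + 3)) F :=
  ⟨Matrix.diagonal (dvec x y z), by rw [Matrix.det_diagonal, prod_dvec, h]⟩

theorem dg_e0 (x y z : F) (h : x * y * z = 1) :
    (dg (m := m) x y z h).1 *ᵥ e0 F m = x • e0 F m := by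
  show Matrix.diagonal (dvec x y z) *ᵥ Pi.single 0 1 = x • Pi.single 0 1
  rw [Matrix.diagonal_mulVec_single]
  ext i
  simp [dvec, Pi.single_apply]

theorem dg_e1 (x y z : F) (h : x * y * z = 1) :
    (dg (m := m) x y z h).1 *ᵥ e1 F m = y • e1 F m := by
  show Matrix.diagonal (dvec x y z) *ᵥ Pi.single 1 1 = y • Pi.single 1 1
  rw [Matrix.diagonal_mulVec_single]
  ext i
  have h1 : dvec (m := m) x y z 1 = y := rfl
  simp [h1, Pi.single_apply]

theorem mk_e0_ne_mk_e1 :
    Projectivization.mk F (e0 F m) e0_ne_zero ≠ Projectivization.mk F (e1 F m) e1_ne_zero := by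
  intro h
  rw [Projectivization.mk_eq_mk_iff] at h
  obtain ⟨a, ha⟩ := h
  have := congrFun ha 1
  simp [e0, e1, Units.smul_def] at this

/-- `SL_n` is transitive on the nonzero vectors. -/
theorem exists_smul_e0 (v : Fin (m + 3) → F) (hv : v ≠ 0) :
    ∃ g : Matrix.SpecialLinearGroup (Fin (m + 3)) F, g.1 *ᵥ e0 F m = v := by
  have : MulAction.IsPretransitive (Matrix.SpecialLinearGroup (Fin (m + 3)) F)
      (ℙ F (Fin (m + 3) → F)) := MulAction.isPretransitive_of_is_two_pretransitive
  obtain ⟨g, hg⟩ := MulAction.exists_smul_eq (Matrix.SpecialLinearGroup (Fin (m + 3)) F)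
    (Projectivization.mk F (e0 F m) e0_ne_zero) (Projectivization.mk F v hv)
  rw [Projectivization.smul_mk, Projectivization.mk_eq_mk_iff] at hg
  obtain ⟨a, ha⟩ := hg
  rw [Matrix.SpecialLinearGroup.smul_def, Matrix.smul_eq_mulVec] at ha
  refine ⟨g * dg (F := F) ((a⁻¹ : Fˣ) : F) (a : F) 1 (by simp), ?_⟩
  rw [Matrix.SpecialLinearGroup.coe_mul, ← Matrix.mulVec_mulVec, dg_e0, Matrix.mulVec_smul, ← ha,
    Units.smul_def, smul_smul]
  simp

/-- `SL_n` is transitive on the independent pairs of vectors. -/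
theorem exists_smul_e0_e1 (v w : Fin (m + 3) → F) (hv : v ≠ 0) (hw : w ≠ 0)
    (hvw : ¬ ∃ a : Fˣ, a • w = v) :
    ∃ g : Matrix.SpecialLinearGroup (Fin (m + 3)) F, g.1 *ᵥ e0 F m = v ∧ g.1 *ᵥ e1 F m = w := by
  have h2 : MulAction.IsMultiplyPretransitive (Matrix.SpecialLinearGroup (Fin (m + 3)) F)
      (ℙ F (Fin (m + 3) → F)) 2 := inferInstance
  rw [MulAction.is_two_pretransitive_iff] at h2
  have hne : Projectivization.mk F v hv ≠ Projectivization.mk F w hw := by
    intro h
    rw [Projectivization.mk_eq_mk_iff] at h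
    exact hvw h
  obtain ⟨g, hg0, hg1⟩ := h2 (mk_e0_ne_mk_e1 (F := F) (m := m)) hne
  rw [Projectivization.smul_mk, Projectivization.mk_eq_mk_iff] at hg0 hg1
  obtain ⟨a, ha⟩ := hg0
  obtain ⟨b, hb⟩ := hg1
  rw [Matrix.SpecialLinearGroup.smul_def, Matrix.smul_eq_mulVec] at ha hb
  refine ⟨g * dg (F := F) ((a⁻¹ : Fˣ) : F) ((b⁻¹ : Fˣ) : F) ((a : F) * (b : F))
    (by
      have ha0 : (a : F) ≠ 0 := a.ne_zero
      have hb0 : (b : F) ≠ 0 := b.ne_zero
      simp only [Units.val_inv_eq_inv_val]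
      field_simp), ?_, ?_⟩
  · rw [Matrix.SpecialLinearGroup.coe_mul, ← Matrix.mulVec_mulVec, dg_e0, Matrix.mulVec_smul, ← ha,
      Units.smul_def, smul_smul]
    simp
  · rw [Matrix.SpecialLinearGroup.coe_mul, ← Matrix.mulVec_mulVec, dg_e1, Matrix.mulVec_smul, ← hb,
      Units.smul_def, smul_smul]
    simp

end Cfsg.Agent.Lib.Helper39.SLTrans
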