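-- The permutation character of SL_n on nonzero vectors: decomposition into characters induced
-- from the stabiliser of a line.
import Mathlib
import Cfsg.Prelude.Def_Characters
import Cfsg.Agent.Lib.CT.FrobRec
import Cfsg.Agent.Lib.CT.IndChar
import Cfsg.Agent.Lib.CT.LinChar
import Cfsg.Agent.Lib.Helper39.MulCharOrth
import Cfsg.Agent.Lib.Helper39.SLTrans
import Cfsg.Agent.S0157
import Cfsg.Agent.Lib.Helper39.Decomp
import Cfsg.Agent.Lib.Helper39.NormCard

set_option autoImplicit false
set_option linter.unusedSectionVars false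
set_option linter.unusedVariables false
set_option linter.style.haveILetI false

namespace Cfsg.Agent.Lib.Helper39.PermSL

open Cfsg Cfsg.Agent.Lib.CT Cfsg.Agent.Lib.CT.FrobRec Cfsg.Agent.Lib.Helper39.SLTrans
  Cfsg.Agent.Lib.Helper39.MulCharOrth
open scoped LinearAlgebra.Projectivization Matrix ComplexConjugate

variable {F : Type*} [Field F] {m : ℕ}

/-- The stabiliser of the line through the first basis vector. -/
def P (F : Type*) [Field F] (m : ℕ) : Subgroup (Matrix.SpecialLinearGroup (Fin (m + 3)) F) :=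
  MulAction.stabilizer _ (Projectivization.mk F (e0 F m) e0_ne_zero)

theorem mem_P_iff (y : Matrix.SpecialLinearGroup (Fin (m + 3)) F) :
    y ∈ P F m ↔ ∃ a : Fˣ, y.1 *ᵥ e0 F m = (a : F) • e0 F m := by
  unfold P
  rw [MulAction.mem_stabilizer_iff, Projectivization.smul_mk, Projectivization.mk_eq_mk_iff]
  constructor
  · rintro ⟨a, ha⟩
    refine ⟨a, ?_⟩
    rw [Matrix.SpecialLinearGroup.smul_def, Matrix.smul_eq_mulVec] at ha
    rw [← ha, Units.smul_def]
  · rintro ⟨a, ha⟩
    refine ⟨a, ?_⟩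
    rw [Matrix.SpecialLinearGroup.smul_def, Matrix.smul_eq_mulVec, ha, Units.smul_def]

theorem mulVec_e0_apply (M : Matrix (Fin (m + 3)) (Fin (m + 3)) F) (i : Fin (m + 3)) :
    (M *ᵥ e0 F m) i = M i 0 := by
  simp [e0]

theorem e0_apply_zero : e0 F m 0 = 1 := by
  simp [e0]

theorem smul_e0_injective (a b : F) (h : a • e0 F m = b • e0 F m) : a = b := by
  have := congrFun h 0
  simpa [e0] using this

/-- For an element of the stabiliser, the eigenvalue on the first basis vector is its corner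
entry. -/
theorem mulVec_e0_of_mem (y : Matrix.SpecialLinearGroup (Fin (m + 3)) F) (hy : y ∈ P F m) :
    y.1 0 0 ≠ 0 ∧ y.1 *ᵥ e0 F m = y.1 0 0 • e0 F m := by
  obtain ⟨a, ha⟩ := (mem_P_iff y).mp hy
  have h0 : y.1 0 0 = a := by
    have := congrFun ha 0
    rw [mulVec_e0_apply] at this
    simpa [e0] using this
  rw [h0]
  exact ⟨a.ne_zero, ha⟩

/-- The eigenvalue homomorphism of the stabiliser. -/
def lam (F : Type*) [Field F] (m : ℕ) : P F m →* Fˣ where
  toFun y := Units.mk0 (y.1.1 0 0) (mulVec_e0_of_mem y.1 y.2).1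
  map_one' := by
    apply Units.ext
    simp
  map_mul' y y' := by
    apply Units.ext
    simp only [Units.val_mul, Units.val_mk0]
    have h1 := (mulVec_e0_of_mem y.1 y.2).2
    have h2 := (mulVec_e0_of_mem y'.1 y'.2).2
    have h3 : (y * y').1.1 *ᵥ e0 F m = (y.1.1 0 0 * y'.1.1 0 0) • e0 F m := by
      show (y.1 * y'.1).1 *ᵥ e0 F m = _
      rw [Matrix.SpecialLinearGroup.coe_mul, ← Matrix.mulVec_mulVec, h2, Matrix.mulVec_smul, h1,
        smul_smul, mul_comm]
    have h4 := congrFun h3 0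
    rw [mulVec_e0_apply] at h4
    simpa [e0] using h4

theorem lam_eq_one_iff (y : P F m) : lam F m y = 1 ↔ y.1.1 *ᵥ e0 F m = e0 F m := by
  have h1 := (mulVec_e0_of_mem y.1 y.2).2
  constructor
  · intro h
    have h2 : y.1.1 0 0 = 1 := by
      have := congrArg Units.val h
      simpa [lam] using this
    rw [h1, h2, one_smul]
  · intro h
    apply Units.ext
    show y.1.1 0 0 = 1
    rw [h] at h1
    have := smul_e0_injective 1 (y.1.1 0 0) (by rw [one_smul]; exact h1)
    exact this.symm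

/-- The linear characters of the stabiliser. -/
noncomputable def θ (α : MulChar F ℂ) : P F m → ℂ :=
  fun y => ((α.toUnitHom (lam F m y) : ℂˣ) : ℂ)

theorem θ_apply (α : MulChar F ℂ) (y : P F m) : θ α y = α ((lam F m y : Fˣ) : F) := by
  unfold θ
  rw [MulChar.coe_toUnitHom]

theorem θ_isCharacter (α : MulChar F ℂ) : IsCharacter (P F m) (θ (m := m) α) :=
  LinChar.isCharacter_of_hom (α.toUnitHom.comp (lam F m))

theorem θ_one (α : MulChar F ℂ) : θ (m := m) α 1 = 1 := by
  rw [θ_apply, map_one, Units.val_one, map_one]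

section fin

variable [Fintype F] [DecidableEq F]

/-- The induced characters. -/
noncomputable def ψ (α : MulChar F ℂ) : Matrix.SpecialLinearGroup (Fin (m + 3)) F → ℂ :=
  indFun (P F m) (θ α)

theorem ψ_isCharacter (α : MulChar F ℂ) :
    IsCharacter (Matrix.SpecialLinearGroup (Fin (m + 3)) F) (ψ (m := m) α) :=
  IndChar.isCharacter_indFun (P F m) (θ α) (θ_isCharacter α)

theorem ψ_ne_zero (α : MulChar F ℂ) : ψ (m := m) α ≠ 0 := by
  intro h
  have h1 := congrFun h 1
  unfold ψ at h1
  rw [indFun_one, θ_one, mul_one] at h1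
  have h2 : (P F m).index ≠ 0 := Subgroup.index_ne_zero_of_finite
  simp only [Pi.zero_apply, Nat.cast_eq_zero] at h1
  exact h2 h1

/-- The sum over all characters of the extended linear characters. -/
theorem sum_extendByZero_θ [Fintype (MulChar F ℂ)]
    (y : Matrix.SpecialLinearGroup (Fin (m + 3)) F) :
    ∑ α : MulChar F ℂ, extendByZero (P F m) (θ α) y =
      if y.1 *ᵥ e0 F m = e0 F m then (Fintype.card Fˣ : ℂ) else 0 := by
  by_cases hy : y ∈ P F m
  · have h1 : ∀ α : MulChar F ℂ, extendByZero (P F m) (θ α) y =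
        α ((lam F m ⟨y, hy⟩ : Fˣ) : F) := by
      intro α
      rw [extendByZero_apply_of_mem (P F m) _ hy, θ_apply]
    simp only [h1]
    rw [sum_mulChar_apply]
    have h2 := lam_eq_one_iff (⟨y, hy⟩ : P F m)
    simp only [h2]
  · have h1 : ∀ α : MulChar F ℂ, extendByZero (P F m) (θ α) y = 0 := fun α =>
      extendByZero_apply_of_not_mem (P F m) _ hy
    simp only [h1, Finset.sum_const_zero]
    rw [if_neg]
    intro h
    apply hy
    rw [mem_P_iff]
    exact ⟨1, by rw [h]; simp⟩

/-- The number of elements fixing the first basis vector. -/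
noncomputable def c1 (F : Type*) [Field F] (m : ℕ) : ℕ :=
  Nat.card {x : Matrix.SpecialLinearGroup (Fin (m + 3)) F // x.1 *ᵥ e0 F m = e0 F m}

theorem c1_pos : 0 < c1 F m := by
  unfold c1
  haveI : Nonempty {x : Matrix.SpecialLinearGroup (Fin (m + 3)) F // x.1 *ᵥ e0 F m = e0 F m} :=
    ⟨⟨1, by simp⟩⟩
  exact Nat.card_pos

/-- Counting elements of the group by the image of the first basis vector. -/
theorem card_fiber (Q : (Fin (m + 3) → F) → Prop) :
    Nat.card {x : Matrix.SpecialLinearGroup (Fin (m + 3)) F // Q (x.1 *ᵥ e0 F m)} =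
      Nat.card {v : Fin (m + 3) → F // v ≠ 0 ∧ Q v} * c1 F m := by
  have hs : ∀ v : Fin (m + 3) → F, ∃ g : Matrix.SpecialLinearGroup (Fin (m + 3)) F,
      v ≠ 0 → g.1 *ᵥ e0 F m = v := by
    intro v
    by_cases hv : v = 0
    · exact ⟨1, fun h => absurd hv h⟩
    · obtain ⟨g, hg⟩ := exists_smul_e0 v hv
      exact ⟨g, fun _ => hg⟩
  choose s hs using hs
  have hne : ∀ x : Matrix.SpecialLinearGroup (Fin (m + 3)) F, x.1 *ᵥ e0 F m ≠ 0 := by
    intro x h
    have h1 : (x⁻¹ * x).1 *ᵥ e0 F m = 0 := by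
      rw [Matrix.SpecialLinearGroup.coe_mul, ← Matrix.mulVec_mulVec, h, Matrix.mulVec_zero]
    rw [inv_mul_cancel] at h1
    simp only [Matrix.SpecialLinearGroup.coe_one, Matrix.one_mulVec] at h1
    exact e0_ne_zero h1
  unfold c1
  rw [← Nat.card_prod]
  apply Nat.card_congr
  refine
    { toFun := fun x => (⟨x.1.1 *ᵥ e0 F m, hne x.1, x.2⟩,
        ⟨(s (x.1.1 *ᵥ e0 F m))⁻¹ * x.1, ?_⟩)
      invFun := fun p => ⟨s p.1.1 * p.2.1, ?_⟩
      left_inv := ?_
      right_inv := ?_ }
  · have h1 := hs _ (hne x.1)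
    have h2 : ((s (x.1.1 *ᵥ e0 F m))⁻¹ * s (x.1.1 *ᵥ e0 F m)).1 *ᵥ e0 F m =
        ((s (x.1.1 *ᵥ e0 F m))⁻¹ * x.1).1 *ᵥ e0 F m := by
      rw [Matrix.SpecialLinearGroup.coe_mul, ← Matrix.mulVec_mulVec, h1,
        Matrix.SpecialLinearGroup.coe_mul, ← Matrix.mulVec_mulVec]
    rw [inv_mul_cancel] at h2
    simp only [Matrix.SpecialLinearGroup.coe_one, Matrix.one_mulVec] at h2
    exact h2.symm
  · have h1 := hs _ p.1.2.1
    have h2 : (s p.1.1 * p.2.1).1 *ᵥ e0 F m = p.1.1 := by
      rw [Matrix.SpecialLinearGroup.coe_mul, ← Matrix.mulVec_mulVec, p.2.2, h1]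
    rw [h2]
    exact p.1.2.2
  · intro x
    apply Subtype.ext
    simp
  · intro p
    have h1 := hs _ p.1.2.1
    have h2 : (s p.1.1 * p.2.1).1 *ᵥ e0 F m = p.1.1 := by
      rw [Matrix.SpecialLinearGroup.coe_mul, ← Matrix.mulVec_mulVec, p.2.2, h1]
    apply Prod.ext
    · apply Subtype.ext
      exact h2
    · apply Subtype.ext
      simp only
      rw [h2]
      simp

/-- The order of the stabiliser of the line. -/
theorem card_P : Nat.card (P F m) = Fintype.card Fˣ * c1 F m := by
  have h1 : Nat.card (P F m) = Nat.card {x : Matrix.SpecialLinearGroup (Fin (m + 3)) F //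
      ∃ a : Fˣ, x.1 *ᵥ e0 F m = (a : F) • e0 F m} := by
    apply Nat.card_congr
    exact Equiv.subtypeEquivRight (fun y => mem_P_iff y)
  rw [h1, card_fiber (fun v => ∃ a : Fˣ, v = (a : F) • e0 F m)]
  congr 1
  rw [← Nat.card_eq_fintype_card]
  apply Nat.card_congr
  refine Equiv.symm (Equiv.ofBijective
    (fun a : Fˣ => (⟨(a : F) • e0 F m, ?_, a, rfl⟩ :
      {v : Fin (m + 3) → F // v ≠ 0 ∧ ∃ a : Fˣ, v = (a : F) • e0 F m})) ⟨?_, ?_⟩)
  · intro h
    have := congrFun h 0
    simp [e0] at this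
  · intro a b hab
    have h2 := congrArg Subtype.val hab
    exact Units.ext (smul_e0_injective _ _ h2)
  · rintro ⟨v, hv, a, rfl⟩
    exact ⟨a, rfl⟩

/-- The permutation character on the nonzero vectors. -/
noncomputable def π (F : Type*) [Field F] (m : ℕ) :
    Matrix.SpecialLinearGroup (Fin (m + 3)) F → ℂ :=
  fun g => (Nat.card {v : Fin (m + 3) → F // v ≠ 0 ∧ g.1 *ᵥ v = v} : ℂ)

/-- The permutation character is the sum of the induced characters. -/
theorem sum_ψ [Fintype (MulChar F ℂ)] (g : Matrix.SpecialLinearGroup (Fin (m + 3)) F) :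
    ∑ α : MulChar F ℂ, ψ α g = π F m g := by
  classical
  unfold ψ
  simp only [indFun_apply]
  rw [← Finset.mul_sum, Finset.sum_comm]
  simp only [sum_extendByZero_θ]
  rw [Finset.sum_ite, Finset.sum_const_zero, add_zero, Finset.sum_const, nsmul_eq_mul]
  have h1 : (Finset.univ.filter (fun x : Matrix.SpecialLinearGroup (Fin (m + 3)) F =>
      (x⁻¹ * g * x).1 *ᵥ e0 F m = e0 F m)).card =
      Nat.card {v : Fin (m + 3) → F // v ≠ 0 ∧ g.1 *ᵥ v = v} * c1 F m := by
    rw [← card_fiber (fun v => g.1 *ᵥ v = v), ← Nat.card_eq_finsetCard]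
    apply Nat.card_congr
    refine Equiv.subtypeEquivRight (fun x => ?_)
    simp only [Finset.mem_filter, Finset.mem_univ, true_and]
    constructor
    · intro h
      have h2 : (x * (x⁻¹ * g * x)).1 *ᵥ e0 F m = x.1 *ᵥ e0 F m := by
        rw [Matrix.SpecialLinearGroup.coe_mul, ← Matrix.mulVec_mulVec, h]
      have h3 : x * (x⁻¹ * g * x) = g * x := by group
      rw [h3, Matrix.SpecialLinearGroup.coe_mul, ← Matrix.mulVec_mulVec] at h2
      exact h2
    · intro h
      have h3 : x⁻¹ * g * x = x⁻¹ * (g * x) := by group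
      rw [h3, Matrix.SpecialLinearGroup.coe_mul, ← Matrix.mulVec_mulVec,
        Matrix.SpecialLinearGroup.coe_mul, ← Matrix.mulVec_mulVec, h, Matrix.mulVec_mulVec,
        ← Matrix.SpecialLinearGroup.coe_mul, inv_mul_cancel]
      simp
  rw [h1, card_P]
  unfold π
  have h2 : (Fintype.card Fˣ : ℂ) ≠ 0 := by
    exact_mod_cast Fintype.card_ne_zero
  have h3 : (c1 F m : ℂ) ≠ 0 := by
    exact_mod_cast (c1_pos (F := F) (m := m)).ne'
  push_cast
  field_simp

end fin

section orbits

theorem mulVec_mulVec' (a b : Matrix.SpecialLinearGroup (Fin (m + 3)) F) (v : Fin (m + 3) → F) :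
    a.1 *ᵥ (b.1 *ᵥ v) = (a * b).1 *ᵥ v := by
  rw [Matrix.SpecialLinearGroup.coe_mul, Matrix.mulVec_mulVec]

theorem mulVec_injective (g : Matrix.SpecialLinearGroup (Fin (m + 3)) F) (v w : Fin (m + 3) → F)
    (h : g.1 *ᵥ v = g.1 *ᵥ w) : v = w := by
  have h1 : g⁻¹.1 *ᵥ (g.1 *ᵥ v) = g⁻¹.1 *ᵥ (g.1 *ᵥ w) := by rw [h]
  rw [mulVec_mulVec', mulVec_mulVec', inv_mul_cancel] at h1
  simpa using h1

theorem mulVec_ne_zero (g : Matrix.SpecialLinearGroup (Fin (m + 3)) F) (v : Fin (m + 3) → F)
    (hv : v ≠ 0) : g.1 *ᵥ v ≠ 0 := by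
  intro h
  apply hv
  apply mulVec_injective g
  rw [h, Matrix.mulVec_zero]

/-- The nonzero vectors. -/
abbrev X (F : Type*) [Field F] (m : ℕ) : Type _ := {v : Fin (m + 3) → F // v ≠ 0}

/-- The action on the nonzero vectors. -/
@[reducible] def actX : MulAction (Matrix.SpecialLinearGroup (Fin (m + 3)) F) (X F m) where
  smul g v := ⟨g.1 *ᵥ v.1, mulVec_ne_zero g v.1 v.2⟩
  one_smul v := Subtype.ext (by
    show (1 : Matrix.SpecialLinearGroup (Fin (m + 3)) F).1 *ᵥ v.1 = v.1
    simp)
  mul_smul g h v := Subtype.ext (by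
    show (g * h).1 *ᵥ v.1 = g.1 *ᵥ (h.1 *ᵥ v.1)
    rw [mulVec_mulVec'])

attribute [local instance] actX

theorem smul_val (g : Matrix.SpecialLinearGroup (Fin (m + 3)) F) (v : X F m) :
    (g • v).1 = g.1 *ᵥ v.1 := rfl

/-- The invariant of a pair of nonzero vectors: their ratio, if they are proportional. -/
noncomputable def inv (p : X F m × X F m) : Option Fˣ :=
  open Classical in
  if h : ∃ a : Fˣ, (a : F) • p.2.1 = p.1.1 then some (Classical.choose h) else none

theorem inv_eq_some_iff (p : X F m × X F m) (a : Fˣ) :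
    inv p = some a ↔ (a : F) • p.2.1 = p.1.1 := by
  classical
  unfold inv
  constructor
  · intro h
    split_ifs at h with h1
    · have h2 := Classical.choose_spec h1
      rw [Option.some.injEq] at h
      rw [← h]
      exact h2
  · intro h
    have h1 : ∃ a : Fˣ, (a : F) • p.2.1 = p.1.1 := ⟨a, h⟩
    rw [dif_pos h1]
    have h2 := Classical.choose_spec h1
    congr 1
    apply Units.ext
    have h3 : ((Classical.choose h1 : Fˣ) : F) • p.2.1 = (a : F) • p.2.1 := by rw [h2, h]
    by_contra hne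
    have h4 : (((Classical.choose h1 : Fˣ) : F) - (a : F)) • p.2.1 = 0 := by
      rw [sub_smul, h3, sub_self]
    rcases smul_eq_zero.mp h4 with h5 | h5
    · exact hne (sub_eq_zero.mp h5)
    · exact p.2.2 h5

theorem inv_eq_none_iff (p : X F m × X F m) :
    inv p = none ↔ ¬ ∃ a : Fˣ, (a : F) • p.2.1 = p.1.1 := by
  classical
  unfold inv
  constructor
  · intro h h1
    rw [dif_pos h1] at h
    exact Option.some_ne_none _ h
  · intro h
    rw [dif_neg h]

theorem inv_smul (g : Matrix.SpecialLinearGroup (Fin (m + 3)) F) (p : X F m × X F m) :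
    inv (g • p) = inv p := by
  have key : ∀ a : Fˣ, (a : F) • (g • p).2.1 = (g • p).1.1 ↔ (a : F) • p.2.1 = p.1.1 := by
    intro a
    show (a : F) • (g.1 *ᵥ p.2.1) = g.1 *ᵥ p.1.1 ↔ _
    rw [← Matrix.mulVec_smul]
    constructor
    · intro h
      exact mulVec_injective g _ _ h
    · intro h
      rw [h]
  rcases h : inv p with _ | a
  · rw [inv_eq_none_iff] at h ⊢
    rintro ⟨a, ha⟩
    exact h ⟨a, (key a).mp ha⟩
  · rw [inv_eq_some_iff] at h ⊢
    exact (key a).mpr h

variable [Fintype F] [DecidableEq F]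

/-- The special linear group has exactly `q` orbits on the pairs of nonzero vectors. -/
theorem card_orbits :
    Nat.card (Quotient (MulAction.orbitRel (Matrix.SpecialLinearGroup (Fin (m + 3)) F)
      (X F m × X F m))) = Fintype.card F := by
  classical
  let φ : Quotient (MulAction.orbitRel (Matrix.SpecialLinearGroup (Fin (m + 3)) F)
      (X F m × X F m)) → Option Fˣ :=
    Quotient.lift inv (by
      intro p p' h
      obtain ⟨g, hg⟩ := MulAction.orbitRel_apply.1 h
      rw [← hg, inv_smul])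
  have hφmk : ∀ p : X F m × X F m, φ (Quotient.mk _ p) = inv p := fun p => rfl
  have hinj : Function.Injective φ := by
    intro x y hxy
    induction x using Quotient.ind with
    | _ p =>
    induction y using Quotient.ind with
    | _ p' =>
    rw [hφmk, hφmk] at hxy
    apply Quotient.sound
    apply MulAction.orbitRel_apply.2
    rcases h' : inv p' with _ | a
    · rw [h'] at hxy
      rw [inv_eq_none_iff] at hxy h'
      obtain ⟨g, hg0, hg1⟩ := exists_smul_e0_e1 p.1.1 p.2.1 p.1.2 p.2.2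
        (fun ⟨a, ha⟩ => hxy ⟨a, by rw [← ha, Units.smul_def]⟩)
      obtain ⟨g', hg0', hg1'⟩ := exists_smul_e0_e1 p'.1.1 p'.2.1 p'.1.2 p'.2.2
        (fun ⟨a, ha⟩ => h' ⟨a, by rw [← ha, Units.smul_def]⟩)
      refine ⟨g * g'⁻¹, ?_⟩
      apply Prod.ext <;> apply Subtype.ext
      · show (g * g'⁻¹).1 *ᵥ p'.1.1 = p.1.1
        rw [← hg0', mulVec_mulVec', inv_mul_cancel_right, hg0]
      · show (g * g'⁻¹).1 *ᵥ p'.2.1 = p.2.1
        rw [← hg1', mulVec_mulVec', inv_mul_cancel_right, hg1]
    · rw [h'] at hxy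
      rw [inv_eq_some_iff] at hxy h'
      obtain ⟨g, hg⟩ := exists_smul_e0 p.2.1 p.2.2
      obtain ⟨g', hg'⟩ := exists_smul_e0 p'.2.1 p'.2.2
      refine ⟨g * g'⁻¹, ?_⟩
      have h2 : (g * g'⁻¹).1 *ᵥ p'.2.1 = p.2.1 := by
        rw [← hg', mulVec_mulVec', inv_mul_cancel_right, hg]
      apply Prod.ext <;> apply Subtype.ext
      · show (g * g'⁻¹).1 *ᵥ p'.1.1 = p.1.1
        rw [← h', Matrix.mulVec_smul, h2, hxy]
      · exact h2
  have hsurj : Function.Surjective φ := by
    intro o
    rcases o with _ | a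
    · refine ⟨Quotient.mk _ (⟨e0 F m, e0_ne_zero⟩, ⟨e1 F m, e1_ne_zero⟩), ?_⟩
      rw [hφmk, inv_eq_none_iff]
      rintro ⟨a, ha⟩
      have := congrFun ha 0
      simp [e0, e1] at this
    · have hne : (a : F) • e0 F m ≠ 0 := by
        intro h
        have := congrFun h 0
        simp [e0] at this
      refine ⟨Quotient.mk _ (⟨(a : F) • e0 F m, hne⟩, ⟨e0 F m, e0_ne_zero⟩), ?_⟩
      rw [hφmk, inv_eq_some_iff]
  rw [Nat.card_congr (Equiv.ofBijective φ ⟨hinj, hsurj⟩), Nat.card_eq_fintype_card,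
    Fintype.card_option, Fintype.card_units]
  have := Fintype.card_pos (α := F)
  omega

theorem permChar_eq (g : Matrix.SpecialLinearGroup (Fin (m + 3)) F) :
    Cfsg.Agent.S0157.permChar (Matrix.SpecialLinearGroup (Fin (m + 3)) F) (X F m) g = π F m g := by
  unfold Cfsg.Agent.S0157.permChar π
  congr 1
  apply Nat.card_congr
  exact
    { toFun := fun x => ⟨x.1.1, x.1.2, congrArg Subtype.val x.2⟩
      invFun := fun v => ⟨⟨v.1, v.2.1⟩, Subtype.ext v.2.2⟩
      left_inv := fun x => rfl
      right_inv := fun v => rfl }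

/-- The norm of the permutation character on the nonzero vectors. -/
theorem norm_π : classInner (π F m) (π F m) = (Fintype.card F : ℂ) := by
  have h1 := Cfsg.Agent.S0157.sum_permChar (G := Matrix.SpecialLinearGroup (Fin (m + 3)) F)
    (X := X F m × X F m)
  simp only [Cfsg.Agent.S0157.permChar_prod, permChar_eq] at h1
  rw [card_orbits] at h1
  unfold classInner
  have h2 : ∀ g : Matrix.SpecialLinearGroup (Fin (m + 3)) F,
      π F m g * conj (π F m g) = π F m g * π F m g := by
    intro g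
    unfold π
    rw [Complex.conj_natCast]
  simp only [h2]
  rw [h1]
  have h3 : (Nat.card (Matrix.SpecialLinearGroup (Fin (m + 3)) F) : ℂ) ≠ 0 := by
    exact_mod_cast (Nat.card_pos (α := Matrix.SpecialLinearGroup (Fin (m + 3)) F)).ne'
  field_simp

end orbits

section main

variable [Fintype F] [DecidableEq F]

/-- The permutation character of `SL_n` on the nonzero vectors is the principal character plus
`q - 1` pairwise distinct irreducible characters. -/
theorem main :
    ∃ χ : Fin (Fintype.card F - 1) → (Matrix.SpecialLinearGroup (Fin (m + 3)) F → ℂ),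
      (∀ i, IsIrrCharacter (Matrix.SpecialLinearGroup (Fin (m + 3)) F) (χ i)) ∧
      Function.Injective χ ∧
      ∀ g : Matrix.SpecialLinearGroup (Fin (m + 3)) F, π F m g = 1 + ∑ i, χ i g := by
  classical
  haveI : Fintype (MulChar F ℂ) := Fintype.ofFinite _
  haveI : Fintype (P F m) := Fintype.ofFinite _
  -- the principal character is a constituent of the character induced from the trivial one
  have hinner : classInner (ψ (m := m) (1 : MulChar F ℂ)) (fun _ => (1 : ℂ)) = 1 := by
    unfold ψ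
    rw [frobenius_reciprocity (P F m) (θ 1) (fun _ => (1 : ℂ)) (fun _ _ => rfl)]
    unfold classInner
    have h1 : ∀ h : P F m, θ (m := m) (1 : MulChar F ℂ) h * conj (1 : ℂ) = 1 := by
      intro h
      rw [θ_apply, MulChar.one_apply_coe, map_one, mul_one]
    simp only [h1, Finset.sum_const, Finset.card_univ, nsmul_eq_mul, mul_one]
    rw [Nat.card_eq_fintype_card]
    have h2 : (Fintype.card (P F m) : ℂ) ≠ 0 := by
      exact_mod_cast Fintype.card_ne_zero
    exact inv_mul_cancel₀ h2
  obtain ⟨Ψ', hΨ', hsplit⟩ := Cfsg.Agent.Lib.Helper39.Decomp.exists_add_of_inner_ne_zero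
    (ψ_isCharacter (m := m) (1 : MulChar F ℂ)) Ops.isIrrCharacter_one
    (by rw [hinner]; exact one_ne_zero)
  have hΨ'ne : Ψ' ≠ 0 := by
    intro h0
    rw [h0, add_zero] at hsplit
    have h1 := congrFun hsplit 1
    unfold ψ at h1
    rw [indFun_one, θ_one, mul_one] at h1
    have h2 : (P F m).index = 1 := by exact_mod_cast h1
    rw [Subgroup.index_eq_one] at h2
    obtain ⟨g, hg⟩ := exists_smul_e0 (e1 F m) e1_ne_zero
    have h3 : g ∈ P F m := by
      rw [h2]
      exact Subgroup.mem_top g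
    obtain ⟨a, ha⟩ := (mem_P_iff g).mp h3
    rw [hg] at ha
    have := congrFun ha 1
    simp [e0, e1] at this
  let Φ : Option (MulChar F ℂ) → (Matrix.SpecialLinearGroup (Fin (m + 3)) F → ℂ) := fun o =>
    match o with
    | none => fun _ => 1
    | some α => if α = 1 then Ψ' else ψ α
  have hΦnone : Φ none = fun _ => 1 := rfl
  have hΦsome : ∀ α : MulChar F ℂ, Φ (some α) = if α = 1 then Ψ' else ψ α := fun α => rfl
  have hsumψ : ∑ α : MulChar F ℂ, ψ (m := m) α = π F m := by
    funext g
    rw [Finset.sum_apply]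
    exact sum_ψ g
  have hΦsum : ∑ o, Φ o = π F m := by
    rw [Fintype.sum_option, hΦnone]
    simp only [hΦsome]
    have h1 : ∀ α : MulChar F ℂ, (if α = 1 then Ψ' else ψ (m := m) α) =
        ψ α + (if α = 1 then Ψ' - ψ (m := m) (1 : MulChar F ℂ) else 0) := by
      intro α
      split_ifs with h
      · subst h
        abel
      · rw [add_zero]
    simp only [h1]
    rw [Finset.sum_add_distrib, Finset.sum_ite_eq' Finset.univ (1 : MulChar F ℂ)
      (fun _ => Ψ' - ψ (m := m) (1 : MulChar F ℂ)), if_pos (Finset.mem_univ _), hsumψ]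
    rw [hsplit]
    abel
  have hchar : ∀ o, IsCharacter (Matrix.SpecialLinearGroup (Fin (m + 3)) F) (Φ o) := by
    intro o
    rcases o with _ | α
    · exact Ops.isCharacter_one
    · rw [hΦsome]
      split_ifs
      · exact hΨ'
      · exact ψ_isCharacter α
  have hne : ∀ o, Φ o ≠ 0 := by
    intro o
    rcases o with _ | α
    · rw [hΦnone]
      intro h
      have := congrFun h 1
      simp at this
    · rw [hΦsome]
      split_ifs
      · exact hΨ'ne
      · exact ψ_ne_zero α
  have hcard : Fintype.card (MulChar F ℂ) = Fintype.card F - 1 := by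
    rw [card_mulChar, Fintype.card_units]
  have hnorm : classInner (∑ o, Φ o) (∑ o, Φ o) = (Fintype.card (Option (MulChar F ℂ)) : ℂ) := by
    rw [hΦsum, norm_π, Fintype.card_option, hcard]
    have := Fintype.card_pos (α := F)
    congr 1
    omega
  obtain ⟨hirr, hinj⟩ := Cfsg.Agent.Lib.Helper39.NormCard.irr_of_norm_eq_card Φ hchar hne hnorm
  let e : MulChar F ℂ ≃ Fin (Fintype.card F - 1) := Fintype.equivFinOfCardEq hcard
  refine ⟨fun i => Φ (some (e.symm i)), fun i => hirr (some (e.symm i)), ?_, ?_⟩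
  · intro i j hij
    have h1 : some (e.symm i) = some (e.symm j) := hinj hij
    rw [Option.some.injEq] at h1
    exact e.symm.injective h1
  · intro g
    have h1 := congrFun hΦsum g
    rw [Finset.sum_apply, Fintype.sum_option, hΦnone] at h1
    rw [← h1]
    congr 1
    exact (Equiv.sum_comp e.symm (fun α => Φ (some α) g)).symm

end main

end Cfsg.Agent.Lib.Helper39.PermSL
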