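-- Arithmetic for the minimal degree of SL_n(q): geometric sums, the bound function and the
-- divisibility arguments excluding the degrees just below (q^n - q)/(q - 1).
import Mathlib

set_option autoImplicit false

namespace Cfsg.Agent.Lib.Helper39.SLMinArith

/-- `1 + q + ... + q^(n-1)` -/
def S (q n : ℕ) : ℕ := ∑ i ∈ Finset.range n, q ^ i

theorem S_succ (q n : ℕ) : S q (n + 1) = S q n + q ^ n := Finset.sum_range_succ _ _

theorem S_zero (q : ℕ) : S q 0 = 0 := rfl

theorem S_succ' (q n : ℕ) : S q (n + 1) = 1 + q * S q n := by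
  induction n with
  | zero => simp [S]
  | succ n ih =>
    calc S q (n + 1 + 1) = S q (n + 1) + q ^ (n + 1) := S_succ q (n + 1)
      _ = (1 + q * S q n) + q ^ (n + 1) := by rw [ih]
      _ = 1 + q * (S q n + q ^ n) := by rw [pow_succ]; ring
      _ = 1 + q * S q (n + 1) := by rw [S_succ q n]

theorem geom (q n : ℕ) (hq : 1 ≤ q) : (q - 1) * S q n + 1 = q ^ n := by
  obtain ⟨r, rfl⟩ : ∃ r, q = r + 1 := ⟨q - 1, by omega⟩
  simp only [Nat.add_sub_cancel]
  induction n with
  | zero => simp [S]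
  | succ n ih =>
    rw [S_succ, mul_add, pow_succ]
    have : (r + 1) ^ n * (r + 1) = r * (r + 1) ^ n + (r + 1) ^ n := by ring
    omega

theorem S_lt (q n : ℕ) (hq : 2 ≤ q) : S q n + 1 ≤ q ^ n := by
  have h := geom q n (by omega)
  have h2 : 1 * S q n ≤ (q - 1) * S q n := Nat.mul_le_mul_right _ (by omega)
  omega

theorem S_ge (q n : ℕ) (hq : 2 ≤ q) (hn : 2 ≤ n) : 1 + q ≤ S q n := by
  obtain ⟨n', rfl⟩ : ∃ n', n = n' + 2 := ⟨n - 2, by omega⟩
  rw [S_succ', S_succ']
  have h1 : q * 1 ≤ q * (1 + q * S q n') := Nat.mul_le_mul_left _ (by omega)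
  omega

theorem div_eq (q n : ℕ) (hq : 2 ≤ q) (hn : 1 ≤ n) : (q ^ n - q) / (q - 1) = S q n - 1 := by
  have h := geom q n (by omega)
  have hS : 1 ≤ S q n := by
    obtain ⟨n', rfl⟩ : ∃ n', n = n' + 1 := ⟨n - 1, by omega⟩
    rw [S_succ']
    omega
  have h1 : q ^ n - q = (q - 1) * (S q n - 1) := by
    rw [Nat.mul_sub, mul_one]
    omega
  rw [h1, Nat.mul_div_cancel_left _ (by omega : 0 < q - 1)]

/-- the bound proved by induction (the exact minimal degree except in three small cases) -/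
def bnd (N q : ℕ) : ℕ :=
  if N = 3 ∧ (q = 2 ∨ q = 4) then q ^ 2 + q - 2 else if N = 4 ∧ q = 2 then 11 else S q N - 1

/-- from `k + μ = f + a μ` with at least two: a lower bound -/
theorem two_le_mu (a k f μ : ℕ) (ha : 1 ≤ a) (h1 : k + μ = f + a * μ) (hμ : 2 ≤ μ) :
    f + 2 * (a - 1) ≤ k := by
  obtain ⟨b, rfl⟩ : ∃ b, a = b + 1 := ⟨a - 1, by omega⟩
  rw [Nat.add_mul, one_mul] at h1
  have h2 : b * 2 ≤ b * μ := Nat.mul_le_mul_left _ hμ
  simp only [Nat.add_sub_cancel]
  omega

theorem mu_one (a k f : ℕ) (ha : 1 ≤ a) (h1 : k + 1 = f + a * 1) : k = f + (a - 1) := by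
  omega

/-- the top-level step: below the bound the multiplicity is one -/
theorem arith_top (q n k f μ : ℕ) (hq : 2 ≤ q) (hμ : 1 ≤ μ) (h1 : k + μ = f + q ^ n * μ)
    (hlt : k + 1 < S q (n + 1)) : μ = 1 := by
  by_contra hne
  have h2 := two_le_mu (q ^ n) k f μ (Nat.one_le_pow _ _ (by omega)) h1 (by omega)
  have h3 := S_lt q n hq
  rw [S_succ] at hlt
  omega

/-- the standard inductive step -/
theorem arith_std (q n k f μ : ℕ) (hq : 2 ≤ q) (hn : 2 ≤ n) (hμ : 1 ≤ μ)
    (h1 : k + μ = f + q ^ n * μ) (h2 : k ∣ S q (n + 1) * q ^ n * f) (hf : S q n - 1 ≤ f) :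
    S q (n + 1) - 1 ≤ k := by
  by_contra hlt
  push Not at hlt
  have ha1 : 1 ≤ q ^ n := Nat.one_le_pow _ _ (by omega)
  have hS1 := S_lt q n hq
  have hS2 := S_ge q n hq hn
  have hμ1 : μ = 1 := by
    by_contra hne
    have h3 := two_le_mu (q ^ n) k f μ ha1 h1 (by omega)
    rw [S_succ] at hlt
    omega
  subst hμ1
  rw [S_succ] at hlt h2
  have hf' : f = S q n - 1 := by omega
  have hk : k + 2 = S q n + q ^ n := by omega
  have hqdvd : q ∣ k + 1 := by
    obtain ⟨n', rfl⟩ : ∃ n', n = n' + 1 := ⟨n - 1, by omega⟩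
    have e : k + 1 = q * (S q n' + q ^ n') := by
      rw [S_succ', pow_succ] at hk
      rw [mul_add]
      have : q ^ n' * q = q * q ^ n' := mul_comm _ _
      omega
    rw [e]
    exact dvd_mul_right _ _
  have hcop : Nat.Coprime k q := Nat.Coprime.coprime_dvd_right hqdvd (by simp)
  have hcop2 : Nat.Coprime k (q ^ n) := hcop.pow_right n
  have h3 : k ∣ (S q n + q ^ n) * f := by
    apply hcop2.dvd_of_dvd_mul_left
    have e : q ^ n * ((S q n + q ^ n) * f) = (S q n + q ^ n) * q ^ n * f := by ring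
    rw [e]
    exact h2
  rw [← hk, add_mul] at h3
  have h4 : k ∣ 2 * f := (Nat.dvd_add_right (dvd_mul_right k f)).mp h3
  have h5 := Nat.le_of_dvd (by omega) h4
  omega

/-- the base case `n = 3` -/
theorem arith_base (q k f μ : ℕ) (hq : 2 ≤ q) (hq10 : q ≠ 10) (hμ : 1 ≤ μ)
    (h1 : k + μ = f + q ^ 2 * μ) (h2 : k ∣ S q 3 * q ^ 2 * f) (hf : q - 1 ≤ f) : bnd 3 q ≤ k := by
  have hS3 : S q 3 = 1 + q + q ^ 2 := by simp [S, Finset.sum_range_succ]
  have hqq : q * 2 ≤ q * q := Nat.mul_le_mul_left _ hq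
  have hq2 : q ^ 2 = q * q := pow_two q
  unfold bnd
  by_cases hq24 : q = 2 ∨ q = 4
  · rw [if_pos ⟨rfl, hq24⟩]
    have h3 : q ^ 2 * 1 ≤ q ^ 2 * μ := Nat.mul_le_mul_left _ hμ
    rcases hq24 with rfl | rfl
    · norm_num at h1 h3 ⊢
      omega
    · norm_num at h1 h3 ⊢
      omega
  · rw [if_neg (by tauto), if_neg (by omega), hS3]
    rw [hS3] at h2
    have hq3 : 3 ≤ q := by omega
    have hq9 : q * 3 ≤ q * q := Nat.mul_le_mul_left _ hq3
    by_contra hlt
    push Not at hlt
    have hμ1 : μ = 1 := by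
      by_contra hne
      have h3 := two_le_mu (q ^ 2) k f μ (by omega) h1 (by omega)
      omega
    subst hμ1
    have hfc : f = q - 1 ∨ f = q := by omega
    rcases hfc with hfc | hfc
    · -- k = (q + 2) (q - 1)
      have hk : k = (q + 2) * (q - 1) := by
        obtain ⟨r, rfl⟩ : ∃ r, q = r + 1 := ⟨q - 1, by omega⟩
        simp only [Nat.add_sub_cancel] at hfc ⊢
        have e1 : (r + 1) ^ 2 = r * r + 2 * r + 1 := by ring
        have e2 : (r + 1 + 2) * r = r * r + 3 * r := by ring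
        omega
      rw [hk, hfc] at h2
      have h3 : (q + 2) ∣ (1 + q + q ^ 2) * q ^ 2 :=
        Nat.dvd_of_mul_dvd_mul_right (by omega : 0 < q - 1) h2
      have e : (1 + q + q ^ 2) * q ^ 2 + (q + 2) * (q ^ 2 + 6) = (q + 2) * (q ^ 3 + 3 * q) + 12 := by
        ring
      have h4 : (q + 2) ∣ (q + 2) * (q ^ 3 + 3 * q) + 12 := by
        rw [← e]
        exact dvd_add h3 (dvd_mul_right _ _)
      have h5 : (q + 2) ∣ 12 := (Nat.dvd_add_right (dvd_mul_right _ _)).mp h4
      have h6 := Nat.le_of_dvd (by omega) h5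
      have hq10' : q ≤ 10 := by omega
      interval_cases q <;> omega
    · -- k = q² + q - 1
      have hk : k + 1 = q * (q + 1) := by
        have : q * (q + 1) = q * q + q := by ring
        omega
      have hqdvd : q ∣ k + 1 := by
        rw [hk]
        exact dvd_mul_right _ _
      have hcop : Nat.Coprime k q := Nat.Coprime.coprime_dvd_right hqdvd (by simp)
      have hcop2 : Nat.Coprime k (q ^ 2 * f) := by
        rw [hfc]
        exact (hcop.pow_right 2).mul_right hcop
      have h3 : k ∣ 1 + q + q ^ 2 := by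
        apply hcop2.dvd_of_dvd_mul_left
        have e : q ^ 2 * f * (1 + q + q ^ 2) = (1 + q + q ^ 2) * q ^ 2 * f := by ring
        rw [e]
        exact h2
      have e2 : 1 + q + q ^ 2 = k + 2 := by omega
      rw [e2] at h3
      have h4 : k ∣ 2 := (Nat.dvd_add_right (dvd_refl k)).mp h3
      have h5 := Nat.le_of_dvd (by omega) h4
      omega

/-- the inductive step, including the exceptional small cases -/
theorem arith_step (q n k f μ : ℕ) (hq : 2 ≤ q) (hn : 3 ≤ n) (hμ : 1 ≤ μ)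
    (h1 : k + μ = f + q ^ n * μ) (h2 : k ∣ S q (n + 1) * q ^ n * f) (hf : bnd n q ≤ f) :
    bnd (n + 1) q ≤ k := by
  by_cases c1 : n = 3 ∧ q = 2
  · obtain ⟨rfl, rfl⟩ := c1
    have e1 : bnd 3 2 = 4 := by decide
    have e2 : bnd 4 2 = 11 := by decide
    rw [e1] at hf
    rw [e2]
    have h3 : 2 ^ 3 * 1 ≤ 2 ^ 3 * μ := Nat.mul_le_mul_left _ hμ
    norm_num at h1 h3
    omega
  by_cases c2 : n = 3 ∧ q = 4
  · obtain ⟨rfl, rfl⟩ := c2
    have e1 : bnd 3 4 = 18 := by decide
    have e2 : bnd 4 4 = 84 := by decide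
    have e3 : S 4 4 = 85 := by decide
    rw [e1] at hf
    rw [e2]
    rw [e3] at h2
    by_contra hlt
    push Not at hlt
    have hμ1 : μ = 1 := by
      by_contra hne
      have h3 := two_le_mu (4 ^ 3) k f μ (by norm_num) h1 (by omega)
      norm_num at h3
      omega
    subst hμ1
    norm_num at h1
    have hk : k = f + 63 := by omega
    subst hk
    have hf2 : f ≤ 20 := by omega
    interval_cases f <;> omega
  by_cases c3 : n = 4 ∧ q = 2
  · obtain ⟨rfl, rfl⟩ := c3
    have e1 : bnd 4 2 = 11 := by decide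
    have e2 : bnd 5 2 = 30 := by decide
    have e3 : S 2 5 = 31 := by decide
    rw [e1] at hf
    rw [e2]
    rw [e3] at h2
    by_contra hlt
    push Not at hlt
    have hμ1 : μ = 1 := by
      by_contra hne
      have h3 := two_le_mu (2 ^ 4) k f μ (by norm_num) h1 (by omega)
      norm_num at h3
      omega
    subst hμ1
    norm_num at h1
    have hk : k = f + 15 := by omega
    subst hk
    have hf2 : f ≤ 14 := by omega
    interval_cases f <;> omega
  have e1 : bnd n q = S q n - 1 := by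
    unfold bnd
    rw [if_neg (by omega), if_neg (by omega)]
  have e2 : bnd (n + 1) q = S q (n + 1) - 1 := by
    unfold bnd
    rw [if_neg (by omega), if_neg (by omega)]
  rw [e1] at hf
  rw [e2]
  exact arith_std q n k f μ hq (by omega) hμ h1 h2 hf

end Cfsg.Agent.Lib.Helper39.SLMinArith
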