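-- Abstract representation-theoretic lemmas: the averaging projection onto a simultaneous
-- eigenspace and its trace, common eigenvectors inside invariant subspaces, irreducible
-- subrepresentations (Maschke), restriction to an invariant subspace.
import Mathlib
import Cfsg.Agent.Lib.Helper39.LSRep
import Cfsg.Agent.Lib.Helper81.Irr

set_option autoImplicit false

namespace Cfsg.Agent.Lib.Helper39.SLMinRep

open Module Representation
open Cfsg.Agent.Lib.Helper65.RepBound Cfsg.Agent.Lib.Helper39.LSRep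

/-- the trace of the averaging projection: `∑ χ(b)⁻¹ tr ρ(z b) = |ι| · dim V_χ` -/
theorem proj_trace {G V ι : Type*} [Group G] [AddCommGroup V] [Module ℂ V] [FiniteDimensional ℂ V]
    [AddCommGroup ι] [Fintype ι] (ρ : G →* Module.End ℂ V) (z : ι → G)
    (hz : ∀ b b', z (b + b') = z b * z b') (χ : ι → ℂ) (hχ : ∀ b b', χ (b + b') = χ b * χ b')
    (hχ0 : χ 0 = 1) :
    ∑ b, (χ b)⁻¹ * LinearMap.trace ℂ V (ρ (z b)) =
      (Fintype.card ι : ℂ) * (finrank ℂ (ceig ρ z χ) : ℂ) := by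
  classical
  have hne : ∀ b, χ b ≠ 0 := by
    intro b h0
    have := hχ b (-b)
    rw [add_neg_cancel, hχ0, h0, zero_mul] at this
    exact one_ne_zero this
  have hcard : (Fintype.card ι : ℂ) ≠ 0 := by exact_mod_cast Fintype.card_ne_zero
  set S : Module.End ℂ V := ∑ b, (χ b)⁻¹ • ρ (z b) with hS
  have hSv : ∀ v, S v = ∑ b, (χ b)⁻¹ • ρ (z b) v := by
    intro v
    rw [hS, LinearMap.sum_apply]
    rfl
  have h1 : ∀ c v, ρ (z c) (S v) = χ c • S v := by
    intro c v
    rw [hSv, map_sum, Finset.smul_sum,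
      ← Fintype.sum_equiv (Equiv.addLeft c) (fun b => χ c • (χ (c + b))⁻¹ • ρ (z (c + b)) v)
        (fun b => χ c • (χ b)⁻¹ • ρ (z b) v) (fun b => rfl)]
    refine Finset.sum_congr rfl (fun b _ => ?_)
    rw [map_smul, hz, map_mul, Module.End.mul_apply, hχ, smul_smul, mul_inv, ← mul_assoc,
      mul_inv_cancel₀ (hne c), one_mul]
  have h2 : ∀ v ∈ ceig ρ z χ, S v = (Fintype.card ι : ℂ) • v := by
    intro v hv
    have hv' := (mem_ceig ρ z χ v).mp hv
    rw [hSv, Finset.sum_congr rfl (fun b _ => by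
      rw [hv' b, smul_smul, inv_mul_cancel₀ (hne b), one_smul] :
        ∀ b ∈ Finset.univ, (χ b)⁻¹ • ρ (z b) v = v)]
    rw [Finset.sum_const, Finset.card_univ, Nat.cast_smul_eq_nsmul]
  have hproj : LinearMap.IsProj (ceig ρ z χ) ((Fintype.card ι : ℂ)⁻¹ • S) := by
    refine ⟨fun v => ?_, fun v hv => ?_⟩
    · rw [LinearMap.smul_apply]
      apply Submodule.smul_mem
      rw [mem_ceig]
      intro c
      exact h1 c v
    · rw [LinearMap.smul_apply, h2 v hv, smul_smul, inv_mul_cancel₀ hcard, one_smul]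
  have htr := hproj.trace
  rw [map_smul, hS, map_sum] at htr
  simp only [map_smul, smul_eq_mul] at htr
  rw [← htr, ← mul_assoc, mul_inv_cancel₀ hcard, one_mul]

/-- the trace of a representation is a class function -/
theorem trace_conj {G V : Type*} [Group G] [AddCommGroup V] [Module ℂ V]
    (ρ : G →* Module.End ℂ V) (g t : G) :
    LinearMap.trace ℂ V (ρ (g * t * g⁻¹)) = LinearMap.trace ℂ V (ρ t) := by
  rw [ρ.map_mul, ρ.map_mul, LinearMap.trace_mul_comm, ← mul_assoc, ← ρ.map_mul, inv_mul_cancel,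
    ρ.map_one, one_mul]

theorem eig_ne_zero {G V : Type*} [Group G] [AddCommGroup V] [Module ℂ V]
    (ρ : G →* Module.End ℂ V) (g : G) (v : V) (hv : v ≠ 0) (c : ℂ) (h : ρ g v = c • v) : c ≠ 0 := by
  intro hc
  rw [hc, zero_smul] at h
  apply hv
  have := congrArg (ρ g⁻¹) h
  rw [← Module.End.mul_apply, ← map_mul, inv_mul_cancel, map_one, Module.End.one_apply,
    map_zero] at this
  exact this

section eig

variable {W ι : Type*} [AddCommGroup W] [Module ℂ W] [FiniteDimensional ℂ W]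
  [AddCommGroup ι] [Finite ι]

/-- a finite abelian group of operators is simultaneously diagonalisable -/
theorem iSup_iInf_eig_eq_top (T : ι → Module.End ℂ W) (hT : ∀ b b', T (b + b') = T b * T b')
    (hT0 : T 0 = 1) : ⨆ χ : ι → ℂ, ⨅ b, (T b).eigenspace (χ b) = ⊤ := by
  have hTpow : ∀ b (k : ℕ), T (k • b) = T b ^ k := by
    intro b k
    induction k with
    | zero => rw [zero_smul, pow_zero, hT0]
    | succ k ih => rw [succ_nsmul, hT, ih, pow_succ]
  have hN : Nat.card ι ≠ 0 := Nat.card_pos.ne'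
  have hpow : ∀ b, T b ^ Nat.card ι = 1 := by
    intro b
    rw [← hTpow, card_nsmul_eq_zero', hT0]
  have hcomm : Pairwise fun b b' => Commute (T b) (T b') := by
    intro b b' _
    show T b * T b' = T b' * T b
    rw [← hT, ← hT, add_comm]
  have htop := Module.End.iSup_iInf_maxGenEigenspace_eq_top_of_iSup_maxGenEigenspace_eq_top_of_commute
    T hcomm (fun b => Module.End.iSup_maxGenEigenspace_eq_top _)
  rw [← htop]
  congr 1
  funext χ
  congr 1
  funext b
  rw [maxGen_eq_of_pow _ _ hN (hpow b)]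

/-- a common eigenvector with a non-trivial eigenvalue -/
theorem exists_eig_ne (T : ι → Module.End ℂ W) (hT : ∀ b b', T (b + b') = T b * T b')
    (hT0 : T 0 = 1) (b₀ : ι) (hb₀ : T b₀ ≠ 1) :
    ∃ χ : ι → ℂ, ∃ v : W, v ≠ 0 ∧ χ b₀ ≠ 1 ∧ ∀ b, T b v = χ b • v := by
  have htop := iSup_iInf_eig_eq_top T hT hT0
  by_contra hcon
  push Not at hcon
  apply hb₀
  have hle : (⊤ : Submodule ℂ W) ≤ Module.End.eigenspace (T b₀) 1 := by
    rw [← htop]
    apply iSup_le
    intro χ v hv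
    rw [Submodule.mem_iInf] at hv
    by_cases hv0 : v = 0
    · rw [hv0]; exact Submodule.zero_mem _
    · have hχ : χ b₀ = 1 := by
        by_contra hne
        obtain ⟨b, hb⟩ := hcon χ v hv0 hne
        exact hb (Module.End.mem_eigenspace_iff.mp (hv b))
      have := Module.End.mem_eigenspace_iff.mp (hv b₀)
      rw [Module.End.mem_eigenspace_iff, this, hχ]
  apply LinearMap.ext
  intro v
  have := hle (Submodule.mem_top : v ∈ ⊤)
  rw [Module.End.mem_eigenspace_iff, one_smul] at this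
  rw [this, Module.End.one_apply]

/-- a common eigenvector -/
theorem exists_eig [Nontrivial W] (T : ι → Module.End ℂ W)
    (hT : ∀ b b', T (b + b') = T b * T b') (hT0 : T 0 = 1) :
    ∃ χ : ι → ℂ, ∃ v : W, v ≠ 0 ∧ ∀ b, T b v = χ b • v := by
  by_cases h : ∃ b₀, T b₀ ≠ 1
  · obtain ⟨b₀, hb₀⟩ := h
    obtain ⟨χ, v, hv, _, h2⟩ := exists_eig_ne T hT hT0 b₀ hb₀
    exact ⟨χ, v, hv, h2⟩
  · push Not at h
    obtain ⟨v, hv⟩ := exists_ne (0 : W)
    exact ⟨fun _ => 1, v, hv, fun b => by rw [h b, Module.End.one_apply, one_smul]⟩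

end eig

section inv

variable {G V ι : Type*} [Group G] [AddCommGroup V] [Module ℂ V] [FiniteDimensional ℂ V]
  [AddCommGroup ι] [Finite ι]

omit [Finite ι] in
theorem z_zero (z : ι → G) (hz : ∀ b b', z (b + b') = z b * z b') : z 0 = 1 := by
  have := hz 0 0
  rw [add_zero] at this
  exact (mul_eq_left.mp this.symm)

/-- a common eigenvector inside an invariant subspace -/
theorem exists_ceig_in (ρ : G →* Module.End ℂ V) (z : ι → G)
    (hz : ∀ b b', z (b + b') = z b * z b') (E : Submodule ℂ V)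
    (hE : ∀ b, ∀ v ∈ E, ρ (z b) v ∈ E) (hE0 : E ≠ ⊥) :
    ∃ χ : ι → ℂ, ∃ v ∈ E, v ≠ 0 ∧ ∀ b, ρ (z b) v = χ b • v := by
  have : Nontrivial E := Submodule.nontrivial_iff_ne_bot.mpr hE0
  obtain ⟨χ, v, hv, h⟩ := exists_eig (W := E) (fun b => (ρ (z b)).restrict (hE b))
    (fun b b' => by
      apply LinearMap.ext
      intro v
      apply Subtype.ext
      show ρ (z (b + b')) v = ρ (z b) (ρ (z b') v)
      rw [hz, map_mul, Module.End.mul_apply])
    (by
      apply LinearMap.ext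
      intro v
      apply Subtype.ext
      show ρ (z 0) v = v
      rw [z_zero z hz, map_one, Module.End.one_apply])
  refine ⟨χ, v.1, v.2, fun h0 => hv (Subtype.ext h0), fun b => ?_⟩
  exact congrArg Subtype.val (h b)

/-- a common eigenvector inside an invariant subspace, with a non-trivial eigenvalue -/
theorem exists_ceig_in_ne (ρ : G →* Module.End ℂ V) (z : ι → G)
    (hz : ∀ b b', z (b + b') = z b * z b') (E : Submodule ℂ V)
    (hE : ∀ b, ∀ v ∈ E, ρ (z b) v ∈ E) (b₀ : ι) (v₀ : V) (hv₀ : v₀ ∈ E)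
    (hb₀ : ρ (z b₀) v₀ ≠ v₀) :
    ∃ χ : ι → ℂ, ∃ v ∈ E, v ≠ 0 ∧ χ b₀ ≠ 1 ∧ ∀ b, ρ (z b) v = χ b • v := by
  obtain ⟨χ, v, hv, hχ, h⟩ := exists_eig_ne (W := E) (fun b => (ρ (z b)).restrict (hE b))
    (fun b b' => by
      apply LinearMap.ext
      intro v
      apply Subtype.ext
      show ρ (z (b + b')) v = ρ (z b) (ρ (z b') v)
      rw [hz, map_mul, Module.End.mul_apply])
    (by
      apply LinearMap.ext
      intro v
      apply Subtype.ext
      show ρ (z 0) v = v
      rw [z_zero z hz, map_one, Module.End.one_apply]) b₀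
    (by
      intro h1
      apply hb₀
      have := congrArg (fun f : Module.End ℂ E => ((f ⟨v₀, hv₀⟩ : E) : V)) h1
      exact this)
  refine ⟨χ, v.1, v.2, fun h0 => hv (Subtype.ext h0), hχ, fun b => ?_⟩
  exact congrArg Subtype.val (h b)

end inv

section maschke

variable {G V : Type*} [Group G] [Finite G] [AddCommGroup V] [Module ℂ V]

/-- Maschke: an invariant subspace has an invariant complement -/
theorem maschke (ρ : Representation ℂ G V) (U : Submodule ℂ V)
    (hU : ∀ g : G, ∀ v ∈ U, ρ g v ∈ U) :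
    ∃ U' : Submodule ℂ V, (∀ g : G, ∀ v ∈ U', ρ g v ∈ U') ∧ U ⊓ U' = ⊥ ∧ U ⊔ U' = ⊤ := by
  have : NeZero (Nat.card G : ℂ) := ⟨by exact_mod_cast Nat.card_pos.ne'⟩
  have hss : IsSemisimpleRepresentation ρ := inferInstance
  obtain ⟨U', hU'⟩ := hss.exists_isCompl (⟨U, fun g v hv => hU g v hv⟩ : Subrepresentation ρ)
  refine ⟨U'.toSubmodule, fun g v hv => U'.apply_mem_toSubmodule g hv, ?_, ?_⟩
  · exact congrArg Subrepresentation.toSubmodule hU'.inf_eq_bot
  · exact congrArg Subrepresentation.toSubmodule hU'.sup_eq_top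

/-- inside an invariant subspace on which `t` acts non-trivially there is a minimal invariant
subspace on which `t` acts non-trivially -/
theorem exists_irr_sub [FiniteDimensional ℂ V] (ρ : Representation ℂ G V) (V₁ : Submodule ℂ V)
    (hV₁ : ∀ g : G, ∀ v ∈ V₁, ρ g v ∈ V₁) (t : G) (v₀ : V) (hv₀ : v₀ ∈ V₁) (ht : ρ t v₀ ≠ v₀) :
    ∃ W : Submodule ℂ V, W ≤ V₁ ∧ (∀ g : G, ∀ v ∈ W, ρ g v ∈ W) ∧ (∃ v ∈ W, ρ t v ≠ v) ∧
      ∀ U : Submodule ℂ V, U ≤ W → (∀ g : G, ∀ v ∈ U, ρ g v ∈ U) → U = ⊥ ∨ U = W := by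
  classical
  let P : ℕ → Prop := fun n => ∃ W : Submodule ℂ V, W ≤ V₁ ∧ (∀ g : G, ∀ v ∈ W, ρ g v ∈ W) ∧
    (∃ v ∈ W, ρ t v ≠ v) ∧ finrank ℂ W = n
  have hex : ∃ n, P n := ⟨_, V₁, le_rfl, hV₁, ⟨v₀, hv₀, ht⟩, rfl⟩
  obtain ⟨W, hW1, hW2, hW3, hW4⟩ := Nat.find_spec hex
  have hmin : ∀ W' : Submodule ℂ V, W' ≤ V₁ → (∀ g : G, ∀ v ∈ W', ρ g v ∈ W') →
      finrank ℂ W' < finrank ℂ W → ∀ v ∈ W', ρ t v = v := by
    intro W' h1 h2 h3 v hv
    by_contra hne
    exact Nat.find_min hex (lt_of_lt_of_eq h3 hW4) ⟨W', h1, h2, ⟨v, hv, hne⟩, rfl⟩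
  refine ⟨W, hW1, hW2, hW3, ?_⟩
  intro U hUW hU
  by_contra hcon
  push Not at hcon
  obtain ⟨hU0, hUne⟩ := hcon
  obtain ⟨U', hU'inv, hinf, hsup⟩ := maschke ρ U hU
  have hlt1 : finrank ℂ U < finrank ℂ W :=
    Submodule.finrank_lt_finrank_of_lt (lt_of_le_of_ne hUW hUne)
  have hU2ne : U' ⊓ W ≠ W := by
    intro h
    have hWU' : W ≤ U' := by
      rw [← h]
      exact inf_le_left
    apply hU0
    rw [eq_bot_iff, ← hinf]
    exact le_inf le_rfl (hUW.trans hWU')
  have hlt2 : finrank ℂ (U' ⊓ W : Submodule ℂ V) < finrank ℂ W :=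
    Submodule.finrank_lt_finrank_of_lt (lt_of_le_of_ne inf_le_right hU2ne)
  have ht1 := hmin U (hUW.trans hW1) hU hlt1
  have ht2 := hmin (U' ⊓ W) (inf_le_right.trans hW1)
    (fun g v hv => ⟨hU'inv g v hv.1, hW2 g v hv.2⟩) hlt2
  obtain ⟨v, hv, hne⟩ := hW3
  apply hne
  have hvtop : v ∈ U ⊔ U' := by
    rw [hsup]
    exact Submodule.mem_top
  obtain ⟨u, hu, u', hu', rfl⟩ := Submodule.mem_sup.mp hvtop
  have hu'W : u' ∈ W := by
    have : u' = (u + u') - u := by abel
    rw [this]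
    exact W.sub_mem hv (hUW hu)
  rw [map_add, ht1 u hu, ht2 u' ⟨hu', hu'W⟩]

end maschke

section sub

variable {G V : Type*} [Group G] [AddCommGroup V] [Module ℂ V]

/-- the restriction of a representation to an invariant subspace -/
def subRep (ρ : Representation ℂ G V) (W : Submodule ℂ V)
    (hW : ∀ g : G, ∀ v ∈ W, ρ g v ∈ W) : Representation ℂ G W where
  toFun g := (ρ g).restrict (hW g)
  map_one' := by
    apply LinearMap.ext
    intro v
    apply Subtype.ext
    show ρ 1 v = v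
    rw [map_one, Module.End.one_apply]
  map_mul' g h := by
    apply LinearMap.ext
    intro v
    apply Subtype.ext
    show ρ (g * h) v = ρ g (ρ h v)
    rw [map_mul, Module.End.mul_apply]

theorem subRep_apply (ρ : Representation ℂ G V) (W : Submodule ℂ V)
    (hW : ∀ g : G, ∀ v ∈ W, ρ g v ∈ W) (g : G) (v : W) :
    ((subRep ρ W hW g v : W) : V) = ρ g v := rfl

theorem subRep_irr (ρ : Representation ℂ G V) (W : Submodule ℂ V)
    (hW : ∀ g : G, ∀ v ∈ W, ρ g v ∈ W) (hW0 : W ≠ ⊥)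
    (hirr : ∀ U : Submodule ℂ V, U ≤ W → (∀ g : G, ∀ v ∈ U, ρ g v ∈ U) → U = ⊥ ∨ U = W) :
    (subRep ρ W hW).IsIrreducible := by
  rw [Cfsg.Agent.Lib.Helper81.Irr.irr_iff]
  refine ⟨Submodule.nontrivial_iff_ne_bot.mpr hW0, ?_⟩
  intro U' hU'
  have h1 := hirr (U'.map W.subtype) (Submodule.map_subtype_le W U') (by
    rintro g _ ⟨u, hu, rfl⟩
    exact ⟨subRep ρ W hW g u, hU' g u hu, rfl⟩)
  rcases h1 with h1 | h1
  · left
    apply Submodule.map_injective_of_injective W.injective_subtype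
    rw [h1, Submodule.map_bot]
  · right
    apply Submodule.map_injective_of_injective W.injective_subtype
    rw [h1, Submodule.map_subtype_top]

end sub

/-- If the quotient of an integer by a natural number is an algebraic integer then it is an
integer. -/
theorem int_dvd_of_isIntegral_div {x : ℤ} {b : ℕ} (hb : b ≠ 0)
    (h : IsIntegral ℤ ((x : ℂ) / (b : ℂ))) : (b : ℤ) ∣ x := by
  have h1 : IsIntegral ℤ ((x : ℚ) / (b : ℚ)) := by
    rw [← isIntegral_algebraMap_iff (algebraMap ℚ ℂ).injective]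
    simpa using h
  obtain ⟨y, hy⟩ := IsIntegrallyClosed.isIntegral_iff.1 h1
  have hb' : (b : ℚ) ≠ 0 := by exact_mod_cast hb
  have h2 : (x : ℚ) = (y : ℚ) * (b : ℚ) := by
    have : (algebraMap ℤ ℚ y) = (y : ℚ) := rfl
    rw [this] at hy
    rw [hy]; field_simp
  have h3 : x = y * (b : ℤ) := by exact_mod_cast h2
  exact ⟨y, by rw [h3]; ring⟩

end Cfsg.Agent.Lib.Helper39.SLMinRep
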