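-- Trace formulas for the abelian groups of transvections with a fixed covector in SL_N(F),
-- the number of transvections, and the resulting numerical constraints on an irreducible
-- complex representation of SL_N(F).
import Mathlib
import Cfsg.Agent.Lib.Helper39.SLMinTv
import Cfsg.Agent.Lib.Helper39.SLMinRep
import Cfsg.Agent.Lib.Helper39.SLMinArith
import Cfsg.Agent.Lib.Helper83.SLTransv
import Cfsg.Agent.Lib.Helper80.Integrality
import Cfsg.Agent.S2572

set_option autoImplicit false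

namespace Cfsg.Agent.Lib.Helper39.SLMinTrace

open Matrix Module
open Cfsg.Agent.Lib.Helper39.LSHerm Cfsg.Agent.Lib.Helper39.SLMinTv
open Cfsg.Agent.Lib.Helper39.SLMinRep Cfsg.Agent.Lib.Helper39.SLMinArith
open Cfsg.Agent.Lib.Helper65.RepBound Cfsg.Agent.Lib.Helper39.LSRep
open Cfsg.Agent.Lib.Helper83.SLTransv

section pr

variable {F : Type*} [Field F] {N : ℕ}

/-- the projection onto the kernel of `φ` along `φ'` -/
def pr (φ φ' u : Fin N → F) : Fin N → F := u - (φ ⬝ᵥ u) • φ'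

theorem pr_add (φ φ' u u' : Fin N → F) : pr φ φ' (u + u') = pr φ φ' u + pr φ φ' u' := by
  unfold pr
  rw [dotProduct_add, add_smul]
  abel

theorem dot_pr (φ φ' u : Fin N → F) (h : φ ⬝ᵥ φ' = 1) : φ ⬝ᵥ pr φ φ' u = 0 := by
  unfold pr
  rw [dotProduct_sub, dotProduct_smul, h, smul_eq_mul, mul_one, sub_self]

theorem pr_dot (φ φ' u : Fin N → F) (h : φ ⬝ᵥ φ' = 1) : pr φ φ' u ⬝ᵥ φ = 0 := by
  rw [dotProduct_comm]
  exact dot_pr φ φ' u h

theorem pr_of_ker (φ φ' u : Fin N → F) (h0 : φ ⬝ᵥ u = 0) : pr φ φ' u = u := by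
  unfold pr
  rw [h0, zero_smul, sub_zero]

theorem pr_of_ker' (φ φ' u : Fin N → F) (h0 : u ⬝ᵥ φ = 0) : pr φ φ' u = u := by
  rw [dotProduct_comm] at h0
  exact pr_of_ker φ φ' u h0

theorem pr_smul_self (φ φ' : Fin N → F) (h : φ ⬝ᵥ φ' = 1) (c : F) : pr φ φ' (c • φ') = 0 := by
  unfold pr
  rw [dotProduct_smul, h, smul_eq_mul, mul_one, sub_self]

theorem pr_eq_zero_iff (φ φ' u : Fin N → F) (h : φ ⬝ᵥ φ' = 1) :
    pr φ φ' u = 0 ↔ ∃ c : F, c • φ' = u := by
  constructor
  · intro h0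
    exact ⟨φ ⬝ᵥ u, (sub_eq_zero.mp h0).symm⟩
  · rintro ⟨c, rfl⟩
    exact pr_smul_self φ φ' h c

/-- the group `A_φ` of transvections with covector `φ`, parametrised by all of `F^N` -/
noncomputable def zA (φ φ' : Fin N → F) (u : Fin N → F) : Matrix.SpecialLinearGroup (Fin N) F :=
  tS (pr φ φ' u) φ

theorem zA_add (φ φ' : Fin N → F) (h : φ ⬝ᵥ φ' = 1) (u u' : Fin N → F) :
    zA φ φ' (u + u') = zA φ φ' u * zA φ φ' u' := by
  unfold zA
  rw [tS_mul_left _ _ _ (dot_pr φ φ' u h) (dot_pr φ φ' u' h), pr_add]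

theorem zA_of_ker (φ φ' u : Fin N → F) (h0 : φ ⬝ᵥ u = 0) : zA φ φ' u = tS u φ := by
  unfold zA
  rw [pr_of_ker φ φ' u h0]

/-- the group `A'_a` of transvections with vector `a`, parametrised by all of `F^N` -/
noncomputable def zB (a a' : Fin N → F) (w : Fin N → F) : Matrix.SpecialLinearGroup (Fin N) F :=
  tS a (pr a a' w)

theorem zB_add (a a' : Fin N → F) (h : a ⬝ᵥ a' = 1) (w w' : Fin N → F) :
    zB a a' (w + w') = zB a a' w * zB a a' w' := by
  unfold zB
  rw [tS_mul_right _ _ _ (pr_dot a a' w h) (pr_dot a a' w' h), pr_add]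

theorem zB_of_ker (a a' w : Fin N → F) (h0 : w ⬝ᵥ a = 0) : zB a a' w = tS a w := by
  unfold zB
  rw [pr_of_ker' a a' w h0]

end pr

section basis

variable {F : Type*} [Field F] {m : ℕ}

/-- the last basis vector -/
def el (F : Type*) [Field F] (m : ℕ) : Fin (m + 3) → F := Pi.single (Fin.last _) 1

/-- the first basis vector -/
def e0 (F : Type*) [Field F] (m : ℕ) : Fin (m + 3) → F := Pi.single 0 1

theorem last_ne_zero (m : ℕ) : Fin.last (m + 2) ≠ 0 := by
  intro h
  have := congrArg Fin.val h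
  simp at this

theorem el_el : el F m ⬝ᵥ el F m = 1 := by
  unfold el
  rw [single_dotProduct, one_mul, Pi.single_eq_same]

theorem e0_e0 : e0 F m ⬝ᵥ e0 F m = 1 := by
  unfold e0
  rw [single_dotProduct, one_mul, Pi.single_eq_same]

theorem el_e0 : el F m ⬝ᵥ e0 F m = 0 := by
  unfold el e0
  rw [single_dotProduct, one_mul, Pi.single_eq_of_ne (last_ne_zero m)]

theorem e0_el : e0 F m ⬝ᵥ el F m = 0 := by
  rw [dotProduct_comm]
  exact el_e0

theorem el_ne : el F m ≠ 0 := by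
  intro h
  have := el_el (F := F) (m := m)
  rw [h, zero_dotProduct] at this
  exact zero_ne_one this

theorem e0_ne : e0 F m ≠ 0 := by
  intro h
  have := e0_e0 (F := F) (m := m)
  rw [h, zero_dotProduct] at this
  exact zero_ne_one this

theorem el_dot (u : Fin (m + 3) → F) : el F m ⬝ᵥ u = u (Fin.last _) := by
  unfold el
  rw [single_dotProduct, one_mul]

theorem e0_dot (u : Fin (m + 3) → F) : e0 F m ⬝ᵥ u = u 0 := by
  unfold e0
  rw [single_dotProduct, one_mul]

theorem tS_mem_tvSet (u φ : Fin (m + 3) → F) (hu : u ≠ 0) (hφ : φ ≠ 0) (h : φ ⬝ᵥ u = 0) :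
    tS u φ ∈ tvSet F m :=
  mem_of_rep _ u φ hu hφ h (by rw [tS_coe _ _ h]; rfl)

variable {V : Type*} [AddCommGroup V] [Module ℂ V]

theorem rho_tv_ne_one (ρ : Representation ℂ (Matrix.SpecialLinearGroup (Fin (m + 3)) F) V)
    (hne : ρ (stdE F m) ≠ 1) (t : Matrix.SpecialLinearGroup (Fin (m + 3)) F)
    (ht : t ∈ tvSet F m) : ρ t ≠ 1 := by
  obtain ⟨g, hg⟩ := exists_conj_of_mem ht (stdE_mem (F := F) (n := m))
  intro h1
  apply hne
  rw [hg, ρ.map_mul, ρ.map_mul, h1, mul_one, ← ρ.map_mul, mul_inv_cancel, ρ.map_one]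

theorem trace_tv (ρ : Representation ℂ (Matrix.SpecialLinearGroup (Fin (m + 3)) F) V)
    (t : Matrix.SpecialLinearGroup (Fin (m + 3)) F) (ht : t ∈ tvSet F m) :
    LinearMap.trace ℂ V (ρ t) = LinearMap.trace ℂ V (ρ (stdE F m)) := by
  obtain ⟨g, hg⟩ := exists_conj_of_mem (stdE_mem (F := F) (n := m)) ht
  rw [hg, Cfsg.Agent.Lib.Helper39.SLMinRep.trace_conj]

/-- the trace formula for a multiplicative function on `A_φ` -/
theorem trace_formula [Fintype F] [FiniteDimensional ℂ V]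
    (ρ : Representation ℂ (Matrix.SpecialLinearGroup (Fin (m + 3)) F) V)
    (φ φ' : Fin (m + 3) → F) (h : φ ⬝ᵥ φ' = 1)
    (χ : (Fin (m + 3) → F) → ℂ) (hχ : ∀ u u', χ (u + u') = χ u * χ u') (hχ0 : χ 0 = 1)
    (hχ1 : ∀ c : F, χ (c • φ') = 1) :
    ((Fintype.card F : ℂ) ^ (m + 3)) * (finrank ℂ (ceig ρ (zA φ φ') χ) : ℂ) =
      (Fintype.card F : ℂ) * ((finrank ℂ V : ℂ) - LinearMap.trace ℂ V (ρ (stdE F m))) +
        LinearMap.trace ℂ V (ρ (stdE F m)) * ∑ u, (χ u)⁻¹ := by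
  classical
  have hφ : φ ≠ 0 := by
    rintro rfl
    rw [zero_dotProduct] at h
    exact zero_ne_one h
  have hφ' : φ' ≠ 0 := by
    rintro rfl
    rw [dotProduct_zero] at h
    exact zero_ne_one h
  have h1 := proj_trace ρ (zA φ φ') (zA_add φ φ' h) χ hχ hχ0
  have hcard : (Fintype.card (Fin (m + 3) → F) : ℂ) = (Fintype.card F : ℂ) ^ (m + 3) := by
    rw [Fintype.card_fun, Fintype.card_fin, Nat.cast_pow]
  rw [hcard] at h1
  rw [← h1]
  have h2 : ∀ u, (χ u)⁻¹ * LinearMap.trace ℂ V (ρ (zA φ φ' u)) =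
      LinearMap.trace ℂ V (ρ (stdE F m)) * (χ u)⁻¹ + (if pr φ φ' u = 0 then
        ((finrank ℂ V : ℂ) - LinearMap.trace ℂ V (ρ (stdE F m))) else 0) := by
    intro u
    by_cases hu : pr φ φ' u = 0
    · rw [if_pos hu]
      have hz : zA φ φ' u = 1 := by
        unfold zA
        rw [hu, tS_zero_left]
      obtain ⟨c, rfl⟩ := (pr_eq_zero_iff φ φ' u h).mp hu
      rw [hz, ρ.map_one, hχ1, inv_one, LinearMap.trace_one]
      ring
    · rw [if_neg hu, add_zero]
      have hmem : zA φ φ' u ∈ tvSet F m := tS_mem_tvSet _ _ hu hφ (dot_pr φ φ' u h)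
      rw [trace_tv ρ _ hmem, mul_comm]
  rw [Finset.sum_congr rfl (fun u _ => h2 u), Finset.sum_add_distrib, ← Finset.mul_sum,
    Finset.sum_ite, Finset.sum_const_zero, add_zero, Finset.sum_const, nsmul_eq_mul]
  have hc : (Finset.univ.filter (fun u : Fin (m + 3) → F => pr φ φ' u = 0)).card =
      Fintype.card F := by
    have : Finset.univ.filter (fun u : Fin (m + 3) → F => pr φ φ' u = 0) =
        Finset.univ.image (fun c : F => c • φ') := by
      ext u
      simp only [Finset.mem_filter, Finset.mem_univ, true_and, Finset.mem_image]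
      exact pr_eq_zero_iff φ φ' u h
    rw [this, Finset.card_image_of_injective _ (smul_left_injective F hφ'), Finset.card_univ]
  rw [hc]
  ring

end basis

section count

open Cfsg.Agent.S2572 Cfsg.Agent.Lib.Helper43.Transv

variable {F : Type*} [Field F] [Fintype F] {m : ℕ}

omit [Fintype F] in
theorem tS_scale (c : Fˣ) (x : X F (m + 3)) :
    tS (scale c x).1.1 (scale c x).1.2 = tS x.1.1 x.1.2 := by
  apply Subtype.ext
  rw [tS_coe _ _ (scale c x).2.2.2, tS_coe _ _ x.2.2.2]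
  show tv ((c : F) • x.1.1) (((c⁻¹ : Fˣ) : F) • x.1.2) = tv x.1.1 x.1.2
  unfold tv
  rw [smul_vecMulVec, vecMulVec_smul, smul_smul]
  simp

theorem card_X_eq_tv :
    Nat.card (X F (m + 3)) = Nat.card (tvSet F m) * (Fintype.card F - 1) := by
  classical
  have hex : ∀ s : tvSet F m, ∃ x : X F (m + 3), tS x.1.1 x.1.2 = s.1 := by
    rintro ⟨s, hs⟩
    obtain ⟨a, lam, ha, hl, h0, hM⟩ := exists_rep hs
    refine ⟨⟨(a, lam), ha, hl, h0⟩, ?_⟩
    apply Subtype.ext
    rw [tS_coe _ _ h0, hM]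
    rfl
  choose xs hxs using hex
  have hFu : Nat.card Fˣ = Fintype.card F - 1 := by rw [Nat.card_units, Nat.card_eq_fintype_card]
  rw [← hFu, ← Nat.card_prod]
  symm
  apply Nat.card_eq_of_bijective (fun sc : tvSet F m × Fˣ => scale sc.2 (xs sc.1))
  constructor
  · rintro ⟨s, c⟩ ⟨s', c'⟩ h
    have h' : scale c (xs s) = scale c' (xs s') := h
    have h1 : tS (scale c (xs s)).1.1 (scale c (xs s)).1.2 =
        tS (scale c' (xs s')).1.1 (scale c' (xs s')).1.2 := by rw [h']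
    rw [tS_scale, tS_scale, hxs, hxs] at h1
    have hss : s = s' := Subtype.ext h1
    subst hss
    have h2 : (c : F) • (xs s).1.1 = (c' : F) • (xs s).1.1 := by
      have h3 := congrArg (fun x : X F (m + 3) => x.1.1) h'
      exact h3
    have h4 : (c : F) = (c' : F) := smul_left_injective F (xs s).2.1 h2
    rw [Units.ext h4]
  · intro x
    have hmem : tS x.1.1 x.1.2 ∈ tvSet F m := tS_mem_tvSet _ _ x.2.1 x.2.2.1 x.2.2.2
    have h1 : tS (xs ⟨_, hmem⟩).1.1 (xs ⟨_, hmem⟩).1.2 = tS x.1.1 x.1.2 := hxs ⟨_, hmem⟩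
    have h2 : vecMulVec x.1.1 x.1.2 =
        vecMulVec (xs ⟨_, hmem⟩).1.1 (xs ⟨_, hmem⟩).1.2 := by
      have h3 := congrArg Subtype.val h1
      rw [tS_coe _ _ (xs ⟨_, hmem⟩).2.2.2, tS_coe _ _ x.2.2.2] at h3
      unfold tv at h3
      exact (add_left_cancel h3).symm
    obtain ⟨c, hc1, hc2⟩ := vecMulVec_eq_imp _ _ _ _ x.2.1 (xs ⟨_, hmem⟩).2.1 x.2.2.1 h2
    refine ⟨(⟨_, hmem⟩, c), ?_⟩
    apply Subtype.ext
    apply Prod.ext
    · exact hc1.symm
    · exact hc2.symm

/-- the number of transvections -/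
theorem card_tvSet : Nat.card (tvSet F m) * (Fintype.card F - 1) =
    (Fintype.card F ^ (m + 3) - 1) * (Fintype.card F ^ (m + 2) - 1) := by
  rw [← card_X_eq_tv, card_X (by omega)]
  rfl

/-- the centraliser of a transvection has index the number of transvections -/
theorem index_eq : (Subgroup.centralizer
    ({stdE F m} : Set (Matrix.SpecialLinearGroup (Fin (m + 3)) F))).index =
      Nat.card (tvSet F m) := by
  classical
  have h1 : Nat.card (Subgroup.centralizer
      ({stdE F m} : Set (Matrix.SpecialLinearGroup (Fin (m + 3)) F))) *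
        Nat.card (ConjClasses.mk (stdE F m)).carrier =
          Nat.card (Matrix.SpecialLinearGroup (Fin (m + 3)) F) := by
    rw [Subgroup.nat_card_centralizer_nat_card_stabilizer, ← ConjAct.orbit_eq_carrier_conjClasses,
      mul_comm, ← Nat.card_prod]
    exact Nat.card_congr ((MulAction.orbitProdStabilizerEquivGroup
      (ConjAct (Matrix.SpecialLinearGroup (Fin (m + 3)) F)) (stdE F m)).trans
        ConjAct.ofConjAct.toEquiv)
  have h2 := Subgroup.card_mul_index (Subgroup.centralizer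
    ({stdE F m} : Set (Matrix.SpecialLinearGroup (Fin (m + 3)) F)))
  have h3 : (ConjClasses.mk (stdE F m)).carrier = tvSet F m := by
    ext s
    rw [ConjClasses.mem_carrier_iff_mk_eq, ConjClasses.mk_eq_mk_iff_isConj, isConj_iff]
    constructor
    · rintro ⟨c, hc⟩
      have : s = c⁻¹ * stdE F m * c⁻¹⁻¹ := by
        rw [← hc]
        group
      rw [this]
      exact conj_mem_tvSet stdE_mem c⁻¹
    · intro hs
      obtain ⟨g, hg⟩ := exists_conj_of_mem hs (stdE_mem (F := F) (n := m))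
      exact ⟨g, hg.symm⟩
  rw [h3] at h1
  have hpos : 0 < Nat.card (Subgroup.centralizer
      ({stdE F m} : Set (Matrix.SpecialLinearGroup (Fin (m + 3)) F))) := Nat.card_pos
  exact Nat.eq_of_mul_eq_mul_left hpos (h2.trans h1.symm)

end count


section numeric

variable {F : Type*} [Field F] [Fintype F] {m : ℕ} {V : Type*} [AddCommGroup V] [Module ℂ V]
  [FiniteDimensional ℂ V]

/-- the numerical constraints on an irreducible representation on which the transvections act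
non-trivially: with `f` the dimension of the fixed space of `A_φ` (for the last coordinate
functional) and `μ ≥ 1` the common multiplicity of the non-trivial characters of the groups
`A_φ`, `k = f + (q^(N-1) - 1) μ` and `k ∣ (1 + q + ... + q^(N-1)) q^(N-1) f`. -/
theorem numeric (ρ : Representation ℂ (Matrix.SpecialLinearGroup (Fin (m + 3)) F) V)
    [ρ.IsIrreducible] (hne : ρ (stdE F m) ≠ 1) :
    ∃ μ : ℕ, 1 ≤ μ ∧
      finrank ℂ V + μ = finrank ℂ (ceig ρ (zA (el F m) (el F m)) (fun _ => (1 : ℂ))) +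
        Fintype.card F ^ (m + 2) * μ ∧
      finrank ℂ V ∣ S (Fintype.card F) (m + 3) * Fintype.card F ^ (m + 2) *
        finrank ℂ (ceig ρ (zA (el F m) (el F m)) (fun _ => (1 : ℂ))) ∧
      ∀ (φ φ' : Fin (m + 3) → F) (χ : (Fin (m + 3) → F) → ℂ), φ ⬝ᵥ φ' = 1 →
        (∀ u u', χ (u + u') = χ u * χ u') → (∀ c : F, χ (c • φ') = 1) → (∃ u, χ u ≠ 1) →
        finrank ℂ (ceig ρ (zA φ φ') χ) = μ := by
  classical
  set q := Fintype.card F with hq
  set k := finrank ℂ V with hk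
  set τ := LinearMap.trace ℂ V (ρ (stdE F m)) with hτ
  set f := finrank ℂ (ceig ρ (zA (el F m) (el F m)) (fun _ => (1 : ℂ))) with hf
  have hq2 : 2 ≤ q := Fintype.one_lt_card
  have hqC : (q : ℂ) ≠ 0 := by exact_mod_cast (by omega : q ≠ 0)
  have hqa : ((q : ℂ) ^ (m + 2)) ≠ 0 := pow_ne_zero _ hqC
  have T2 : ∀ (φ φ' : Fin (m + 3) → F) (χ : (Fin (m + 3) → F) → ℂ), φ ⬝ᵥ φ' = 1 →
      (∀ u u', χ (u + u') = χ u * χ u') → (∀ c : F, χ (c • φ') = 1) → (∃ u, χ u ≠ 1) →
      ((q : ℂ) ^ (m + 2)) * (finrank ℂ (ceig ρ (zA φ φ') χ) : ℂ) = (k : ℂ) - τ := by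
    intro φ φ' χ h hχ hχ1 hnt
    obtain ⟨u₀, hu₀⟩ := hnt
    have hχ0 : χ 0 = 1 := by
      have := hχ1 0
      rwa [zero_smul] at this
    have h1 := trace_formula ρ φ φ' h χ hχ hχ0 hχ1
    have hsum : ∑ u, (χ u)⁻¹ = 0 :=
      sum_eq_zero_of_mul (fun u => (χ u)⁻¹) (fun u u' => by rw [hχ, mul_inv]) u₀
        (by
          intro h
          apply hu₀
          exact inv_eq_one.mp h)
    rw [hsum, mul_zero, add_zero, pow_succ] at h1
    apply mul_left_cancel₀ hqC
    linear_combination h1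
  have T1 : ((q : ℂ) ^ (m + 2)) * (f : ℂ) = (k : ℂ) - τ + τ * (q : ℂ) ^ (m + 2) := by
    have h1 := trace_formula ρ (el F m) (el F m) el_el (fun _ => (1 : ℂ))
      (fun _ _ => (one_mul 1).symm) rfl (fun _ => rfl)
    have hsum : ∑ _u : Fin (m + 3) → F, ((1 : ℂ))⁻¹ = (q : ℂ) ^ (m + 3) := by
      rw [inv_one, Finset.sum_const, Finset.card_univ, Fintype.card_fun, Fintype.card_fin,
        nsmul_eq_mul, mul_one, Nat.cast_pow]
    rw [hsum, pow_succ] at h1
    apply mul_left_cancel₀ hqC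
    linear_combination h1
  have hex : ∃ χ₀ : (Fin (m + 3) → F) → ℂ, (∀ u u', χ₀ (u + u') = χ₀ u * χ₀ u') ∧
      (∀ c : F, χ₀ (c • el F m) = 1) ∧ (∃ u, χ₀ u ≠ 1) ∧
      ceig ρ (zA (el F m) (el F m)) χ₀ ≠ ⊥ := by
    have hb : ρ (zA (el F m) (el F m) (e0 F m)) ≠ 1 := by
      apply rho_tv_ne_one ρ hne
      rw [zA_of_ker _ _ _ el_e0]
      exact tS_mem_tvSet _ _ e0_ne el_ne el_e0
    obtain ⟨χ₀, h1, h2, h3, h4⟩ :=
      exists_ceig' ρ (zA (el F m) (el F m)) (zA_add _ _ el_el) (e0 F m) hb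
    refine ⟨χ₀, h1, ?_, ⟨_, h3⟩, h4⟩
    intro c
    obtain ⟨v, hv, hv0⟩ := (Submodule.ne_bot_iff _).mp h4
    have hv' := (mem_ceig _ _ _ v).mp hv (c • el F m)
    have hz : zA (el F m) (el F m) (c • el F m) = 1 := by
      unfold zA
      rw [pr_smul_self _ _ el_el, tS_zero_left]
    rw [hz, ρ.map_one, Module.End.one_apply] at hv'
    have h5 : (1 - χ₀ (c • el F m)) • v = 0 := by
      rw [sub_smul, one_smul, ← hv', sub_self]
    rcases smul_eq_zero.mp h5 with h6 | h6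
    · linear_combination -h6
    · exact absurd h6 hv0
  obtain ⟨χ₀, hχ₀1, hχ₀2, hχ₀3, hχ₀4⟩ := hex
  set μ := finrank ℂ (ceig ρ (zA (el F m) (el F m)) χ₀) with hμ
  have hμ1 : 1 ≤ μ := by
    have : Nontrivial (ceig ρ (zA (el F m) (el F m)) χ₀) :=
      Submodule.nontrivial_iff_ne_bot.mpr hχ₀4
    exact Module.finrank_pos
  have hμeq := T2 (el F m) (el F m) χ₀ el_el hχ₀1 hχ₀2 hχ₀3
  have hτeq : τ = (f : ℂ) - μ := by
    apply mul_left_cancel₀ hqa
    linear_combination hμeq - T1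
  have hkeq : (k : ℂ) + μ = f + (q : ℂ) ^ (m + 2) * μ := by
    linear_combination hτeq - hμeq
  have hkN : k + μ = f + q ^ (m + 2) * μ := by exact_mod_cast hkeq
  refine ⟨μ, hμ1, hkN, ?_, ?_⟩
  · -- divisibility from integrality of the central character
    have hint := Cfsg.Agent.Lib.Helper80.Integrality.isIntegral_centralChar_rep ρ (stdE F m)
    rw [Representation.char_one] at hint
    have hchar : ρ.character (stdE F m) = τ := rfl
    rw [hchar, hτeq, index_eq] at hint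
    have hk0 : k ≠ 0 := (Cfsg.Agent.Lib.Helper80.Integrality.finrank_pos_of_isIrreducible ρ).ne'
    have hd : (k : ℤ) ∣ (Nat.card (tvSet F m) : ℤ) * ((f : ℤ) - μ) := by
      apply int_dvd_of_isIntegral_div hk0
      have e : (((Nat.card (tvSet F m) : ℤ) * ((f : ℤ) - μ) : ℤ) : ℂ) =
          (Nat.card (tvSet F m) : ℂ) * ((f : ℂ) - μ) := by push_cast; ring
      rw [e]
      exact hint
    have hcount := card_tvSet (F := F) (m := m)
    have hgeom := geom q (m + 3) (by omega)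
    have hgeom2 := geom q (m + 2) (by omega)
    have ha1 : 1 ≤ q ^ (m + 2) := Nat.one_le_pow _ _ (by omega)
    have hI : Nat.card (tvSet F m) = S q (m + 3) * (q ^ (m + 2) - 1) := by
      have h1 : Nat.card (tvSet F m) * (q - 1) = S q (m + 3) * (q ^ (m + 2) - 1) * (q - 1) := by
        rw [hcount, ← hgeom]
        simp only [Nat.add_sub_cancel]
        ring
      exact Nat.eq_of_mul_eq_mul_right (by omega) h1
    have hIZ : (Nat.card (tvSet F m) : ℤ) = (S q (m + 3) : ℤ) * ((q : ℤ) ^ (m + 2) - 1) := by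
      rw [hI]
      push_cast [Nat.cast_sub ha1]
      ring
    have hkZ : (k : ℤ) + μ = f + (q : ℤ) ^ (m + 2) * μ := by exact_mod_cast hkN
    have e2 : ((S q (m + 3) * q ^ (m + 2) * f : ℕ) : ℤ) =
        (Nat.card (tvSet F m) : ℤ) * ((f : ℤ) - μ) + (S q (m + 3) : ℤ) * k := by
      rw [hIZ]
      push_cast
      linear_combination (-(S q (m + 3) : ℤ)) * hkZ
    apply Int.natCast_dvd_natCast.mp
    rw [e2]
    exact dvd_add hd (dvd_mul_left _ _)
  · intro φ φ' χ h hχ hχ1 hnt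
    have h1 := T2 φ φ' χ h hχ hχ1 hnt
    have h2 : (finrank ℂ (ceig ρ (zA φ φ') χ) : ℂ) = (μ : ℂ) := by
      apply mul_left_cancel₀ hqa
      rw [h1, hμeq]
    exact_mod_cast h2

end numeric

end Cfsg.Agent.Lib.Helper39.SLMinTrace
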