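-- The "no mixed eigenvector" property of representations of SL_N(F): its consequences for the
-- fixed space of the transvection group of a hyperplane, and its proof for representations in
-- which the non-trivial characters of these groups occur with multiplicity one.
import Mathlib
import Cfsg.Agent.Lib.Helper39.SLMinTrace
import Cfsg.Agent.Lib.Helper39.SLTrans

set_option autoImplicit false

namespace Cfsg.Agent.Lib.Helper39.SLMinNM

open Matrix Module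
open Cfsg.Agent.Lib.Helper39.LSHerm Cfsg.Agent.Lib.Helper39.SLMinTv
open Cfsg.Agent.Lib.Helper39.SLMinRep Cfsg.Agent.Lib.Helper39.SLMinArith
open Cfsg.Agent.Lib.Helper65.RepBound Cfsg.Agent.Lib.Helper39.LSRep
open Cfsg.Agent.Lib.Helper83.SLTransv Cfsg.Agent.Lib.Helper39.SLMinTrace

section general

variable {F : Type*} [Field F] {N : ℕ} {V : Type*} [AddCommGroup V] [Module ℂ V]

/-- no common eigenvector of `A_φ` and `A'_a` with both characters non-trivial -/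
def NMs (ρ : Representation ℂ (Matrix.SpecialLinearGroup (Fin N) F) V) : Prop :=
  ∀ φ a : Fin N → F, φ ≠ 0 → a ≠ 0 → φ ⬝ᵥ a = 0 → ∀ v : V, v ≠ 0 → ∀ χ η : (Fin N → F) → ℂ,
    (∀ u, φ ⬝ᵥ u = 0 → ρ (tS u φ) v = χ u • v) → (∀ w, w ⬝ᵥ a = 0 → ρ (tS a w) v = η w • v) →
    (∀ u, φ ⬝ᵥ u = 0 → χ u = 1) ∨ (∀ w, w ⬝ᵥ a = 0 → η w = 1)

/-- the centre of the Heisenberg group acts trivially on a common eigenvector -/
theorem central_trivial (hN : 3 ≤ N)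
    (ρ : Representation ℂ (Matrix.SpecialLinearGroup (Fin N) F) V)
    (φ a : Fin N → F) (ha : a ≠ 0) (hφa : φ ⬝ᵥ a = 0) (v : V) (hv : v ≠ 0)
    (χ η : (Fin N → F) → ℂ) (hχ : ∀ u, φ ⬝ᵥ u = 0 → ρ (tS u φ) v = χ u • v)
    (hη : ∀ w, w ⬝ᵥ a = 0 → ρ (tS a w) v = η w • v) (c : F) :
    η (c • φ) = 1 ∧ χ (c • a) = 1 := by
  obtain ⟨a', ha'⟩ := exists_dual a ha
  obtain ⟨u, hu0, hφu, ha'u⟩ := exists_ker2 hN φ a'
  have hua : ∀ c' : F, u ≠ c' • a := not_smul_of_dual a a' u ha' hu0 ha'u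
  obtain ⟨w₀, hw₀a, hw₀u⟩ := exists_perp_ne a u ha hua
  set w := (c / (w₀ ⬝ᵥ u)) • w₀ with hw
  have hwa : w ⬝ᵥ a = 0 := by rw [hw, smul_dotProduct, hw₀a, smul_zero]
  have hwu : w ⬝ᵥ u = c := by rw [hw, smul_dotProduct, smul_eq_mul, div_mul_cancel₀ _ hw₀u]
  have hcφa : (c • φ) ⬝ᵥ a = 0 := by rw [smul_dotProduct, hφa, smul_zero]
  have hheis := tS_heis u φ a w hφu hwa hφa
  rw [hwu] at hheis
  have h1 : ρ (tS a w) (ρ (tS u φ) v) = ρ (tS u φ) (ρ (tS a w) (ρ (tS a (c • φ)) v)) := by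
    rw [← Module.End.mul_apply, ← ρ.map_mul, hheis, ρ.map_mul, ρ.map_mul, Module.End.mul_apply,
      Module.End.mul_apply]
  have e1 : ρ (tS a w) (ρ (tS u φ) v) = (χ u * η w) • v := by
    rw [hχ u hφu, map_smul, hη w hwa, smul_smul]
  have e2 : ρ (tS u φ) (ρ (tS a w) (ρ (tS a (c • φ)) v)) = (η (c • φ) * η w * χ u) • v := by
    rw [hη (c • φ) hcφa, map_smul, hη w hwa, map_smul, map_smul, hχ u hφu, smul_smul, smul_smul]
  rw [e1, e2] at h1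
  have hχu : χ u ≠ 0 := eig_ne_zero ρ _ v hv _ (hχ u hφu)
  have hηw : η w ≠ 0 := eig_ne_zero ρ _ v hv _ (hη w hwa)
  have h3 := smul_left_injective ℂ hv h1
  have h2 : η (c • φ) = 1 := by
    have h4 : (η (c • φ) - 1) * (η w * χ u) = 0 := by linear_combination -h3
    rcases mul_eq_zero.mp h4 with h5 | h5
    · exact sub_eq_zero.mp h5
    · exact absurd h5 (mul_ne_zero hηw hχu)
  refine ⟨h2, ?_⟩
  have h6 := hχ (c • a) (by rw [dotProduct_smul, hφa, smul_zero])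
  rw [tS_smul c a φ hφa, hη (c • φ) hcφa, h2] at h6
  exact (smul_left_injective ℂ hv h6).symm

/-- conjugating by an element normalising `A_φ` -/
theorem conj_eig_left (ρ : Representation ℂ (Matrix.SpecialLinearGroup (Fin N) F) V)
    (φ : Fin N → F) (g : Matrix.SpecialLinearGroup (Fin N) F) (κ : F) (hκ : κ ≠ 0)
    (hg : φ ᵥ* (g : Matrix (Fin N) (Fin N) F) = κ • φ) (v : V) (u' : Fin N → F)
    (hu' : φ ⬝ᵥ u' = 0) :
    ∃ u : Fin N → F, φ ⬝ᵥ u = 0 ∧ (g : Matrix (Fin N) (Fin N) F) *ᵥ u = κ • u' ∧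
      ρ (tS u' φ) (ρ g v) = ρ g (ρ (tS u φ) v) := by
  set u := κ • ((↑(g⁻¹) : Matrix (Fin N) (Fin N) F) *ᵥ u') with hu
  have hφu : φ ⬝ᵥ u = 0 := by
    rw [hu, dotProduct_smul, Matrix.dotProduct_mulVec, vecMul_inv g φ κ hκ hg, smul_dotProduct,
      hu', smul_zero, smul_zero]
  have hgu : (g : Matrix (Fin N) (Fin N) F) *ᵥ u = κ • u' := by
    rw [hu, Matrix.mulVec_smul, inv_mulVec]
  have hg' : (κ⁻¹ • φ) ᵥ* (g : Matrix (Fin N) (Fin N) F) = φ := by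
    rw [Matrix.smul_vecMul, hg, smul_smul, inv_mul_cancel₀ hκ, one_smul]
  have h1 := tS_conj_left g u φ (κ⁻¹ • φ) hg' hφu
  rw [hgu, tS_smul κ u' (κ⁻¹ • φ) (by rw [smul_dotProduct, hu', smul_zero]), smul_smul,
    mul_inv_cancel₀ hκ, one_smul] at h1
  refine ⟨u, hφu, hgu, ?_⟩
  rw [← Module.End.mul_apply, ← ρ.map_mul, ← h1, ρ.map_mul, Module.End.mul_apply]

/-- conjugating by an element normalising `A'_a` -/
theorem conj_eig_right (ρ : Representation ℂ (Matrix.SpecialLinearGroup (Fin N) F) V)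
    (a : Fin N → F) (g : Matrix.SpecialLinearGroup (Fin N) F) (μ : F)
    (hg : (g : Matrix (Fin N) (Fin N) F) *ᵥ a = μ • a) (v : V) (w : Fin N → F)
    (hw : w ⬝ᵥ a = 0) :
    (w ᵥ* (g : Matrix (Fin N) (Fin N) F)) ⬝ᵥ a = 0 ∧
      ρ (tS a (μ • w)) (ρ g v) = ρ g (ρ (tS a (w ᵥ* (g : Matrix (Fin N) (Fin N) F))) v) := by
  have h0 : w ⬝ᵥ ((g : Matrix (Fin N) (Fin N) F) *ᵥ a) = 0 := by
    rw [hg, dotProduct_smul, hw, smul_zero]
  have h1 := tS_conj_right g a w h0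
  rw [hg, tS_smul μ a w hw] at h1
  refine ⟨by rw [← Matrix.dotProduct_mulVec]; exact h0, ?_⟩
  rw [← Module.End.mul_apply, ← ρ.map_mul, ← h1, ρ.map_mul, Module.End.mul_apply]

/-- an element normalising `A_φ` preserves its fixed space -/
theorem fix_invariant (ρ : Representation ℂ (Matrix.SpecialLinearGroup (Fin N) F) V)
    (φ : Fin N → F) (g : Matrix.SpecialLinearGroup (Fin N) F) (κ : F) (hκ : κ ≠ 0)
    (hg : φ ᵥ* (g : Matrix (Fin N) (Fin N) F) = κ • φ) (v : V)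
    (hv : ∀ u, φ ⬝ᵥ u = 0 → ρ (tS u φ) v = v) :
    ∀ u, φ ⬝ᵥ u = 0 → ρ (tS u φ) (ρ g v) = ρ g v := by
  intro u' hu'
  obtain ⟨u, hu, _, he⟩ := conj_eig_left ρ φ g κ hκ hg v u' hu'
  rw [he, hv u hu]

theorem mem_fix (ρ : Representation ℂ (Matrix.SpecialLinearGroup (Fin N) F) V)
    (φ φ' : Fin N → F) (h : φ ⬝ᵥ φ' = 1) (v : V) :
    v ∈ ceig ρ (zA φ φ') (fun _ => (1 : ℂ)) ↔ ∀ u, φ ⬝ᵥ u = 0 → ρ (tS u φ) v = v := by
  rw [mem_ceig]
  constructor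
  · intro hv u hu
    have := hv u
    rwa [zA_of_ker _ _ _ hu, one_smul] at this
  · intro hv u
    rw [one_smul]
    exact hv _ (dot_pr φ φ' u h)

/-- the key contradiction: an element normalising both groups, fixing the character of `A_φ`
and moving the character of `A'_a` -/
theorem no_mixed_abs (ρ : Representation ℂ (Matrix.SpecialLinearGroup (Fin N) F) V)
    (ψ : AddChar F ℂ) (hψ : ψ 1 ≠ 1) (φ a x y : Fin N → F) (v : V) (hv : v ≠ 0)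
    (hχ : ∀ u, φ ⬝ᵥ u = 0 → ρ (tS u φ) v = ψ (x ⬝ᵥ u) • v)
    (hη : ∀ w, w ⬝ᵥ a = 0 → ρ (tS a w) v = ψ (w ⬝ᵥ y) • v)
    (hmult : ∀ v' : V, (∀ u, φ ⬝ᵥ u = 0 → ρ (tS u φ) v' = ψ (x ⬝ᵥ u) • v') → ∃ c : ℂ, v' = c • v)
    (g : Matrix.SpecialLinearGroup (Fin N) F) (κ μ : F) (hκ : κ ≠ 0)
    (hg1 : φ ᵥ* (g : Matrix (Fin N) (Fin N) F) = κ • φ)
    (hg2 : (g : Matrix (Fin N) (Fin N) F) *ᵥ a = μ • a)
    (hg3 : ∀ u, φ ⬝ᵥ u = 0 → x ⬝ᵥ ((g : Matrix (Fin N) (Fin N) F) *ᵥ u) = κ * (x ⬝ᵥ u))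
    (w₀ : Fin N → F) (hw₀ : w₀ ⬝ᵥ a = 0)
    (hg4 : w₀ ⬝ᵥ ((g : Matrix (Fin N) (Fin N) F) *ᵥ y - μ • y) ≠ 0) : False := by
  have h1 : ∀ u', φ ⬝ᵥ u' = 0 → ρ (tS u' φ) (ρ g v) = ψ (x ⬝ᵥ u') • ρ g v := by
    intro u' hu'
    obtain ⟨u, hu, hgu, he⟩ := conj_eig_left ρ φ g κ hκ hg1 v u' hu'
    have h2 := hg3 u hu
    rw [hgu, dotProduct_smul, smul_eq_mul] at h2
    rw [he, hχ u hu, map_smul, mul_left_cancel₀ hκ h2]
  obtain ⟨c, hc⟩ := hmult (ρ g v) h1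
  have hc0 : c ≠ 0 := eig_ne_zero ρ g v hv c hc
  have h3 : ∀ w, w ⬝ᵥ a = 0 → ψ (w ⬝ᵥ ((g : Matrix (Fin N) (Fin N) F) *ᵥ y - μ • y)) = 1 := by
    intro w hw
    obtain ⟨hw', he⟩ := conj_eig_right ρ a g μ hg2 v w hw
    have e1 : ρ (tS a (μ • w)) (ρ g v) = (c * ψ ((μ • w) ⬝ᵥ y)) • v := by
      rw [hc, map_smul, hη (μ • w) (by rw [smul_dotProduct, hw, smul_zero]), smul_smul]
    have e2 : ρ g (ρ (tS a (w ᵥ* (g : Matrix (Fin N) (Fin N) F))) v) =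
        (ψ ((w ᵥ* (g : Matrix (Fin N) (Fin N) F)) ⬝ᵥ y) * c) • v := by
      rw [hη _ hw', map_smul, hc, smul_smul]
    rw [e1, e2] at he
    have e3 := smul_left_injective ℂ hv he
    have e4 : ψ ((μ • w) ⬝ᵥ y) = ψ ((w ᵥ* (g : Matrix (Fin N) (Fin N) F)) ⬝ᵥ y) := by
      apply mul_left_cancel₀ hc0
      rw [e3, mul_comm]
    rw [dotProduct_sub, Matrix.dotProduct_mulVec, dotProduct_smul, ← smul_dotProduct,
      sub_eq_add_neg, AddChar.map_add_eq_mul, AddChar.map_neg_eq_inv, ← e4,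
      mul_inv_cancel₀ (addChar_ne_zero' ψ _)]
  apply hg4
  apply psi_zero_of_forall ψ hψ
  intro c'
  have := h3 (c' • w₀) (by rw [smul_dotProduct, hw₀, smul_zero])
  rwa [smul_dotProduct, smul_eq_mul] at this

/-- the normalising element for `N ≥ 5`: a transvection -/
theorem exists_g5 (h5 : 5 ≤ N) (φ a x y : Fin N → F) (ha : a ≠ 0) (hy : ∀ c : F, y ≠ c • a) :
    ∃ (g : Matrix.SpecialLinearGroup (Fin N) F) (κ μ : F), κ ≠ 0 ∧
      φ ᵥ* (g : Matrix (Fin N) (Fin N) F) = κ • φ ∧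
      (g : Matrix (Fin N) (Fin N) F) *ᵥ a = μ • a ∧
      (∀ u, φ ⬝ᵥ u = 0 → x ⬝ᵥ ((g : Matrix (Fin N) (Fin N) F) *ᵥ u) = κ * (x ⬝ᵥ u)) ∧
      ∃ w₀ : Fin N → F, w₀ ⬝ᵥ a = 0 ∧
        w₀ ⬝ᵥ ((g : Matrix (Fin N) (Fin N) F) *ᵥ y - μ • y) ≠ 0 := by
  obtain ⟨r, hra, hry⟩ := exists_perp_ne a y ha hy
  obtain ⟨a', ha'⟩ := exists_dual a ha
  obtain ⟨p, hp0, hφp, hxp, hrp, ha'p⟩ := exists_ker4 h5 φ x r a'
  have hpa := not_smul_of_dual a a' p ha' hp0 ha'p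
  obtain ⟨w₁, hw₁a, hw₁p⟩ := exists_perp_ne a p ha hpa
  refine ⟨tS p r, 1, 1, one_ne_zero, ?_, ?_, ?_, w₁, hw₁a, ?_⟩
  · rw [tS_coe _ _ hrp, vecMul_tv, hφp, zero_smul, add_zero, one_smul]
  · rw [tS_coe _ _ hrp, tv_mulVec, hra, zero_smul, add_zero, one_smul]
  · intro u _
    rw [tS_coe _ _ hrp, tv_mulVec, dotProduct_add, dotProduct_smul, hxp, smul_zero, add_zero,
      one_mul]
  · rw [tS_coe _ _ hrp, tv_mulVec, one_smul, add_sub_cancel_left, dotProduct_smul, smul_eq_mul]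
    exact mul_ne_zero hry hw₁p

/-- the normalising element for `N = 4`: a rank two torus element -/
theorem exists_g4 (δ : F) (hδ0 : δ ≠ 0) (hδ : δ ^ 2 ≠ 1) (φ a x y : Fin 4 → F) (ha : a ≠ 0)
    (hφa : φ ⬝ᵥ a = 0) (hxa : x ⬝ᵥ a = 0) (hy : ∀ c : F, y ≠ c • a) :
    ∃ (g : Matrix.SpecialLinearGroup (Fin 4) F) (κ μ : F), κ ≠ 0 ∧
      φ ᵥ* (g : Matrix (Fin 4) (Fin 4) F) = κ • φ ∧
      (g : Matrix (Fin 4) (Fin 4) F) *ᵥ a = μ • a ∧
      (∀ u, φ ⬝ᵥ u = 0 → x ⬝ᵥ ((g : Matrix (Fin 4) (Fin 4) F) *ᵥ u) = κ * (x ⬝ᵥ u)) ∧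
      ∃ w₀ : Fin 4 → F, w₀ ⬝ᵥ a = 0 ∧
        w₀ ⬝ᵥ ((g : Matrix (Fin 4) (Fin 4) F) *ᵥ y - μ • y) ≠ 0 := by
  obtain ⟨a', ha'⟩ := exists_dual a ha
  obtain ⟨p, hp0, hφp, hxp, ha'p⟩ := exists_ker3 (le_refl 4) φ x a'
  have hpa := not_smul_of_dual a a' p ha' hp0 ha'p
  obtain ⟨r₁, hr₁a, hr₁p⟩ := exists_perp_ne a p ha hpa
  obtain ⟨r₂, hr₂a, hr₂y⟩ := exists_perp_ne a y ha hy
  obtain ⟨r₀, hr₀a, hr₀p, hr₀y⟩ : ∃ r₀ : Fin 4 → F, r₀ ⬝ᵥ a = 0 ∧ r₀ ⬝ᵥ p ≠ 0 ∧ r₀ ⬝ᵥ y ≠ 0 := by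
    by_cases h1 : r₁ ⬝ᵥ y = 0
    · by_cases h2 : r₂ ⬝ᵥ p = 0
      · refine ⟨r₁ + r₂, ?_, ?_, ?_⟩
        · rw [add_dotProduct, hr₁a, hr₂a, add_zero]
        · rw [add_dotProduct, h2, add_zero]
          exact hr₁p
        · rw [add_dotProduct, h1, zero_add]
          exact hr₂y
      · exact ⟨r₂, hr₂a, h2, hr₂y⟩
    · exact ⟨r₁, hr₁a, hr₁p, h1⟩
  set r := (r₀ ⬝ᵥ p)⁻¹ • r₀ with hr
  have hra : r ⬝ᵥ a = 0 := by rw [hr, smul_dotProduct, hr₀a, smul_zero]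
  have hrp : r ⬝ᵥ p = 1 := by rw [hr, smul_dotProduct, smul_eq_mul, inv_mul_cancel₀ hr₀p]
  have hry : r ⬝ᵥ y ≠ 0 := by
    rw [hr, smul_dotProduct, smul_eq_mul]
    exact mul_ne_zero (inv_ne_zero hr₀p) hr₀y
  set A := tv ((δ - 1) • p) r with hA
  set B := tv ((δ⁻¹ - 1) • a) a' with hB
  have hdet : (A * B).det = 1 := by
    rw [Matrix.det_mul, hA, hB, det_tv, det_tv, dotProduct_smul, dotProduct_smul, hrp, ha',
      smul_eq_mul, smul_eq_mul, mul_one, mul_one, add_sub_cancel, add_sub_cancel,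
      mul_inv_cancel₀ hδ0]
  have hxA : x ᵥ* A = x := by
    rw [hA, vecMul_tv, dotProduct_smul, hxp, smul_zero, zero_smul, add_zero]
  have hxB : x ᵥ* B = x := by
    rw [hB, vecMul_tv, dotProduct_smul, hxa, smul_zero, zero_smul, add_zero]
  have hrA : r ᵥ* A = δ • r := by
    rw [hA, vecMul_tv, dotProduct_smul, hrp, smul_eq_mul, mul_one, sub_smul, one_smul]
    abel
  have hrB : r ᵥ* B = r := by
    rw [hB, vecMul_tv, dotProduct_smul, hra, smul_zero, zero_smul, add_zero]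
  have hφA : φ ᵥ* A = φ := by
    rw [hA, vecMul_tv, dotProduct_smul, hφp, smul_zero, zero_smul, add_zero]
  have hφB : φ ᵥ* B = φ := by
    rw [hB, vecMul_tv, dotProduct_smul, hφa, smul_zero, zero_smul, add_zero]
  refine ⟨mkSL (A * B) hdet, 1, δ⁻¹, one_ne_zero, ?_, ?_, ?_, r, hra, ?_⟩
  · rw [mkSL_coe, ← Matrix.vecMul_vecMul, hφA, hφB, one_smul]
  · have hBa : B *ᵥ a = δ⁻¹ • a := by
      rw [hB, tv_mulVec, ha', one_smul, sub_smul, one_smul]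
      abel
    have hAa : A *ᵥ a = a := by
      rw [hA, tv_mulVec, hra, zero_smul, add_zero]
    rw [mkSL_coe, ← Matrix.mulVec_mulVec, hBa, Matrix.mulVec_smul, hAa]
  · intro u _
    rw [mkSL_coe, Matrix.dotProduct_mulVec, ← Matrix.vecMul_vecMul, hxA, hxB, one_mul]
  · rw [mkSL_coe, dotProduct_sub, Matrix.dotProduct_mulVec, ← Matrix.vecMul_vecMul, hrA,
      Matrix.smul_vecMul, hrB, smul_dotProduct, dotProduct_smul, smul_eq_mul, smul_eq_mul,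
      ← sub_mul]
    refine mul_ne_zero ?_ hry
    intro h
    apply hδ
    have h2 : δ = δ⁻¹ := sub_eq_zero.mp h
    rw [pow_two]
    nth_rewrite 2 [h2]
    exact mul_inv_cancel₀ hδ0

/-- the normalising element for `N = 3`: a scalar times a rank one torus element -/
theorem exists_g3 (β : F) (hβ0 : β ≠ 0) (hβ : β ^ 3 ≠ 1) (φ a x y : Fin 3 → F) (ha : a ≠ 0)
    (hφa : φ ⬝ᵥ a = 0) (hxa : x ⬝ᵥ a = 0) (hy : ∀ c : F, y ≠ c • a) :
    ∃ (g : Matrix.SpecialLinearGroup (Fin 3) F) (κ μ : F), κ ≠ 0 ∧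
      φ ᵥ* (g : Matrix (Fin 3) (Fin 3) F) = κ • φ ∧
      (g : Matrix (Fin 3) (Fin 3) F) *ᵥ a = μ • a ∧
      (∀ u, φ ⬝ᵥ u = 0 → x ⬝ᵥ ((g : Matrix (Fin 3) (Fin 3) F) *ᵥ u) = κ * (x ⬝ᵥ u)) ∧
      ∃ w₀ : Fin 3 → F, w₀ ⬝ᵥ a = 0 ∧
        w₀ ⬝ᵥ ((g : Matrix (Fin 3) (Fin 3) F) *ᵥ y - μ • y) ≠ 0 := by
  obtain ⟨a', ha'⟩ := exists_dual a ha
  obtain ⟨w₁, hw₁a, hw₁y⟩ := exists_perp_ne a y ha hy
  set δ := (β ^ 3)⁻¹ with hδ
  set B := tv ((δ - 1) • a) a' with hB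
  have hdet : (β • B).det = 1 := by
    rw [Matrix.det_smul, Fintype.card_fin, hB, det_tv, dotProduct_smul, ha', smul_eq_mul, mul_one,
      add_sub_cancel, hδ, mul_inv_cancel₀ (pow_ne_zero 3 hβ0)]
  refine ⟨mkSL (β • B) hdet, β, β * δ, hβ0, ?_, ?_, ?_, w₁, hw₁a, ?_⟩
  · rw [mkSL_coe, Matrix.vecMul_smul, hB, vecMul_tv, dotProduct_smul, hφa, smul_zero, zero_smul,
      add_zero]
  · rw [mkSL_coe, Matrix.smul_mulVec, hB, tv_mulVec, ha', one_smul, sub_smul, one_smul,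
      add_sub_cancel, smul_smul]
  · intro u _
    rw [mkSL_coe, Matrix.dotProduct_mulVec, Matrix.vecMul_smul, hB, vecMul_tv, dotProduct_smul,
      hxa, smul_zero, zero_smul, add_zero, smul_dotProduct, smul_eq_mul]
  · rw [mkSL_coe, dotProduct_sub, Matrix.dotProduct_mulVec, Matrix.vecMul_smul, hB, vecMul_tv,
      dotProduct_smul, hw₁a, smul_zero, zero_smul, add_zero, smul_dotProduct, dotProduct_smul,
      smul_eq_mul, smul_eq_mul]
    have e : β * (w₁ ⬝ᵥ y) - β * δ * (w₁ ⬝ᵥ y) = β * (1 - δ) * (w₁ ⬝ᵥ y) := by ring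
    rw [e]
    refine mul_ne_zero (mul_ne_zero hβ0 ?_) hw₁y
    intro h
    apply hβ
    have h2 : δ = 1 := by linear_combination -h
    rw [hδ] at h2
    exact inv_eq_one.mp h2

theorem exists_pow_ne_one [Fintype F] (d : ℕ) (h : ¬ (Fintype.card F - 1) ∣ d) :
    ∃ β : F, β ≠ 0 ∧ β ^ d ≠ 1 := by
  classical
  obtain ⟨g, hg⟩ := IsCyclic.exists_generator (α := Fˣ)
  have hord : orderOf g = Fintype.card F - 1 := by
    rw [orderOf_eq_card_of_forall_mem_zpowers hg, Nat.card_eq_fintype_card, Fintype.card_units]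
  refine ⟨(g : F), g.ne_zero, ?_⟩
  intro h1
  apply h
  rw [← hord]
  apply orderOf_dvd_of_pow_eq_one
  apply Units.ext
  rw [Units.val_pow_eq_pow_val, h1, Units.val_one]

/-- multiplicity one for the non-trivial characters of the groups `A_φ` implies the absence of
mixed eigenvectors, outside the exceptional cases -/
theorem nms_of_mult [Fintype F] (hN : 3 ≤ N)
    (hex : ¬ (N = 3 ∧ (Fintype.card F = 2 ∨ Fintype.card F = 4)) ∧
      ¬ (N = 4 ∧ (Fintype.card F = 2 ∨ Fintype.card F = 3)))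
    (ψ : AddChar F ℂ) (hψ : ψ 1 ≠ 1)
    (ρ : Representation ℂ (Matrix.SpecialLinearGroup (Fin N) F) V)
    (hmult : ∀ φ x : Fin N → F, φ ≠ 0 → (∃ u, φ ⬝ᵥ u = 0 ∧ ψ (x ⬝ᵥ u) ≠ 1) → ∀ v v' : V, v ≠ 0 →
      (∀ u, φ ⬝ᵥ u = 0 → ρ (tS u φ) v = ψ (x ⬝ᵥ u) • v) →
      (∀ u, φ ⬝ᵥ u = 0 → ρ (tS u φ) v' = ψ (x ⬝ᵥ u) • v') → ∃ c : ℂ, v' = c • v) : NMs ρ := by
  intro φ a hφ ha hφa v hv χ η hχ hη
  by_contra hcon
  push Not at hcon
  obtain ⟨⟨u₀, hu₀, hχu₀⟩, ⟨w₀, hw₀, hηw₀⟩⟩ := hcon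
  obtain ⟨φ', hφ'⟩ := exists_dual φ hφ
  have hφφ' : φ ⬝ᵥ φ' = 1 := by
    rw [dotProduct_comm]
    exact hφ'
  obtain ⟨a', ha'⟩ := exists_dual a ha
  have haa' : a ⬝ᵥ a' = 1 := by
    rw [dotProduct_comm]
    exact ha'
  have hχmul : ∀ u u', φ ⬝ᵥ u = 0 → φ ⬝ᵥ u' = 0 → χ (u + u') = χ u * χ u' := by
    intro u u' hu hu'
    have h1 := hχ (u + u') (by rw [dotProduct_add, hu, hu', add_zero])
    rw [← tS_mul_left u u' φ hu hu', ρ.map_mul, Module.End.mul_apply, hχ u' hu', map_smul,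
      hχ u hu, smul_smul] at h1
    have := smul_left_injective ℂ hv h1
    rw [← this, mul_comm]
  have hχ0 : χ 0 = 1 := by
    have h1 := hχ 0 (dotProduct_zero φ)
    rw [tS_zero_left, ρ.map_one, Module.End.one_apply] at h1
    have h2 : (1 : ℂ) • v = χ 0 • v := by
      rw [one_smul]
      exact h1
    exact (smul_left_injective ℂ hv h2).symm
  have hηmul : ∀ w w', w ⬝ᵥ a = 0 → w' ⬝ᵥ a = 0 → η (w + w') = η w * η w' := by
    intro w w' hw hw'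
    have h1 := hη (w + w') (by rw [add_dotProduct, hw, hw', add_zero])
    rw [← tS_mul_right a w w' hw hw', ρ.map_mul, Module.End.mul_apply, hη w' hw', map_smul,
      hη w hw, smul_smul] at h1
    have := smul_left_injective ℂ hv h1
    rw [← this, mul_comm]
  have hη0 : η 0 = 1 := by
    have h1 := hη 0 (zero_dotProduct a)
    rw [tS_zero_right, ρ.map_one, Module.End.one_apply] at h1
    have h2 : (1 : ℂ) • v = η 0 • v := by
      rw [one_smul]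
      exact h1
    exact (smul_left_injective ℂ hv h2).symm
  have hpr0 : ∀ b b' : Fin N → F, pr b b' 0 = 0 := by
    intro b b'
    unfold pr
    rw [dotProduct_zero, zero_smul, sub_zero]
  obtain ⟨x, hx⟩ := exists_vec ψ hψ (fun u => χ (pr φ φ' u))
    (fun u u' => by
      show χ (pr φ φ' (u + u')) = χ (pr φ φ' u) * χ (pr φ φ' u')
      rw [pr_add]
      exact hχmul _ _ (dot_pr φ φ' u hφφ') (dot_pr φ φ' u' hφφ'))
    (by
      show χ (pr φ φ' 0) = 1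
      rw [hpr0]
      exact hχ0)
  have hχx : ∀ u, φ ⬝ᵥ u = 0 → χ u = ψ (x ⬝ᵥ u) := by
    intro u hu
    have h1 : χ (pr φ φ' u) = ψ (x ⬝ᵥ u) := hx u
    rwa [pr_of_ker φ φ' u hu] at h1
  obtain ⟨y, hy⟩ := exists_vec ψ hψ (fun w => η (pr a a' w))
    (fun w w' => by
      show η (pr a a' (w + w')) = η (pr a a' w) * η (pr a a' w')
      rw [pr_add]
      exact hηmul _ _ (pr_dot a a' w haa') (pr_dot a a' w' haa'))
    (by
      show η (pr a a' 0) = 1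
      rw [hpr0]
      exact hη0)
  have hηy : ∀ w, w ⬝ᵥ a = 0 → η w = ψ (w ⬝ᵥ y) := by
    intro w hw
    have h1 : η (pr a a' w) = ψ (y ⬝ᵥ w) := hy w
    rwa [pr_of_ker' a a' w hw, dotProduct_comm] at h1
  have hxa : x ⬝ᵥ a = 0 := by
    apply psi_zero_of_forall ψ hψ
    intro c
    have h1 := (central_trivial hN ρ φ a ha hφa v hv χ η hχ hη c).2
    rw [hχx _ (by rw [dotProduct_smul, hφa, smul_zero]), dotProduct_smul, smul_eq_mul] at h1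
    exact h1
  have hya : ∀ c : F, y ≠ c • a := by
    intro c hc
    apply hηw₀
    rw [hηy w₀ hw₀, hc, dotProduct_smul, hw₀, smul_zero, AddChar.map_zero_eq_one]
  have hχ' : ∀ u, φ ⬝ᵥ u = 0 → ρ (tS u φ) v = ψ (x ⬝ᵥ u) • v := fun u hu => by
    rw [hχ u hu, hχx u hu]
  have hη' : ∀ w, w ⬝ᵥ a = 0 → ρ (tS a w) v = ψ (w ⬝ᵥ y) • v := fun w hw => by
    rw [hη w hw, hηy w hw]
  have hm := hmult φ x hφ ⟨u₀, hu₀, by rw [← hχx u₀ hu₀]; exact hχu₀⟩ v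
  have hq2 : 2 ≤ Fintype.card F := Fintype.one_lt_card
  obtain ⟨g, κ, μ, hκ, hg1, hg2, hg3, w₁, hw₁, hg4⟩ :
      ∃ (g : Matrix.SpecialLinearGroup (Fin N) F) (κ μ : F), κ ≠ 0 ∧
      φ ᵥ* (g : Matrix (Fin N) (Fin N) F) = κ • φ ∧
      (g : Matrix (Fin N) (Fin N) F) *ᵥ a = μ • a ∧
      (∀ u, φ ⬝ᵥ u = 0 → x ⬝ᵥ ((g : Matrix (Fin N) (Fin N) F) *ᵥ u) = κ * (x ⬝ᵥ u)) ∧
      ∃ w₀ : Fin N → F, w₀ ⬝ᵥ a = 0 ∧
        w₀ ⬝ᵥ ((g : Matrix (Fin N) (Fin N) F) *ᵥ y - μ • y) ≠ 0 := by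
    rcases (by omega : N = 3 ∨ N = 4 ∨ 5 ≤ N) with rfl | rfl | h5
    · obtain ⟨β, hβ0, hβ⟩ := exists_pow_ne_one (F := F) 3 (by
        intro hd
        have h13 : Fintype.card F - 1 = 1 ∨ Fintype.card F - 1 = 3 :=
          (Nat.dvd_prime Nat.prime_three).mp hd
        apply hex.1
        refine ⟨rfl, ?_⟩
        omega)
      exact exists_g3 β hβ0 hβ φ a x y ha hφa hxa hya
    · obtain ⟨δ, hδ0, hδ⟩ := exists_pow_ne_one (F := F) 2 (by
        intro hd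
        have h12 : Fintype.card F - 1 = 1 ∨ Fintype.card F - 1 = 2 :=
          (Nat.dvd_prime Nat.prime_two).mp hd
        apply hex.2
        refine ⟨rfl, ?_⟩
        omega)
      exact exists_g4 δ hδ0 hδ φ a x y ha hφa hxa hya
    · exact exists_g5 h5 φ a x y ha hya
  exact no_mixed_abs ρ ψ hψ φ a x y v hv hχ' hη' (fun v' hv' => hm v' hv hχ' hv') g κ μ hκ hg1 hg2
    hg3 w₁ hw₁ hg4

end general


section structSec

variable {F : Type*} [Field F] {m : ℕ} {V : Type*} [AddCommGroup V] [Module ℂ V]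

theorem one_ne_last (m : ℕ) : (1 : Fin (m + 3)) ≠ Fin.last (m + 2) := by
  intro h
  have h1 := congrArg Fin.val h
  simp at h1

/-- an element fixing the first basis vector and moving `y` into the last coordinate
hyperplane -/
theorem stepA (y : Fin (m + 3) → F) :
    ∃ g : Matrix.SpecialLinearGroup (Fin (m + 3)) F,
      (g : Matrix (Fin (m + 3)) (Fin (m + 3)) F) *ᵥ e0 F m = e0 F m ∧
      el F m ⬝ᵥ ((g : Matrix (Fin (m + 3)) (Fin (m + 3)) F) *ᵥ y) = 0 := by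
  classical
  set e1 : Fin (m + 3) → F := Pi.single 1 1 with he1
  have h10 : e1 ⬝ᵥ e0 F m = 0 := by
    rw [he1, single_dotProduct, one_mul]
    unfold e0
    exact Pi.single_eq_of_ne (fin_zero_ne_one m).symm _
  have h1l : e1 ⬝ᵥ el F m = 0 := by
    rw [he1, single_dotProduct, one_mul]
    unfold el
    exact Pi.single_eq_of_ne (one_ne_last m) _
  have h11 : e1 ⬝ᵥ e1 = 1 := by
    rw [he1, single_dotProduct, one_mul, Pi.single_eq_same]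
  have hl1 : el F m ⬝ᵥ e1 = 0 := by
    rw [dotProduct_comm]
    exact h1l
  have h1y : e1 ⬝ᵥ y = y 1 := by rw [he1, single_dotProduct, one_mul]
  by_cases hy1 : y 1 = 0
  · have hd : (el F m + e1) ⬝ᵥ (e1 - el F m) = 0 := by
      rw [add_dotProduct, dotProduct_sub, dotProduct_sub, hl1, el_el, h11, h1l]
      ring
    refine ⟨tS (e1 - el F m) (el F m + e1), ?_, ?_⟩
    · rw [tS_coe _ _ hd, tv_mulVec, add_dotProduct, el_e0, h10, add_zero, zero_smul, add_zero]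
    · rw [tS_coe _ _ hd, tv_mulVec, dotProduct_add, dotProduct_smul, dotProduct_sub, hl1, el_el,
        add_dotProduct, el_dot, h1y, hy1, smul_eq_mul]
      ring
  · have hd : (-(y (Fin.last _) / y 1) • e1) ⬝ᵥ el F m = 0 := by
      rw [smul_dotProduct, h1l, smul_zero]
    refine ⟨tS (el F m) (-(y (Fin.last _) / y 1) • e1), ?_, ?_⟩
    · rw [tS_coe _ _ hd, tv_mulVec, smul_dotProduct, h10, smul_zero, zero_smul, add_zero]
    · rw [tS_coe _ _ hd, tv_mulVec, dotProduct_add, dotProduct_smul, el_el, smul_dotProduct,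
        el_dot, h1y, smul_eq_mul, smul_eq_mul, mul_one]
      field_simp
      ring

/-- the structure of a representation without mixed eigenvectors: the fixed space of `A_φ`
(for the last coordinate functional) contains a vector moved by a transvection of the
complementary `SL_{N-1}` -/
theorem struct [Fintype F] [FiniteDimensional ℂ V] (ψ : AddChar F ℂ) (hψ : ψ 1 ≠ 1)
    (ρ : Representation ℂ (Matrix.SpecialLinearGroup (Fin (m + 3)) F) V) (hNM : NMs ρ)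
    (hne : ρ (stdE F m) ≠ 1) :
    ∃ v : V, v ≠ 0 ∧ (∀ u, el F m ⬝ᵥ u = 0 → ρ (tS u (el F m)) v = v) ∧
      ∃ w : Fin (m + 3) → F, w ⬝ᵥ e0 F m = 0 ∧ w ⬝ᵥ el F m = 0 ∧ ρ (tS (e0 F m) w) v ≠ v := by
  classical
  have hb : ρ (zB (e0 F m) (e0 F m) (el F m)) ≠ 1 := by
    apply rho_tv_ne_one ρ hne
    rw [zB_of_ker _ _ _ el_e0]
    exact tS_mem_tvSet _ _ e0_ne el_ne el_e0
  obtain ⟨η', hη'1, hη'0, hη'3, hη'4⟩ :=
    exists_ceig' ρ (zB (e0 F m) (e0 F m)) (zB_add _ _ e0_e0) (el F m) hb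
  obtain ⟨v₁, hv₁, hv₁0⟩ := (Submodule.ne_bot_iff _).mp hη'4
  have hv₁' := (mem_ceig _ _ _ v₁).mp hv₁
  obtain ⟨y, hy⟩ := exists_vec ψ hψ η' hη'1 hη'0
  have hv₁e : ∀ w, w ⬝ᵥ e0 F m = 0 → ρ (tS (e0 F m) w) v₁ = ψ (w ⬝ᵥ y) • v₁ := by
    intro w hw
    have := hv₁' w
    rw [zB_of_ker _ _ _ hw, hy, dotProduct_comm] at this
    exact this
  have hyl : ψ (el F m ⬝ᵥ y) ≠ 1 := by
    rw [dotProduct_comm, ← hy]
    exact hη'3
  obtain ⟨g, hg1, hg2⟩ := stepA y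
  have hginv : (↑(g⁻¹) : Matrix (Fin (m + 3)) (Fin (m + 3)) F) *ᵥ e0 F m = e0 F m := by
    have := inv_mulVec g⁻¹ (e0 F m)
    rw [inv_inv, hg1] at this
    exact this
  set v₂ := ρ g v₁ with hv₂
  set y' := (g : Matrix (Fin (m + 3)) (Fin (m + 3)) F) *ᵥ y with hy'
  have hv₂0 : v₂ ≠ 0 := by
    intro h
    apply hv₁0
    have := congrArg (ρ g⁻¹) h
    rw [hv₂, ← Module.End.mul_apply, ← ρ.map_mul, inv_mul_cancel, ρ.map_one,
      Module.End.one_apply, map_zero] at this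
    exact this
  have hv₂e : ∀ w, w ⬝ᵥ e0 F m = 0 → ρ (tS (e0 F m) w) v₂ = ψ (w ⬝ᵥ y') • v₂ := by
    intro w hw
    obtain ⟨hw', he⟩ := conj_eig_right ρ (e0 F m) g 1 (by rw [hg1, one_smul]) v₁ w hw
    rw [one_smul] at he
    rw [hv₂, he, hv₁e _ hw', map_smul, hy', Matrix.dotProduct_mulVec]
  obtain ⟨w₁, hw₁0, hw₁l, hw₁⟩ : ∃ w₁ : Fin (m + 3) → F, w₁ ⬝ᵥ e0 F m = 0 ∧
      w₁ ⬝ᵥ el F m = 0 ∧ ψ (w₁ ⬝ᵥ y') ≠ 1 := by
    set w := el F m ᵥ* (↑(g⁻¹) : Matrix (Fin (m + 3)) (Fin (m + 3)) F) with hw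
    have hw0 : w ⬝ᵥ e0 F m = 0 := by
      rw [hw, ← Matrix.dotProduct_mulVec, hginv, el_e0]
    have hwy : w ⬝ᵥ y' = el F m ⬝ᵥ y := by
      rw [hw, hy', ← Matrix.dotProduct_mulVec, Matrix.mulVec_mulVec,
        ← Matrix.SpecialLinearGroup.coe_mul, inv_mul_cancel, Matrix.SpecialLinearGroup.coe_one,
        Matrix.one_mulVec]
    have hyl' : y' ⬝ᵥ el F m = 0 := by
      rw [dotProduct_comm]
      exact hg2
    refine ⟨w - (w ⬝ᵥ el F m) • el F m, ?_, ?_, ?_⟩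
    · rw [sub_dotProduct, smul_dotProduct, hw0, el_e0, smul_zero, sub_zero]
    · rw [sub_dotProduct, smul_dotProduct, el_el, smul_eq_mul, mul_one, sub_self]
    · rw [sub_dotProduct, smul_dotProduct, dotProduct_comm (el F m) y', hyl', smul_zero, sub_zero,
        hwy]
      exact hyl
  set η'' : (Fin (m + 3) → F) → ℂ := fun w => ψ (pr (e0 F m) (e0 F m) w ⬝ᵥ y') with hη''
  set E₂ := ceig ρ (zB (e0 F m) (e0 F m)) η'' with hE₂
  have hv₂E : v₂ ∈ E₂ := by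
    rw [hE₂, mem_ceig]
    intro w
    exact hv₂e _ (pr_dot _ _ w e0_e0)
  have hE₂mem : ∀ v ∈ E₂, ∀ w, w ⬝ᵥ e0 F m = 0 → ρ (tS (e0 F m) w) v = ψ (w ⬝ᵥ y') • v := by
    intro v hv w hw
    have h1 := (mem_ceig _ _ _ v).mp hv w
    rw [zB_of_ker _ _ _ hw] at h1
    rw [h1]
    show ψ (pr (e0 F m) (e0 F m) w ⬝ᵥ y') • v = ψ (w ⬝ᵥ y') • v
    rw [pr_of_ker' _ _ w hw]
  have hE₂inv : ∀ u, ∀ v ∈ E₂, ρ (zA (el F m) (el F m) u) v ∈ E₂ := by
    intro u v hv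
    rw [hE₂, mem_ceig]
    intro w
    have hw'0 : pr (e0 F m) (e0 F m) w ⬝ᵥ e0 F m = 0 := pr_dot _ _ w e0_e0
    have hu'l : el F m ⬝ᵥ pr (el F m) (el F m) u = 0 := dot_pr _ _ u el_el
    have hheis := tS_heis (pr (el F m) (el F m) u) (el F m) (e0 F m) (pr (e0 F m) (e0 F m) w)
      hu'l hw'0 el_e0
    show ρ (tS (e0 F m) (pr (e0 F m) (e0 F m) w)) (ρ (tS (pr (el F m) (el F m) u) (el F m)) v) =
      ψ (pr (e0 F m) (e0 F m) w ⬝ᵥ y') • ρ (tS (pr (el F m) (el F m) u) (el F m)) v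
    rw [← Module.End.mul_apply, ← ρ.map_mul, hheis, ρ.map_mul, ρ.map_mul, Module.End.mul_apply,
      Module.End.mul_apply]
    have hc : ∀ c : F, ρ (tS (e0 F m) (c • el F m)) v = v := by
      intro c
      rw [hE₂mem v hv _ (by rw [smul_dotProduct, el_e0, smul_zero]), smul_dotProduct, hg2,
        smul_zero, AddChar.map_zero_eq_one, one_smul]
    rw [hc, hE₂mem v hv _ hw'0, map_smul]
  have hE₂0 : E₂ ≠ ⊥ := by
    intro h
    rw [h] at hv₂E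
    exact hv₂0 ((Submodule.mem_bot ℂ).mp hv₂E)
  obtain ⟨χ', v₃, hv₃E, hv₃0, hv₃⟩ :=
    exists_ceig_in ρ (zA (el F m) (el F m)) (zA_add _ _ el_el) E₂ hE₂inv hE₂0
  have hfl := hNM (el F m) (e0 F m) el_ne e0_ne el_e0 v₃ hv₃0 χ' (fun w => ψ (w ⬝ᵥ y'))
    (fun u hu => by
      have := hv₃ u
      rwa [zA_of_ker _ _ _ hu] at this)
    (fun w hw => hE₂mem v₃ hv₃E w hw)
  rcases hfl with hfl | hfl
  · refine ⟨v₃, hv₃0, ?_, w₁, hw₁0, hw₁l, ?_⟩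
    · intro u hu
      have := hv₃ u
      rw [zA_of_ker _ _ _ hu, hfl u hu, one_smul] at this
      exact this
    · rw [hE₂mem v₃ hv₃E w₁ hw₁0]
      intro h
      apply hw₁
      have h2 : ψ (w₁ ⬝ᵥ y') • v₃ = (1 : ℂ) • v₃ := by
        rw [one_smul]
        exact h
      exact smul_left_injective ℂ hv₃0 h2
  · exact absurd (hfl w₁ hw₁0) hw₁

end structSec


section three

variable {F : Type*} [Field F] {V : Type*} [AddCommGroup V] [Module ℂ V]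

theorem fin3_cases (j : Fin (0 + 3)) : j = 0 ∨ j = 1 ∨ j = Fin.last 2 := by
  rcases j with ⟨j, hj⟩
  have hj' : j < 3 := hj
  interval_cases j
  · left; rfl
  · right; left; rfl
  · right; right; rfl

/-- for `N = 3` the fixed space of `A_φ` has dimension at least `q - 1` -/
theorem fix_ge [Fintype F] [FiniteDimensional ℂ V]
    (ρ : Representation ℂ (Matrix.SpecialLinearGroup (Fin (0 + 3)) F) V) (v : V)
    (hfix : ∀ u, el F 0 ⬝ᵥ u = 0 → ρ (tS u (el F 0)) v = v) (w : Fin (0 + 3) → F)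
    (hw0 : w ⬝ᵥ e0 F 0 = 0) (hwl : w ⬝ᵥ el F 0 = 0) (hne : ρ (tS (e0 F 0) w) v ≠ v) :
    Fintype.card F - 1 ≤ finrank ℂ (ceig ρ (zA (el F 0) (el F 0)) (fun _ => (1 : ℂ))) := by
  classical
  set V₁ := ceig ρ (zA (el F 0) (el F 0)) (fun _ => (1 : ℂ)) with hV₁
  have hV₁mem : ∀ v', v' ∈ V₁ ↔ ∀ u, el F 0 ⬝ᵥ u = 0 → ρ (tS u (el F 0)) v' = v' :=
    fun v' => mem_fix ρ (el F 0) (el F 0) el_el v'
  have hw0' : w 0 = 0 := by
    have := hw0
    rw [dotProduct_comm, e0_dot] at this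
    exact this
  have hwl' : w (Fin.last 2) = 0 := by
    have := hwl
    rw [dotProduct_comm, el_dot] at this
    exact this
  have hcw : ∀ c : F, (c • w) ⬝ᵥ e0 F 0 = 0 := fun c => by rw [smul_dotProduct, hw0, smul_zero]
  set zU : F → Matrix.SpecialLinearGroup (Fin (0 + 3)) F := fun c => tS (e0 F 0) (c • w) with hzU
  have hzU_add : ∀ c c', zU (c + c') = zU c * zU c' := by
    intro c c'
    show tS (e0 F 0) ((c + c') • w) = tS (e0 F 0) (c • w) * tS (e0 F 0) (c' • w)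
    rw [tS_mul_right _ _ _ (hcw c) (hcw c'), add_smul]
  have hV₁inv : ∀ c, ∀ v' ∈ V₁, ρ (zU c) v' ∈ V₁ := by
    intro c v' hv'
    rw [hV₁mem] at hv' ⊢
    apply fix_invariant ρ (el F 0) (zU c) 1 one_ne_zero _ v' hv'
    show el F 0 ᵥ* (↑(tS (e0 F 0) (c • w)) : Matrix (Fin (0 + 3)) (Fin (0 + 3)) F) = 1 • el F 0
    rw [tS_coe _ _ (hcw c), vecMul_tv, el_e0, zero_smul, add_zero, one_smul]
  have hvV₁ : v ∈ V₁ := (hV₁mem v).mpr hfix
  obtain ⟨χ, v', hv'V₁, hv'0, hχ1, hv'⟩ := exists_ceig_in_ne ρ zU hzU_add V₁ hV₁inv 1 v hvV₁ (by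
    show ρ (tS (e0 F 0) ((1 : F) • w)) v ≠ v
    rw [one_smul]
    exact hne)
  have hχmul : ∀ c c', χ (c + c') = χ c * χ c' := by
    intro c c'
    have h1 := hv' (c + c')
    rw [hzU_add, ρ.map_mul, Module.End.mul_apply, hv' c', map_smul, hv' c, smul_smul] at h1
    have := smul_left_injective ℂ hv'0 h1
    rw [← this, mul_comm]
  have hχne : ∀ c, χ c ≠ 0 := fun c => eig_ne_zero ρ (zU c) v' hv'0 (χ c) (hv' c)
  have hg : ∀ d : Fˣ, ∃ g : Matrix.SpecialLinearGroup (Fin (0 + 3)) F,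
      (∀ v'' ∈ V₁, ρ g v'' ∈ V₁) ∧ ∀ c, g * zU (c * (d : F)) = zU c * g := by
    intro d
    have hdd : (1 : F) * (d : F) * ((d⁻¹ : Fˣ) : F) = 1 := by simp
    set g := Cfsg.Agent.Lib.Helper39.SLTrans.dg (m := 0) (1 : F) (d : F) ((d⁻¹ : Fˣ) : F) hdd with hgdef
    have hgcoe : (g : Matrix (Fin (0 + 3)) (Fin (0 + 3)) F) =
        Matrix.diagonal (Cfsg.Agent.Lib.Helper39.SLTrans.dvec (m := 0) (1 : F) (d : F) ((d⁻¹ : Fˣ) : F)) := rfl
    have hd0 : Cfsg.Agent.Lib.Helper39.SLTrans.dvec (m := 0) (1 : F) (d : F) ((d⁻¹ : Fˣ) : F) 0 = 1 := rfl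
    have hd1 : Cfsg.Agent.Lib.Helper39.SLTrans.dvec (m := 0) (1 : F) (d : F) ((d⁻¹ : Fˣ) : F) 1 = (d : F) := rfl
    have hd2 : Cfsg.Agent.Lib.Helper39.SLTrans.dvec (m := 0) (1 : F) (d : F) ((d⁻¹ : Fˣ) : F) (Fin.last 2) = ((d⁻¹ : Fˣ) : F) := rfl
    have hge0 : (g : Matrix (Fin (0 + 3)) (Fin (0 + 3)) F) *ᵥ e0 F 0 = e0 F 0 := by
      rw [hgcoe]
      unfold e0
      rw [Matrix.diagonal_mulVec_single, hd0, one_mul]
    have hgel : el F 0 ᵥ* (g : Matrix (Fin (0 + 3)) (Fin (0 + 3)) F) = ((d⁻¹ : Fˣ) : F) • el F 0 := by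
      rw [hgcoe]
      funext j
      rw [Matrix.vecMul_diagonal, Pi.smul_apply, smul_eq_mul]
      by_cases hj : j = Fin.last 2
      · rw [hj, hd2, mul_comm]
      · have : el F 0 j = 0 := by
          unfold el
          exact Pi.single_eq_of_ne hj _
        rw [this, zero_mul, mul_zero]
    refine ⟨g, ?_, ?_⟩
    · intro v'' hv''
      rw [hV₁mem] at hv'' ⊢
      exact fix_invariant ρ (el F 0) g _ (d⁻¹).ne_zero hgel v'' hv''
    · intro c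
      have hvm : (c • w) ᵥ* (g : Matrix (Fin (0 + 3)) (Fin (0 + 3)) F) = (c * (d : F)) • w := by
        rw [hgcoe]
        funext j
        rw [Matrix.vecMul_diagonal, Pi.smul_apply, Pi.smul_apply, smul_eq_mul, smul_eq_mul]
        rcases fin3_cases j with rfl | rfl | rfl
        · rw [hw0', mul_zero, zero_mul, mul_zero]
        · rw [hd1]
          ring
        · rw [hwl', mul_zero, zero_mul, mul_zero]
      have h1 := tS_conj_right g (e0 F 0) (c • w) (by rw [hge0]; exact hcw c)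
      rw [hvm, hge0] at h1
      exact h1
  choose gs hgs1 hgs2 using hg
  set χs : Fˣ → F → ℂ := fun d c => χ (c * (d : F)) with hχs
  have hinj : Function.Injective χs := by
    intro d d' h
    by_contra hdd
    apply hχ1
    have hne' : (d : F) - d' ≠ 0 := sub_ne_zero.mpr (fun h' => hdd (Units.ext h'))
    have h1 : χ (((d : F) - d')⁻¹ * (d : F)) = χ (((d : F) - d')⁻¹ * (d' : F)) :=
      congrFun h ((d : F) - d')⁻¹
    have e : ((d : F) - d')⁻¹ * d = ((d : F) - d')⁻¹ * d' + 1 := by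
      field_simp
      ring
    rw [e, hχmul] at h1
    exact mul_left_cancel₀ (hχne _) (h1.trans (mul_one _).symm)
  have hind : iSupIndep (fun d : Fˣ => ceig ρ zU (χs d)) :=
    (indep_ceig ρ zU (fun b b' => by rw [← hzU_add, ← hzU_add, add_comm b b'])).comp hinj
  have hmem : ∀ d : Fˣ, ρ (gs d) v' ∈ ceig ρ zU (χs d) := by
    intro d
    rw [mem_ceig]
    intro c
    rw [← Module.End.mul_apply, ← ρ.map_mul, ← hgs2 d c, ρ.map_mul, Module.End.mul_apply,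
      hv' (c * (d : F)), map_smul]
  have hne0 : ∀ d : Fˣ, ρ (gs d) v' ≠ 0 := by
    intro d h
    apply hv'0
    have := congrArg (ρ (gs d)⁻¹) h
    rw [← Module.End.mul_apply, ← ρ.map_mul, inv_mul_cancel, ρ.map_one, Module.End.one_apply,
      map_zero] at this
    exact this
  have hli := hind.linearIndependent _ hmem hne0
  have hli' : LinearIndependent ℂ (fun d : Fˣ => (⟨ρ (gs d) v', hgs1 d v' hv'V₁⟩ : V₁)) := by
    apply LinearIndependent.of_comp V₁.subtype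
    exact hli
  have := hli'.fintype_card_le_finrank
  rw [Fintype.card_units] at this
  exact this

end three

end Cfsg.Agent.Lib.Helper39.SLMinNM
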