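-- The embedding of SL_n(F) into SL_{n+1}(F) fixing the last basis vector and the last coordinate
-- functional; the "no mixed eigenvector" property is inherited by the fixed space of the
-- transvection group of the last coordinate hyperplane, which gives the inductive bound on its
-- dimension.
import Mathlib
import Cfsg.Agent.Lib.Helper39.SLMinNM

set_option autoImplicit false

namespace Cfsg.Agent.Lib.Helper39.SLMinEmb

open Matrix Module
open Cfsg.Agent.Lib.Helper39.LSHerm Cfsg.Agent.Lib.Helper39.SLMinTv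
open Cfsg.Agent.Lib.Helper39.SLMinRep Cfsg.Agent.Lib.Helper39.SLMinArith
open Cfsg.Agent.Lib.Helper65.RepBound Cfsg.Agent.Lib.Helper39.LSRep
open Cfsg.Agent.Lib.Helper83.SLTransv Cfsg.Agent.Lib.Helper39.SLMinTrace
open Cfsg.Agent.Lib.Helper39.SLMinNM

section gen

variable {F : Type*} [Field F] {n : ℕ}

/-- extension of a vector by zero in the last coordinate -/
def ext (u : Fin n → F) : Fin (n + 1) → F := Fin.snoc (α := fun _ => F) u 0

/-- restriction of a vector to the first coordinates -/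
def res (U : Fin (n + 1) → F) : Fin n → F := fun i => U (Fin.castSucc i)

/-- the last basis vector -/
def eL (F : Type*) [Field F] (n : ℕ) : Fin (n + 1) → F := Pi.single (Fin.last n) 1

theorem ext_castSucc (u : Fin n → F) (i : Fin n) : ext u (Fin.castSucc i) = u i := by
  unfold ext
  exact Fin.snoc_castSucc (α := fun _ => F) _ _ _

theorem ext_last (u : Fin n → F) : ext u (Fin.last n) = 0 := by
  unfold ext
  exact Fin.snoc_last (α := fun _ => F) _ _

theorem eL_castSucc (i : Fin n) : eL F n (Fin.castSucc i) = 0 :=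
  Pi.single_eq_of_ne (Fin.castSucc_lt_last i).ne _

theorem eL_last : eL F n (Fin.last n) = 1 := Pi.single_eq_same _ _

theorem res_ext (u : Fin n → F) : res (ext u) = u := funext (fun i => ext_castSucc u i)

theorem ext_dot (u w : Fin n → F) : ext u ⬝ᵥ ext w = u ⬝ᵥ w := by
  simp only [dotProduct, Fin.sum_univ_castSucc, ext_castSucc, ext_last, mul_zero, add_zero]

theorem ext_dot' (u : Fin n → F) (W : Fin (n + 1) → F) : ext u ⬝ᵥ W = u ⬝ᵥ res W := by
  simp only [dotProduct, Fin.sum_univ_castSucc, ext_castSucc, ext_last, zero_mul, add_zero, res]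

theorem dot_ext (U : Fin (n + 1) → F) (w : Fin n → F) : U ⬝ᵥ ext w = res U ⬝ᵥ w := by
  rw [dotProduct_comm, ext_dot', dotProduct_comm]

theorem eL_dot (U : Fin (n + 1) → F) : eL F n ⬝ᵥ U = U (Fin.last n) := by
  unfold eL
  rw [single_dotProduct, one_mul]

theorem eL_eL : eL F n ⬝ᵥ eL F n = 1 := by rw [eL_dot, eL_last]

theorem eL_ext (u : Fin n → F) : eL F n ⬝ᵥ ext u = 0 := by rw [eL_dot, ext_last]

theorem decomp (U : Fin (n + 1) → F) : U = ext (res U) + (U (Fin.last n)) • eL F n := by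
  funext i
  refine Fin.lastCases ?_ (fun j => ?_) i
  · rw [Pi.add_apply, Pi.smul_apply, ext_last, eL_last, smul_eq_mul, mul_one, zero_add]
  · rw [Pi.add_apply, Pi.smul_apply, ext_castSucc, eL_castSucc, smul_eq_mul, mul_zero, add_zero]
    rfl

theorem ext_add (u u' : Fin n → F) : ext (u + u') = ext u + ext u' := by
  funext i
  refine Fin.lastCases ?_ (fun j => ?_) i
  · rw [Pi.add_apply, ext_last, ext_last, ext_last, add_zero]
  · rw [Pi.add_apply, ext_castSucc, ext_castSucc, ext_castSucc, Pi.add_apply]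

theorem ext_smul (c : F) (u : Fin n → F) : ext (c • u) = c • ext u := by
  funext i
  refine Fin.lastCases ?_ (fun j => ?_) i
  · rw [Pi.smul_apply, ext_last, ext_last, smul_zero]
  · rw [Pi.smul_apply, ext_castSucc, ext_castSucc, Pi.smul_apply]

theorem ext_ne (u : Fin n → F) (hu : u ≠ 0) : ext u ≠ 0 := by
  intro h
  apply hu
  rw [← res_ext u, h]
  rfl

theorem res_smul (c : F) (U : Fin (n + 1) → F) : res (c • U) = c • res U := rfl

theorem ext_single (i : Fin n) :
    ext (Pi.single i (1 : F)) = Pi.single (Fin.castSucc i) 1 := by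
  classical
  funext j
  refine Fin.lastCases ?_ (fun k => ?_) j
  · rw [ext_last, Pi.single_eq_of_ne (Fin.castSucc_lt_last i).ne']
  · rw [ext_castSucc, Pi.single_apply, Pi.single_apply]
    simp only [Fin.castSucc_inj]

/-- the block matrix `diag(M, 1)` -/
def iotaMat (M : Matrix (Fin n) (Fin n) F) : Matrix (Fin (n + 1)) (Fin (n + 1)) F :=
  Matrix.reindex finSumFinEquiv finSumFinEquiv
    (Matrix.fromBlocks M 0 0 (1 : Matrix (Fin 1) (Fin 1) F))

theorem iotaMat_one : iotaMat (1 : Matrix (Fin n) (Fin n) F) = 1 := by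
  unfold iotaMat
  rw [Matrix.fromBlocks_one, Matrix.reindex_apply, Matrix.submatrix_one_equiv]

theorem iotaMat_mul (A B : Matrix (Fin n) (Fin n) F) :
    iotaMat (A * B) = iotaMat A * iotaMat B := by
  unfold iotaMat
  rw [Matrix.reindex_apply, Matrix.reindex_apply, Matrix.reindex_apply,
    Matrix.submatrix_mul_equiv, Matrix.fromBlocks_multiply]
  simp

theorem det_iotaMat (M : Matrix (Fin n) (Fin n) F) : (iotaMat M).det = M.det := by
  unfold iotaMat
  rw [Matrix.det_reindex_self, Matrix.det_fromBlocks_zero₂₁, Matrix.det_one, mul_one]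

theorem iotaMat_cc (M : Matrix (Fin n) (Fin n) F) (i j : Fin n) :
    iotaMat M (Fin.castSucc i) (Fin.castSucc j) = M i j := by
  unfold iotaMat
  rw [Matrix.reindex_apply, Matrix.submatrix_apply]
  have hi : (finSumFinEquiv (m := n) (n := 1)).symm (Fin.castSucc i) = Sum.inl i :=
    finSumFinEquiv_symm_apply_castAdd i
  have hj : (finSumFinEquiv (m := n) (n := 1)).symm (Fin.castSucc j) = Sum.inl j :=
    finSumFinEquiv_symm_apply_castAdd j
  rw [hi, hj, Matrix.fromBlocks_apply₁₁]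

theorem iotaMat_cl (M : Matrix (Fin n) (Fin n) F) (i : Fin n) :
    iotaMat M (Fin.castSucc i) (Fin.last n) = 0 := by
  unfold iotaMat
  rw [Matrix.reindex_apply, Matrix.submatrix_apply]
  have hi : (finSumFinEquiv (m := n) (n := 1)).symm (Fin.castSucc i) = Sum.inl i :=
    finSumFinEquiv_symm_apply_castAdd i
  rw [hi, finSumFinEquiv_symm_last, Matrix.fromBlocks_apply₁₂]
  rfl

theorem iotaMat_lc (M : Matrix (Fin n) (Fin n) F) (j : Fin n) :
    iotaMat M (Fin.last n) (Fin.castSucc j) = 0 := by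
  unfold iotaMat
  rw [Matrix.reindex_apply, Matrix.submatrix_apply]
  have hj : (finSumFinEquiv (m := n) (n := 1)).symm (Fin.castSucc j) = Sum.inl j :=
    finSumFinEquiv_symm_apply_castAdd j
  rw [hj, finSumFinEquiv_symm_last, Matrix.fromBlocks_apply₂₁]
  rfl

theorem iotaMat_ll (M : Matrix (Fin n) (Fin n) F) :
    iotaMat M (Fin.last n) (Fin.last n) = 1 := by
  unfold iotaMat
  rw [Matrix.reindex_apply, Matrix.submatrix_apply, finSumFinEquiv_symm_last,
    Matrix.fromBlocks_apply₂₂, Matrix.one_apply_eq]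

/-- the embedding of `SL_n` into `SL_{n+1}` -/
noncomputable def iota :
    Matrix.SpecialLinearGroup (Fin n) F →* Matrix.SpecialLinearGroup (Fin (n + 1)) F where
  toFun M := ⟨iotaMat M.1, by rw [det_iotaMat]; exact M.2⟩
  map_one' := Subtype.ext iotaMat_one
  map_mul' A B := Subtype.ext (iotaMat_mul A.1 B.1)

theorem iota_coe (M : Matrix.SpecialLinearGroup (Fin n) F) :
    ((iota M : Matrix.SpecialLinearGroup (Fin (n + 1)) F) :
      Matrix (Fin (n + 1)) (Fin (n + 1)) F) = iotaMat (M : Matrix (Fin n) (Fin n) F) := rfl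

theorem iota_tS (u φ : Fin n → F) (h : φ ⬝ᵥ u = 0) : iota (tS u φ) = tS (ext u) (ext φ) := by
  apply Subtype.ext
  have h' : ext φ ⬝ᵥ ext u = 0 := by
    rw [ext_dot]
    exact h
  show iotaMat (↑(tS u φ) : Matrix (Fin n) (Fin n) F) = ↑(tS (ext u) (ext φ))
  rw [tS_coe _ _ h, tS_coe _ _ h']
  unfold tv
  ext i j
  refine Fin.lastCases ?_ (fun i' => ?_) i <;> refine Fin.lastCases ?_ (fun j' => ?_) j
  · rw [iotaMat_ll, Matrix.add_apply, Matrix.one_apply_eq, vecMulVec_apply, ext_last, zero_mul,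
      add_zero]
  · rw [iotaMat_lc, Matrix.add_apply, Matrix.one_apply_ne (Fin.castSucc_lt_last j').ne',
      vecMulVec_apply, ext_last, zero_mul, add_zero]
  · rw [iotaMat_cl, Matrix.add_apply, Matrix.one_apply_ne (Fin.castSucc_lt_last i').ne,
      vecMulVec_apply, ext_last, mul_zero, add_zero]
  · rw [iotaMat_cc, Matrix.add_apply, Matrix.add_apply, vecMulVec_apply, vecMulVec_apply,
      ext_castSucc, ext_castSucc, Matrix.one_apply, Matrix.one_apply]
    simp only [Fin.castSucc_inj]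

theorem eL_iota (M : Matrix.SpecialLinearGroup (Fin n) F) :
    eL F n ᵥ* ((iota M : Matrix.SpecialLinearGroup (Fin (n + 1)) F) :
      Matrix (Fin (n + 1)) (Fin (n + 1)) F) = eL F n := by
  unfold eL
  rw [Matrix.single_one_vecMul, iota_coe]
  funext j
  refine Fin.lastCases ?_ (fun j' => ?_) j
  · show iotaMat (M : Matrix (Fin n) (Fin n) F) (Fin.last n) (Fin.last n) = _
    rw [iotaMat_ll, Pi.single_eq_same]
  · show iotaMat (M : Matrix (Fin n) (Fin n) F) (Fin.last n) (Fin.castSucc j') = _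
    rw [iotaMat_lc, Pi.single_eq_of_ne (Fin.castSucc_lt_last j').ne]

end gen


section inherit

variable {F : Type*} [Field F] [Fintype F] {n : ℕ} {V : Type*} [AddCommGroup V] [Module ℂ V]
  [FiniteDimensional ℂ V]

/-- the "no mixed eigenvector" property passes to the action of `SL_n` on the fixed space of the
transvection group of the last coordinate hyperplane -/
theorem nms_restrict (hn : 3 ≤ n)
    (ρ : Representation ℂ (Matrix.SpecialLinearGroup (Fin (n + 1)) F) V) (hNM : NMs ρ)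
    (v : V) (hv : v ≠ 0) (hfix : ∀ u, eL F n ⬝ᵥ u = 0 → ρ (tS u (eL F n)) v = v)
    (φ a : Fin n → F) (hφ : φ ≠ 0) (ha : a ≠ 0) (hφa : φ ⬝ᵥ a = 0) (χ η : (Fin n → F) → ℂ)
    (hχ : ∀ u, φ ⬝ᵥ u = 0 → ρ (iota (tS u φ)) v = χ u • v)
    (hη : ∀ w, w ⬝ᵥ a = 0 → ρ (iota (tS a w)) v = η w • v) :
    (∀ u, φ ⬝ᵥ u = 0 → χ u = 1) ∨ (∀ w, w ⬝ᵥ a = 0 → η w = 1) := by
  classical
  set Φ := ext φ with hΦ
  set A := ext a with hA
  have hΦ0 : Φ ≠ 0 := ext_ne φ hφ
  have hA0 : A ≠ 0 := ext_ne a ha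
  have hΦA : Φ ⬝ᵥ A = 0 := by
    rw [hΦ, hA, ext_dot]
    exact hφa
  have hLA : eL F n ⬝ᵥ A = 0 := eL_ext a
  have hΦL : Φ ⬝ᵥ eL F n = 0 := by
    rw [dotProduct_comm]
    exact eL_ext φ
  have hcen : ∀ c : F, η (c • φ) = 1 := fun c =>
    (central_trivial hn (MonoidHom.comp ρ iota) φ a ha hφa v hv χ η (fun u hu => hχ u hu)
      (fun w hw => hη w hw) c).1
  have hχ' : ∀ u, φ ⬝ᵥ u = 0 → ρ (tS (ext u) Φ) v = χ u • v := by
    intro u hu
    rw [hΦ, ← iota_tS u φ hu]
    exact hχ u hu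
  have hη' : ∀ W : Fin (n + 1) → F, W ⬝ᵥ A = 0 → ρ (tS A W) v = η (res W) • v := by
    intro W hW
    have hd := decomp W
    have hrW : res W ⬝ᵥ a = 0 := by
      rw [← dot_ext]
      exact hW
    have h1 : ext (res W) ⬝ᵥ A = 0 := by
      rw [hA, ext_dot]
      exact hrW
    have h2 : (W (Fin.last n) • eL F n) ⬝ᵥ A = 0 := by rw [smul_dotProduct, hLA, smul_zero]
    have e : tS A W = tS A (ext (res W)) * tS (W (Fin.last n) • A) (eL F n) := by
      rw [tS_smul _ A (eL F n) hLA, tS_mul_right A _ _ h1 h2, ← hd]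
    rw [e, ρ.map_mul, Module.End.mul_apply, hfix _ (by rw [dotProduct_smul, hLA, smul_zero]), hA,
      ← iota_tS a (res W) hrW]
    exact hη (res W) hrW
  set E : Submodule ℂ V :=
    (⨅ u : {u : Fin n → F // φ ⬝ᵥ u = 0}, Module.End.eigenspace (ρ (tS (ext u.1) Φ)) (χ u.1)) ⊓
    (⨅ W : {W : Fin (n + 1) → F // W ⬝ᵥ A = 0},
      Module.End.eigenspace (ρ (tS A W.1)) (η (res W.1))) with hE
  have hEmem : ∀ v', v' ∈ E ↔ (∀ u, φ ⬝ᵥ u = 0 → ρ (tS (ext u) Φ) v' = χ u • v') ∧
      (∀ W, W ⬝ᵥ A = 0 → ρ (tS A W) v' = η (res W) • v') := by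
    intro v'
    simp only [hE, Submodule.mem_inf, Submodule.mem_iInf, Module.End.mem_eigenspace_iff,
      Subtype.forall]
  set zX : F → Matrix.SpecialLinearGroup (Fin (n + 1)) F := fun c => tS (c • eL F n) Φ with hzX
  have hcL : ∀ c : F, Φ ⬝ᵥ (c • eL F n) = 0 := fun c => by rw [dotProduct_smul, hΦL, smul_zero]
  have hzX_add : ∀ c c', zX (c + c') = zX c * zX c' := by
    intro c c'
    show tS ((c + c') • eL F n) Φ = tS (c • eL F n) Φ * tS (c' • eL F n) Φ
    rw [tS_mul_left _ _ _ (hcL c) (hcL c'), add_smul]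
  have hEinv : ∀ c, ∀ v' ∈ E, ρ (zX c) v' ∈ E := by
    intro c v' hv'
    rw [hEmem] at hv' ⊢
    obtain ⟨hv'1, hv'2⟩ := hv'
    refine ⟨fun u hu => ?_, fun W hW => ?_⟩
    · have hu' : Φ ⬝ᵥ ext u = 0 := by
        rw [hΦ, ext_dot]
        exact hu
      have hcomm : tS (ext u) Φ * zX c = zX c * tS (ext u) Φ := by
        show tS (ext u) Φ * tS (c • eL F n) Φ = tS (c • eL F n) Φ * tS (ext u) Φ
        rw [tS_mul_left _ _ _ hu' (hcL c), tS_mul_left _ _ _ (hcL c) hu',
          add_comm (ext u) (c • eL F n)]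
      rw [← Module.End.mul_apply, ← ρ.map_mul, hcomm, ρ.map_mul, Module.End.mul_apply, hv'1 u hu,
        map_smul]
    · have hheis := tS_heis (c • eL F n) Φ A W (hcL c) hW hΦA
      have hc1 : ρ (tS A ((W ⬝ᵥ (c • eL F n)) • Φ)) v' = v' := by
        rw [hv'2 _ (by rw [smul_dotProduct, hΦA, smul_zero]), res_smul, hΦ, res_ext, hcen,
          one_smul]
      show ρ (tS A W) (ρ (tS (c • eL F n) Φ) v') = η (res W) • ρ (tS (c • eL F n) Φ) v'
      rw [← Module.End.mul_apply, ← ρ.map_mul, hheis, ρ.map_mul, ρ.map_mul, Module.End.mul_apply,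
        Module.End.mul_apply, hc1, hv'2 W hW, map_smul]
  have hvE : v ∈ E := (hEmem v).mpr ⟨hχ', hη'⟩
  have hE0 : E ≠ ⊥ := by
    intro h
    rw [h] at hvE
    exact hv ((Submodule.mem_bot ℂ).mp hvE)
  obtain ⟨ξ, v', hv'E, hv'0, hv'⟩ := exists_ceig_in ρ zX hzX_add E hEinv hE0
  obtain ⟨hv'1, hv'2⟩ := (hEmem v').mp hv'E
  have hξ0 : ξ 0 = 1 := by
    have h1 := hv' 0
    have hz0 : zX 0 = 1 := by
      show tS ((0 : F) • eL F n) Φ = 1
      rw [zero_smul, tS_zero_left]
    rw [hz0, ρ.map_one, Module.End.one_apply] at h1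
    have h2 : (1 : ℂ) • v' = ξ 0 • v' := by
      rw [one_smul]
      exact h1
    exact (smul_left_injective ℂ hv'0 h2).symm
  have hfl := hNM Φ A hΦ0 hA0 hΦA v' hv'0 (fun U => ξ (U (Fin.last n)) * χ (res U))
    (fun W => η (res W))
    (by
      intro U hU
      have hd := decomp U
      have hrU : φ ⬝ᵥ res U = 0 := by
        rw [← ext_dot']
        exact hU
      have h1 : Φ ⬝ᵥ ext (res U) = 0 := by
        rw [hΦ, ext_dot]
        exact hrU
      have e : tS U Φ = tS (ext (res U)) Φ * zX (U (Fin.last n)) := by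
        show tS U Φ = tS (ext (res U)) Φ * tS (U (Fin.last n) • eL F n) Φ
        rw [tS_mul_left _ _ _ h1 (hcL _), ← hd]
      rw [e, ρ.map_mul, Module.End.mul_apply, hv' (U (Fin.last n)), map_smul, hv'1 _ hrU,
        smul_smul])
    hv'2
  rcases hfl with hfl | hfl
  · left
    intro u hu
    have h1 : ξ ((ext u) (Fin.last n)) * χ (res (ext u)) = 1 :=
      hfl (ext u) (by rw [hΦ, ext_dot]; exact hu)
    rw [ext_last, res_ext, hξ0, one_mul] at h1
    exact h1
  · right
    intro w hw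
    have h1 : η (res (ext w)) = 1 := hfl (ext w) (by rw [hA, ext_dot]; exact hw)
    rw [res_ext] at h1
    exact h1

end inherit

section bound

variable {F : Type*} [Field F] [Fintype F] {m : ℕ} {V : Type} [AddCommGroup V] [Module ℂ V]
  [FiniteDimensional ℂ V]

/-- the inductive bound on the fixed space of the transvection group of the last coordinate
hyperplane -/
theorem fix_bound (B : ℕ)
    (IH : ∀ (W : Type) [AddCommGroup W] [Module ℂ W] [FiniteDimensional ℂ W]
      (σ : Representation ℂ (Matrix.SpecialLinearGroup (Fin (m + 3)) F) W), σ.IsIrreducible →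
      σ (stdE F m) ≠ 1 → NMs σ → B ≤ finrank ℂ W)
    (ρ : Representation ℂ (Matrix.SpecialLinearGroup (Fin (m + 3 + 1)) F) V) (hNM : NMs ρ)
    (v : V) (hfix : ∀ u, eL F (m + 3) ⬝ᵥ u = 0 → ρ (tS u (eL F (m + 3))) v = v)
    (w : Fin (m + 3 + 1) → F) (hw0 : w ⬝ᵥ ext (e0 F m) = 0) (hwl : w ⬝ᵥ eL F (m + 3) = 0)
    (hne : ρ (tS (ext (e0 F m)) w) v ≠ v) :
    B ≤ finrank ℂ (ceig ρ (zA (eL F (m + 3)) (eL F (m + 3))) (fun _ => (1 : ℂ))) := by
  classical
  set V₁ := ceig ρ (zA (eL F (m + 3)) (eL F (m + 3))) (fun _ => (1 : ℂ)) with hV₁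
  have hV₁mem : ∀ v', v' ∈ V₁ ↔ ∀ u, eL F (m + 3) ⬝ᵥ u = 0 → ρ (tS u (eL F (m + 3))) v' = v' :=
    fun v' => mem_fix ρ _ _ eL_eL v'
  set ρ' : Representation ℂ (Matrix.SpecialLinearGroup (Fin (m + 3)) F) V :=
    MonoidHom.comp ρ iota with hρ'
  have hV₁inv : ∀ g, ∀ v' ∈ V₁, ρ' g v' ∈ V₁ := by
    intro g v' hv'
    rw [hV₁mem] at hv' ⊢
    exact fix_invariant ρ (eL F (m + 3)) (iota g) 1 one_ne_zero (by rw [eL_iota, one_smul]) v' hv'
  have hwl' : w (Fin.last (m + 3)) = 0 := by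
    have := hwl
    rw [dotProduct_comm, eL_dot] at this
    exact this
  have hwext : w = ext (res w) := by
    have := decomp w
    rw [hwl', zero_smul, add_zero] at this
    exact this
  have hw0' : res w ⬝ᵥ e0 F m = 0 := by
    rw [← ext_dot, ← hwext]
    exact hw0
  have ht : tS (ext (e0 F m)) w = iota (tS (e0 F m) (res w)) := by
    rw [iota_tS _ _ hw0', ← hwext]
  have hwne : res w ≠ 0 := by
    intro h
    apply hne
    rw [ht, h, tS_zero_right, map_one, ρ.map_one, Module.End.one_apply]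
  have htmem : tS (e0 F m) (res w) ∈ tvSet F m := tS_mem_tvSet _ _ e0_ne hwne hw0'
  have hvV₁ : v ∈ V₁ := (hV₁mem v).mpr hfix
  obtain ⟨W, hWV₁, hWinv, ⟨v', hv'W, hv'ne⟩, hWirr⟩ :=
    exists_irr_sub ρ' V₁ hV₁inv (tS (e0 F m) (res w)) v hvV₁ (by
      show ρ (iota (tS (e0 F m) (res w))) v ≠ v
      rw [← ht]
      exact hne)
  have hW0 : W ≠ ⊥ := by
    intro h
    rw [h] at hv'W
    have h0 : v' = 0 := (Submodule.mem_bot ℂ).mp hv'W
    apply hv'ne
    rw [h0, map_zero]
  have hσirr : (subRep ρ' W hWinv).IsIrreducible := subRep_irr ρ' W hWinv hW0 hWirr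
  have hσne : (subRep ρ' W hWinv) (stdE F m) ≠ 1 := by
    intro h1
    obtain ⟨g, hg⟩ := exists_conj_of_mem (stdE_mem (F := F) (n := m)) htmem
    apply hv'ne
    have h2 : (subRep ρ' W hWinv) (tS (e0 F m) (res w)) = 1 := by
      rw [hg, map_mul, map_mul, h1, mul_one, ← map_mul, mul_inv_cancel, map_one]
    have h3 := congrArg (fun f : Module.End ℂ W => ((f ⟨v', hv'W⟩ : W) : V)) h2
    exact h3
  have hσNM : NMs (subRep ρ' W hWinv) := by
    intro φ a hφ ha hφa v'' hv'' χ η hχ hη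
    have hv''V : (v'' : V) ≠ 0 := fun h => hv'' (Subtype.ext h)
    have hv''fix := (hV₁mem (v'' : V)).mp (hWV₁ v''.2)
    exact nms_restrict (by omega) ρ hNM (v'' : V) hv''V hv''fix φ a hφ ha hφa χ η
      (fun u hu => congrArg Subtype.val (hχ u hu)) (fun w hw => congrArg Subtype.val (hη w hw))
  have h1 := IH W (subRep ρ' W hWinv) hσirr hσne hσNM
  exact h1.trans (Submodule.finrank_mono hWV₁)

/-- the inductive bound, in the coordinates used for the induction -/
theorem fix_bound' (B : ℕ)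
    (IH : ∀ (W : Type) [AddCommGroup W] [Module ℂ W] [FiniteDimensional ℂ W]
      (σ : Representation ℂ (Matrix.SpecialLinearGroup (Fin (m + 3)) F) W), σ.IsIrreducible →
      σ (stdE F m) ≠ 1 → NMs σ → B ≤ finrank ℂ W)
    (ψ : AddChar F ℂ) (hψ : ψ 1 ≠ 1)
    (ρ : Representation ℂ (Matrix.SpecialLinearGroup (Fin (m + 1 + 3)) F) V) (hNM : NMs ρ)
    (hne : ρ (stdE F (m + 1)) ≠ 1) :
    B ≤ finrank ℂ (ceig ρ (zA (el F (m + 1)) (el F (m + 1))) (fun _ => (1 : ℂ))) := by
  obtain ⟨v, _, hfix, w, hw0, hwl, hwne⟩ := struct ψ hψ ρ hNM hne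
  have e2 : (e0 F (m + 1) : Fin (m + 1 + 3) → F) = ext (e0 F m) := by
    unfold e0
    rw [ext_single]
    rfl
  rw [e2] at hw0 hwne
  exact fix_bound B IH ρ hNM v hfix w hw0 hwl hwne

end bound

end Cfsg.Agent.Lib.Helper39.SLMinEmb
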