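-- The minimal degree of a non-linear irreducible complex representation of SL_N(F), N ≥ 3:
-- the induction on N for representations without mixed eigenvectors, the reduction of the
-- general case to it, and the existence of a representation of degree (q^N - q)/(q - 1).
import Mathlib
import Cfsg.Agent.Lib.Helper39.SLMinEmb
import Cfsg.Agent.S0157

set_option autoImplicit false

namespace Cfsg.Agent.Lib.Helper39.SLMinMain

open Matrix Module
open scoped LinearAlgebra.Projectivization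
open Cfsg.Agent.Lib.Helper39.LSHerm Cfsg.Agent.Lib.Helper39.SLMinTv
open Cfsg.Agent.Lib.Helper39.SLMinRep Cfsg.Agent.Lib.Helper39.SLMinArith
open Cfsg.Agent.Lib.Helper65.RepBound Cfsg.Agent.Lib.Helper39.LSRep
open Cfsg.Agent.Lib.Helper83.SLTransv Cfsg.Agent.Lib.Helper39.SLMinTrace
open Cfsg.Agent.Lib.Helper39.SLMinNM Cfsg.Agent.Lib.Helper39.SLMinEmb

variable {F : Type*} [Field F] [Fintype F]

theorem card_ne_ten : Fintype.card F ≠ 10 := by
  intro h
  obtain ⟨p, hp⟩ := CharP.exists F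
  obtain ⟨n, hpp, hcard⟩ := FiniteField.card F p
  rw [h] at hcard
  have h2' : 2 ∣ p ^ (n : ℕ) := by
    rw [← hcard]
    norm_num
  have h5' : 5 ∣ p ^ (n : ℕ) := by
    rw [← hcard]
    norm_num
  have e2 := (Nat.prime_dvd_prime_iff_eq Nat.prime_two hpp).mp (Nat.prime_two.dvd_of_dvd_pow h2')
  have e5 := (Nat.prime_dvd_prime_iff_eq Nat.prime_five hpp).mp
    (Nat.prime_five.dvd_of_dvd_pow h5')
  omega

/-- the induction: an irreducible representation without mixed eigenvectors on which the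
transvections act non-trivially has degree at least `bnd N q` -/
theorem ind_bound (ψ : AddChar F ℂ) (hψ : ψ 1 ≠ 1) (m : ℕ) :
    ∀ (V : Type) [AddCommGroup V] [Module ℂ V] [FiniteDimensional ℂ V]
      (ρ : Representation ℂ (Matrix.SpecialLinearGroup (Fin (m + 3)) F) V), ρ.IsIrreducible →
      ρ (stdE F m) ≠ 1 → NMs ρ → bnd (m + 3) (Fintype.card F) ≤ finrank ℂ V := by
  induction m with
  | zero =>
    intro V _ _ _ ρ hirr hne hNM
    have := hirr
    obtain ⟨μ, hμ, h1, h2, _⟩ := numeric ρ hne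
    obtain ⟨v, _, hfix, w, hw0, hwl, hwne⟩ := struct ψ hψ ρ hNM hne
    have hf := fix_ge ρ v hfix w hw0 hwl hwne
    exact arith_base (Fintype.card F) (finrank ℂ V) _ μ Fintype.one_lt_card card_ne_ten hμ h1 h2 hf
  | succ m ih =>
    intro V _ _ _ ρ hirr hne hNM
    have := hirr
    obtain ⟨μ, hμ, h1, h2, _⟩ := numeric ρ hne
    have hf := fix_bound' (bnd (m + 3) (Fintype.card F)) ih ψ hψ ρ hNM hne
    exact arith_step (Fintype.card F) (m + 3) (finrank ℂ V) _ μ Fintype.one_lt_card (by omega) hμ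
      h1 h2 hf

/-- the lower bound -/
theorem lower (m : ℕ)
    (hex : ¬ (m + 3 = 3 ∧ (Fintype.card F = 2 ∨ Fintype.card F = 4)) ∧
      ¬ (m + 3 = 4 ∧ (Fintype.card F = 2 ∨ Fintype.card F = 3)))
    (k : ℕ) (ρ : Representation ℂ (Matrix.SpecialLinearGroup (Fin (m + 3)) F) (Fin k → ℂ))
    (hirr : ρ.IsIrreducible) (hk : 2 ≤ k) : S (Fintype.card F) (m + 3) - 1 ≤ k := by
  classical
  have := hirr
  obtain ⟨ψ, hψ⟩ := (AddChar.exists_apply_ne_zero (α := F) (a := 1)).mpr one_ne_zero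
  have hq2 : 2 ≤ Fintype.card F := Fintype.one_lt_card
  have hfr : finrank ℂ (Fin k → ℂ) = k := Module.finrank_fin_fun ℂ
  have hne : ρ (stdE F m) ≠ 1 := by
    intro h1
    have hle : Subgroup.closure (tvSet F m) ≤ MonoidHom.ker ρ := by
      rw [Subgroup.closure_le]
      intro t ht
      obtain ⟨g, hg⟩ := exists_conj_of_mem (stdE_mem (F := F) (n := m)) ht
      show t ∈ MonoidHom.ker ρ
      rw [MonoidHom.mem_ker, hg, ρ.map_mul, ρ.map_mul, h1, mul_one, ← ρ.map_mul, mul_inv_cancel,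
        ρ.map_one]
    rw [closure_tvSet] at hle
    have hall : ∀ g, ρ g = 1 := fun g => MonoidHom.mem_ker.mp (hle (Subgroup.mem_top g))
    have hirr' := (Cfsg.Agent.Lib.Helper81.Irr.irr_iff ρ).mp hirr
    set v₀ : Fin k → ℂ := Pi.single ⟨0, by omega⟩ 1 with hv₀
    have hv₀0 : v₀ ≠ 0 := by
      intro h
      have := congrFun h ⟨0, by omega⟩
      rw [hv₀, Pi.single_eq_same] at this
      exact one_ne_zero this
    rcases hirr'.2 (Submodule.span ℂ {v₀}) (fun g v hv => by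
      rw [hall g, Module.End.one_apply]
      exact hv) with h | h
    · apply hv₀0
      have : v₀ ∈ Submodule.span ℂ {v₀} := Submodule.mem_span_singleton_self v₀
      rw [h] at this
      exact (Submodule.mem_bot ℂ).mp this
    · have h3 : finrank ℂ (Submodule.span ℂ {v₀}) = 1 := finrank_span_singleton hv₀0
      rw [h, finrank_top, hfr] at h3
      omega
  obtain ⟨μ, hμ, h1, h2, h3⟩ := numeric ρ hne
  rw [hfr] at h1
  by_contra hlt
  push Not at hlt
  have hlt' : k + 1 < S (Fintype.card F) (m + 3) := by omega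
  have hμ1 : μ = 1 := arith_top (Fintype.card F) (m + 2) k _ μ hq2 hμ h1 hlt'
  subst hμ1
  have hmult : ∀ φ x : Fin (m + 3) → F, φ ≠ 0 → (∃ u, φ ⬝ᵥ u = 0 ∧ ψ (x ⬝ᵥ u) ≠ 1) →
      ∀ v v' : (Fin k → ℂ), v ≠ 0 →
      (∀ u, φ ⬝ᵥ u = 0 → ρ (tS u φ) v = ψ (x ⬝ᵥ u) • v) →
      (∀ u, φ ⬝ᵥ u = 0 → ρ (tS u φ) v' = ψ (x ⬝ᵥ u) • v') → ∃ c : ℂ, v' = c • v := by
    intro φ x hφ hnt v v' hv hev hev'
    obtain ⟨u₀, hu₀, hψu₀⟩ := hnt
    obtain ⟨φ', hφ'⟩ := exists_dual φ hφ
    have hφφ' : φ ⬝ᵥ φ' = 1 := by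
      rw [dotProduct_comm]
      exact hφ'
    have hfin := h3 φ φ' (fun u => ψ (x ⬝ᵥ pr φ φ' u)) hφφ'
      (fun u u' => by
        show ψ (x ⬝ᵥ pr φ φ' (u + u')) = ψ (x ⬝ᵥ pr φ φ' u) * ψ (x ⬝ᵥ pr φ φ' u')
        rw [pr_add, dotProduct_add, AddChar.map_add_eq_mul])
      (fun c => by
        show ψ (x ⬝ᵥ pr φ φ' (c • φ')) = 1
        rw [pr_smul_self φ φ' hφφ', dotProduct_zero, AddChar.map_zero_eq_one])
      ⟨u₀, by
        show ψ (x ⬝ᵥ pr φ φ' u₀) ≠ 1
        rw [pr_of_ker φ φ' u₀ hu₀]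
        exact hψu₀⟩
    have hmem : ∀ v₀ : Fin k → ℂ, (∀ u, φ ⬝ᵥ u = 0 → ρ (tS u φ) v₀ = ψ (x ⬝ᵥ u) • v₀) →
        v₀ ∈ ceig ρ (zA φ φ') (fun u => ψ (x ⬝ᵥ pr φ φ' u)) := by
      intro v₀ h0
      rw [mem_ceig]
      intro u
      exact h0 _ (dot_pr φ φ' u hφφ')
    have hle : finrank ℂ (ceig ρ (zA φ φ') (fun u => ψ (x ⬝ᵥ pr φ φ' u))) ≤ 1 := by rw [hfin]
    obtain ⟨b, hb⟩ := finrank_le_one_iff.mp hle
    obtain ⟨c₁, hc₁⟩ := hb ⟨v, hmem v hev⟩
    obtain ⟨c₂, hc₂⟩ := hb ⟨v', hmem v' hev'⟩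
    have hc₁' : c₁ • (b : Fin k → ℂ) = v := congrArg Subtype.val hc₁
    have hc₂' : c₂ • (b : Fin k → ℂ) = v' := congrArg Subtype.val hc₂
    have hc₁0 : c₁ ≠ 0 := by
      rintro rfl
      rw [zero_smul] at hc₁'
      exact hv hc₁'.symm
    refine ⟨c₂ / c₁, ?_⟩
    rw [← hc₁', ← hc₂', smul_smul, div_mul_cancel₀ _ hc₁0]
  have hNM := nms_of_mult (by omega) hex ψ hψ ρ hmult
  have hb := ind_bound ψ hψ m (Fin k → ℂ) ρ hirr hne hNM
  rw [hfr] at hb
  have hbnd : bnd (m + 3) (Fintype.card F) = S (Fintype.card F) (m + 3) - 1 := by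
    unfold bnd
    rw [if_neg hex.1, if_neg (fun h => hex.2 ⟨h.1, Or.inl h.2⟩)]
  omega

/-- existence: the non-trivial constituent of the permutation representation on the points of
projective space -/
theorem exists_rep (m : ℕ) :
    ∃ ρ : Representation ℂ (Matrix.SpecialLinearGroup (Fin (m + 3)) F)
      (Fin (S (Fintype.card F) (m + 3) - 1) → ℂ), ρ.IsIrreducible := by
  classical
  have hq2 : 2 ≤ Fintype.card F := Fintype.one_lt_card
  have h2 : MulAction.IsMultiplyPretransitive (Matrix.SpecialLinearGroup (Fin (m + 3)) F)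
      (ℙ F (Fin (m + 3) → F)) 2 := inferInstance
  have : MulAction.IsPretransitive (Matrix.SpecialLinearGroup (Fin (m + 3)) F)
      (ℙ F (Fin (m + 3) → F)) := MulAction.isPretransitive_of_is_two_pretransitive
  have hcard : Nat.card (ℙ F (Fin (m + 3) → F)) = S (Fintype.card F) (m + 3) := by
    rw [Projectivization.card_of_finrank F (Fin (m + 3) → F) (Module.finrank_fin_fun F),
      Nat.card_eq_fintype_card]
    rfl
  have hS := S_ge (Fintype.card F) (m + 3) hq2 (by omega)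
  have hX2 : 2 ≤ Nat.card (ℙ F (Fin (m + 3) → F)) := by
    rw [hcard]
    omega
  obtain ⟨n, ρ, hρ, hchar⟩ := (Cfsg.Agent.S0157.result (G := Matrix.SpecialLinearGroup (Fin (m + 3)) F)
    (ℙ F (Fin (m + 3) → F)) hX2).mpr h2
  have hn : n = S (Fintype.card F) (m + 3) - 1 := by
    have h1 := congrFun hchar 1
    rw [Representation.char_one, Module.finrank_fin_fun] at h1
    have hfix : Nat.card (MulAction.fixedBy (ℙ F (Fin (m + 3) → F))
        (1 : Matrix.SpecialLinearGroup (Fin (m + 3)) F)) = Nat.card (ℙ F (Fin (m + 3) → F)) := by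
      rw [MulAction.fixedBy_one_eq_univ]
      exact Nat.card_congr (Equiv.Set.univ _)
    rw [hfix, hcard] at h1
    have h3 : ((n + 1 : ℕ) : ℂ) = ((S (Fintype.card F) (m + 3) : ℕ) : ℂ) := by
      push_cast
      linear_combination h1
    have h4 : n + 1 = S (Fintype.card F) (m + 3) := by exact_mod_cast h3
    omega
  subst hn
  exact ⟨ρ, hρ⟩

end Cfsg.Agent.Lib.Helper39.SLMinMain
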