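-- Involutions of SU_3(q), q odd: number of involutions, centralizer order, commuting triples.
import Mathlib
import Cfsg.Agent.Lib.Helper39.SU3Conj
import Cfsg.Agent.S2669
import Cfsg.Agent.S0284

set_option autoImplicit false
set_option linter.unusedSectionVars false
set_option linter.unusedVariables false

namespace Cfsg.Agent.Lib.Helper39.SU3Count

open Matrix Cfsg.Agent.Lib.Helper45.GUCard Cfsg.Agent.Lib.Helper45.SUCard
  Cfsg.Agent.Lib.Helper39.SU3Inv Cfsg.Agent.Lib.Helper39.SU3Conj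

variable {F : Type*} [Field F] [Fintype F] {q : ℕ} (hF : Fintype.card F = q ^ 2) (hq : Odd q)
  (φ : F →+* F) (hφ : ∀ x, φ x = x ^ q) (hinv : ∀ x, φ (φ x) = x)

include hF hq hφ in
theorem rf_ne_one (v : Fin 3 → F) (hv : Cfsg.hermForm 3 F q v v = 1) : rf φ v ≠ 1 := by
  intro h
  have h2 := two_ne_zero' hF hq
  have h1 := congrArg Matrix.trace h
  rw [herm_eq φ hφ] at hv
  simp [rf, R, Matrix.trace, Fin.sum_univ_three, Matrix.vecMulVec_apply, dotProduct] at h1 hv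
  apply h2
  have h4 : (2 : F) * 2 = 0 := by linear_combination (-1 : F) * h1 + 2 * hv
  exact mul_self_eq_zero.mp h4

include hF hq hφ in
theorem rf_eq_imp (v v' : Fin 3 → F) (hv : Cfsg.hermForm 3 F q v v = 1)
    (hv' : Cfsg.hermForm 3 F q v' v' = 1) (h : rf φ v = rf φ v') :
    ∃ l : F, l * φ l = 1 ∧ v' = l • v := by
  have h2 := two_ne_zero' hF hq
  have h1 : rf φ v *ᵥ v' = v' := by rw [h, rf_mulVec_self φ hφ v' hv']
  rw [rf_mulVec φ hφ] at h1
  obtain ⟨l, hl⟩ : ∃ l : F, l = Cfsg.hermForm 3 F q v' v := ⟨_, rfl⟩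
  rw [← hl] at h1
  have h3 : v' = l • v := by
    have h4 : (2 : F) • v' = (2 : F) • (l • v) := by
      rw [two_smul, smul_smul]
      nth_rewrite 1 [← h1]
      abel
    have h5 := congrArg (fun z => (2 : F)⁻¹ • z) h4
    simpa [smul_smul, inv_mul_cancel₀ h2, inv_mul_cancel_left₀ h2] using h5
  refine ⟨l, ?_, h3⟩
  have h6 := hv'
  rw [h3, herm_smul_left φ hφ, herm_smul_right φ hφ, hv, mul_one, ← hφ] at h6
  exact h6

include hF hq in
theorem rfSU_ne_one (v : Fin 3 → F) (hv : Cfsg.hermForm 3 F q v v = 1) :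
    rfSU φ hφ hinv v hv ≠ 1 := by
  intro h
  apply rf_ne_one hF hq φ hφ v hv
  have h1 := congrArg (fun a : ↥(Cfsg.SU 3 F q) => (a : Matrix.SpecialLinearGroup (Fin 3) F).1) h
  exact h1

theorem rfSU_mul_self (v : Fin 3 → F) (hv : Cfsg.hermForm 3 F q v v = 1) :
    rfSU φ hφ hinv v hv * rfSU φ hφ hinv v hv = 1 := by
  apply su_ext
  rw [su_mul_coe, rfSU_coe, su_one_coe]
  exact rf_mul_self φ hφ hinv v hv

theorem arith1 (q : ℕ) : q ^ 3 + 1 = (q ^ 2 - q + 1) * (q + 1) := by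
  obtain ⟨d, hd⟩ : ∃ d, q ^ 2 = d + q :=
    ⟨q ^ 2 - q, by have : q ≤ q ^ 2 := Nat.le_self_pow two_ne_zero q; omega⟩
  have h1 : q ^ 2 - q = d := by omega
  rw [h1]
  have h2 : q ^ 3 = q * (d + q) := by rw [← hd]; ring
  rw [h2]
  have h3 : (d + 1) * (q + 1) = d * q + (d + q) + 1 := by ring
  rw [h3, ← hd]
  nlinarith [hd]

include hF hq hφ hinv in
/-- The number of involutions of `SU_3(q)`, `q` odd. -/
theorem card_inv :
    Nat.card {x : ↥(Cfsg.SU 3 F q) // x ≠ 1 ∧ x * x = 1} = q ^ 2 * (q ^ 2 - q + 1) := by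
  let f : {v : Fin 3 → F // Cfsg.hermForm 3 F q v v = 1} →
      {x : ↥(Cfsg.SU 3 F q) // x ≠ 1 ∧ x * x = 1} :=
    fun v => ⟨rfSU φ hφ hinv v.1 v.2, rfSU_ne_one hF hq φ hφ hinv v.1 v.2,
      rfSU_mul_self φ hφ hinv v.1 v.2⟩
  let act : {l : F // l * l ^ q = 1} → {v : Fin 3 → F // Cfsg.hermForm 3 F q v v = 1} →
      {v : Fin 3 → F // Cfsg.hermForm 3 F q v v = 1} :=
    fun l v => ⟨l.1 • v.1, by
      rw [herm_smul_left φ hφ, herm_smul_right φ hφ, v.2, mul_one]; exact l.2⟩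
  have hf : Function.Surjective f := by
    rintro ⟨x, hx1, hx2⟩
    obtain ⟨v, hv, h⟩ := exists_rfSU φ hφ hinv hF hq x hx1 hx2
    exact ⟨⟨v, hv⟩, Subtype.ext h.symm⟩
  have hact : ∀ c p, f (act c p) = f p := by
    intro c p
    apply Subtype.ext
    apply su_ext
    show rf φ (c.1 • p.1) = rf φ p.1
    exact rf_smul φ hφ c.1 (by rw [hφ]; exact c.2) p.1
  have huniq : ∀ p p', f p = f p' → ∃! c, act c p = p' := by
    intro p p' h
    have h1 : rf φ p.1 = rf φ p'.1 :=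
      congrArg (fun a : {x : ↥(Cfsg.SU 3 F q) // x ≠ 1 ∧ x * x = 1} =>
        (a.1 : Matrix.SpecialLinearGroup (Fin 3) F).1) h
    obtain ⟨l, hl1, hl2⟩ := rf_eq_imp hF hq φ hφ p.1 p'.1 p.2 p'.2 h1
    refine ⟨⟨l, by rw [← hφ]; exact hl1⟩, Subtype.ext hl2.symm, ?_⟩
    intro c hc
    apply Subtype.ext
    have h3 : c.1 • p.1 = l • p.1 := by
      rw [← hl2]
      exact congrArg Subtype.val hc
    have h4 := congrArg (fun z => Cfsg.hermForm 3 F q z p.1) h3
    simp only [herm_smul_left φ hφ, p.2, mul_one] at h4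
    exact h4
  have hcard := Cfsg.Agent.S2669.card_eq_mul f act hf hact huniq
  rw [Cfsg.Agent.S0284.result hF 3,
    Cfsg.Agent.Lib.Helper5.HermCount.card_norm_eq hF 1 one_ne_zero (one_pow q)] at hcard
  have h3 : ¬ Even 3 := by decide
  rw [if_neg h3, arith1 q] at hcard
  have h5 : Nat.card {x : ↥(Cfsg.SU 3 F q) // x ≠ 1 ∧ x * x = 1} * (q + 1) =
      q ^ 2 * (q ^ 2 - q + 1) * (q + 1) := by
    rw [← hcard]; ring
  exact Nat.eq_of_mul_eq_mul_right (Nat.succ_pos q) h5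

include hF in
theorem card_SU3 : Nat.card ↥(Cfsg.SU 3 F q) = q ^ 3 * (q ^ 2 - 1) * (q ^ 3 + 1) := by
  have h1 := card_GU_eq hF 3 (by norm_num)
  have h2 := card_GU hF 3
  rw [h2] at h1
  simp only [Finset.prod_range_succ, Finset.prod_range_zero] at h1
  norm_num at h1
  have h3 : (q + 1) * Nat.card ↥(Cfsg.SU 3 F q) = (q + 1) * (q ^ 3 * (q ^ 2 - 1) * (q ^ 3 + 1)) := by
    rw [← h1]; ring
  exact Nat.eq_of_mul_eq_mul_left (Nat.succ_pos q) h3

include hF hq hφ hinv in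
/-- The order of the centralizer of an involution of `SU_3(q)`, `q` odd. -/
theorem card_centralizer (t : ↥(Cfsg.SU 3 F q)) (ht : t ≠ 1) (ht2 : t * t = 1) :
    Nat.card ↥(Subgroup.centralizer ({t} : Set ↥(Cfsg.SU 3 F q))) =
      q * (q + 1) * (q ^ 2 - 1) := by
  let f : ↥(Cfsg.SU 3 F q) → {x : ↥(Cfsg.SU 3 F q) // x ≠ 1 ∧ x * x = 1} :=
    fun g => ⟨g * t * g⁻¹, fun h => ht (conj_eq_one_iff.mp h), by
      rw [conj_mul, ht2, mul_one, mul_inv_cancel]⟩
  let act : ↥(Subgroup.centralizer ({t} : Set ↥(Cfsg.SU 3 F q))) → ↥(Cfsg.SU 3 F q) →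
      ↥(Cfsg.SU 3 F q) := fun c g => g * c.1
  have hf : Function.Surjective f := by
    rintro ⟨x, hx1, hx2⟩
    obtain ⟨g, hg⟩ := all_conj φ hφ hinv hF hq t x ht ht2 hx1 hx2
    exact ⟨g, Subtype.ext hg⟩
  have hact : ∀ c p, f (act c p) = f p := by
    intro c g
    apply Subtype.ext
    show g * c.1 * t * (g * c.1)⁻¹ = g * t * g⁻¹
    have hc : t * c.1 = c.1 * t := Subgroup.mem_centralizer_iff.mp c.2 t (Set.mem_singleton t)
    rw [_root_.mul_inv_rev, mul_assoc g c.1 t, ← hc]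
    group
  have huniq : ∀ p p', f p = f p' → ∃! c, act c p = p' := by
    intro g g' h
    have h1 : g * t * g⁻¹ = g' * t * g'⁻¹ := congrArg Subtype.val h
    have hmem : g⁻¹ * g' ∈ Subgroup.centralizer ({t} : Set ↥(Cfsg.SU 3 F q)) := by
      rw [Subgroup.mem_centralizer_iff]
      intro s hs
      rw [Set.mem_singleton_iff] at hs
      subst hs
      calc s * (g⁻¹ * g') = g⁻¹ * (g * s * g⁻¹) * g' := by group
        _ = g⁻¹ * (g' * s * g'⁻¹) * g' := by rw [h1]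
        _ = g⁻¹ * g' * s := by group
    refine ⟨⟨g⁻¹ * g', hmem⟩, ?_, ?_⟩
    · show g * (g⁻¹ * g') = g'
      group
    · intro c hc
      apply Subtype.ext
      exact eq_inv_mul_of_mul_eq hc
  have hcard := Cfsg.Agent.S2669.card_eq_mul f act hf hact huniq
  rw [card_SU3 hF, card_inv hF hq φ hφ hinv, arith1 q] at hcard
  have hpos : 0 < q ^ 2 * (q ^ 2 - q + 1) := by
    have := Cfsg.Agent.Lib.Helper5.HermCount.two_le hF
    positivity
  have h5 : q ^ 2 * (q ^ 2 - q + 1) *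
      Nat.card ↥(Subgroup.centralizer ({t} : Set ↥(Cfsg.SU 3 F q))) =
      q ^ 2 * (q ^ 2 - q + 1) * (q * (q + 1) * (q ^ 2 - 1)) := by
    rw [← hcard]; ring
  exact Nat.eq_of_mul_eq_mul_left hpos h5

include hF hq hφ hinv in
/-- Three pairwise distinct, pairwise commuting involutions multiply to one. -/
theorem eq_mul_of_commute (t x y : ↥(Cfsg.SU 3 F q)) (ht : t ≠ 1) (ht2 : t * t = 1)
    (hx : x ≠ 1) (hx2 : x * x = 1) (hy : y ≠ 1) (hy2 : y * y = 1)
    (hxt : x ≠ t) (hyt : y ≠ t) (hyx : y ≠ x)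
    (hc : Commute t x) (hty : Commute t y) (hxy : Commute x y) : y = t * x := by
  obtain ⟨u, hu, rfl⟩ := exists_rfSU φ hφ hinv hF hq t ht ht2
  obtain ⟨v, hv, rfl⟩ := exists_rfSU φ hφ hinv hF hq x hx hx2
  obtain ⟨w, hw, rfl⟩ := exists_rfSU φ hφ hinv hF hq y hy hy2
  have huv : Cfsg.hermForm 3 F q u v = 0 :=
    herm_eq_zero_of_commute φ hφ hinv hF hq u v hu hv
      (congrArg (fun a : ↥(Cfsg.SU 3 F q) => (a : Matrix.SpecialLinearGroup (Fin 3) F).1) hc.eq)
      (fun h => hxt (su_ext _ _ h.symm))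
  have huw : Cfsg.hermForm 3 F q u w = 0 :=
    herm_eq_zero_of_commute φ hφ hinv hF hq u w hu hw
      (congrArg (fun a : ↥(Cfsg.SU 3 F q) => (a : Matrix.SpecialLinearGroup (Fin 3) F).1) hty.eq)
      (fun h => hyt (su_ext _ _ h.symm))
  have hvw : Cfsg.hermForm 3 F q v w = 0 :=
    herm_eq_zero_of_commute φ hφ hinv hF hq v w hv hw
      (congrArg (fun a : ↥(Cfsg.SU 3 F q) => (a : Matrix.SpecialLinearGroup (Fin 3) F).1) hxy.eq)
      (fun h => hyx (su_ext _ _ h.symm))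
  have h1 : rfSU φ hφ hinv u hu * rfSU φ hφ hinv v hv * rfSU φ hφ hinv w hw = 1 := by
    apply su_ext
    rw [su_mul_coe, su_mul_coe, rfSU_coe, rfSU_coe, rfSU_coe, su_one_coe]
    exact rf_mul_rf_mul_rf φ hφ hinv u v w hu hv hw huv huw hvw
  have h2 : rfSU φ hφ hinv w hw = (rfSU φ hφ hinv u hu * rfSU φ hφ hinv v hv)⁻¹ :=
    eq_inv_of_mul_eq_one_right h1
  rw [h2, _root_.mul_inv_rev, inv_eq_of_mul_eq_one_right ht2, inv_eq_of_mul_eq_one_right hx2, hc.eq]

include hF hq hφ hinv in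
/-- Two distinct commuting involutions have exactly one further common commuting involution. -/
theorem card_common (t x : ↥(Cfsg.SU 3 F q)) (ht : t ≠ 1) (ht2 : t * t = 1)
    (hx : x ≠ 1) (hx2 : x * x = 1) (hxt : x ≠ t) (hc : Commute t x) :
    Nat.card {y : ↥(Cfsg.SU 3 F q) //
      y ≠ 1 ∧ y * y = 1 ∧ y ≠ t ∧ y ≠ x ∧ Commute t y ∧ Commute x y} = 1 := by
  rw [Nat.card_eq_one_iff_unique]
  constructor
  · constructor
    rintro ⟨y, hy1, hy2, hyt, hyx, hty, hxy⟩ ⟨y', hy1', hy2', hyt', hyx', hty', hxy'⟩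
    apply Subtype.ext
    show y = y'
    rw [eq_mul_of_commute hF hq φ hφ hinv t x y ht ht2 hx hx2 hy1 hy2 hxt hyt hyx hc hty hxy,
      eq_mul_of_commute hF hq φ hφ hinv t x y' ht ht2 hx hx2 hy1' hy2' hxt hyt' hyx' hc hty' hxy']
  · have hcx : x * t = t * x := hc.eq.symm
    refine ⟨⟨t * x, ?_, ?_, ?_, ?_, ?_, ?_⟩⟩
    · intro h
      apply hxt
      have h1 : x = t⁻¹ := eq_inv_of_mul_eq_one_right h
      rw [h1, inv_eq_of_mul_eq_one_right ht2]
    · calc t * x * (t * x) = t * (x * t) * x := by group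
        _ = t * (t * x) * x := by rw [hcx]
        _ = (t * t) * (x * x) := by group
        _ = 1 := by rw [ht2, hx2, mul_one]
    · intro h
      exact hx (mul_eq_left.mp h)
    · intro h
      exact ht (mul_eq_right.mp h)
    · show t * (t * x) = t * x * t
      rw [mul_assoc, hcx]
    · show x * (t * x) = t * x * x
      rw [← mul_assoc, hcx]

end Cfsg.Agent.Lib.Helper39.SU3Count
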