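-- The commuting involution graph of SU_3(q), q odd: vector-level lemmas and neighbour counts.
import Mathlib
import Cfsg.Agent.Lib.Helper39.SU3Count

set_option autoImplicit false
set_option linter.unusedSectionVars false
set_option linter.unusedVariables false

namespace Cfsg.Agent.Lib.Helper39.SU3Graph

open Matrix Cfsg.Agent.Lib.Helper45.GUCard Cfsg.Agent.Lib.Helper45.SUCard
  Cfsg.Agent.Lib.Helper39.SU3Inv Cfsg.Agent.Lib.Helper39.SU3Conj
  Cfsg.Agent.Lib.Helper39.SU3Count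

theorem card_eq_mul_of_fiber {P A : Type*} [Finite P] [Finite A] (f : P → A) (c : ℕ)
    (h : ∀ a, Nat.card {p // f p = a} = c) : Nat.card P = Nat.card A * c := by
  classical
  have := Fintype.ofFinite A
  rw [← Nat.card_congr (Equiv.sigmaFiberEquiv f), Nat.card_sigma]
  simp [h]

variable {F : Type*} [Field F] [Fintype F] {q : ℕ} (hF : Fintype.card F = q ^ 2) (hq : Odd q)
  (φ : F →+* F) (hφ : ∀ x, φ x = x ^ q) (hinv : ∀ x, φ (φ x) = x)

include hφ hinv in
theorem herm_zero_symm (u v : Fin 3 → F) (h : Cfsg.hermForm 3 F q u v = 0) :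
    Cfsg.hermForm 3 F q v u = 0 := by
  rw [herm_symm φ hφ hinv u v, h, ← hφ, map_zero]

include hφ in
theorem rf_neg (w : Fin 3 → F) : rf φ (-w) = rf φ w := by
  have h := rf_smul φ hφ (-1) (by simp) w
  simpa using h

include hφ hinv in
theorem rf_comm_of_orth (u w : Fin 3 → F) (hu : Cfsg.hermForm 3 F q u u = 1)
    (h : Cfsg.hermForm 3 F q w u = 0) : rf φ u * rf φ w = rf φ w * rf φ u := by
  rw [mul_rf φ hφ (rf φ u) (rf_preserves φ hφ hinv u hu) w, rf_mulVec φ hφ, h, mul_zero, zero_smul,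
    zero_sub, rf_neg φ hφ]

include hφ in
theorem rf_eq_of_smul (u v : Fin 3 → F) (l : F) (hu : Cfsg.hermForm 3 F q u u = 1)
    (hv : Cfsg.hermForm 3 F q v v = 1) (h : v = l • u) : rf φ v = rf φ u := by
  have hl : l * φ l = 1 := by
    have h1 := hv
    rw [h, herm_smul_left φ hφ, herm_smul_right φ hφ, hu, mul_one, ← hφ] at h1
    exact h1
  rw [h, rf_smul φ hφ l hl]

include hF hq hφ in
theorem rf_ne_of_orth (w u : Fin 3 → F) (hw : Cfsg.hermForm 3 F q w w = 1)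
    (hu : Cfsg.hermForm 3 F q u u = 1) (h : Cfsg.hermForm 3 F q w u = 0) : rf φ w ≠ rf φ u := by
  intro he
  obtain ⟨l, hl1, hl2⟩ := rf_eq_imp hF hq φ hφ w u hw hu he
  rw [hl2, herm_smul_right φ hφ, hw, mul_one, ← hφ] at h
  rw [h, mul_zero] at hl1
  exact zero_ne_one hl1

include hF hφ hinv in
/-- A norm-one vector orthogonal to two given norm-one vectors spanning a nondegenerate plane. -/
theorem exists_orth (a v : Fin 3 → F) (ha : Cfsg.hermForm 3 F q a a = 1)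
    (hv : Cfsg.hermForm 3 F q v v = 1)
    (hne : Cfsg.hermForm 3 F q a v * Cfsg.hermForm 3 F q v a ≠ 1) :
    ∃ w : Fin 3 → F, Cfsg.hermForm 3 F q w w = 1 ∧ Cfsg.hermForm 3 F q a w = 0 ∧
      Cfsg.hermForm 3 F q v w = 0 := by
  obtain ⟨w₀, hw₀⟩ : ∃ w₀ : Fin 3 → F, w₀ = ![φ (a 1 * v 2 - a 2 * v 1),
      φ (a 2 * v 0 - a 0 * v 2), φ (a 0 * v 1 - a 1 * v 0)] := ⟨_, rfl⟩
  have h1 : Cfsg.hermForm 3 F q a w₀ = 0 := by
    rw [hw₀]
    simp only [Cfsg.hermForm, Fin.sum_univ_three, ← hφ, hinv, Matrix.cons_val_zero,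
      Matrix.cons_val_one, Matrix.cons_val_two, Matrix.head_cons, Matrix.tail_cons]
    ring
  have h2 : Cfsg.hermForm 3 F q v w₀ = 0 := by
    rw [hw₀]
    simp only [Cfsg.hermForm, Fin.sum_univ_three, ← hφ, hinv, Matrix.cons_val_zero,
      Matrix.cons_val_one, Matrix.cons_val_two, Matrix.head_cons, Matrix.tail_cons]
    ring
  have h3 : Cfsg.hermForm 3 F q w₀ w₀ =
      1 - Cfsg.hermForm 3 F q a v * Cfsg.hermForm 3 F q v a := by
    have h4 : Cfsg.hermForm 3 F q w₀ w₀ =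
        Cfsg.hermForm 3 F q a a * Cfsg.hermForm 3 F q v v -
          Cfsg.hermForm 3 F q a v * Cfsg.hermForm 3 F q v a := by
      rw [hw₀]
      simp only [Cfsg.hermForm, Fin.sum_univ_three, ← hφ, hinv, Matrix.cons_val_zero,
        Matrix.cons_val_one, Matrix.cons_val_two, Matrix.head_cons, Matrix.tail_cons, map_sub,
        map_mul]
      ring
    rw [h4, ha, hv, mul_one]
  obtain ⟨D, hD⟩ : ∃ D : F, D = Cfsg.hermForm 3 F q w₀ w₀ := ⟨_, rfl⟩
  have hD0 : D ≠ 0 := by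
    rw [hD, h3]
    exact sub_ne_zero.mpr (Ne.symm hne)
  have hDφ : φ D = D := by
    rw [hD, hφ, ← herm_symm φ hφ hinv]
  obtain ⟨μ, hμ⟩ := exists_norm hF φ hφ D⁻¹ (inv_ne_zero hD0) (by rw [map_inv₀, hDφ])
  refine ⟨μ • w₀, ?_, ?_, ?_⟩
  · rw [herm_smul_left φ hφ, herm_smul_right φ hφ, ← hφ, ← hD, ← mul_assoc, hμ,
      inv_mul_cancel₀ hD0]
  · rw [herm_smul_right φ hφ, h1, mul_zero]
  · rw [herm_smul_right φ hφ, h2, mul_zero]

include hφ in
theorem card_orth_e (hF : Fintype.card F = q ^ 2) :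
    Nat.card {w : Fin 3 → F // Cfsg.hermForm 3 F q w w = 1 ∧
      Cfsg.hermForm 3 F q w (Pi.single (Fin.last 2) 1) = 0} = q * (q ^ 2 - 1) := by
  have h := Cfsg.Agent.S0284.result hF 2
  rw [if_pos (by decide : Even 2)] at h
  rw [show q * (q ^ 2 - 1) = q ^ (2 - 1) * (q ^ 2 - 1) by norm_num, ← h]
  apply Nat.card_congr
  exact
    { toFun := fun w => ⟨w.1 ∘ Fin.castSucc, by
        have h1 := w.2.1
        have h2 := w.2.2
        rw [herm_single_right φ hφ] at h2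
        rw [herm_succ, h2, zero_mul, add_zero] at h1
        exact h1⟩
      invFun := fun w' => ⟨Fin.snoc w'.1 0, by
        constructor
        · rw [herm_succ, Fin.snoc_comp_castSucc, Fin.snoc_last, zero_mul, add_zero]
          exact w'.2
        · rw [herm_single_right φ hφ]
          exact Fin.snoc_last _ _⟩
      left_inv := fun w => by
        apply Subtype.ext
        funext i
        have h2 := w.2.2
        rw [herm_single_right φ hφ] at h2
        refine Fin.lastCases ?_ (fun j => ?_) i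
        · show (Fin.snoc (α := fun _ => F) (w.1 ∘ Fin.castSucc) 0 : Fin 3 → F) (Fin.last 2) =
            w.1 (Fin.last 2)
          rw [Fin.snoc_last, h2]
        · show (Fin.snoc (α := fun _ => F) (w.1 ∘ Fin.castSucc) 0 : Fin 3 → F) (Fin.castSucc j) =
            w.1 (Fin.castSucc j)
          rw [Fin.snoc_castSucc]
          rfl
      right_inv := fun w' => by
        apply Subtype.ext
        funext i
        simp }

include hF in
theorem exists_mat (u e : Fin 3 → F) (hu : Cfsg.hermForm 3 F q u u = 1)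
    (he : Cfsg.hermForm 3 F q e e = 1) :
    ∃ G G' : Matrix (Fin 3) (Fin 3) F, G' * G = 1 ∧ G * G' = 1 ∧
      (∀ x y, Cfsg.hermForm 3 F q (G *ᵥ x) (G *ᵥ y) = Cfsg.hermForm 3 F q x y) ∧
      (∀ x y, Cfsg.hermForm 3 F q (G' *ᵥ x) (G' *ᵥ y) = Cfsg.hermForm 3 F q x y) ∧
      G *ᵥ u = e := by
  obtain ⟨g, hg⟩ := transitive hF u e hu he
  refine ⟨((g : GL (Fin 3) F) : Matrix (Fin 3) (Fin 3) F),
    (((g⁻¹ : ↥(Cfsg.GU 3 F q)) : GL (Fin 3) F) : Matrix (Fin 3) (Fin 3) F), ?_, ?_, ?_, ?_, hg⟩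
  · rw [← Units.val_mul, ← Subgroup.coe_mul, inv_mul_cancel]
    rfl
  · rw [← Units.val_mul, ← Subgroup.coe_mul, mul_inv_cancel]
    rfl
  · exact fun x y => (mem_GU_iff g.1).1 g.2 x y
  · exact fun x y => (mem_GU_iff (g⁻¹ : ↥(Cfsg.GU 3 F q)).1).1 (g⁻¹ : ↥(Cfsg.GU 3 F q)).2 x y

include hF hφ in
/-- The number of norm-one vectors orthogonal to a given norm-one vector. -/
theorem card_orth (u : Fin 3 → F) (hu : Cfsg.hermForm 3 F q u u = 1) :
    Nat.card {w : Fin 3 → F // Cfsg.hermForm 3 F q w w = 1 ∧ Cfsg.hermForm 3 F q w u = 0} =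
      q * (q ^ 2 - 1) := by
  have he : Cfsg.hermForm 3 F q (Pi.single (Fin.last 2) 1 : Fin 3 → F)
      (Pi.single (Fin.last 2) 1) = 1 := by
    rw [herm_single_right φ hφ]
    simp
  obtain ⟨G, G', h1, h2, hG, hG', hGu⟩ := exists_mat hF u _ hu he
  rw [← card_orth_e φ hφ hF]
  apply Nat.card_congr
  exact
    { toFun := fun w => ⟨G *ᵥ w.1, by rw [hG]; exact w.2.1, by rw [← hGu, hG]; exact w.2.2⟩
      invFun := fun w => ⟨G' *ᵥ w.1, by rw [hG']; exact w.2.1, by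
        have h3 : u = G' *ᵥ (Pi.single (Fin.last 2) 1 : Fin 3 → F) := by
          rw [← hGu, Matrix.mulVec_mulVec, h1, Matrix.one_mulVec]
        rw [h3, hG']
        exact w.2.2⟩
      left_inv := fun w => by
        apply Subtype.ext
        show G' *ᵥ (G *ᵥ w.1) = w.1
        rw [Matrix.mulVec_mulVec, h1, Matrix.one_mulVec]
      right_inv := fun w => by
        apply Subtype.ext
        show G *ᵥ (G' *ᵥ w.1) = w.1
        rw [Matrix.mulVec_mulVec, h2, Matrix.one_mulVec] }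

include hφ hinv in
theorem rfSU_commute_of_orth (u w : Fin 3 → F) (hu : Cfsg.hermForm 3 F q u u = 1)
    (hw : Cfsg.hermForm 3 F q w w = 1) (h : Cfsg.hermForm 3 F q w u = 0) :
    Commute (rfSU φ hφ hinv u hu) (rfSU φ hφ hinv w hw) := by
  show rfSU φ hφ hinv u hu * rfSU φ hφ hinv w hw = rfSU φ hφ hinv w hw * rfSU φ hφ hinv u hu
  apply su_ext
  rw [su_mul_coe, su_mul_coe, rfSU_coe, rfSU_coe]
  exact rf_comm_of_orth φ hφ hinv u w hu h

include hF hq in
theorem orth_of_commute (u w : Fin 3 → F) (hu : Cfsg.hermForm 3 F q u u = 1)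
    (hw : Cfsg.hermForm 3 F q w w = 1)
    (hc : Commute (rfSU φ hφ hinv u hu) (rfSU φ hφ hinv w hw))
    (hne : rfSU φ hφ hinv u hu ≠ rfSU φ hφ hinv w hw) : Cfsg.hermForm 3 F q u w = 0 :=
  herm_eq_zero_of_commute φ hφ hinv hF hq u w hu hw
    (congrArg (fun a : ↥(Cfsg.SU 3 F q) => (a : Matrix.SpecialLinearGroup (Fin 3) F).1) hc.eq)
    (fun h => hne (su_ext _ _ h))

theorem arith2 (q N : ℕ) (hq : 2 ≤ q) (h : q * (q ^ 2 - 1) = N * (q + 1)) : N = q * (q - 1) := by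
  obtain ⟨r, rfl⟩ : ∃ r, q = r + 1 := ⟨q - 1, by omega⟩
  have h5 : (r + 1) ^ 2 - 1 = r * (r + 2) := by
    have : (r + 1) ^ 2 = r * (r + 2) + 1 := by ring
    omega
  rw [h5] at h
  rw [Nat.add_sub_cancel]
  have h6 : N * (r + 1 + 1) = (r + 1) * r * (r + 1 + 1) := by rw [← h]; ring
  exact Nat.eq_of_mul_eq_mul_right (Nat.succ_pos _) h6

include hF hq hφ hinv in
/-- The number of involutions other than `t` commuting with the involution `t`. -/
theorem card_commuting (t : ↥(Cfsg.SU 3 F q)) (ht : t ≠ 1) (ht2 : t * t = 1) :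
    Nat.card {x : ↥(Cfsg.SU 3 F q) // x ≠ 1 ∧ x * x = 1 ∧ x ≠ t ∧ Commute t x} = q * (q - 1) := by
  obtain ⟨u, hu, rfl⟩ := exists_rfSU φ hφ hinv hF hq t ht ht2
  let f : {w : Fin 3 → F // Cfsg.hermForm 3 F q w w = 1 ∧ Cfsg.hermForm 3 F q w u = 0} →
      {x : ↥(Cfsg.SU 3 F q) // x ≠ 1 ∧ x * x = 1 ∧ x ≠ rfSU φ hφ hinv u hu ∧
        Commute (rfSU φ hφ hinv u hu) x} :=
    fun w => ⟨rfSU φ hφ hinv w.1 w.2.1, rfSU_ne_one hF hq φ hφ hinv w.1 w.2.1,
      rfSU_mul_self φ hφ hinv w.1 w.2.1,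
      fun h => rf_ne_of_orth hF hq φ hφ w.1 u w.2.1 hu w.2.2
        (congrArg (fun a : ↥(Cfsg.SU 3 F q) => (a : Matrix.SpecialLinearGroup (Fin 3) F).1) h),
      rfSU_commute_of_orth φ hφ hinv u w.1 hu w.2.1 w.2.2⟩
  let act : {l : F // l * l ^ q = 1} →
      {w : Fin 3 → F // Cfsg.hermForm 3 F q w w = 1 ∧ Cfsg.hermForm 3 F q w u = 0} →
      {w : Fin 3 → F // Cfsg.hermForm 3 F q w w = 1 ∧ Cfsg.hermForm 3 F q w u = 0} :=
    fun l w => ⟨l.1 • w.1, by
      rw [herm_smul_left φ hφ, herm_smul_right φ hφ, w.2.1, mul_one]; exact l.2, by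
      rw [herm_smul_left φ hφ, w.2.2, mul_zero]⟩
  have hf : Function.Surjective f := by
    rintro ⟨x, hx1, hx2, hxt, hc⟩
    obtain ⟨w, hw, rfl⟩ := exists_rfSU φ hφ hinv hF hq x hx1 hx2
    have h0 := orth_of_commute hF hq φ hφ hinv u w hu hw hc (Ne.symm hxt)
    exact ⟨⟨w, hw, herm_zero_symm φ hφ hinv u w h0⟩, rfl⟩
  have hact : ∀ c p, f (act c p) = f p := by
    intro c p
    apply Subtype.ext
    apply su_ext
    show rf φ (c.1 • p.1) = rf φ p.1
    exact rf_smul φ hφ c.1 (by rw [hφ]; exact c.2) p.1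
  have huniq : ∀ p p', f p = f p' → ∃! c, act c p = p' := by
    intro p p' h
    have h1 : rf φ p.1 = rf φ p'.1 :=
      congrArg (fun a : {x : ↥(Cfsg.SU 3 F q) // x ≠ 1 ∧ x * x = 1 ∧ x ≠ rfSU φ hφ hinv u hu ∧
        Commute (rfSU φ hφ hinv u hu) x} =>
        (a.1 : Matrix.SpecialLinearGroup (Fin 3) F).1) h
    obtain ⟨l, hl1, hl2⟩ := rf_eq_imp hF hq φ hφ p.1 p'.1 p.2.1 p'.2.1 h1
    refine ⟨⟨l, by rw [← hφ]; exact hl1⟩, Subtype.ext hl2.symm, ?_⟩
    intro c hc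
    apply Subtype.ext
    have h3 : c.1 • p.1 = l • p.1 := by
      rw [← hl2]
      exact congrArg Subtype.val hc
    have h4 := congrArg (fun z => Cfsg.hermForm 3 F q z p.1) h3
    simp only [herm_smul_left φ hφ, p.2.1, mul_one] at h4
    exact h4
  have hcard := Cfsg.Agent.S2669.card_eq_mul f act hf hact huniq
  rw [card_orth hF φ hφ u hu,
    Cfsg.Agent.Lib.Helper5.HermCount.card_norm_eq hF 1 one_ne_zero (one_pow q)] at hcard
  exact arith2 q _ (Cfsg.Agent.Lib.Helper5.HermCount.two_le hF) hcard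

include hF hφ hinv in
/-- Two norm-one vectors orthogonal to two non-proportional norm-one vectors `u`, `v`
(with a norm-one vector orthogonal to `u`) give the same reflection. -/
theorem rf_eq_of_orth_both (u v w w' : Fin 3 → F) (hu : Cfsg.hermForm 3 F q u u = 1)
    (hv : Cfsg.hermForm 3 F q v v = 1) (hw : Cfsg.hermForm 3 F q w w = 1)
    (hw' : Cfsg.hermForm 3 F q w' w' = 1)
    (huw : Cfsg.hermForm 3 F q u w = 0) (hvw : Cfsg.hermForm 3 F q v w = 0)
    (huw' : Cfsg.hermForm 3 F q u w' = 0) (hvw' : Cfsg.hermForm 3 F q v w' = 0)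
    (hne : rf φ v ≠ rf φ u) : rf φ w' = rf φ w := by
  obtain ⟨u', hu', huu', hwu'⟩ := exists_orth hF φ hφ hinv u w hu hw
    (by rw [huw, zero_mul]; exact zero_ne_one)
  have cv := complete φ hφ hinv u w u' hu hw hu' huw huu' hwu' v
  have cw' := complete φ hφ hinv u w u' hu hw hu' huw huu' hwu' w'
  obtain ⟨α, hα⟩ : ∃ α : F, α = Cfsg.hermForm 3 F q v u := ⟨_, rfl⟩
  obtain ⟨β, hβ⟩ : ∃ β : F, β = Cfsg.hermForm 3 F q v u' := ⟨_, rfl⟩
  obtain ⟨γ, hγ⟩ : ∃ γ : F, γ = Cfsg.hermForm 3 F q w' w := ⟨_, rfl⟩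
  rw [hvw, zero_smul, add_zero, ← hα, ← hβ] at cv
  have h1 : β * Cfsg.hermForm 3 F q u' w' = 0 := by
    have h2 := hvw'
    rw [cv, herm_add_left φ hφ, herm_smul_left φ hφ, herm_smul_left φ hφ, huw', mul_zero,
      zero_add] at h2
    exact h2
  rcases mul_eq_zero.mp h1 with h3 | h3
  · exfalso
    apply hne
    rw [h3, zero_smul, add_zero] at cv
    exact rf_eq_of_smul φ hφ u v α hu hv cv
  · rw [herm_zero_symm φ hφ hinv u w' huw', herm_zero_symm φ hφ hinv u' w' h3, zero_smul,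
      zero_smul, zero_add, add_zero, ← hγ] at cw'
    exact rf_eq_of_smul φ hφ w w' γ hw hw' cw'

include hF hq hφ hinv in
/-- For non-commuting involutions `t`, `x` there is at most one involution commuting with both. -/
theorem unique_common (t x y y' : ↥(Cfsg.SU 3 F q)) (ht : t ≠ 1) (ht2 : t * t = 1)
    (hx : x ≠ 1) (hx2 : x * x = 1) (hy : y ≠ 1) (hy2 : y * y = 1)
    (hy' : y' ≠ 1) (hy2' : y' * y' = 1) (hntx : ¬ Commute t x)
    (hty : Commute t y) (hyx : Commute y x) (hty' : Commute t y') (hyx' : Commute y' x) :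
    y' = y := by
  have hxt : x ≠ t := by
    intro h; subst h; exact hntx (Commute.refl _)
  have hyt : y ≠ t := by
    intro h; subst h; exact hntx hyx
  have hyxn : y ≠ x := by
    intro h; subst h; exact hntx hty
  have hyt' : y' ≠ t := by
    intro h; subst h; exact hntx hyx'
  have hyxn' : y' ≠ x := by
    intro h; subst h; exact hntx hty'
  obtain ⟨u, hu, rfl⟩ := exists_rfSU φ hφ hinv hF hq t ht ht2
  obtain ⟨v, hv, rfl⟩ := exists_rfSU φ hφ hinv hF hq x hx hx2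
  obtain ⟨w, hw, rfl⟩ := exists_rfSU φ hφ hinv hF hq y hy hy2
  obtain ⟨w', hw', rfl⟩ := exists_rfSU φ hφ hinv hF hq y' hy' hy2'
  have huw := orth_of_commute hF hq φ hφ hinv u w hu hw hty (Ne.symm hyt)
  have hwv := orth_of_commute hF hq φ hφ hinv w v hw hv hyx hyxn
  have huw' := orth_of_commute hF hq φ hφ hinv u w' hu hw' hty' (Ne.symm hyt')
  have hwv' := orth_of_commute hF hq φ hφ hinv w' v hw' hv hyx' hyxn'
  apply su_ext
  rw [rfSU_coe, rfSU_coe]
  exact rf_eq_of_orth_both hF φ hφ hinv u v w w' hu hv hw hw' huw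
    (herm_zero_symm φ hφ hinv w v hwv) huw' (herm_zero_symm φ hφ hinv w' v hwv')
    (fun h => hxt (su_ext _ _ h))

end Cfsg.Agent.Lib.Helper39.SU3Graph
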