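-- The commuting involution graph of SU_3(q), q odd: distance distribution and diameter.
import Mathlib
import Cfsg.Agent.Lib.Helper39.SU3Graph

set_option autoImplicit false
set_option linter.unusedSectionVars false
set_option linter.unusedVariables false

namespace Cfsg.Agent.Lib.Helper39.SU3Dist

open Matrix Cfsg.Agent.Lib.Helper45.GUCard Cfsg.Agent.Lib.Helper45.SUCard
  Cfsg.Agent.Lib.Helper39.SU3Inv Cfsg.Agent.Lib.Helper39.SU3Conj
  Cfsg.Agent.Lib.Helper39.SU3Count Cfsg.Agent.Lib.Helper39.SU3Graph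

theorem arith3 (q : ℕ) (hq : 2 ≤ q) :
    q * (q - 1) * (q * (q - 1) - 2) = q * (q - 2) * (q ^ 2 - 1) := by
  obtain ⟨r, rfl⟩ : ∃ r, q = r + 2 := ⟨q - 2, by omega⟩
  have h1 : r + 2 - 1 = r + 1 := by omega
  have h2 : r + 2 - 2 = r := by omega
  have h3 : (r + 2) * (r + 1) - 2 = r * (r + 3) := by
    have : (r + 2) * (r + 1) = r * (r + 3) + 2 := by ring
    omega
  have h4 : (r + 2) ^ 2 - 1 = (r + 1) * (r + 3) := by
    have : (r + 2) ^ 2 = (r + 1) * (r + 3) + 1 := by ring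
    omega
  rw [h1, h2, h3, h4]
  ring

theorem arith4 (q N : ℕ) (hq : 2 ≤ q)
    (h : N + (1 + q * (q - 1) + q * (q - 1) * (q * (q - 1) - 2)) = q ^ 2 * (q ^ 2 - q + 1)) :
    N = (q + 1) * (q ^ 2 - 1) := by
  obtain ⟨r, rfl⟩ : ∃ r, q = r + 2 := ⟨q - 2, by omega⟩
  have h1 : r + 2 - 1 = r + 1 := by omega
  have h3 : (r + 2) * (r + 1) - 2 = r * (r + 3) := by
    have : (r + 2) * (r + 1) = r * (r + 3) + 2 := by ring
    omega
  have h4 : (r + 2) ^ 2 - 1 = (r + 1) * (r + 3) := by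
    have : (r + 2) ^ 2 = (r + 1) * (r + 3) + 1 := by ring
    omega
  have h5 : (r + 2) ^ 2 - (r + 2) + 1 = r ^ 2 + 3 * r + 3 := by
    have : (r + 2) ^ 2 = r ^ 2 + 3 * r + 2 + (r + 2) := by ring
    omega
  rw [h1, h3, h5] at h
  rw [h4]
  have h6 : (r + 2) ^ 2 * (r ^ 2 + 3 * r + 3) = (r + 2 + 1) * ((r + 1) * (r + 3)) +
      (1 + (r + 2) * (r + 1) + (r + 2) * (r + 1) * (r * (r + 3))) := by ring
  rw [h6] at h
  exact Nat.add_right_cancel h

theorem ne_of_commute_of_not {G : Type*} [Group G] (t x y : G) (hntx : ¬ Commute t x)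
    (hyx : Commute y x) : y ≠ t := by
  intro h; subst h; exact hntx hyx

variable {F : Type*} [Field F] [Fintype F] {q : ℕ} (hF : Fintype.card F = q ^ 2) (hq : Odd q)
  (φ : F →+* F) (hφ : ∀ x, φ x = x ^ q) (hinv : ∀ x, φ (φ x) = x)

include hF hq hφ hinv in
/-- The number of involutions at distance two from `t` in the commuting involution graph. -/
theorem card_dist2 (t : ↥(Cfsg.SU 3 F q)) (ht : t ≠ 1) (ht2 : t * t = 1) :
    Nat.card {x : ↥(Cfsg.SU 3 F q) // x ≠ 1 ∧ x * x = 1 ∧ ¬ Commute t x ∧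
        ∃ y : ↥(Cfsg.SU 3 F q), y ≠ 1 ∧ y * y = 1 ∧ Commute t y ∧ Commute y x} =
      q * (q - 1) * (q * (q - 1) - 2) := by
  let f : {x : ↥(Cfsg.SU 3 F q) // x ≠ 1 ∧ x * x = 1 ∧ ¬ Commute t x ∧
        ∃ y : ↥(Cfsg.SU 3 F q), y ≠ 1 ∧ y * y = 1 ∧ Commute t y ∧ Commute y x} →
      {y : ↥(Cfsg.SU 3 F q) // y ≠ 1 ∧ y * y = 1 ∧ y ≠ t ∧ Commute t y} :=
    fun x => ⟨Classical.choose x.2.2.2.2, (Classical.choose_spec x.2.2.2.2).1,
      (Classical.choose_spec x.2.2.2.2).2.1,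
      ne_of_commute_of_not t x.1 _ x.2.2.2.1 (Classical.choose_spec x.2.2.2.2).2.2.2,
      (Classical.choose_spec x.2.2.2.2).2.2.1⟩
  have hfib : ∀ a, Nat.card {p // f p = a} = q * (q - 1) - 2 := by
    rintro ⟨y₀, hy1, hy2, hyt, hty⟩
    have hN := card_commuting hF hq φ hφ hinv y₀ hy1 hy2
    have hcomm : y₀ * t = t * y₀ := hty.eq.symm
    have hsub : ({t, t * y₀} : Set ↥(Cfsg.SU 3 F q)) ⊆
        {x | x ≠ 1 ∧ x * x = 1 ∧ x ≠ y₀ ∧ Commute y₀ x} := by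
      intro x hx
      rcases hx with rfl | rfl
      · exact ⟨ht, ht2, Ne.symm hyt, hty.symm⟩
      · refine ⟨?_, ?_, ?_, ?_⟩
        · intro h
          apply hyt
          have h1 : y₀ = t⁻¹ := eq_inv_of_mul_eq_one_right h
          rw [h1, inv_eq_of_mul_eq_one_right ht2]
        · calc t * y₀ * (t * y₀) = t * (y₀ * t) * y₀ := by group
            _ = t * (t * y₀) * y₀ := by rw [hcomm]
            _ = (t * t) * (y₀ * y₀) := by group
            _ = 1 := by rw [ht2, hy2, mul_one]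
        · intro h
          exact ht (mul_eq_right.mp h)
        · show y₀ * (t * y₀) = t * y₀ * y₀
          rw [← mul_assoc, hcomm]
    have hpair : ({t, t * y₀} : Set ↥(Cfsg.SU 3 F q)).ncard = 2 :=
      Set.ncard_pair (fun h => hy1 (mul_eq_left.mp h.symm))
    have hdiff := Set.ncard_sdiff hsub (Set.toFinite _)
    rw [hpair] at hdiff
    have hN' : ({x | x ≠ 1 ∧ x * x = 1 ∧ x ≠ y₀ ∧ Commute y₀ x} : Set ↥(Cfsg.SU 3 F q)).ncard =
        q * (q - 1) := hN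
    rw [hN'] at hdiff
    rw [← hdiff, ← Nat.card_coe_set_eq]
    have key1 : ∀ x : {x : ↥(Cfsg.SU 3 F q) // x ≠ 1 ∧ x * x = 1 ∧ ¬ Commute t x ∧
        ∃ y : ↥(Cfsg.SU 3 F q), y ≠ 1 ∧ y * y = 1 ∧ Commute t y ∧ Commute y x},
        f x = ⟨y₀, hy1, hy2, hyt, hty⟩ →
        x.1 ∈ ({x | x ≠ 1 ∧ x * x = 1 ∧ x ≠ y₀ ∧ Commute y₀ x} : Set ↥(Cfsg.SU 3 F q)) \
          {t, t * y₀} := by
      rintro ⟨x, hx1, hx2, hntx, hex⟩ hfx
      have h1 : Classical.choose hex = y₀ := congrArg Subtype.val hfx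
      have hspec := Classical.choose_spec hex
      rw [h1] at hspec
      refine ⟨⟨hx1, hx2, ?_, hspec.2.2.2⟩, ?_⟩
      · intro (h : x = y₀)
        apply hntx
        rw [h]
        exact hty
      · intro h
        rcases h with h | h
        · have h' : x = t := h
          apply hntx
          rw [h']
        · have h' : x = t * y₀ := h
          apply hntx
          show t * x = x * t
          rw [h', ← mul_assoc, mul_assoc t y₀ t, hcomm, mul_assoc]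
    have key2 : ∀ x ∈ ({x | x ≠ 1 ∧ x * x = 1 ∧ x ≠ y₀ ∧ Commute y₀ x} :
        Set ↥(Cfsg.SU 3 F q)) \ {t, t * y₀},
        ∃ hx : (x ≠ 1 ∧ x * x = 1 ∧ ¬ Commute t x ∧
          ∃ y : ↥(Cfsg.SU 3 F q), y ≠ 1 ∧ y * y = 1 ∧ Commute t y ∧ Commute y x),
          f ⟨x, hx⟩ = ⟨y₀, hy1, hy2, hyt, hty⟩ := by
      rintro x ⟨⟨hx1, hx2, hxy, hyx⟩, hnot⟩
      have hxt : x ≠ t := fun h => hnot (Or.inl h)
      have hntx : ¬ Commute t x := by
        intro hc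
        apply hnot
        right
        exact eq_mul_of_commute hF hq φ hφ hinv t y₀ x ht ht2 hy1 hy2 hx1 hx2 hyt hxt hxy hty
          hc hyx
      have hex : ∃ y : ↥(Cfsg.SU 3 F q), y ≠ 1 ∧ y * y = 1 ∧ Commute t y ∧ Commute y x :=
        ⟨y₀, hy1, hy2, hty, hyx⟩
      refine ⟨⟨hx1, hx2, hntx, hex⟩, ?_⟩
      apply Subtype.ext
      show Classical.choose hex = y₀
      have hspec := Classical.choose_spec hex
      exact unique_common hF hq φ hφ hinv t x y₀ _ ht ht2 hx1 hx2 hy1 hy2 hspec.1 hspec.2.1 hntx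
        hty hyx hspec.2.2.1 hspec.2.2.2
    apply Nat.card_congr
    exact
      { toFun := fun x => ⟨x.1.1, key1 x.1 x.2⟩
        invFun := fun x => ⟨⟨x.1, (key2 x.1 x.2).choose⟩, (key2 x.1 x.2).choose_spec⟩
        left_inv := fun x => Subtype.ext (Subtype.ext rfl)
        right_inv := fun x => Subtype.ext rfl }
  rw [card_eq_mul_of_fiber f (q * (q - 1) - 2) hfib, card_commuting hF hq φ hφ hinv t ht ht2]

include hF hq hφ hinv in
/-- The involutions split as `t`, its neighbours, those at distance two and the rest. -/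
theorem card_dist3 (t : ↥(Cfsg.SU 3 F q)) (ht : t ≠ 1) (ht2 : t * t = 1) :
    Nat.card {x : ↥(Cfsg.SU 3 F q) // x ≠ 1 ∧ x * x = 1 ∧ ¬ Commute t x ∧
        ∀ y : ↥(Cfsg.SU 3 F q), y ≠ 1 → y * y = 1 → ¬ (Commute t y ∧ Commute y x)} +
      (1 + q * (q - 1) + q * (q - 1) * (q * (q - 1) - 2)) = q ^ 2 * (q ^ 2 - q + 1) := by
  obtain ⟨I, hI⟩ : ∃ I : Set ↥(Cfsg.SU 3 F q), I = {x | x ≠ 1 ∧ x * x = 1} := ⟨_, rfl⟩
  obtain ⟨A, hA⟩ : ∃ A : Set ↥(Cfsg.SU 3 F q),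
      A = {x | x ≠ 1 ∧ x * x = 1 ∧ x ≠ t ∧ Commute t x} := ⟨_, rfl⟩
  obtain ⟨B, hB⟩ : ∃ B : Set ↥(Cfsg.SU 3 F q), B = {x | x ≠ 1 ∧ x * x = 1 ∧ ¬ Commute t x ∧
        ∃ y : ↥(Cfsg.SU 3 F q), y ≠ 1 ∧ y * y = 1 ∧ Commute t y ∧ Commute y x} := ⟨_, rfl⟩
  obtain ⟨C, hC⟩ : ∃ C : Set ↥(Cfsg.SU 3 F q), C = {x | x ≠ 1 ∧ x * x = 1 ∧ ¬ Commute t x ∧
        ∀ y : ↥(Cfsg.SU 3 F q), y ≠ 1 → y * y = 1 → ¬ (Commute t y ∧ Commute y x)} := ⟨_, rfl⟩
  have hIc : I.ncard = q ^ 2 * (q ^ 2 - q + 1) := by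
    rw [hI]
    exact card_inv hF hq φ hφ hinv
  have hAc : A.ncard = q * (q - 1) := by
    rw [hA]
    exact card_commuting hF hq φ hφ hinv t ht ht2
  have hBc : B.ncard = q * (q - 1) * (q * (q - 1) - 2) := by
    rw [hB]
    exact card_dist2 hF hq φ hφ hinv t ht ht2
  have hsplit : I = (({t} ∪ A) ∪ B) ∪ C := by
    ext x
    rw [hI, hA, hB, hC]
    simp only [Set.mem_union, Set.mem_singleton_iff, Set.mem_setOf_eq]
    constructor
    · rintro ⟨hx1, hx2⟩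
      by_cases hc : Commute t x
      · by_cases hxt : x = t
        · exact Or.inl (Or.inl (Or.inl hxt))
        · exact Or.inl (Or.inl (Or.inr ⟨hx1, hx2, hxt, hc⟩))
      · by_cases hex : ∃ y : ↥(Cfsg.SU 3 F q), y ≠ 1 ∧ y * y = 1 ∧ Commute t y ∧ Commute y x
        · exact Or.inl (Or.inr ⟨hx1, hx2, hc, hex⟩)
        · exact Or.inr ⟨hx1, hx2, hc, fun y hy1 hy2 hcc => hex ⟨y, hy1, hy2, hcc.1, hcc.2⟩⟩
    · rintro (((h | h) | h) | h)
      · rw [h]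
        exact ⟨ht, ht2⟩
      · exact ⟨h.1, h.2.1⟩
      · exact ⟨h.1, h.2.1⟩
      · exact ⟨h.1, h.2.1⟩
  have hd1 : Disjoint ({t} : Set ↥(Cfsg.SU 3 F q)) A := by
    rw [Set.disjoint_left]
    intro x hx hxA
    rw [hA] at hxA
    exact hxA.2.2.1 hx
  have hd2 : Disjoint (({t} : Set ↥(Cfsg.SU 3 F q)) ∪ A) B := by
    rw [Set.disjoint_left]
    intro x hx hxB
    rw [hB] at hxB
    rcases hx with hx | hx
    · apply hxB.2.2.1
      have hx' : x = t := hx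
      rw [hx']
    · rw [hA] at hx
      exact hxB.2.2.1 hx.2.2.2
  have hd3 : Disjoint ((({t} : Set ↥(Cfsg.SU 3 F q)) ∪ A) ∪ B) C := by
    rw [Set.disjoint_left]
    intro x hx hxC
    rw [hC] at hxC
    rcases hx with (hx | hx) | hx
    · apply hxC.2.2.1
      have hx' : x = t := hx
      rw [hx']
    · rw [hA] at hx
      exact hxC.2.2.1 hx.2.2.2
    · rw [hB] at hx
      obtain ⟨y, hy1, hy2, hty, hyx⟩ := hx.2.2.2
      exact hxC.2.2.2 y hy1 hy2 ⟨hty, hyx⟩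
  have h1 := Set.ncard_union_eq hd3 (Set.toFinite _) (Set.toFinite _)
  have h2 := Set.ncard_union_eq hd2 (Set.toFinite _) (Set.toFinite _)
  have h3 := Set.ncard_union_eq hd1 (Set.toFinite _) (Set.toFinite _)
  rw [← hsplit, h2, h3, Set.ncard_singleton, hIc, hAc, hBc] at h1
  have hCc : C.ncard = Nat.card {x : ↥(Cfsg.SU 3 F q) // x ≠ 1 ∧ x * x = 1 ∧ ¬ Commute t x ∧
        ∀ y : ↥(Cfsg.SU 3 F q), y ≠ 1 → y * y = 1 → ¬ (Commute t y ∧ Commute y x)} := by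
    rw [hC]
    rfl
  rw [← hCc, h1]
  ring

include hF hφ hinv in
theorem path_of_nondeg (a v : Fin 3 → F) (ha : Cfsg.hermForm 3 F q a a = 1)
    (hv : Cfsg.hermForm 3 F q v v = 1)
    (hne : Cfsg.hermForm 3 F q a v * Cfsg.hermForm 3 F q v a ≠ 1) :
    ∃ (w : Fin 3 → F) (hw : Cfsg.hermForm 3 F q w w = 1),
      Commute (rfSU φ hφ hinv a ha) (rfSU φ hφ hinv w hw) ∧
      Commute (rfSU φ hφ hinv w hw) (rfSU φ hφ hinv v hv) := by
  obtain ⟨w, hw, haw, hvw⟩ := exists_orth hF φ hφ hinv a v ha hv hne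
  exact ⟨w, hw, rfSU_commute_of_orth φ hφ hinv a w ha hw (herm_zero_symm φ hφ hinv a w haw),
    rfSU_commute_of_orth φ hφ hinv w v hw hv hvw⟩

include hF hq hφ hinv in
/-- The commuting involution graph has diameter at most three. -/
theorem exists_path (t x : ↥(Cfsg.SU 3 F q)) (ht : t ≠ 1) (ht2 : t * t = 1)
    (hx : x ≠ 1) (hx2 : x * x = 1) :
    ∃ y z : ↥(Cfsg.SU 3 F q), y ≠ 1 ∧ y * y = 1 ∧ z ≠ 1 ∧ z * z = 1 ∧
      Commute t y ∧ Commute y z ∧ Commute z x := by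
  have h2 := two_ne_zero' hF hq
  have hq2 := Cfsg.Agent.Lib.Helper5.HermCount.two_le hF
  obtain ⟨u, hu, rfl⟩ := exists_rfSU φ hφ hinv hF hq t ht ht2
  obtain ⟨v, hv, rfl⟩ := exists_rfSU φ hφ hinv hF hq x hx hx2
  by_cases hd : Cfsg.hermForm 3 F q u v * Cfsg.hermForm 3 F q v u = 1
  · have hpos : 0 < Nat.card {w : Fin 3 → F // Cfsg.hermForm 3 F q w w = 1 ∧
        Cfsg.hermForm 3 F q w u = 0} := by
      rw [card_orth hF φ hφ u hu]
      have h3 : 0 < q ^ 2 - 1 := by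
        have : 2 ≤ q ^ 2 := le_trans hq2 (Nat.le_self_pow two_ne_zero q)
        omega
      positivity
    obtain ⟨⟨w₁, hw₁, hw₁u⟩⟩ := (Nat.card_pos_iff.mp hpos).1
    have huw₁ := herm_zero_symm φ hφ hinv w₁ u hw₁u
    obtain ⟨w₂, hw₂, huw₂, hw₁w₂⟩ := exists_orth hF φ hφ hinv u w₁ hu hw₁
      (by rw [huw₁, zero_mul]; exact zero_ne_one)
    have cv := complete φ hφ hinv u w₁ w₂ hu hw₁ hw₂ huw₁ huw₂ hw₁w₂ v
    have h3 : Cfsg.hermForm 3 F q (Cfsg.hermForm 3 F q v u • u + Cfsg.hermForm 3 F q v w₁ • w₁ +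
        Cfsg.hermForm 3 F q v w₂ • w₂) v = 1 := by
      rw [← cv]
      exact hv
    rw [herm_add_left φ hφ, herm_add_left φ hφ, herm_smul_left φ hφ, herm_smul_left φ hφ,
      herm_smul_left φ hφ] at h3
    have h4 : Cfsg.hermForm 3 F q w₁ v * Cfsg.hermForm 3 F q v w₁ ≠ 1 ∨
        Cfsg.hermForm 3 F q w₂ v * Cfsg.hermForm 3 F q v w₂ ≠ 1 := by
      by_contra hcon
      push_neg at hcon
      apply h2
      linear_combination h3 - hd - hcon.1 - hcon.2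
    rcases h4 with h4 | h4
    · obtain ⟨w, hw, hc1, hc2⟩ := path_of_nondeg hF φ hφ hinv w₁ v hw₁ hv h4
      exact ⟨rfSU φ hφ hinv w₁ hw₁, rfSU φ hφ hinv w hw, rfSU_ne_one hF hq φ hφ hinv w₁ hw₁,
        rfSU_mul_self φ hφ hinv w₁ hw₁, rfSU_ne_one hF hq φ hφ hinv w hw,
        rfSU_mul_self φ hφ hinv w hw, rfSU_commute_of_orth φ hφ hinv u w₁ hu hw₁ hw₁u, hc1, hc2⟩
    · obtain ⟨w, hw, hc1, hc2⟩ := path_of_nondeg hF φ hφ hinv w₂ v hw₂ hv h4
      exact ⟨rfSU φ hφ hinv w₂ hw₂, rfSU φ hφ hinv w hw, rfSU_ne_one hF hq φ hφ hinv w₂ hw₂,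
        rfSU_mul_self φ hφ hinv w₂ hw₂, rfSU_ne_one hF hq φ hφ hinv w hw,
        rfSU_mul_self φ hφ hinv w hw,
        rfSU_commute_of_orth φ hφ hinv u w₂ hu hw₂ (herm_zero_symm φ hφ hinv u w₂ huw₂), hc1, hc2⟩
  · obtain ⟨w, hw, hc1, hc2⟩ := path_of_nondeg hF φ hφ hinv u v hu hv hd
    exact ⟨rfSU φ hφ hinv w hw, rfSU φ hφ hinv w hw, rfSU_ne_one hF hq φ hφ hinv w hw,
      rfSU_mul_self φ hφ hinv w hw, rfSU_ne_one hF hq φ hφ hinv w hw,
      rfSU_mul_self φ hφ hinv w hw, hc1, Commute.refl _, hc2⟩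

end Cfsg.Agent.Lib.Helper39.SU3Dist
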