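-- A free family in the Suzuki groups: ping-pong by degrees in 4 × 4 polynomial matrices.
import Mathlib
import Cfsg.Prelude.Def_Sz
import Cfsg.Agent.Lib.Helper39.PSL2Law
import Cfsg.Agent.Lib.Helper39.Law

set_option autoImplicit false
set_option linter.unusedSectionVars false
set_option linter.unusedVariables false

namespace Cfsg.Agent.Lib.Helper39.SzLaw

open Polynomial Matrix

section ring

variable {R : Type*} [CommRing R]

/-- Lower unitriangular `4 × 4` matrices. -/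
def low (t10 t20 t21 t30 t31 t32 : R) : Matrix (Fin 4) (Fin 4) R :=
  !![1, 0, 0, 0; t10, 1, 0, 0; t20, t21, 1, 0; t30, t31, t32, 1]

/-- The antidiagonal matrix. -/
def tau (R : Type*) [CommRing R] : Matrix (Fin 4) (Fin 4) R :=
  !![0, 0, 0, 1; 0, 0, 1, 0; 0, 1, 0, 0; 1, 0, 0, 0]

theorem low_mulVec (t10 t20 t21 t30 t31 t32 : R) (v : Fin 4 → R) :
    low t10 t20 t21 t30 t31 t32 *ᵥ v =
      ![v 0, t10 * v 0 + v 1, t20 * v 0 + t21 * v 1 + v 2,
        t30 * v 0 + t31 * v 1 + t32 * v 2 + v 3] := by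
  ext i
  fin_cases i <;> simp [low, Matrix.mulVec, dotProduct, Fin.sum_univ_four]

theorem tau_mulVec (v : Fin 4 → R) : tau R *ᵥ v = ![v 3, v 2, v 1, v 0] := by
  ext i
  fin_cases i <;> simp [tau, Matrix.mulVec, dotProduct, Fin.sum_univ_four]

theorem tau_mul_tau : tau R * tau R = 1 := by
  ext i j
  fin_cases i <;> fin_cases j <;> simp [tau, Matrix.mul_apply, Fin.sum_univ_four]

theorem low_mul (t10 t20 t21 t30 t31 t32 s10 s20 s21 s30 s31 s32 : R) :
    low t10 t20 t21 t30 t31 t32 * low s10 s20 s21 s30 s31 s32 =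
      low (t10 + s10) (t20 + t21 * s10 + s20) (t21 + s21)
        (t30 + t31 * s10 + t32 * s20 + s30) (t31 + t32 * s21 + s31) (t32 + s32) := by
  ext i j
  fin_cases i <;> fin_cases j <;> simp [low, Matrix.mul_apply, Fin.sum_univ_four]

theorem low_zero : low (0 : R) 0 0 0 0 0 = 1 := by
  ext i j
  fin_cases i <;> fin_cases j <;> simp [low]

theorem low_congr {t10 t20 t21 t30 t31 t32 s10 s20 s21 s30 s31 s32 : R} (h10 : t10 = s10)
    (h20 : t20 = s20) (h21 : t21 = s21) (h30 : t30 = s30) (h31 : t31 = s31) (h32 : t32 = s32) :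
    low t10 t20 t21 t30 t31 t32 = low s10 s20 s21 s30 s31 s32 := by
  rw [h10, h20, h21, h30, h31, h32]

theorem tau_mul_tau_mul (M : Matrix (Fin 4) (Fin 4) R) : tau R * (tau R * M) = M := by
  rw [← mul_assoc, tau_mul_tau, one_mul]

/-- The root elements `S(a, a θ(a))` of the Suzuki group, `θ` standing for `θ(a)`. -/
def sMat (a θ : R) : Matrix (Fin 4) (Fin 4) R := low a (a * θ) θ (a ^ 2 * θ) 0 a

/-- The root elements `S(a, 0)`, inverse to `sMat` in characteristic 2. -/
def sMat' (a θ : R) : Matrix (Fin 4) (Fin 4) R := low a 0 θ (a ^ 2 * θ) (a * θ) a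

theorem sMat_mul_sMat' (h2 : (2 : R) = 0) (a θ : R) : sMat a θ * sMat' a θ = 1 := by
  rw [sMat, sMat', low_mul, ← low_zero]
  refine low_congr ?_ ?_ ?_ ?_ ?_ ?_
  · linear_combination a * h2
  · linear_combination (a * θ) * h2
  · linear_combination θ * h2
  · linear_combination (a ^ 2 * θ) * h2
  · linear_combination (a * θ) * h2
  · linear_combination a * h2

theorem sMat'_mul_sMat (h2 : (2 : R) = 0) (a θ : R) : sMat' a θ * sMat a θ = 1 := by
  rw [sMat, sMat', low_mul, ← low_zero]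
  refine low_congr ?_ ?_ ?_ ?_ ?_ ?_
  · linear_combination a * h2
  · linear_combination (a * θ) * h2
  · linear_combination θ * h2
  · linear_combination (2 * a ^ 2 * θ) * h2
  · linear_combination (a * θ) * h2
  · linear_combination a * h2

/-- The root elements as units. -/
def sU (h2 : (2 : R) = 0) (a θ : R) : (Matrix (Fin 4) (Fin 4) R)ˣ :=
  ⟨sMat a θ, sMat' a θ, sMat_mul_sMat' h2 a θ, sMat'_mul_sMat h2 a θ⟩

/-- The antidiagonal matrix as a unit. -/
def tauU (R : Type*) [CommRing R] : (Matrix (Fin 4) (Fin 4) R)ˣ :=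
  ⟨tau R, tau R, tau_mul_tau, tau_mul_tau⟩

/-- The generators: commutators of the antidiagonal matrix and a root element. -/
def gen (h2 : (2 : R) = 0) (a θ : R) : (Matrix (Fin 4) (Fin 4) R)ˣ :=
  tauU R * sU h2 a θ * tauU R * (sU h2 a θ)⁻¹

/-- The matrix of a generator or of its inverse. -/
def cMat (a θ : R) (b : Bool) : Matrix (Fin 4) (Fin 4) R :=
  bif b then tau R * sMat a θ * tau R * sMat' a θ else sMat a θ * tau R * sMat' a θ * tau R

theorem coe_gen_letter (h2 : (2 : R) = 0) (a θ : R) (b : Bool) :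
    ((bif b then gen h2 a θ else (gen h2 a θ)⁻¹ : (Matrix (Fin 4) (Fin 4) R)ˣ) :
      Matrix (Fin 4) (Fin 4) R) = cMat a θ b := by
  cases b
  · have h : (gen h2 a θ)⁻¹ = sU h2 a θ * tauU R * (sU h2 a θ)⁻¹ * tauU R := by
      rw [inv_eq_iff_eq_inv, gen]
      simp only [_root_.mul_inv_rev, inv_inv, mul_assoc]
      rfl
    simp only [cond_false, cMat]
    rw [h]
    rfl
  · rfl

theorem low_map {S : Type*} [CommRing S] (φ : R →+* S) (t10 t20 t21 t30 t31 t32 : R) :
    (low t10 t20 t21 t30 t31 t32).map φ =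
      low (φ t10) (φ t20) (φ t21) (φ t30) (φ t31) (φ t32) := by
  ext i j
  fin_cases i <;> fin_cases j <;> simp [low]

theorem tau_map {S : Type*} [CommRing S] (φ : R →+* S) : (tau R).map φ = tau S := by
  ext i j
  fin_cases i <;> fin_cases j <;> simp [tau]

theorem cMat_map {S : Type*} [CommRing S] (φ : R →+* S) (a θ : R) (b : Bool) :
    (cMat a θ b).map φ = cMat (φ a) (φ θ) b := by
  cases b <;> simp [cMat, Matrix.map_mul, tau_map, sMat, sMat', low_map]

theorem coe_lift_units {M : Type*} [Monoid M] (g : ℕ → Mˣ) (L : List (ℕ × Bool)) :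
    ((FreeGroup.lift g (FreeGroup.mk L) : Mˣ) : M) =
      (L.map fun x => ((bif x.2 then g x.1 else (g x.1)⁻¹ : Mˣ) : M)).prod := by
  rw [FreeGroup.lift_mk, ← Units.coeHom_apply, map_list_prod, List.map_map]
  rfl

theorem star4_low (t10 t20 t21 t30 t31 t32 : R) :
    Cfsg.Lie.star4 (low t10 t20 t21 t30 t31 t32) =
      low t21 (t10 * t31 - t30) (t10 * t32) (t20 * t31 - t30 * t21) (t20 * t32 - t30) t21 := by
  ext i j
  fin_cases i <;> fin_cases j <;> simp [Cfsg.Lie.star4, Cfsg.Lie.pairOf, low]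

theorem star4_tau : Cfsg.Lie.star4 (tau R) = -tau R := by
  ext i j
  fin_cases i <;> fin_cases j <;> simp [Cfsg.Lie.star4, Cfsg.Lie.pairOf, tau]

theorem low_map_pow (e : ℕ) (he : e ≠ 0) (t10 t20 t21 t30 t31 t32 : R) :
    (low t10 t20 t21 t30 t31 t32).map (fun x => x ^ e) =
      low (t10 ^ e) (t20 ^ e) (t21 ^ e) (t30 ^ e) (t31 ^ e) (t32 ^ e) := by
  ext i j
  fin_cases i <;> fin_cases j <;> simp [low, he]

theorem star4_sMat (h2 : (2 : R) = 0) (e : ℕ) (he : e ≠ 0) (a θ : R) (h1 : a ^ e = θ)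
    (h3 : θ ^ e = a ^ 2) :
    Cfsg.Lie.star4 (sMat a θ) = (sMat a θ).map (fun x => x ^ e) := by
  rw [sMat, star4_low, low_map_pow e he]
  refine low_congr ?_ ?_ ?_ ?_ ?_ ?_
  · exact h1.symm
  · rw [mul_pow, h1, h3]
    linear_combination (-(a ^ 2 * θ)) * h2
  · rw [h3]
    ring
  · rw [mul_pow, ← pow_mul, mul_comm 2 e, pow_mul, h1, h3]
    linear_combination (-(a ^ 2 * θ ^ 2)) * h2
  · rw [zero_pow he]
    ring
  · exact h1.symm

theorem star4_tau_eq (h2 : (2 : R) = 0) (e : ℕ) (he : e ≠ 0) :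
    Cfsg.Lie.star4 (tau R) = (tau R).map (fun x => x ^ e) := by
  rw [star4_tau]
  have h1 : (-1 : R) = 1 := by linear_combination (-1 : R) * h2
  ext i j
  fin_cases i <;> fin_cases j <;> simp [tau, he, h1]

theorem altForm4_sMat (h2 : (2 : R) = 0) (a θ : R) (u v : Fin 4 → R) :
    Cfsg.Lie.altForm4 (sMat a θ *ᵥ u) (sMat a θ *ᵥ v) = Cfsg.Lie.altForm4 u v := by
  rw [sMat, low_mulVec, low_mulVec]
  simp only [Cfsg.Lie.altForm4]
  simp
  linear_combination (2 * a ^ 2 * θ * u 0 * v 0 + a * u 0 * v 2 + a * θ * u 0 * v 1 +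
    a * θ * u 1 * v 0 + θ * u 1 * v 1 + a * u 2 * v 0) * h2

theorem altForm4_tau (u v : Fin 4 → R) :
    Cfsg.Lie.altForm4 (tau R *ᵥ u) (tau R *ᵥ v) = Cfsg.Lie.altForm4 u v := by
  rw [tau_mulVec, tau_mulVec]
  simp only [Cfsg.Lie.altForm4]
  simp
  ring

end ring

section field

variable {F : Type*} [Field F]

theorem sU_mem (h2 : (2 : F) = 0) (e : ℕ) (he : e ≠ 0) (a : F) (h3 : (a ^ e) ^ e = a ^ 2) :
    sU h2 a (a ^ e) ∈ Cfsg.Lie.Sz F e := by
  apply Subgroup.subset_closure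
  refine ⟨?_, ?_⟩
  · intro u v
    exact altForm4_sMat h2 a (a ^ e) u v
  · exact star4_sMat h2 e he a (a ^ e) rfl h3

theorem tauU_mem (h2 : (2 : F) = 0) (e : ℕ) (he : e ≠ 0) : tauU F ∈ Cfsg.Lie.Sz F e := by
  apply Subgroup.subset_closure
  refine ⟨?_, ?_⟩
  · intro u v
    exact altForm4_tau u v
  · exact star4_tau_eq h2 e he

theorem gen_mem (h2 : (2 : F) = 0) (e : ℕ) (he : e ≠ 0) (a : F) (h3 : (a ^ e) ^ e = a ^ 2) :
    gen h2 a (a ^ e) ∈ Cfsg.Lie.Sz F e := by
  have h1 := sU_mem h2 e he a h3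
  have h4 := tauU_mem (F := F) h2 e he
  exact Subgroup.mul_mem _ (Subgroup.mul_mem _ (Subgroup.mul_mem _ h4 h1) h4) (Subgroup.inv_mem _ h1)

end field

section poly

variable {F : Type*} [Field F]

/-- Vectors whose first entry is nonzero of maximal degree. -/
def RA (v : Fin 4 → F[X]) : Prop := v 0 ≠ 0 ∧ ∀ i, (v i).degree ≤ (v 0).degree

/-- Vectors whose last entry is non-constant of strictly maximal degree. -/
def RB (v : Fin 4 → F[X]) : Prop :=
  0 < (v 3).degree ∧ ∀ i, i ≠ 3 → (v i).degree < (v 3).degree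

theorem RA_tau (v : Fin 4 → F[X]) (h : RB v) : RA (tau F[X] *ᵥ v) := by
  rw [tau_mulVec]
  obtain ⟨h0, h⟩ := h
  have h3 : v 3 ≠ 0 := by
    intro h3
    rw [h3] at h0
    simp at h0
  refine ⟨h3, ?_⟩
  intro i
  fin_cases i
  · exact le_rfl
  · exact (h 2 (by decide)).le
  · exact (h 1 (by decide)).le
  · exact (h 0 (by decide)).le

theorem deg_mul_lt (x t y w : F[X]) (hx : x.degree < t.degree) (hy : y.degree ≤ w.degree)
    (hw : w ≠ 0) : (x * y).degree < (t * w).degree := by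
  have ht : t ≠ 0 := by
    rintro rfl
    simp at hx
  by_cases hx0 : x = 0
  · rw [hx0, zero_mul, degree_zero]
    exact bot_lt_iff_ne_bot.mpr (by simpa [degree_eq_bot] using mul_ne_zero ht hw)
  by_cases hy0 : y = 0
  · rw [hy0, mul_zero, degree_zero]
    exact bot_lt_iff_ne_bot.mpr (by simpa [degree_eq_bot] using mul_ne_zero ht hw)
  rw [degree_mul, degree_mul, degree_eq_natDegree hx0, degree_eq_natDegree hy0,
    degree_eq_natDegree ht, degree_eq_natDegree hw]
  rw [degree_eq_natDegree hx0, degree_eq_natDegree ht] at hx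
  rw [degree_eq_natDegree hy0, degree_eq_natDegree hw] at hy
  have h1 : x.natDegree < t.natDegree := by exact_mod_cast hx
  have h2 : y.natDegree ≤ w.natDegree := by exact_mod_cast hy
  exact_mod_cast (by omega : x.natDegree + y.natDegree < t.natDegree + w.natDegree)

/-- A lower unitriangular matrix whose corner entry dominates maps `RA` into `RB`. -/
theorem low_large (t10 t20 t21 t30 t31 t32 : F[X]) (h0 : 0 < t30.natDegree)
    (h10 : t10.natDegree < t30.natDegree) (h20 : t20.natDegree < t30.natDegree)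
    (h21 : t21.natDegree < t30.natDegree) (h31 : t31.natDegree < t30.natDegree)
    (h32 : t32.natDegree < t30.natDegree) (v : Fin 4 → F[X]) (hv : RA v) :
    RB (low t10 t20 t21 t30 t31 t32 *ᵥ v) := by
  rw [low_mulVec]
  obtain ⟨hv0, hv⟩ := hv
  have h0' : 0 < t30.degree := natDegree_pos_iff_degree_pos.mp h0
  have key : ∀ x y : F[X], x.natDegree < t30.natDegree → y.degree ≤ (v 0).degree →
      (x * y).degree < (t30 * v 0).degree :=
    fun x y hx hy => deg_mul_lt x t30 y (v 0) (degree_lt_degree hx) hy hv0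
  have key1 : ∀ y : F[X], y.degree ≤ (v 0).degree → y.degree < (t30 * v 0).degree := by
    intro y hy
    have := deg_mul_lt 1 t30 y (v 0) (by simpa using h0') hy hv0
    simpa using this
  have h3 : (t30 * v 0 + t31 * v 1 + t32 * v 2 + v 3).degree = (t30 * v 0).degree := by
    rw [add_assoc, add_assoc]
    apply degree_add_eq_left_of_degree_lt
    refine (degree_add_le _ _).trans_lt (max_lt (key _ _ h31 (hv 1)) ?_)
    exact (degree_add_le _ _).trans_lt (max_lt (key _ _ h32 (hv 2)) (key1 _ (hv 3)))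
  have h4 : (0 : WithBot ℕ) < (t30 * v 0).degree := by
    have := key1 1 (by simpa using zero_le_degree_iff.mpr hv0)
    simpa using this
  refine ⟨?_, ?_⟩
  · show 0 < (t30 * v 0 + t31 * v 1 + t32 * v 2 + v 3).degree
    rw [h3]
    exact h4
  intro i hi
  show _ < (t30 * v 0 + t31 * v 1 + t32 * v 2 + v 3).degree
  rw [h3]
  fin_cases i
  · exact key1 _ le_rfl
  · exact (degree_add_le _ _).trans_lt (max_lt (key _ _ h10 le_rfl) (key1 _ (hv 1)))
  · refine (degree_add_le _ _).trans_lt (max_lt ?_ (key1 _ (hv 2)))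
    exact (degree_add_le _ _).trans_lt (max_lt (key _ _ h20 le_rfl) (key _ _ h21 (hv 1)))
  · exact absurd rfl hi

theorem large_S (e k : ℕ) (hk : 1 ≤ k) (v : Fin 4 → F[X]) (hv : RA v) :
    RB (sMat (X ^ k) ((X ^ k) ^ e) *ᵥ v) := by
  rw [sMat]
  apply low_large _ _ _ _ _ _ _ _ _ _ _ _ v hv <;>
    simp only [← pow_mul, ← pow_add, natDegree_X_pow, natDegree_zero] <;> omega

theorem large_S' (e k : ℕ) (hk : 1 ≤ k) (v : Fin 4 → F[X]) (hv : RA v) :
    RB (sMat' (X ^ k) ((X ^ k) ^ e) *ᵥ v) := by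
  rw [sMat']
  apply low_large _ _ _ _ _ _ _ _ _ _ _ _ v hv <;>
    simp only [← pow_mul, ← pow_add, natDegree_X_pow, natDegree_zero] <;> omega

theorem natDegree_sum4_left (a b c d : ℕ) (hb : b < a) (hc : c < a) (hd : d < a) :
    (X ^ a + X ^ b + X ^ c + X ^ d : F[X]).natDegree = a := by
  rw [add_assoc, add_assoc, natDegree_add_eq_left_of_natDegree_lt, natDegree_X_pow]
  rw [natDegree_X_pow]
  refine (natDegree_add_le _ _).trans_lt (max_lt (by rwa [natDegree_X_pow]) ?_)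
  exact (natDegree_add_le _ _).trans_lt (max_lt (by rwa [natDegree_X_pow]) (by rwa [natDegree_X_pow]))

theorem natDegree_sum4_right (a b c d : ℕ) (ha : a < d) (hb : b < d) (hc : c < d) :
    (X ^ a + X ^ b + X ^ c + X ^ d : F[X]).natDegree = d := by
  rw [natDegree_add_eq_right_of_natDegree_lt, natDegree_X_pow]
  rw [natDegree_X_pow]
  refine (natDegree_add_le _ _).trans_lt (max_lt ?_ (by rwa [natDegree_X_pow]))
  exact (natDegree_add_le _ _).trans_lt (max_lt (by rwa [natDegree_X_pow]) (by rwa [natDegree_X_pow]))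

theorem natDegree_sum2_lt (a b n : ℕ) (ha : a < n) (hb : b < n) :
    (X ^ a + X ^ b : F[X]).natDegree < n :=
  (natDegree_add_le _ _).trans_lt (max_lt (by rwa [natDegree_X_pow]) (by rwa [natDegree_X_pow]))

theorem large_T (e k k' : ℕ) (hk : 1 ≤ k) (hk' : 1 ≤ k') (hne : k' ≠ k) (v : Fin 4 → F[X])
    (hv : RA v) :
    RB ((sMat' (X ^ k') ((X ^ k') ^ e) * sMat (X ^ k) ((X ^ k) ^ e)) *ᵥ v) := by
  have hT : sMat' (X ^ k' : F[X]) ((X ^ k') ^ e) * sMat (X ^ k) ((X ^ k) ^ e) =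
      low (X ^ k' + X ^ k) (X ^ (k' * e + k) + X ^ (k + k * e)) (X ^ (k' * e) + X ^ (k * e))
        (X ^ (k' * 2 + k' * e) + X ^ (k' + k' * e + k) + X ^ (k' + k + k * e) +
          X ^ (k * 2 + k * e))
        (X ^ (k' + k' * e) + X ^ (k' + k * e)) (X ^ k' + X ^ k) := by
    rw [sMat', sMat, low_mul]
    refine low_congr ?_ ?_ ?_ ?_ ?_ ?_ <;> ring
  rw [hT]
  rcases Nat.lt_or_gt_of_ne hne with h | h
  · have hm : k' * e ≤ k * e := Nat.mul_le_mul_right e h.le
    have hd : (X ^ (k' * 2 + k' * e) + X ^ (k' + k' * e + k) + X ^ (k' + k + k * e) +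
          X ^ (k * 2 + k * e) : F[X]).natDegree = k * 2 + k * e :=
      natDegree_sum4_right _ _ _ _ (by omega) (by omega) (by omega)
    apply low_large _ _ _ _ _ _ _ _ _ _ _ _ v hv <;> rw [hd]
    · omega
    · exact natDegree_sum2_lt _ _ _ (by omega) (by omega)
    · exact natDegree_sum2_lt _ _ _ (by omega) (by omega)
    · exact natDegree_sum2_lt _ _ _ (by omega) (by omega)
    · exact natDegree_sum2_lt _ _ _ (by omega) (by omega)
    · exact natDegree_sum2_lt _ _ _ (by omega) (by omega)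
  · have hm : k * e ≤ k' * e := Nat.mul_le_mul_right e h.le
    have hd : (X ^ (k' * 2 + k' * e) + X ^ (k' + k' * e + k) + X ^ (k' + k + k * e) +
          X ^ (k * 2 + k * e) : F[X]).natDegree = k' * 2 + k' * e :=
      natDegree_sum4_left _ _ _ _ (by omega) (by omega) (by omega)
    apply low_large _ _ _ _ _ _ _ _ _ _ _ _ v hv <;> rw [hd]
    · omega
    · exact natDegree_sum2_lt _ _ _ (by omega) (by omega)
    · exact natDegree_sum2_lt _ _ _ (by omega) (by omega)
    · exact natDegree_sum2_lt _ _ _ (by omega) (by omega)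
    · exact natDegree_sum2_lt _ _ _ (by omega) (by omega)
    · exact natDegree_sum2_lt _ _ _ (by omega) (by omega)

/-- The polynomial matrix attached to a letter. -/
noncomputable def cM (F : Type*) [Field F] (e : ℕ) (x : ℕ × Bool) : Matrix (Fin 4) (Fin 4) F[X] :=
  cMat (X ^ (x.1 + 1)) ((X ^ (x.1 + 1)) ^ e) x.2

/-- The attracting region of a letter. -/
def Inv (e : ℕ) (x : ℕ × Bool) (v : Fin 4 → F[X]) : Prop :=
  ∃ u : Fin 4 → F[X], RA u ∧
    v = if x.2 = true then tau F[X] *ᵥ (sMat (X ^ (x.1 + 1)) ((X ^ (x.1 + 1)) ^ e) *ᵥ u)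
      else sMat (X ^ (x.1 + 1)) ((X ^ (x.1 + 1)) ^ e) *ᵥ u

/-- The ping-pong step. -/
theorem step (e : ℕ) (x y : ℕ × Bool) (hxy : x.1 = y.1 → x.2 = y.2) (v : Fin 4 → F[X])
    (h : Inv e y v) : Inv e x ((cM F e x) *ᵥ v) := by
  obtain ⟨j, b⟩ := x
  obtain ⟨i, b'⟩ := y
  obtain ⟨u, hu, rfl⟩ := h
  cases b <;> cases b'
  · -- both negative
    refine ⟨tau F[X] *ᵥ (sMat' (X ^ (j + 1)) ((X ^ (j + 1)) ^ e) *ᵥ
      (tau F[X] *ᵥ (sMat (X ^ (i + 1)) ((X ^ (i + 1)) ^ e) *ᵥ u))), ?_, ?_⟩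
    · exact RA_tau _ (large_S' e _ (by omega) _ (RA_tau _ (large_S e _ (by omega) _ hu)))
    · simp only [cM, cMat, cond_false, Matrix.mulVec_mulVec, mul_assoc, Bool.false_eq_true,
        if_false]
  · -- new negative, old positive
    have hij : j + 1 ≠ i + 1 := by
      intro hij
      have := hxy (by simpa using hij)
      simp at this
    refine ⟨tau F[X] *ᵥ ((sMat' (X ^ (j + 1)) ((X ^ (j + 1)) ^ e) *
      sMat (X ^ (i + 1)) ((X ^ (i + 1)) ^ e)) *ᵥ u), ?_, ?_⟩
    · exact RA_tau _ (large_T e _ _ (by omega) (by omega) hij _ hu)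
    · simp only [cM, cMat, cond_false, Matrix.mulVec_mulVec, mul_assoc, Bool.false_eq_true,
        if_false, if_true, tau_mul_tau_mul]
  · -- new positive, old negative
    have hij : j + 1 ≠ i + 1 := by
      intro hij
      have := hxy (by simpa using hij)
      simp at this
    refine ⟨tau F[X] *ᵥ ((sMat' (X ^ (j + 1)) ((X ^ (j + 1)) ^ e) *
      sMat (X ^ (i + 1)) ((X ^ (i + 1)) ^ e)) *ᵥ u), ?_, ?_⟩
    · exact RA_tau _ (large_T e _ _ (by omega) (by omega) hij _ hu)
    · simp only [cM, cMat, cond_true, Matrix.mulVec_mulVec, mul_assoc, Bool.false_eq_true,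
        if_false, if_true]
  · -- both positive
    refine ⟨tau F[X] *ᵥ (sMat' (X ^ (j + 1)) ((X ^ (j + 1)) ^ e) *ᵥ
      (tau F[X] *ᵥ (sMat (X ^ (i + 1)) ((X ^ (i + 1)) ^ e) *ᵥ u))), ?_, ?_⟩
    · exact RA_tau _ (large_S' e _ (by omega) _ (RA_tau _ (large_S e _ (by omega) _ hu)))
    · simp only [cM, cMat, cond_true, Matrix.mulVec_mulVec, mul_assoc, if_true]

theorem RA_e0 : RA (![1, 0, 0, 0] : Fin 4 → F[X]) := by
  refine ⟨by simp, ?_⟩
  intro i
  fin_cases i <;> simp

/-- The base case of the ping-pong. -/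
theorem base (e : ℕ) (x : ℕ × Bool) :
    ∃ v₀ : Fin 4 → F[X], (v₀ = ![1, 0, 0, 0] ∨ v₀ = ![0, 0, 0, 1]) ∧
      Inv e x ((cM F e x) *ᵥ v₀) := by
  obtain ⟨j, b⟩ := x
  cases b
  · refine ⟨![0, 0, 0, 1], Or.inr rfl, ?_⟩
    refine ⟨tau F[X] *ᵥ (sMat' (X ^ (j + 1)) ((X ^ (j + 1)) ^ e) *ᵥ
      (tau F[X] *ᵥ ![0, 0, 0, 1])), ?_, ?_⟩
    · refine RA_tau _ (large_S' e _ (by omega) _ ?_)
      rw [tau_mulVec]
      exact RA_e0
    · simp only [cM, cMat, cond_false, Matrix.mulVec_mulVec, mul_assoc, Bool.false_eq_true,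
        if_false]
  · refine ⟨![1, 0, 0, 0], Or.inl rfl, ?_⟩
    refine ⟨tau F[X] *ᵥ (sMat' (X ^ (j + 1)) ((X ^ (j + 1)) ^ e) *ᵥ ![1, 0, 0, 0]), ?_, ?_⟩
    · exact RA_tau _ (large_S' e _ (by omega) _ RA_e0)
    · simp only [cM, cMat, cond_true, Matrix.mulVec_mulVec, mul_assoc, if_true]

/-- Ping-pong: the value of a nonempty reduced word moves one of two basis vectors into the
region of its first letter. -/
theorem pingpong (e : ℕ) (L : List (ℕ × Bool)) (x : ℕ × Bool)
    (hL : FreeGroup.IsReduced (x :: L)) :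
    ∃ v₀ : Fin 4 → F[X], (v₀ = ![1, 0, 0, 0] ∨ v₀ = ![0, 0, 0, 1]) ∧
      Inv e x (((x :: L).map (cM F e)).prod *ᵥ v₀) := by
  induction L generalizing x with
  | nil =>
    obtain ⟨v₀, hv₀, h⟩ := base (F := F) e x
    refine ⟨v₀, hv₀, ?_⟩
    simpa using h
  | cons y L ih =>
    have hchain : List.IsChain (fun a b : ℕ × Bool => a.1 = b.1 → a.2 = b.2) (x :: y :: L) := hL
    rw [List.isChain_cons_cons] at hchain
    obtain ⟨v₀, hv₀, h⟩ := ih y hchain.2
    refine ⟨v₀, hv₀, ?_⟩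
    rw [List.map_cons, List.prod_cons, ← Matrix.mulVec_mulVec]
    exact step e x y hchain.1 _ h

/-- A vector in the region of a letter has a non-constant entry. -/
theorem exists_pos_of_inv (e : ℕ) (x : ℕ × Bool) (v : Fin 4 → F[X]) (h : Inv e x v) :
    ∃ a : Fin 4, 0 < (v a).degree := by
  obtain ⟨j, b⟩ := x
  obtain ⟨u, hu, rfl⟩ := h
  have h1 := large_S (F := F) e (j + 1) (by omega) u hu
  cases b
  · refine ⟨3, ?_⟩
    simp only [Bool.false_eq_true, if_false]
    exact h1.1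
  · refine ⟨0, ?_⟩
    simp only [if_true]
    rw [tau_mulVec]
    exact h1.1

/-- Some entry of the value of a nonempty reduced word is a non-constant polynomial. -/
theorem exists_entry_natDegree_pos (e : ℕ) (L : List (ℕ × Bool)) (x : ℕ × Bool)
    (hL : FreeGroup.IsReduced (x :: L)) :
    ∃ a b : Fin 4, 1 ≤ (((x :: L).map (cM F e)).prod a b).natDegree := by
  obtain ⟨v₀, hv₀, h⟩ := pingpong (F := F) e L x hL
  obtain ⟨M, hM⟩ : ∃ M : Matrix (Fin 4) (Fin 4) F[X], M = ((x :: L).map (cM F e)).prod :=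
    ⟨_, rfl⟩
  rw [← hM] at h ⊢
  obtain ⟨a, ha⟩ := exists_pos_of_inv e x _ h
  have hcol : (M *ᵥ ![1, 0, 0, 0]) a = M a 0 ∧ (M *ᵥ ![0, 0, 0, 1]) a = M a 3 := by
    constructor <;> simp [Matrix.mulVec, dotProduct, Fin.sum_univ_four]
  rcases hv₀ with rfl | rfl
  · rw [hcol.1] at ha
    exact ⟨a, 0, natDegree_pos_iff_degree_pos.mpr ha⟩
  · rw [hcol.2] at ha
    exact ⟨a, 3, natDegree_pos_iff_degree_pos.mpr ha⟩

theorem natDegree_mul_le_of (A B : Matrix (Fin 4) (Fin 4) F[X]) (a b : ℕ)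
    (hA : ∀ i j, (A i j).natDegree ≤ a) (hB : ∀ i j, (B i j).natDegree ≤ b) (i j : Fin 4) :
    ((A * B) i j).natDegree ≤ a + b := by
  rw [Matrix.mul_apply]
  apply natDegree_sum_le_of_forall_le
  intro k _
  exact natDegree_mul_le.trans (Nat.add_le_add (hA i k) (hB k j))

theorem natDegree_tau_le (i j : Fin 4) : (tau F[X] i j).natDegree ≤ 0 := by
  fin_cases i <;> fin_cases j <;> simp [tau]

theorem natDegree_low_le (t10 t20 t21 t30 t31 t32 : F[X]) (n : ℕ) (h10 : t10.natDegree ≤ n)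
    (h20 : t20.natDegree ≤ n) (h21 : t21.natDegree ≤ n) (h30 : t30.natDegree ≤ n)
    (h31 : t31.natDegree ≤ n) (h32 : t32.natDegree ≤ n) (i j : Fin 4) :
    (low t10 t20 t21 t30 t31 t32 i j).natDegree ≤ n := by
  fin_cases i <;> fin_cases j <;> simp [low] <;> assumption

theorem natDegree_sMat_le (e k : ℕ) (i j : Fin 4) :
    (sMat (X ^ k : F[X]) ((X ^ k) ^ e) i j).natDegree ≤ k * 2 + k * e := by
  rw [sMat]
  apply natDegree_low_le <;>
    simp only [← pow_mul, ← pow_add, natDegree_X_pow, natDegree_zero] <;> omega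

theorem natDegree_sMat'_le (e k : ℕ) (i j : Fin 4) :
    (sMat' (X ^ k : F[X]) ((X ^ k) ^ e) i j).natDegree ≤ k * 2 + k * e := by
  rw [sMat']
  apply natDegree_low_le <;>
    simp only [← pow_mul, ← pow_add, natDegree_X_pow, natDegree_zero] <;> omega

theorem natDegree_cM_le (e : ℕ) (x : ℕ × Bool) (i j : Fin 4) :
    (cM F e x i j).natDegree ≤ (2 + e) * (2 * (x.1 + 1)) := by
  obtain ⟨k, b⟩ := x
  have h1 := natDegree_sMat_le (F := F) e (k + 1)
  have h2 := natDegree_sMat'_le (F := F) e (k + 1)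
  have h3 := natDegree_tau_le (F := F)
  have e1 : (2 + e) * (2 * (k + 1)) =
      0 + ((k + 1) * 2 + (k + 1) * e) + 0 + ((k + 1) * 2 + (k + 1) * e) := by ring
  have e2 : (2 + e) * (2 * (k + 1)) =
      (k + 1) * 2 + (k + 1) * e + 0 + ((k + 1) * 2 + (k + 1) * e) + 0 := by ring
  cases b
  · simp only [cM, cMat, cond_false]
    rw [e2]
    exact natDegree_mul_le_of _ _ _ _ (natDegree_mul_le_of _ _ _ _
      (natDegree_mul_le_of _ _ _ _ h1 h3) h2) h3 i j
  · simp only [cM, cMat, cond_true]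
    rw [e1]
    exact natDegree_mul_le_of _ _ _ _ (natDegree_mul_le_of _ _ _ _
      (natDegree_mul_le_of _ _ _ _ h3 h1) h3) h2 i j

theorem natDegree_prod_le (e : ℕ) (L : List (ℕ × Bool)) (a b : Fin 4) :
    ((L.map (cM F e)).prod a b).natDegree ≤ (2 + e) * PSL2Law.bound L := by
  induction L generalizing a b with
  | nil =>
    simp only [List.map_nil, List.prod_nil, Matrix.one_apply]
    split_ifs <;> simp
  | cons x L ih =>
    rw [List.map_cons, List.prod_cons]
    have hb : PSL2Law.bound (x :: L) = 2 * (x.1 + 1) + PSL2Law.bound L := by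
      simp [PSL2Law.bound]
    rw [hb, mul_add]
    exact natDegree_mul_le_of _ _ _ _ (natDegree_cM_le e x) ih a b

/-- For a nontrivial element `w` of the free group and a large enough field, some specialisation
of the polynomial matrix of `w` has an entry different from `0` and `1`. -/
theorem exists_eval [Fintype F] (e : ℕ) (w : FreeGroup ℕ) (hw : w ≠ 1)
    (hcard : 2 * ((2 + e) * PSL2Law.bound w.toWord) < Fintype.card F) :
    ∃ (t₀ : F) (a b : Fin 4),
      (((w.toWord.map (cM F e)).prod a b).eval t₀ ≠ 0) ∧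
      (((w.toWord.map (cM F e)).prod a b).eval t₀ ≠ 1) := by
  have hred : FreeGroup.IsReduced w.toWord := FreeGroup.isReduced_toWord
  have hmk : FreeGroup.mk w.toWord = w := FreeGroup.mk_toWord
  rcases hL : w.toWord with _ | ⟨x, L⟩
  · exfalso
    apply hw
    rw [← hmk, hL]
    rfl
  · rw [hL] at hred hcard
    obtain ⟨a, b, hab⟩ := exists_entry_natDegree_pos (F := F) e L x hred
    have hle := natDegree_prod_le (F := F) e (x :: L) a b
    obtain ⟨P, hP⟩ : ∃ P : F[X], P = ((x :: L).map (cM F e)).prod a b := ⟨_, rfl⟩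
    rw [← hP] at hab hle
    have hP0 : P ≠ 0 := by
      rintro rfl
      simp at hab
    have hP1 : P - 1 ≠ 0 := by
      intro h
      have : P = 1 := sub_eq_zero.mp h
      rw [this] at hab
      simp at hab
    have hQ : P * (P - 1) ≠ 0 := mul_ne_zero hP0 hP1
    have hdeg : (P * (P - 1)).natDegree < Fintype.card F := by
      have h1 : (P - 1).natDegree ≤ P.natDegree := by
        refine (natDegree_sub_le _ _).trans ?_
        simp
      have h3 : (P * (P - 1)).natDegree ≤ P.natDegree + P.natDegree :=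
        natDegree_mul_le.trans (Nat.add_le_add le_rfl h1)
      omega
    have hex : ∃ t₀ : F, (P * (P - 1)).eval t₀ ≠ 0 := by
      by_contra hcon
      push Not at hcon
      exact hQ (eq_zero_of_natDegree_lt_card_of_eval_eq_zero _ Function.injective_id hcon hdeg)
    obtain ⟨t₀, ht₀⟩ := hex
    refine ⟨t₀, a, b, ?_, ?_⟩
    · rw [← hP]
      intro h
      apply ht₀
      simp [h]
    · rw [← hP]
      intro h
      apply ht₀
      simp [h]

/-- The matrix of the value of a word at the specialised generators. -/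
theorem coe_lift_gen (h2 : (2 : F) = 0) (e : ℕ) (t₀ : F) (L : List (ℕ × Bool)) :
    ((FreeGroup.lift (fun i => gen h2 (t₀ ^ (i + 1)) ((t₀ ^ (i + 1)) ^ e)) (FreeGroup.mk L) :
      (Matrix (Fin 4) (Fin 4) F)ˣ) : Matrix (Fin 4) (Fin 4) F) =
      ((L.map (cM F e)).prod).map (Polynomial.eval t₀) := by
  rw [coe_lift_units]
  have h : ((L.map (cM F e)).prod).map (Polynomial.eval t₀) =
      (Polynomial.evalRingHom t₀).mapMatrix ((L.map (cM F e)).prod) := rfl
  rw [h, map_list_prod, List.map_map]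
  congr 1
  apply List.map_congr_left
  intro x _
  rw [coe_gen_letter]
  show _ = (cM F e x).map (Polynomial.evalRingHom t₀)
  rw [cM, cMat_map]
  simp

end poly

/-- A nontrivial word is not a law in the large Suzuki groups. -/
theorem main (w : FreeGroup ℕ) (hw : w ≠ 1) (F : Type*) [Field F] [Fintype F] (m : ℕ)
    (hN : 4 * PSL2Law.bound w.toWord + 8 ≤ m) (hcard : Fintype.card F = 2 ^ (2 * m + 1)) :
    ∃ f : ℕ → ↥(Cfsg.Lie.Sz F (2 ^ (m + 1))), FreeGroup.lift f w ≠ 1 := by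
  obtain ⟨e, he⟩ : ∃ e : ℕ, e = 2 ^ (m + 1) := ⟨_, rfl⟩
  rw [← he]
  have he0 : e ≠ 0 := by
    rw [he]
    positivity
  have h2 : (2 : F) = 0 := by
    have h := Nat.cast_card_eq_zero F
    rw [hcard] at h
    push_cast at h
    exact pow_eq_zero_iff (by omega) |>.mp h
  have hθ : ∀ a : F, (a ^ e) ^ e = a ^ 2 := by
    intro a
    have h1 : e * e = Fintype.card F * 2 := by
      rw [hcard, he]
      ring
    rw [← pow_mul, h1, pow_mul, FiniteField.pow_card]
  have hlt : 2 * ((2 + e) * PSL2Law.bound w.toWord) < Fintype.card F := by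
    have h1 : Fintype.card F * 2 = e * e := by
      rw [hcard, he]
      ring
    have h3 : m + 1 < e := by
      rw [he]
      exact Nat.lt_two_pow_self
    have h4 : 4 * PSL2Law.bound w.toWord + 9 ≤ e := by omega
    have h5 : (4 * PSL2Law.bound w.toWord + 9) * e ≤ e * e := Nat.mul_le_mul_right e h4
    nlinarith
  obtain ⟨t₀, a, b, h0, h1⟩ := exists_eval (F := F) e w hw hlt
  have hg : ∀ i : ℕ, gen h2 (t₀ ^ (i + 1)) ((t₀ ^ (i + 1)) ^ e) ∈ Cfsg.Lie.Sz F e :=
    fun i => gen_mem h2 e he0 _ (hθ _)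
  refine ⟨fun i => ⟨gen h2 (t₀ ^ (i + 1)) ((t₀ ^ (i + 1)) ^ e), hg i⟩, ?_⟩
  intro hc
  have h3 := Law.lift_comp (Cfsg.Lie.Sz F e).subtype
    (fun i => ⟨gen h2 (t₀ ^ (i + 1)) ((t₀ ^ (i + 1)) ^ e), hg i⟩) w
  rw [hc, map_one] at h3
  have h4 := coe_lift_gen h2 e t₀ w.toWord
  rw [FreeGroup.mk_toWord] at h4
  have h5 : (FreeGroup.lift (fun i => gen h2 (t₀ ^ (i + 1)) ((t₀ ^ (i + 1)) ^ e)) w :
      (Matrix (Fin 4) (Fin 4) F)ˣ) = 1 := h3
  rw [h5] at h4
  have h6 := congrFun (congrFun h4 a) b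
  rw [Matrix.map_apply, Units.val_one, Matrix.one_apply] at h6
  split_ifs at h6
  · exact h1 h6.symm
  · exact h0 h6.symm

end Cfsg.Agent.Lib.Helper39.SzLaw
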