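import Mathlib
import Cfsg.Agent.Lib.Helper39.TLStmt

set_option autoImplicit false

/-!
# Assembly for S4404 from the pieces `Gen`, `Case1`, `Rank`, `Case2`
-/

namespace Cfsg.Agent.Lib.Helper39.TLTop

open Cfsg Cfsg.Agent.Lib.Helper39.TLStmt

universe u

theorem top (hGen : Gen.{u}) (hCase1 : Case1.{u}) (hRank : Rank.{u}) (hCase2 : Case2.{u}) :
    Goal.{u} := by
  intro S _ _ _ M _ hM p hp hp2 E hE hE3 Q hQc hQ3 hQ1 hQM
  obtain ⟨x, hxQ, hrefl⟩ := hGen S M hM Q hQc hQ1 hQM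
  obtain ⟨T, hQT⟩ := hQ3.exists_le_sylow
  by_cases h : ∃ A : Subgroup S, A ≤ (T : Subgroup S) ∧
      (∀ t ∈ (T : Subgroup S), ∀ a ∈ A, t * a * t⁻¹ ∈ A) ∧ IsElementaryAbelian 3 A ∧
      Nat.card ↥A = 27
  · obtain ⟨A, hAT, hAn, hAe, hAc⟩ := h
    refine ⟨3, A, Nat.prime_three, by norm_num, hAe, by rw [hAc]; norm_num, ?_⟩
    exact hCase1 S M hM (T : Subgroup S) A T.isPGroup' hAT hAn hAe hAc x ⁅Q, M⁆ (hQT hxQ) hrefl
  · have h3 : ∀ B : Subgroup S, IsElementaryAbelian 3 B → Nat.card ↥B ≤ 9 := by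
      apply hRank S T
      intro A hAT hAn hAe hAc
      exact h ⟨A, hAT, hAn, hAe, hAc⟩
    have hp3 : p ≠ 3 := by
      intro hp3
      subst hp3
      have := h3 E hE
      rw [hE3] at this
      norm_num at this
    obtain ⟨F, hFe, hFc, hFn⟩ := hCase2 S M hM p hp hp2 hp3 E Q hE hE3 hQ3 h3 x ⁅Q, M⁆ hxQ hrefl
    exact ⟨p, F, hp, hp2, hFe, hFc, hFn⟩

end Cfsg.Agent.Lib.Helper39.TLTop
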