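-- The Heisenberg operators on the functions on `F^n` (odd characteristic): their irreducibility,
-- Schur's lemma, and intertwining operators for matrices preserving the symplectic form.
import Mathlib

set_option autoImplicit false

namespace Cfsg.Agent.Lib.Helper39.WeilHeis

open Matrix

variable {F : Type*} [Field F] [Fintype F] [DecidableEq F] {n : ℕ}

/-- the first half of a vector of `F^n ⊕ F^n` -/
def pa (v : Fin n ⊕ Fin n → F) : Fin n → F := fun i => v (Sum.inl i)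

/-- the second half of a vector of `F^n ⊕ F^n` -/
def pb (v : Fin n ⊕ Fin n → F) : Fin n → F := fun i => v (Sum.inr i)

omit [Fintype F] [DecidableEq F] in
theorem pa_add (v w : Fin n ⊕ Fin n → F) : pa (v + w) = pa v + pa w := rfl

omit [Fintype F] [DecidableEq F] in
theorem pb_add (v w : Fin n ⊕ Fin n → F) : pb (v + w) = pb v + pb w := rfl

omit [Fintype F] [DecidableEq F] in
theorem pa_neg (v : Fin n ⊕ Fin n → F) : pa (-v) = -pa v := rfl

omit [Fintype F] [DecidableEq F] in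
theorem pb_neg (v : Fin n ⊕ Fin n → F) : pb (-v) = -pb v := rfl

omit [Fintype F] [DecidableEq F] in
theorem pa_zero : pa (0 : Fin n ⊕ Fin n → F) = 0 := rfl

omit [Fintype F] [DecidableEq F] in
theorem pb_zero : pb (0 : Fin n ⊕ Fin n → F) = 0 := rfl

omit [Field F] [Fintype F] [DecidableEq F] in
theorem pa_elim (a b : Fin n → F) : pa (Sum.elim a b) = a := rfl

omit [Field F] [Fintype F] [DecidableEq F] in
theorem pb_elim (a b : Fin n → F) : pb (Sum.elim a b) = b := rfl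

omit [Fintype F] [DecidableEq F] in
theorem eq_zero_of_pa_pb (v : Fin n ⊕ Fin n → F) (ha : pa v = 0) (hb : pb v = 0) : v = 0 := by
  funext i
  rcases i with i | i
  · exact congrFun ha i
  · exact congrFun hb i

/-- the symplectic form -/
def om (v w : Fin n ⊕ Fin n → F) : F := pa v ⬝ᵥ pb w - pa w ⬝ᵥ pb v

omit [Fintype F] [DecidableEq F] in
theorem om_self (v : Fin n ⊕ Fin n → F) : om v v = 0 := sub_self _

omit [Fintype F] [DecidableEq F] in
theorem om_swap (v w : Fin n ⊕ Fin n → F) : om w v = -om v w := by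
  unfold om
  ring

omit [Fintype F] [DecidableEq F] in
theorem om_add_left (u v w : Fin n ⊕ Fin n → F) : om (u + v) w = om u w + om v w := by
  unfold om
  rw [pa_add, pb_add, add_dotProduct, dotProduct_add]
  ring

omit [Fintype F] [DecidableEq F] in
theorem om_neg_left (v w : Fin n ⊕ Fin n → F) : om (-v) w = -om v w := by
  unfold om
  rw [pa_neg, pb_neg, neg_dotProduct, dotProduct_neg]
  ring

omit [Fintype F] [DecidableEq F] in
theorem om_neg_right (v w : Fin n ⊕ Fin n → F) : om v (-w) = -om v w := by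
  unfold om
  rw [pa_neg, pb_neg, neg_dotProduct, dotProduct_neg]
  ring

omit [Fintype F] [DecidableEq F] in
/-- the form in terms of the matrix `J` -/
theorem om_eq (v w : Fin n ⊕ Fin n → F) : om v w = -(v ⬝ᵥ (Matrix.J (Fin n) F *ᵥ w)) := by
  have key : ∀ p q : Fin n → F, v ⬝ᵥ Sum.elim p q = pa v ⬝ᵥ p + pb v ⬝ᵥ q := by
    intro p q
    simp [dotProduct, Fintype.sum_sum_type, pa, pb]
  unfold om Matrix.J
  rw [Matrix.fromBlocks_mulVec]
  simp only [Matrix.zero_mulVec, Matrix.neg_mulVec, Matrix.one_mulVec, zero_add, add_zero]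
  rw [key, dotProduct_neg, dotProduct_comm (pb v)]
  have e1 : (w ∘ Sum.inr : Fin n → F) = pb w := rfl
  have e2 : (w ∘ Sum.inl : Fin n → F) = pa w := rfl
  rw [e1, e2]
  ring

omit [Fintype F] [DecidableEq F] in
theorem om_mulVec (g : Matrix (Fin n ⊕ Fin n) (Fin n ⊕ Fin n) F)
    (hg : gᵀ * Matrix.J (Fin n) F * g = Matrix.J (Fin n) F) (v w : Fin n ⊕ Fin n → F) :
    om (g *ᵥ v) (g *ᵥ w) = om v w := by
  rw [om_eq, om_eq, Matrix.mulVec_mulVec, ← Matrix.vecMul_transpose g v,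
    ← Matrix.dotProduct_mulVec, Matrix.mulVec_mulVec, ← Matrix.mul_assoc, hg]

/-- the Heisenberg operators -/
def hR (ψ : AddChar F ℂ) (v : Fin n ⊕ Fin n → F) : Module.End ℂ ((Fin n → F) → ℂ) where
  toFun f := fun x => ψ (x ⬝ᵥ pb v + 2⁻¹ * (pa v ⬝ᵥ pb v)) * f (x + pa v)
  map_add' f g := by
    funext x
    simp only [Pi.add_apply]
    ring
  map_smul' c f := by
    funext x
    simp only [Pi.smul_apply, smul_eq_mul, RingHom.id_apply]
    ring

omit [Fintype F] [DecidableEq F] in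
theorem hR_apply (ψ : AddChar F ℂ) (v : Fin n ⊕ Fin n → F) (f : (Fin n → F) → ℂ)
    (x : Fin n → F) :
    hR ψ v f x = ψ (x ⬝ᵥ pb v + 2⁻¹ * (pa v ⬝ᵥ pb v)) * f (x + pa v) := rfl

omit [Fintype F] [DecidableEq F] in
theorem hR_mul (h2 : (2 : F) ≠ 0) (ψ : AddChar F ℂ) (v w : Fin n ⊕ Fin n → F) :
    hR ψ v * hR ψ w = ψ (2⁻¹ * om v w) • hR ψ (v + w) := by
  apply LinearMap.ext
  intro f
  funext x
  rw [Module.End.mul_apply, hR_apply, hR_apply, LinearMap.smul_apply, Pi.smul_apply, hR_apply,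
    smul_eq_mul, ← mul_assoc, ← mul_assoc, ← AddChar.map_add_eq_mul, ← AddChar.map_add_eq_mul,
    pa_add, pb_add, add_assoc x]
  congr 2
  unfold om
  simp only [add_dotProduct, dotProduct_add]
  have h : (2 : F)⁻¹ * 2 = 1 := inv_mul_cancel₀ h2
  linear_combination (-(pa v ⬝ᵥ pb w)) * h

omit [Fintype F] [DecidableEq F] in
theorem hR_zero (ψ : AddChar F ℂ) : hR ψ (0 : Fin n ⊕ Fin n → F) = 1 := by
  apply LinearMap.ext
  intro f
  funext x
  rw [hR_apply, pa_zero, pb_zero, dotProduct_zero, dotProduct_zero, mul_zero, add_zero,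
    AddChar.map_zero_eq_one, one_mul, add_zero, Module.End.one_apply]

omit [Fintype F] [DecidableEq F] in
theorem hR_mul_neg (h2 : (2 : F) ≠ 0) (ψ : AddChar F ℂ) (v : Fin n ⊕ Fin n → F) :
    hR ψ v * hR ψ (-v) = 1 := by
  rw [hR_mul h2, om_neg_right, om_self, neg_zero, mul_zero, AddChar.map_zero_eq_one, one_smul,
    add_neg_cancel, hR_zero]

omit [Fintype F] in
theorem hR_single (ψ : AddChar F ℂ) (v : Fin n ⊕ Fin n → F) (y x : Fin n → F) :
    hR ψ v (Pi.single y 1) x =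
      if x + pa v = y then ψ (x ⬝ᵥ pb v + 2⁻¹ * (pa v ⬝ᵥ pb v)) else 0 := by
  rw [hR_apply, Pi.single_apply]
  split_ifs <;> simp

/-- a non-trivial character sum over `F^n` vanishes -/
theorem sum_char_dot (ψ : AddChar F ℂ) (hψ : ψ 1 ≠ 1) (b : Fin n → F) (hb : b ≠ 0) :
    ∑ x : Fin n → F, ψ (x ⬝ᵥ b) = 0 := by
  obtain ⟨i, hi⟩ : ∃ i, b i ≠ 0 := by
    by_contra h
    push Not at h
    exact hb (funext h)
  set y : Fin n → F := Pi.single i (b i)⁻¹ with hy
  have hyb : y ⬝ᵥ b = 1 := by rw [hy, single_dotProduct, inv_mul_cancel₀ hi]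
  have e : ∑ x : Fin n → F, ψ (x ⬝ᵥ b) = ψ 1 * ∑ x : Fin n → F, ψ (x ⬝ᵥ b) := by
    rw [Finset.mul_sum, ← Equiv.sum_comp (Equiv.addRight y)]
    apply Finset.sum_congr rfl
    intro x _
    rw [Equiv.coe_addRight, add_dotProduct, hyb, AddChar.map_add_eq_mul, mul_comm]
  have h0 : (ψ 1 - 1) * ∑ x : Fin n → F, ψ (x ⬝ᵥ b) = 0 := by linear_combination -e
  rcases mul_eq_zero.mp h0 with h | h
  · exact absurd (sub_eq_zero.mp h) hψ
  · exact h

/-- the Heisenberg operators of non-zero vectors have trace zero -/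
theorem tr_hR (ψ : AddChar F ℂ) (hψ : ψ 1 ≠ 1) (v : Fin n ⊕ Fin n → F) (hv : v ≠ 0) :
    ∑ x : Fin n → F, hR ψ v (Pi.single x 1) x = 0 := by
  by_cases ha : pa v = 0
  · have hb : pb v ≠ 0 := fun hb => hv (eq_zero_of_pa_pb v ha hb)
    rw [← sum_char_dot ψ hψ (pb v) hb]
    apply Finset.sum_congr rfl
    intro x _
    rw [hR_single, ha, add_zero, if_pos rfl, zero_dotProduct, mul_zero, add_zero]
  · apply Finset.sum_eq_zero
    intro x _
    rw [hR_single, if_neg]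
    intro h
    exact ha (add_eq_left.mp h)

theorem tr_hR_zero (ψ : AddChar F ℂ) :
    ∑ x : Fin n → F, hR ψ (0 : Fin n ⊕ Fin n → F) (Pi.single x 1) x =
      ((Fintype.card F ^ n : ℕ) : ℂ) := by
  rw [hR_zero]
  simp only [Module.End.one_apply, Pi.single_eq_same]
  rw [Finset.sum_const, Finset.card_univ, Fintype.card_fun, Fintype.card_fin, nsmul_eq_mul,
    mul_one]

/-- the Heisenberg operators act irreducibly -/
theorem heis_irred (ψ : AddChar F ℂ) (hψ : ψ 1 ≠ 1)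
    (K : Submodule ℂ ((Fin n → F) → ℂ)) (hK : ∀ v, ∀ f ∈ K, hR ψ v f ∈ K) (hne : K ≠ ⊥) :
    K = ⊤ := by
  obtain ⟨f, hf, hf0⟩ := (Submodule.ne_bot_iff K).mp hne
  obtain ⟨x₀, hx₀⟩ : ∃ x₀, f x₀ ≠ 0 := by
    by_contra h
    push Not at h
    exact hf0 (funext h)
  have hg : (∑ b : Fin n → F, ψ (-(x₀ ⬝ᵥ b)) • hR ψ (Sum.elim 0 b) f) ∈ K :=
    Submodule.sum_mem K (fun b _ => K.smul_mem _ (hK _ f hf))
  have hgeq : (∑ b : Fin n → F, ψ (-(x₀ ⬝ᵥ b)) • hR ψ (Sum.elim 0 b) f) =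
      (((Fintype.card F ^ n : ℕ) : ℂ) * f x₀) • Pi.single x₀ 1 := by
    funext x
    rw [Finset.sum_apply, Pi.smul_apply, Pi.single_apply]
    simp only [Pi.smul_apply, smul_eq_mul, hR_apply, pa_elim, pb_elim, zero_dotProduct, mul_zero,
      add_zero]
    by_cases hx : x = x₀
    · subst hx
      rw [if_pos rfl, mul_one]
      have : ∀ b : Fin n → F, ψ (-(x ⬝ᵥ b)) * (ψ (x ⬝ᵥ b) * f x) = f x := by
        intro b
        rw [← mul_assoc, ← AddChar.map_add_eq_mul, neg_add_cancel, AddChar.map_zero_eq_one,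
          one_mul]
      rw [Finset.sum_congr rfl (fun b _ => this b), Finset.sum_const, Finset.card_univ,
        Fintype.card_fun, Fintype.card_fin, nsmul_eq_mul]
    · rw [if_neg hx, mul_zero]
      have hd : x - x₀ ≠ 0 := sub_ne_zero.mpr hx
      have : ∀ b : Fin n → F, ψ (-(x₀ ⬝ᵥ b)) * (ψ (x ⬝ᵥ b) * f x) =
          ψ (b ⬝ᵥ (x - x₀)) * f x := by
        intro b
        rw [← mul_assoc, ← AddChar.map_add_eq_mul]
        congr 2
        rw [dotProduct_sub, dotProduct_comm b x, dotProduct_comm b x₀]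
        ring
      rw [Finset.sum_congr rfl (fun b _ => this b), ← Finset.sum_mul, sum_char_dot ψ hψ _ hd,
        zero_mul]
  rw [hgeq] at hg
  have hδ : (Pi.single x₀ 1 : (Fin n → F) → ℂ) ∈ K := by
    have hc : (((Fintype.card F ^ n : ℕ) : ℂ) * f x₀) ≠ 0 :=
      mul_ne_zero (by exact_mod_cast (pow_pos Fintype.card_pos n).ne') hx₀
    have := K.smul_mem ((((Fintype.card F ^ n : ℕ) : ℂ) * f x₀))⁻¹ hg
    rwa [smul_smul, inv_mul_cancel₀ hc, one_smul] at this
  have hall : ∀ y : Fin n → F, (Pi.single y 1 : (Fin n → F) → ℂ) ∈ K := by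
    intro y
    have := hK (Sum.elim (x₀ - y) 0) _ hδ
    have e : hR ψ (Sum.elim (x₀ - y) 0) (Pi.single x₀ 1) = Pi.single y 1 := by
      funext x
      rw [hR_single, pa_elim, pb_elim, dotProduct_zero, dotProduct_zero, mul_zero, add_zero,
        AddChar.map_zero_eq_one, Pi.single_apply]
      by_cases hxy : x = y
      · rw [if_pos hxy, if_pos (by rw [hxy]; abel)]
      · rw [if_neg hxy, if_neg]
        intro h
        apply hxy
        have : x = x₀ - (x₀ - y) := eq_sub_of_add_eq h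
        rw [this]
        abel
    rwa [e] at this
  rw [eq_top_iff]
  intro f' _
  have : f' = ∑ y : Fin n → F, f' y • (Pi.single y 1 : (Fin n → F) → ℂ) := by
    funext x
    rw [Finset.sum_apply]
    simp [Pi.single_apply]
  rw [this]
  exact Submodule.sum_mem K (fun y _ => K.smul_mem _ (hall y))

/-- Schur's lemma for the Heisenberg operators -/
theorem heis_schur (ψ : AddChar F ℂ) (hψ : ψ 1 ≠ 1)
    (T : Module.End ℂ ((Fin n → F) → ℂ)) (hT : ∀ v, T * hR ψ v = hR ψ v * T) :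
    ∃ c : ℂ, T = c • 1 := by
  obtain ⟨c, hc⟩ := Module.End.exists_eigenvalue T
  refine ⟨c, ?_⟩
  have hK : Module.End.eigenspace T c = ⊤ := by
    apply heis_irred ψ hψ
    · intro v f hf
      rw [Module.End.mem_eigenspace_iff] at hf ⊢
      have := congrArg (fun S => S f) (hT v)
      simp only [Module.End.mul_apply] at this
      rw [this, hf, map_smul]
    · exact hc
  apply LinearMap.ext
  intro f
  have : f ∈ Module.End.eigenspace T c := by
    rw [hK]
    trivial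
  rw [Module.End.mem_eigenspace_iff] at this
  rw [this, LinearMap.smul_apply, Module.End.one_apply]

/-- `M` intertwines the Heisenberg operators with their transforms under `g` -/
def Inter (ψ : AddChar F ℂ) (g : Matrix (Fin n ⊕ Fin n) (Fin n ⊕ Fin n) F)
    (M : Module.End ℂ ((Fin n → F) → ℂ)) : Prop :=
  ∀ v, M * hR ψ v = hR ψ (g *ᵥ v) * M

omit [Fintype F] [DecidableEq F] in
theorem Inter.mul {ψ : AddChar F ℂ} {g g' : Matrix (Fin n ⊕ Fin n) (Fin n ⊕ Fin n) F}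
    {M M' : Module.End ℂ ((Fin n → F) → ℂ)} (h : Inter ψ g M) (h' : Inter ψ g' M') :
    Inter ψ (g * g') (M * M') := by
  intro v
  rw [mul_assoc, h' v, ← mul_assoc, h (g' *ᵥ v), Matrix.mulVec_mulVec, mul_assoc]

omit [Fintype F] [DecidableEq F] in
theorem inter_one (ψ : AddChar F ℂ) :
    Inter ψ (1 : Matrix (Fin n ⊕ Fin n) (Fin n ⊕ Fin n) F) 1 := by
  intro v
  rw [Matrix.one_mulVec, one_mul, mul_one]

omit [Fintype F] [DecidableEq F] in
theorem Inter.smul {ψ : AddChar F ℂ} {g : Matrix (Fin n ⊕ Fin n) (Fin n ⊕ Fin n) F}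
    {M : Module.End ℂ ((Fin n → F) → ℂ)} (h : Inter ψ g M) (c : ℂ) : Inter ψ g (c • M) := by
  intro v
  rw [smul_mul_assoc, h v, mul_smul_comm]

theorem Inter.isUnit {ψ : AddChar F ℂ} (hψ : ψ 1 ≠ 1)
    {g : Matrix (Fin n ⊕ Fin n) (Fin n ⊕ Fin n) F} {M : Module.End ℂ ((Fin n → F) → ℂ)}
    (h : Inter ψ g M) (hM : M ≠ 0) : IsUnit M := by
  rw [LinearMap.isUnit_iff_ker_eq_bot]
  by_contra hker
  have htop : LinearMap.ker M = ⊤ := by
    apply heis_irred ψ hψ _ _ hker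
    intro v f hf
    rw [LinearMap.mem_ker] at hf ⊢
    have := congrArg (fun S => S f) (h v)
    simp only [Module.End.mul_apply] at this
    rw [this, hf, map_zero]
  exact hM (LinearMap.ker_eq_top.mp htop)

theorem Inter.unique {ψ : AddChar F ℂ} (hψ : ψ 1 ≠ 1)
    {g : Matrix (Fin n ⊕ Fin n) (Fin n ⊕ Fin n) F} {M M' : Module.End ℂ ((Fin n → F) → ℂ)}
    (h : Inter ψ g M) (h' : Inter ψ g M') (hM : IsUnit M) : ∃ c : ℂ, M' = c • M := by
  obtain ⟨u, rfl⟩ := hM
  have hcomm : ∀ v, ((↑u⁻¹ : Module.End ℂ ((Fin n → F) → ℂ)) * M') * hR ψ v =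
      hR ψ v * ((↑u⁻¹ : Module.End ℂ ((Fin n → F) → ℂ)) * M') := by
    intro v
    have e1 : (↑u⁻¹ : Module.End ℂ ((Fin n → F) → ℂ)) * hR ψ (g *ᵥ v) = hR ψ v * ↑u⁻¹ := by
      have := h v
      calc (↑u⁻¹ : Module.End ℂ ((Fin n → F) → ℂ)) * hR ψ (g *ᵥ v)
          = ↑u⁻¹ * (hR ψ (g *ᵥ v) * ↑u) * ↑u⁻¹ := by
            rw [mul_assoc, mul_assoc, Units.mul_inv, mul_one]
        _ = ↑u⁻¹ * (↑u * hR ψ v) * ↑u⁻¹ := by rw [this]
        _ = hR ψ v * ↑u⁻¹ := by rw [← mul_assoc, Units.inv_mul, one_mul]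
    rw [mul_assoc, h' v, ← mul_assoc, e1, mul_assoc]
  obtain ⟨c, hc⟩ := heis_schur ψ hψ _ hcomm
  refine ⟨c, ?_⟩
  calc M' = (↑u : Module.End ℂ ((Fin n → F) → ℂ)) *
        ((↑u⁻¹ : Module.End ℂ ((Fin n → F) → ℂ)) * M') := by
        rw [← mul_assoc, Units.mul_inv, one_mul]
    _ = c • (↑u : Module.End ℂ ((Fin n → F) → ℂ)) := by rw [hc, mul_smul_comm, mul_one]

/-- every matrix preserving the symplectic form has a non-zero intertwining operator -/
theorem exists_inter (h2 : (2 : F) ≠ 0) (ψ : AddChar F ℂ) (hψ : ψ 1 ≠ 1)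
    (g : Matrix (Fin n ⊕ Fin n) (Fin n ⊕ Fin n) F)
    (hg : ∀ v w, om (g *ᵥ v) (g *ᵥ w) = om v w) : ∃ M, Inter ψ g M ∧ M ≠ 0 := by
  set Φ : Module.End ℂ ((Fin n → F) → ℂ) → Module.End ℂ ((Fin n → F) → ℂ) := fun X =>
    ∑ v : Fin n ⊕ Fin n → F, hR ψ (g *ᵥ v) * X * hR ψ (-v) with hΦ
  have hinter : ∀ X, Inter ψ g (Φ X) := by
    intro X w
    simp only [hΦ]
    rw [Finset.sum_mul, Finset.mul_sum, ← Equiv.sum_comp (Equiv.addLeft w)]
    apply Finset.sum_congr rfl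
    intro v _
    rw [Equiv.coe_addLeft]
    have e1 : hR ψ (-(w + v)) * hR ψ w = ψ (2⁻¹ * om w v) • hR ψ (-v) := by
      rw [hR_mul h2]
      have e : -(w + v) + w = -v := by abel
      rw [e]
      congr 2
      rw [om_neg_left, om_add_left, om_self, zero_add, om_swap w v, neg_neg]
    have e2 : hR ψ (g *ᵥ w) * hR ψ (g *ᵥ v) = ψ (2⁻¹ * om w v) • hR ψ (g *ᵥ (w + v)) := by
      rw [hR_mul h2, hg, Matrix.mulVec_add]
    rw [mul_assoc, e1, ← mul_assoc (hR ψ (g *ᵥ w)), ← mul_assoc (hR ψ (g *ᵥ w)), e2]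
    simp only [smul_mul_assoc, mul_smul_comm]
  by_contra hcon
  push Not at hcon
  have hzero : ∀ X, Φ X = 0 := fun X => hcon _ (hinter X)
  have hterm : ∀ (i j : Fin n → F),
      Φ ((LinearMap.proj j : ((Fin n → F) → ℂ) →ₗ[ℂ] ℂ).smulRight (Pi.single i (1 : ℂ)))
        (Pi.single j 1) i =
      ∑ v : Fin n ⊕ Fin n → F,
        hR ψ (-v) (Pi.single j 1) j * hR ψ (g *ᵥ v) (Pi.single i 1) i := by
    intro i j
    simp only [hΦ, LinearMap.sum_apply, Finset.sum_apply, Module.End.mul_apply,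
      LinearMap.smulRight_apply, LinearMap.proj_apply, map_smul, Pi.smul_apply, smul_eq_mul]
  have hsum : ∑ i : Fin n → F, ∑ j : Fin n → F, ∑ v : Fin n ⊕ Fin n → F,
      hR ψ (-v) (Pi.single j 1) j * hR ψ (g *ᵥ v) (Pi.single i 1) i = 0 := by
    apply Finset.sum_eq_zero
    intro i _
    apply Finset.sum_eq_zero
    intro j _
    rw [← hterm, hzero]
    rfl
  have hsum2 : ∑ i : Fin n → F, ∑ j : Fin n → F, ∑ v : Fin n ⊕ Fin n → F,
      hR ψ (-v) (Pi.single j 1) j * hR ψ (g *ᵥ v) (Pi.single i 1) i =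
      ∑ v : Fin n ⊕ Fin n → F, (∑ j : Fin n → F, hR ψ (-v) (Pi.single j 1) j) *
        (∑ i : Fin n → F, hR ψ (g *ᵥ v) (Pi.single i 1) i) := by
    calc _ = ∑ i : Fin n → F, ∑ v : Fin n ⊕ Fin n → F, ∑ j : Fin n → F,
          hR ψ (-v) (Pi.single j 1) j * hR ψ (g *ᵥ v) (Pi.single i 1) i :=
          Finset.sum_congr rfl (fun i _ => Finset.sum_comm)
      _ = ∑ v : Fin n ⊕ Fin n → F, ∑ i : Fin n → F, ∑ j : Fin n → F,
          hR ψ (-v) (Pi.single j 1) j * hR ψ (g *ᵥ v) (Pi.single i 1) i := Finset.sum_comm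
      _ = ∑ v : Fin n ⊕ Fin n → F, ∑ j : Fin n → F, ∑ i : Fin n → F,
          hR ψ (-v) (Pi.single j 1) j * hR ψ (g *ᵥ v) (Pi.single i 1) i :=
          Finset.sum_congr rfl (fun v _ => Finset.sum_comm)
      _ = _ := Finset.sum_congr rfl (fun v _ => (Finset.sum_mul_sum _ _ _ _).symm)
  rw [hsum2, Finset.sum_eq_single (0 : Fin n ⊕ Fin n → F)] at hsum
  · rw [neg_zero, Matrix.mulVec_zero, tr_hR_zero] at hsum
    have hpos : ((Fintype.card F ^ n : ℕ) : ℂ) ≠ 0 := by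
      exact_mod_cast (pow_pos Fintype.card_pos n).ne'
    exact hpos (mul_self_eq_zero.mp hsum)
  · intro v _ hv
    rw [tr_hR ψ hψ (-v) (neg_ne_zero.mpr hv), zero_mul]
  · intro h
    exact absurd (Finset.mem_univ _) h

end Cfsg.Agent.Lib.Helper39.WeilHeis
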