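-- The Weil representation of the symplectic group over a field of odd order on the odd functions
-- on `F^n`: the intertwining operators of the Heisenberg operators are normalised by a
-- determinant condition, which makes them multiplicative.
import Mathlib
import Cfsg.Agent.Lib.Helper39.WeilHeis

set_option autoImplicit false

namespace Cfsg.Agent.Lib.Helper39.WeilNorm

open Matrix
open Cfsg.Agent.Lib.Helper39.WeilHeis

variable {F : Type*} [Field F] [Fintype F] [DecidableEq F] {n : ℕ}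

omit [Field F] in
/-- the trace of an operator on the functions on `F^n` -/
theorem trace_eq_sum (T : Module.End ℂ ((Fin n → F) → ℂ)) :
    LinearMap.trace ℂ ((Fin n → F) → ℂ) T = ∑ x : Fin n → F, T (Pi.single x 1) x := by
  rw [LinearMap.trace_eq_matrix_trace ℂ (Pi.basisFun ℂ (Fin n → F)) T, Matrix.trace]
  apply Finset.sum_congr rfl
  intro x _
  rw [Matrix.diag_apply, LinearMap.toMatrix_apply, Pi.basisFun_repr, Pi.basisFun_apply]

/-- the parity operator -/
def Par (F : Type*) [Field F] (n : ℕ) : Module.End ℂ ((Fin n → F) → ℂ) where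
  toFun f := fun x => f (-x)
  map_add' _ _ := rfl
  map_smul' _ _ := rfl

omit [Fintype F] [DecidableEq F] in
theorem Par_apply (f : (Fin n → F) → ℂ) (x : Fin n → F) : Par F n f x = f (-x) := rfl

omit [Fintype F] [DecidableEq F] in
theorem Par_mul_Par : Par F n * Par F n = 1 := by
  apply LinearMap.ext
  intro f
  funext x
  rw [Module.End.mul_apply, Par_apply, Par_apply, neg_neg, Module.End.one_apply]

omit [Fintype F] [DecidableEq F] in
theorem inter_Par (ψ : AddChar F ℂ) :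
    Inter ψ (-1 : Matrix (Fin n ⊕ Fin n) (Fin n ⊕ Fin n) F) (Par F n) := by
  intro v
  apply LinearMap.ext
  intro f
  funext x
  rw [Module.End.mul_apply, Module.End.mul_apply, Par_apply, hR_apply, hR_apply, Par_apply,
    Matrix.neg_mulVec, Matrix.one_mulVec, pa_neg, pb_neg, neg_dotProduct, dotProduct_neg,
    neg_dotProduct, dotProduct_neg, neg_neg, neg_add, neg_neg]

theorem tr_Par (h2 : (2 : F) ≠ 0) : LinearMap.trace ℂ ((Fin n → F) → ℂ) (Par F n) = 1 := by
  rw [trace_eq_sum, Finset.sum_eq_single (0 : Fin n → F)]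
  · rw [Par_apply, neg_zero, Pi.single_eq_same]
  · intro x _ hx
    rw [Par_apply, Pi.single_apply, if_neg]
    intro h
    apply hx
    funext i
    have hi : -x i = x i := congrFun h i
    have : (2 : F) * x i = 0 := by linear_combination -hi
    rcases mul_eq_zero.mp this with h' | h'
    · exact absurd h' h2
    · exact h'
  · intro h
    exact absurd (Finset.mem_univ _) h

/-- the odd functions -/
def Wm (F : Type*) [Field F] (n : ℕ) : Submodule ℂ ((Fin n → F) → ℂ) where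
  carrier := {f | ∀ x, f (-x) = -f x}
  add_mem' := by
    intro a b ha hb x
    rw [Pi.add_apply, Pi.add_apply, ha x, hb x, neg_add]
  zero_mem' := by
    intro x
    simp
  smul_mem' := by
    intro c a ha x
    rw [Pi.smul_apply, Pi.smul_apply, ha x, smul_neg]

omit [Fintype F] [DecidableEq F] in
theorem mem_Wm (f : (Fin n → F) → ℂ) : f ∈ Wm F n ↔ ∀ x, f (-x) = -f x := Iff.rfl

/-- the dimension of the space of odd functions -/
theorem finrank_Wm (h2 : (2 : F) ≠ 0) :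
    2 * Module.finrank ℂ (Wm F n) + 1 = Fintype.card F ^ n := by
  have hproj : LinearMap.IsProj (Wm F n) ((2⁻¹ : ℂ) • (1 - Par F n)) := by
    refine ⟨?_, ?_⟩
    · intro f x
      simp only [LinearMap.smul_apply, LinearMap.sub_apply, Module.End.one_apply, Pi.smul_apply,
        Pi.sub_apply, Par_apply, smul_eq_mul, neg_neg]
      ring
    · intro f hf
      funext x
      simp only [LinearMap.smul_apply, LinearMap.sub_apply, Module.End.one_apply, Pi.smul_apply,
        Pi.sub_apply, Par_apply, smul_eq_mul]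
      rw [hf x]
      ring
  have ht := hproj.trace
  rw [map_smul, map_sub, LinearMap.trace_one, tr_Par h2, Module.finrank_fintype_fun_eq_card,
    Fintype.card_fun, Fintype.card_fin] at ht
  have : ((2 * Module.finrank ℂ (Wm F n) + 1 : ℕ) : ℂ) = ((Fintype.card F ^ n : ℕ) : ℂ) := by
    push_cast
    rw [← ht, smul_eq_mul]
    push_cast
    ring
  exact_mod_cast this

omit [Fintype F] [DecidableEq F] in
theorem Inter.inv {ψ : AddChar F ℂ} {g g' : Matrix (Fin n ⊕ Fin n) (Fin n ⊕ Fin n) F}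
    {u : (Module.End ℂ ((Fin n → F) → ℂ))ˣ}
    (h : Inter ψ g (↑u : Module.End ℂ ((Fin n → F) → ℂ))) (hg : g * g' = 1) :
    Inter ψ g' (↑u⁻¹ : Module.End ℂ ((Fin n → F) → ℂ)) := by
  intro v
  have := h (g' *ᵥ v)
  rw [Matrix.mulVec_mulVec, hg, Matrix.one_mulVec] at this
  calc (↑u⁻¹ : Module.End ℂ ((Fin n → F) → ℂ)) * hR ψ v
      = ↑u⁻¹ * (hR ψ v * ↑u) * ↑u⁻¹ := by
        rw [mul_assoc, mul_assoc, Units.mul_inv, mul_one]
    _ = ↑u⁻¹ * (↑u * hR ψ (g' *ᵥ v)) * ↑u⁻¹ := by rw [this]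
    _ = hR ψ (g' *ᵥ v) * ↑u⁻¹ := by rw [← mul_assoc, Units.inv_mul, one_mul]

/-- the intertwining operators commute with the parity operator -/
theorem comm_Par {ψ : AddChar F ℂ} (hψ : ψ 1 ≠ 1) (h2 : (2 : F) ≠ 0)
    {g g' : Matrix (Fin n ⊕ Fin n) (Fin n ⊕ Fin n) F} {M : Module.End ℂ ((Fin n → F) → ℂ)}
    (h : Inter ψ g M) (hM : IsUnit M) (hg : g * g' = 1) : M * Par F n = Par F n * M := by
  obtain ⟨u, rfl⟩ := hM
  have h1 : Inter ψ (g * (-1) * g')
      ((↑u : Module.End ℂ ((Fin n → F) → ℂ)) * Par F n *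
        (↑u⁻¹ : Module.End ℂ ((Fin n → F) → ℂ))) :=
    (h.mul (inter_Par ψ)).mul (Inter.inv h hg)
  have hg1 : g * (-1) * g' = -1 := by rw [mul_neg, mul_one, neg_mul, hg]
  rw [hg1] at h1
  have hPu : IsUnit (Par F n) := IsUnit.of_mul_eq_one _ Par_mul_Par
  obtain ⟨c, hc⟩ := Inter.unique hψ (inter_Par ψ) h1 hPu
  have ht : LinearMap.trace ℂ ((Fin n → F) → ℂ)
      ((↑u : Module.End ℂ ((Fin n → F) → ℂ)) * Par F n *
        (↑u⁻¹ : Module.End ℂ ((Fin n → F) → ℂ))) =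
      LinearMap.trace ℂ ((Fin n → F) → ℂ) (Par F n) := by
    rw [LinearMap.trace_mul_comm, ← mul_assoc, Units.inv_mul, one_mul]
  rw [hc, map_smul, tr_Par h2, smul_eq_mul, mul_one] at ht
  rw [ht, one_smul] at hc
  calc (↑u : Module.End ℂ ((Fin n → F) → ℂ)) * Par F n
      = (↑u : Module.End ℂ ((Fin n → F) → ℂ)) * Par F n *
          (↑u⁻¹ : Module.End ℂ ((Fin n → F) → ℂ)) * (↑u : Module.End ℂ ((Fin n → F) → ℂ)) := by
        rw [mul_assoc _ _ (↑u : Module.End ℂ ((Fin n → F) → ℂ)), Units.inv_mul, mul_one]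
    _ = Par F n * ↑u := by rw [hc]

omit [Fintype F] [DecidableEq F] in
theorem pres_of_comm {M : Module.End ℂ ((Fin n → F) → ℂ)} (h : M * Par F n = Par F n * M) :
    ∀ f ∈ Wm F n, M f ∈ Wm F n := by
  intro f hf x
  have e : Par F n f = -f := by
    funext y
    exact hf y
  have := congrArg (fun T : Module.End ℂ ((Fin n → F) → ℂ) => T f x) h
  simp only [Module.End.mul_apply] at this
  rw [e, map_neg] at this
  exact this.symm

/-- the normalisation of the intertwining operators -/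
def Nrm (M : Module.End ℂ ((Fin n → F) → ℂ)) : Prop :=
  ∃ h : ∀ f ∈ Wm F n, M f ∈ Wm F n, LinearMap.det M = LinearMap.det (M.restrict h) ^ 2

omit [Fintype F] [DecidableEq F] in
theorem nrm_one : Nrm (1 : Module.End ℂ ((Fin n → F) → ℂ)) := by
  refine ⟨fun f hf => hf, ?_⟩
  have : (1 : Module.End ℂ ((Fin n → F) → ℂ)).restrict (fun f (hf : f ∈ Wm F n) => hf) = 1 := by
    apply LinearMap.ext
    intro x
    rfl
  rw [this, map_one, map_one, one_pow]

omit [Fintype F] [DecidableEq F] in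
theorem Nrm.mul {M M' : Module.End ℂ ((Fin n → F) → ℂ)} (h : Nrm M) (h' : Nrm M') :
    Nrm (M * M') := by
  obtain ⟨p, hp⟩ := h
  obtain ⟨p', hp'⟩ := h'
  have q : ∀ f ∈ Wm F n, (M * M') f ∈ Wm F n := fun f hf => p _ (p' f hf)
  refine ⟨q, ?_⟩
  have : (M * M').restrict q = M.restrict p * M'.restrict p' := by
    apply LinearMap.ext
    intro x
    rfl
  rw [this, map_mul, map_mul, hp, hp', mul_pow]

theorem Nrm.eq_one_of_smul (h2 : (2 : F) ≠ 0) {M : Module.End ℂ ((Fin n → F) → ℂ)}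
    (hM : IsUnit M) (h : Nrm M) {c : ℂ} (hc : c ≠ 0) (h' : Nrm (c • M)) : c = 1 := by
  obtain ⟨p, hp⟩ := h
  obtain ⟨p', hp'⟩ := h'
  have : (c • M).restrict p' = c • M.restrict p := by
    apply LinearMap.ext
    intro x
    rfl
  rw [this, LinearMap.det_smul, LinearMap.det_smul, mul_pow, ← hp, ← pow_mul] at hp'
  have hdet : LinearMap.det M ≠ 0 := (LinearMap.isUnit_det M hM).ne_zero
  have e := mul_right_cancel₀ hdet hp'
  rw [Module.finrank_fintype_fun_eq_card, Fintype.card_fun, Fintype.card_fin, ← finrank_Wm h2,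
    pow_succ, mul_comm 2] at e
  have hpow : c ^ (Module.finrank ℂ (Wm F n) * 2) ≠ 0 := pow_ne_zero _ hc
  exact mul_left_cancel₀ hpow (by rw [e, mul_one])

theorem exists_nrm (h2 : (2 : F) ≠ 0) {M : Module.End ℂ ((Fin n → F) → ℂ)} (hM : IsUnit M)
    (p : ∀ f ∈ Wm F n, M f ∈ Wm F n) : ∃ c : ℂ, c ≠ 0 ∧ Nrm (c • M) := by
  have ha0 : LinearMap.det M ≠ 0 := (LinearMap.isUnit_det M hM).ne_zero
  have hb0 : LinearMap.det (M.restrict p) ≠ 0 := by
    intro h0
    have hker := LinearMap.bot_lt_ker_of_det_eq_zero h0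
    obtain ⟨x, hx, hx0⟩ := (Submodule.ne_bot_iff _).mp hker.ne'
    rw [LinearMap.mem_ker] at hx
    have hinj : Function.Injective M :=
      LinearMap.ker_eq_bot.mp ((LinearMap.isUnit_iff_ker_eq_bot M).mp hM)
    apply hx0
    apply Subtype.ext
    apply hinj
    have := congrArg Subtype.val hx
    exact this.trans (map_zero M).symm
  set a := LinearMap.det M with ha
  set b := LinearMap.det (M.restrict p) with hb
  have q : ∀ f ∈ Wm F n, ((b ^ 2 / a) • M) f ∈ Wm F n := by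
    intro f hf
    rw [LinearMap.smul_apply]
    exact (Wm F n).smul_mem _ (p f hf)
  refine ⟨b ^ 2 / a, div_ne_zero (pow_ne_zero 2 hb0) ha0, ⟨q, ?_⟩⟩
  have : ((b ^ 2 / a) • M).restrict q = (b ^ 2 / a) • M.restrict p := by
    apply LinearMap.ext
    intro x
    rfl
  rw [this, LinearMap.det_smul, LinearMap.det_smul, Module.finrank_fintype_fun_eq_card,
    Fintype.card_fun, Fintype.card_fin, ← finrank_Wm h2, ← ha, ← hb, mul_pow, ← pow_mul, pow_succ,
    mul_comm 2, mul_assoc, div_mul_cancel₀ _ ha0]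

/-- existence of normalised intertwining operators -/
theorem exists_weil (h2 : (2 : F) ≠ 0) (ψ : AddChar F ℂ) (hψ : ψ 1 ≠ 1)
    (g : Matrix.symplecticGroup (Fin n) F) :
    ∃ M : Module.End ℂ ((Fin n → F) → ℂ), Inter ψ g.1 M ∧ IsUnit M ∧ Nrm M := by
  obtain ⟨M₀, hM₀, hne⟩ := exists_inter h2 ψ hψ g.1
    (om_mulVec g.1 (SymplecticGroup.mem_iff'.mp g.2))
  have hu : IsUnit M₀ := Inter.isUnit hψ hM₀ hne
  have hgg : g.1 * (g⁻¹).1 = 1 := congrArg Subtype.val (mul_inv_cancel g)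
  have p : ∀ f ∈ Wm F n, M₀ f ∈ Wm F n := pres_of_comm (comm_Par hψ h2 hM₀ hu hgg)
  obtain ⟨c, hc, hN⟩ := exists_nrm h2 hu p
  exact ⟨c • M₀, hM₀.smul c, Inter.isUnit hψ (hM₀.smul c) (smul_ne_zero hc hne), hN⟩

/-- uniqueness of normalised intertwining operators -/
theorem weil_unique (h2 : (2 : F) ≠ 0) (ψ : AddChar F ℂ) (hψ : ψ 1 ≠ 1)
    {g : Matrix (Fin n ⊕ Fin n) (Fin n ⊕ Fin n) F} {M M' : Module.End ℂ ((Fin n → F) → ℂ)}
    (h : Inter ψ g M) (hu : IsUnit M) (hN : Nrm M)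
    (h' : Inter ψ g M') (hu' : IsUnit M') (hN' : Nrm M') : M' = M := by
  obtain ⟨c, hc⟩ := Inter.unique hψ h h' hu
  have hc0 : c ≠ 0 := by
    rintro rfl
    rw [zero_smul] at hc
    obtain ⟨u, hu''⟩ := hu'
    have h1 : (1 : Module.End ℂ ((Fin n → F) → ℂ)) = 0 := by
      rw [← Units.mul_inv u, hu'', hc, zero_mul]
    have := congrArg (fun T : Module.End ℂ ((Fin n → F) → ℂ) => T (fun _ => (1 : ℂ)) 0) h1
    simp at this
  rw [hc] at hN'
  rw [hc, Nrm.eq_one_of_smul h2 hu hN hc0 hN', one_smul]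

/-- the normalised intertwining operators -/
noncomputable def weilOp (h2 : (2 : F) ≠ 0) (ψ : AddChar F ℂ) (hψ : ψ 1 ≠ 1)
    (g : Matrix.symplecticGroup (Fin n) F) : Module.End ℂ ((Fin n → F) → ℂ) :=
  Classical.choose (exists_weil h2 ψ hψ g)

theorem weilOp_spec (h2 : (2 : F) ≠ 0) (ψ : AddChar F ℂ) (hψ : ψ 1 ≠ 1)
    (g : Matrix.symplecticGroup (Fin n) F) :
    Inter ψ g.1 (weilOp h2 ψ hψ g) ∧ IsUnit (weilOp h2 ψ hψ g) ∧ Nrm (weilOp h2 ψ hψ g) :=
  Classical.choose_spec (exists_weil h2 ψ hψ g)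

theorem weilOp_pres (h2 : (2 : F) ≠ 0) (ψ : AddChar F ℂ) (hψ : ψ 1 ≠ 1)
    (g : Matrix.symplecticGroup (Fin n) F) :
    ∀ f ∈ Wm F n, weilOp h2 ψ hψ g f ∈ Wm F n :=
  (weilOp_spec h2 ψ hψ g).2.2.choose

theorem weilOp_one (h2 : (2 : F) ≠ 0) (ψ : AddChar F ℂ) (hψ : ψ 1 ≠ 1) :
    weilOp h2 ψ hψ (1 : Matrix.symplecticGroup (Fin n) F) = 1 :=
  weil_unique h2 ψ hψ (inter_one ψ) isUnit_one nrm_one (weilOp_spec h2 ψ hψ 1).1
    (weilOp_spec h2 ψ hψ 1).2.1 (weilOp_spec h2 ψ hψ 1).2.2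

theorem weilOp_mul (h2 : (2 : F) ≠ 0) (ψ : AddChar F ℂ) (hψ : ψ 1 ≠ 1)
    (g g' : Matrix.symplecticGroup (Fin n) F) :
    weilOp h2 ψ hψ (g * g') = weilOp h2 ψ hψ g * weilOp h2 ψ hψ g' :=
  weil_unique h2 ψ hψ ((weilOp_spec h2 ψ hψ g).1.mul (weilOp_spec h2 ψ hψ g').1)
    ((weilOp_spec h2 ψ hψ g).2.1.mul (weilOp_spec h2 ψ hψ g').2.1)
    ((weilOp_spec h2 ψ hψ g).2.2.mul (weilOp_spec h2 ψ hψ g').2.2)
    (weilOp_spec h2 ψ hψ (g * g')).1 (weilOp_spec h2 ψ hψ (g * g')).2.1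
    (weilOp_spec h2 ψ hψ (g * g')).2.2

/-- the Weil representation on the odd functions -/
noncomputable def weilRep (h2 : (2 : F) ≠ 0) (ψ : AddChar F ℂ) (hψ : ψ 1 ≠ 1) :
    Representation ℂ (Matrix.symplecticGroup (Fin n) F) (Wm F n) where
  toFun g := (weilOp h2 ψ hψ g).restrict (weilOp_pres h2 ψ hψ g)
  map_one' := by
    apply LinearMap.ext
    intro x
    apply Subtype.ext
    show weilOp h2 ψ hψ 1 x.1 = x.1
    rw [weilOp_one]
    rfl
  map_mul' g g' := by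
    apply LinearMap.ext
    intro x
    apply Subtype.ext
    show weilOp h2 ψ hψ (g * g') x.1 = weilOp h2 ψ hψ g (weilOp h2 ψ hψ g' x.1)
    rw [weilOp_mul]
    rfl

theorem weilRep_apply (h2 : (2 : F) ≠ 0) (ψ : AddChar F ℂ) (hψ : ψ 1 ≠ 1)
    (g : Matrix.symplecticGroup (Fin n) F) (f : Wm F n) :
    ((weilRep h2 ψ hψ g f : Wm F n) : (Fin n → F) → ℂ) = weilOp h2 ψ hψ g f.1 := rfl

end Cfsg.Agent.Lib.Helper39.WeilNorm
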