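-- The Weil representation of `Sp_{2n}(q)`, `q` odd, on the odd functions on `F^n` is irreducible
-- of degree `(q^n - 1) / 2`: already the Siegel parabolic subgroup acts irreducibly.
import Mathlib
import Cfsg.Agent.Lib.Helper39.WeilNorm
import Cfsg.Agent.Lib.Helper39.LSHerm
import Cfsg.Agent.Lib.Helper81.Irr

set_option autoImplicit false

namespace Cfsg.Agent.Lib.Helper39.WeilIrr

open Matrix
open Cfsg.Agent.Lib.Helper39.WeilHeis Cfsg.Agent.Lib.Helper39.WeilNorm

variable {F : Type*} [Field F] [Fintype F] [DecidableEq F] {n : ℕ}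

/-- the lower unipotent element attached to a matrix -/
def zN (N : Matrix (Fin n) (Fin n) F) : Matrix.symplecticGroup (Fin n) F :=
  ⟨fromBlocks 1 0 (N + Nᵀ) 1, by
    have hS : (N + Nᵀ)ᵀ = N + Nᵀ := by
      rw [Matrix.transpose_add, Matrix.transpose_transpose, add_comm]
    rw [SymplecticGroup.mem_iff, Matrix.J, fromBlocks_transpose, fromBlocks_multiply,
      fromBlocks_multiply, hS]
    simp⟩

omit [Fintype F] [DecidableEq F] in
theorem pa_zN (N : Matrix (Fin n) (Fin n) F) (v : Fin n ⊕ Fin n → F) :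
    pa ((zN N).1 *ᵥ v) = pa v := by
  show pa (fromBlocks 1 0 (N + Nᵀ) 1 *ᵥ v) = pa v
  rw [Matrix.fromBlocks_mulVec, pa_elim]
  simp only [Matrix.one_mulVec, Matrix.zero_mulVec, add_zero]
  rfl

omit [Fintype F] [DecidableEq F] in
theorem pb_zN (N : Matrix (Fin n) (Fin n) F) (v : Fin n ⊕ Fin n → F) :
    pb ((zN N).1 *ᵥ v) = pb v + (N + Nᵀ) *ᵥ pa v := by
  show pb (fromBlocks 1 0 (N + Nᵀ) 1 *ᵥ v) = pb v + (N + Nᵀ) *ᵥ pa v
  rw [Matrix.fromBlocks_mulVec, pb_elim]
  simp only [Matrix.one_mulVec]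
  rw [add_comm]
  rfl

/-- the multiplication operators -/
def ZN (ψ : AddChar F ℂ) (N : Matrix (Fin n) (Fin n) F) : Module.End ℂ ((Fin n → F) → ℂ) where
  toFun f := fun x => ψ (-(x ⬝ᵥ N *ᵥ x)) * f x
  map_add' f g := by
    funext x
    simp only [Pi.add_apply]
    ring
  map_smul' c f := by
    funext x
    simp only [Pi.smul_apply, smul_eq_mul, RingHom.id_apply]
    ring

omit [Fintype F] [DecidableEq F] in
theorem ZN_apply (ψ : AddChar F ℂ) (N : Matrix (Fin n) (Fin n) F) (f : (Fin n → F) → ℂ)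
    (x : Fin n → F) : ZN ψ N f x = ψ (-(x ⬝ᵥ N *ᵥ x)) * f x := rfl

omit [Fintype F] [DecidableEq F] in
theorem inter_ZN (h2 : (2 : F) ≠ 0) (ψ : AddChar F ℂ) (N : Matrix (Fin n) (Fin n) F) :
    Inter ψ (zN N).1 (ZN ψ N) := by
  intro v
  apply LinearMap.ext
  intro f
  funext x
  rw [Module.End.mul_apply, Module.End.mul_apply, ZN_apply, hR_apply, hR_apply, ZN_apply, pa_zN,
    pb_zN, ← mul_assoc, ← mul_assoc, ← AddChar.map_add_eq_mul, ← AddChar.map_add_eq_mul]
  congr 2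
  have e1 : x ⬝ᵥ Nᵀ *ᵥ pa v = pa v ⬝ᵥ N *ᵥ x := by
    rw [Matrix.dotProduct_mulVec, Matrix.vecMul_transpose, dotProduct_comm]
  have e2 : pa v ⬝ᵥ Nᵀ *ᵥ pa v = pa v ⬝ᵥ N *ᵥ pa v := by
    rw [Matrix.dotProduct_mulVec, Matrix.vecMul_transpose, dotProduct_comm]
  simp only [dotProduct_add, add_dotProduct, Matrix.mulVec_add, Matrix.add_mulVec]
  rw [e1, e2]
  have h : (2 : F)⁻¹ * 2 = 1 := inv_mul_cancel₀ h2
  linear_combination (-(pa v ⬝ᵥ N *ᵥ pa v)) * h

/-- the Levi elements -/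
def lB (B B' : Matrix (Fin n) (Fin n) F) (h : B' * B = 1) : Matrix.symplecticGroup (Fin n) F :=
  ⟨fromBlocks B' 0 0 Bᵀ, by
    rw [SymplecticGroup.mem_iff, Matrix.J, fromBlocks_transpose, fromBlocks_multiply,
      fromBlocks_multiply]
    have e2 : Bᵀ * B'ᵀ = 1 := by rw [← Matrix.transpose_mul, h, Matrix.transpose_one]
    simp [h, e2]⟩

omit [Fintype F] [DecidableEq F] in
theorem pa_lB (B B' : Matrix (Fin n) (Fin n) F) (h : B' * B = 1) (v : Fin n ⊕ Fin n → F) :
    pa ((lB B B' h).1 *ᵥ v) = B' *ᵥ pa v := by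
  show pa (fromBlocks B' 0 0 Bᵀ *ᵥ v) = B' *ᵥ pa v
  rw [Matrix.fromBlocks_mulVec, pa_elim]
  simp only [Matrix.zero_mulVec, add_zero]
  rfl

omit [Fintype F] [DecidableEq F] in
theorem pb_lB (B B' : Matrix (Fin n) (Fin n) F) (h : B' * B = 1) (v : Fin n ⊕ Fin n → F) :
    pb ((lB B B' h).1 *ᵥ v) = Bᵀ *ᵥ pb v := by
  show pb (fromBlocks B' 0 0 Bᵀ *ᵥ v) = Bᵀ *ᵥ pb v
  rw [Matrix.fromBlocks_mulVec, pb_elim]
  simp only [Matrix.zero_mulVec, zero_add]
  rfl

/-- the substitution operators -/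
def LB (B : Matrix (Fin n) (Fin n) F) : Module.End ℂ ((Fin n → F) → ℂ) where
  toFun f := fun x => f (B *ᵥ x)
  map_add' _ _ := rfl
  map_smul' _ _ := rfl

omit [Fintype F] [DecidableEq F] in
theorem LB_apply (B : Matrix (Fin n) (Fin n) F) (f : (Fin n → F) → ℂ) (x : Fin n → F) :
    LB B f x = f (B *ᵥ x) := rfl

omit [Fintype F] [DecidableEq F] in
theorem inter_LB (ψ : AddChar F ℂ) (B B' : Matrix (Fin n) (Fin n) F) (h : B' * B = 1) :
    Inter ψ (lB B B' h).1 (LB B) := by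
  intro v
  apply LinearMap.ext
  intro f
  funext x
  rw [Module.End.mul_apply, Module.End.mul_apply, LB_apply, hR_apply, hR_apply, LB_apply, pa_lB,
    pb_lB]
  have h' : B * B' = 1 := mul_eq_one_comm.mp h
  have e1 : x ⬝ᵥ Bᵀ *ᵥ pb v = B *ᵥ x ⬝ᵥ pb v := by
    rw [Matrix.dotProduct_mulVec, Matrix.vecMul_transpose]
  have e2 : B' *ᵥ pa v ⬝ᵥ Bᵀ *ᵥ pb v = pa v ⬝ᵥ pb v := by
    rw [Matrix.dotProduct_mulVec, Matrix.vecMul_transpose, Matrix.mulVec_mulVec, h',
      Matrix.one_mulVec]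
  have e3 : B *ᵥ (x + B' *ᵥ pa v) = B *ᵥ x + pa v := by
    rw [Matrix.mulVec_add, Matrix.mulVec_mulVec, h', Matrix.one_mulVec]
  rw [e1, e2, e3]

/-- the odd delta functions -/
def ed (y : Fin n → F) : (Fin n → F) → ℂ := Pi.single y 1 - Pi.single (-y) 1

omit [Fintype F] in
theorem ed_apply (y x : Fin n → F) :
    ed y x = (if x = y then 1 else 0) - (if x = -y then 1 else 0) := by
  unfold ed
  rw [Pi.sub_apply, Pi.single_apply, Pi.single_apply]

omit [Fintype F] in
theorem LB_ed (B B' : Matrix (Fin n) (Fin n) F) (h : B' * B = 1) (y : Fin n → F) :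
    LB B (ed y) = ed (B' *ᵥ y) := by
  have h' : B * B' = 1 := mul_eq_one_comm.mp h
  funext x
  rw [LB_apply, ed_apply, ed_apply]
  have e1 : (B *ᵥ x = y) ↔ (x = B' *ᵥ y) := by
    constructor
    · intro hx
      rw [← hx, Matrix.mulVec_mulVec, h, Matrix.one_mulVec]
    · intro hx
      rw [hx, Matrix.mulVec_mulVec, h', Matrix.one_mulVec]
  have e2 : (B *ᵥ x = -y) ↔ (x = -(B' *ᵥ y)) := by
    constructor
    · intro hx
      rw [← Matrix.mulVec_neg, ← hx, Matrix.mulVec_mulVec, h, Matrix.one_mulVec]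
    · intro hx
      rw [hx, Matrix.mulVec_neg, Matrix.mulVec_mulVec, h', Matrix.one_mulVec]
  simp only [e1, e2]

omit [Fintype F] [DecidableEq F] in
theorem quad_eq_sum (N : Matrix (Fin n) (Fin n) F) (x : Fin n → F) :
    x ⬝ᵥ N *ᵥ x = ∑ i, ∑ j, N i j * (x i * x j) := by
  simp only [dotProduct, mulVec, Finset.mul_sum]
  apply Finset.sum_congr rfl
  intro i _
  apply Finset.sum_congr rfl
  intro j _
  ring

omit [Fintype F] [DecidableEq F] in
theorem quad_single (i j : Fin n) (c : F) (x : Fin n → F) :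
    x ⬝ᵥ Matrix.single i j c *ᵥ x = c * (x i * x j) := by
  rw [Matrix.single_mulVec]
  show x ⬝ᵥ Pi.single i (c * x j) = _
  rw [dotProduct_single]
  ring

omit [DecidableEq F] in
/-- a character sum over all matrices -/
theorem sum_char_quad (ψ : AddChar F ℂ) (hψ : ψ 1 ≠ 1) (x₀ x : Fin n → F) (i j : Fin n)
    (h : x₀ i * x₀ j ≠ x i * x j) :
    ∑ N : Matrix (Fin n) (Fin n) F, ψ (x₀ ⬝ᵥ N *ᵥ x₀ - x ⬝ᵥ N *ᵥ x) = 0 := by
  have hd : x₀ i * x₀ j - x i * x j ≠ 0 := sub_ne_zero.mpr h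
  set N₁ : Matrix (Fin n) (Fin n) F := Matrix.single i j (x₀ i * x₀ j - x i * x j)⁻¹ with hN₁
  have e : ∑ N : Matrix (Fin n) (Fin n) F, ψ (x₀ ⬝ᵥ N *ᵥ x₀ - x ⬝ᵥ N *ᵥ x) =
      ψ 1 * ∑ N : Matrix (Fin n) (Fin n) F, ψ (x₀ ⬝ᵥ N *ᵥ x₀ - x ⬝ᵥ N *ᵥ x) := by
    rw [Finset.mul_sum, ← Equiv.sum_comp (Equiv.addRight N₁)]
    apply Finset.sum_congr rfl
    intro N _
    rw [Equiv.coe_addRight, ← AddChar.map_add_eq_mul]
    congr 1
    rw [Matrix.add_mulVec, Matrix.add_mulVec, dotProduct_add, dotProduct_add, hN₁, quad_single,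
      quad_single]
    have : (x₀ i * x₀ j - x i * x j)⁻¹ * (x₀ i * x₀ j - x i * x j) = 1 := inv_mul_cancel₀ hd
    linear_combination this
  have h0 : (ψ 1 - 1) * ∑ N : Matrix (Fin n) (Fin n) F, ψ (x₀ ⬝ᵥ N *ᵥ x₀ - x ⬝ᵥ N *ᵥ x) = 0 := by
    linear_combination -e
  rcases mul_eq_zero.mp h0 with h | h
  · exact absurd (sub_eq_zero.mp h) hψ
  · exact h

/-- the multiplication and substitution operators act irreducibly on the odd functions -/
theorem odd_irred (h2 : (2 : F) ≠ 0) (ψ : AddChar F ℂ) (hψ : ψ 1 ≠ 1)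
    (V : Submodule ℂ ((Fin n → F) → ℂ)) (hV : V ≤ Wm F n)
    (hZ : ∀ N : Matrix (Fin n) (Fin n) F, ∀ f ∈ V, ZN ψ N f ∈ V)
    (hL : ∀ B B' : Matrix (Fin n) (Fin n) F, B' * B = 1 → ∀ f ∈ V, LB B f ∈ V)
    (hne : V ≠ ⊥) : Wm F n ≤ V := by
  obtain ⟨f, hf, hf0⟩ := (Submodule.ne_bot_iff V).mp hne
  obtain ⟨x₀, hx₀⟩ : ∃ x₀, f x₀ ≠ 0 := by
    by_contra h
    push Not at h
    exact hf0 (funext h)
  have hodd : ∀ x, f (-x) = -f x := hV hf
  have hx₀0 : x₀ ≠ 0 := by
    rintro rfl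
    have := hodd 0
    rw [neg_zero] at this
    exact hx₀ (self_eq_neg.mp this)
  have hx₀neg : x₀ ≠ -x₀ := by
    intro h
    apply hx₀0
    funext i
    have hi : x₀ i = -x₀ i := congrFun h i
    have : (2 : F) * x₀ i = 0 := by linear_combination hi
    rcases mul_eq_zero.mp this with h' | h'
    · exact absurd h' h2
    · exact h'
  have hg : (∑ N : Matrix (Fin n) (Fin n) F, ψ (x₀ ⬝ᵥ N *ᵥ x₀) • ZN ψ N f) ∈ V :=
    Submodule.sum_mem V (fun N _ => V.smul_mem _ (hZ N f hf))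
  have hgeq : (∑ N : Matrix (Fin n) (Fin n) F, ψ (x₀ ⬝ᵥ N *ᵥ x₀) • ZN ψ N f) =
      (((Fintype.card (Matrix (Fin n) (Fin n) F) : ℕ) : ℂ) * f x₀) • ed x₀ := by
    funext x
    rw [Finset.sum_apply, Pi.smul_apply, ed_apply]
    have hterm : ∀ N : Matrix (Fin n) (Fin n) F, (ψ (x₀ ⬝ᵥ N *ᵥ x₀) • ZN ψ N f) x =
        ψ (x₀ ⬝ᵥ N *ᵥ x₀ - x ⬝ᵥ N *ᵥ x) * f x := by
      intro N
      rw [Pi.smul_apply, ZN_apply, smul_eq_mul, ← mul_assoc, ← AddChar.map_add_eq_mul,
        sub_eq_add_neg]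
    rw [Finset.sum_congr rfl (fun N _ => hterm N), ← Finset.sum_mul]
    by_cases hall : ∀ i j, x₀ i * x₀ j = x i * x j
    · have hsum : ∑ N : Matrix (Fin n) (Fin n) F, ψ (x₀ ⬝ᵥ N *ᵥ x₀ - x ⬝ᵥ N *ᵥ x) =
          ((Fintype.card (Matrix (Fin n) (Fin n) F) : ℕ) : ℂ) := by
        have : ∀ N : Matrix (Fin n) (Fin n) F, ψ (x₀ ⬝ᵥ N *ᵥ x₀ - x ⬝ᵥ N *ᵥ x) = 1 := by
          intro N
          have : x₀ ⬝ᵥ N *ᵥ x₀ = x ⬝ᵥ N *ᵥ x := by
            rw [quad_eq_sum, quad_eq_sum]
            apply Finset.sum_congr rfl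
            intro i _
            apply Finset.sum_congr rfl
            intro j _
            rw [hall i j]
          rw [this, sub_self, AddChar.map_zero_eq_one]
        rw [Finset.sum_congr rfl (fun N _ => this N), Finset.sum_const, Finset.card_univ,
          nsmul_eq_mul, mul_one]
      rw [hsum]
      obtain ⟨k, hk⟩ : ∃ k, x₀ k ≠ 0 := by
        by_contra h
        push Not at h
        exact hx₀0 (funext h)
      have hsq : (x k - x₀ k) * (x k + x₀ k) = 0 := by linear_combination -(hall k k)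
      rcases mul_eq_zero.mp hsq with h1 | h1
      · have hxk : x k = x₀ k := sub_eq_zero.mp h1
        have hx : x = x₀ := by
          funext i
          have := hall i k
          rw [hxk] at this
          exact (mul_right_cancel₀ hk this).symm
        rw [hx, if_pos rfl, if_neg hx₀neg, sub_zero, smul_eq_mul, mul_one]
      · have hxk : x k = -x₀ k := eq_neg_of_add_eq_zero_left h1
        have hx : x = -x₀ := by
          funext i
          have := hall i k
          rw [hxk] at this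
          have h3 : (x i + x₀ i) * x₀ k = 0 := by linear_combination this
          rcases mul_eq_zero.mp h3 with h4 | h4
          · exact eq_neg_of_add_eq_zero_left h4
          · exact absurd h4 hk
        rw [hx, if_neg (fun h => hx₀neg h.symm), if_pos rfl, hodd, zero_sub, smul_eq_mul]
        ring
    · push Not at hall
      obtain ⟨i, j, hij⟩ := hall
      rw [sum_char_quad ψ hψ x₀ x i j hij, zero_mul]
      have hx1 : x ≠ x₀ := by
        rintro rfl
        exact hij rfl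
      have hx2 : x ≠ -x₀ := by
        rintro rfl
        apply hij
        rw [Pi.neg_apply, Pi.neg_apply]
        ring
      rw [if_neg hx1, if_neg hx2, sub_zero, smul_zero]
  rw [hgeq] at hg
  have hcard : ((Fintype.card (Matrix (Fin n) (Fin n) F) : ℕ) : ℂ) ≠ 0 := by
    exact_mod_cast Fintype.card_ne_zero
  have hed : ed x₀ ∈ V := by
    have hc : ((Fintype.card (Matrix (Fin n) (Fin n) F) : ℕ) : ℂ) * f x₀ ≠ 0 :=
      mul_ne_zero hcard hx₀
    have := V.smul_mem (((Fintype.card (Matrix (Fin n) (Fin n) F) : ℕ) : ℂ) * f x₀)⁻¹ hg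
    rwa [smul_smul, inv_mul_cancel₀ hc, one_smul] at this
  have hall : ∀ y : Fin n → F, ed y ∈ V := by
    intro y
    by_cases hy : y = 0
    · have : ed y = 0 := by
        rw [hy]
        unfold ed
        rw [neg_zero, sub_self]
      rw [this]
      exact V.zero_mem
    · obtain ⟨A, hA, hAy⟩ := Cfsg.Agent.Lib.Helper39.LSHerm.gl_transitive x₀ y hx₀0 hy
      have h1 : A * A⁻¹ = 1 := Matrix.mul_nonsing_inv A hA
      have := hL A⁻¹ A h1 _ hed
      rwa [LB_ed A⁻¹ A h1, hAy] at this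
  intro f' hf'
  have : f' = ∑ y : Fin n → F, ((2⁻¹ : ℂ) * f' y) • ed y := by
    funext x
    rw [Finset.sum_apply]
    simp only [Pi.smul_apply, ed_apply, smul_eq_mul, mul_sub, mul_ite, mul_one, mul_zero]
    rw [Finset.sum_sub_distrib, Finset.sum_ite_eq, if_pos (Finset.mem_univ _),
      Finset.sum_eq_single (-x)]
    · rw [if_pos (neg_neg x).symm, hf' x]
      ring
    · intro y _ hy
      rw [if_neg]
      intro h
      apply hy
      rw [h, neg_neg]
    · intro h
      exact absurd (Finset.mem_univ _) h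
  rw [this]
  exact Submodule.sum_mem V (fun y _ => V.smul_mem _ (hall y))

/-- existence of an irreducible representation of degree `(q^n - 1) / 2` -/
theorem weil_exists {F : Type*} [Field F] [Fintype F] [DecidableEq F] (n : ℕ) (hn : 1 ≤ n)
    (h2 : (2 : F) ≠ 0) :
    ∃ ρ : Representation ℂ (Matrix.symplecticGroup (Fin n) F)
      (Fin ((Fintype.card F ^ n - 1) / 2) → ℂ), ρ.IsIrreducible := by
  obtain ⟨ψ, hψ⟩ := (AddChar.exists_apply_ne_zero (α := F) (a := 1)).mpr one_ne_zero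
  have hfin := finrank_Wm (n := n) h2
  have hd : Module.finrank ℂ (Wm F n) = (Fintype.card F ^ n - 1) / 2 := by omega
  have hq : 3 ≤ Fintype.card F := by
    have h1 : 1 < Fintype.card F := Fintype.one_lt_card
    have h3 : Fintype.card F ≠ 2 := by
      intro h
      have := FiniteField.cast_card_eq_zero F
      rw [h] at this
      exact h2 (by exact_mod_cast this)
    omega
  have hirr : (weilRep h2 ψ hψ :
      Representation ℂ (Matrix.symplecticGroup (Fin n) F) (Wm F n)).IsIrreducible := by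
    rw [Cfsg.Agent.Lib.Helper81.Irr.irr_iff]
    refine ⟨?_, ?_⟩
    · have hpos : 0 < Module.finrank ℂ (Wm F n) := by
        have : 3 ≤ Fintype.card F ^ n := le_trans hq (Nat.le_self_pow (by omega) _)
        omega
      exact Module.nontrivial_of_finrank_pos hpos
    · intro U hU
      by_cases hbot : U = ⊥
      · left
        exact hbot
      · right
        have key := odd_irred h2 ψ hψ (U.map (Wm F n).subtype) ?_ ?_ ?_ ?_
        · rw [eq_top_iff]
          intro w _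
          obtain ⟨u, hu, hu'⟩ := Submodule.mem_map.mp (key w.2)
          have : u = w := Subtype.ext hu'
          rw [← this]
          exact hu
        · intro f hf
          obtain ⟨u, _, rfl⟩ := Submodule.mem_map.mp hf
          exact u.2
        · intro N f hf
          obtain ⟨u, hu, rfl⟩ := Submodule.mem_map.mp hf
          obtain ⟨c, hc⟩ := Inter.unique hψ (weilOp_spec h2 ψ hψ (zN N)).1 (inter_ZN h2 ψ N)
            (weilOp_spec h2 ψ hψ (zN N)).2.1
          rw [hc]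
          exact Submodule.mem_map.mpr
            ⟨c • weilRep h2 ψ hψ (zN N) u, U.smul_mem c (hU _ u hu), rfl⟩
        · intro B B' h f hf
          obtain ⟨u, hu, rfl⟩ := Submodule.mem_map.mp hf
          obtain ⟨c, hc⟩ := Inter.unique hψ (weilOp_spec h2 ψ hψ (lB B B' h)).1 (inter_LB ψ B B' h)
            (weilOp_spec h2 ψ hψ (lB B B' h)).2.1
          rw [hc]
          exact Submodule.mem_map.mpr
            ⟨c • weilRep h2 ψ hψ (lB B B' h) u, U.smul_mem c (hU _ u hu), rfl⟩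
        · intro h
          apply hbot
          rw [eq_bot_iff]
          intro u hu
          have : (Wm F n).subtype u ∈ U.map (Wm F n).subtype := Submodule.mem_map_of_mem hu
          rw [h, Submodule.mem_bot] at this
          rw [Submodule.mem_bot]
          exact Subtype.ext this
  let e : Wm F n ≃ₗ[ℂ] (Fin ((Fintype.card F ^ n - 1) / 2) → ℂ) :=
    LinearEquiv.ofFinrankEq _ _ (by rw [hd, Module.finrank_fin_fun])
  exact ⟨Cfsg.Agent.Lib.Helper81.Irr.transport e (weilRep h2 ψ hψ),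
    Cfsg.Agent.Lib.Helper81.Irr.irr_of_equiv
      (Cfsg.Agent.Lib.Helper81.Irr.transportEquiv e _) hirr⟩

end Cfsg.Agent.Lib.Helper39.WeilIrr
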